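import Cfsg.Agent.Lib.H64.J2M
import Cfsg.Agent.Lib.H71.AFour

set_option autoImplicit false

/-! General lemmas used for the local structure of groups of Hall-Janko type. -/

namespace H64.J2

variable {G : Type*} [Group G]

/-- the action on a normalized subgroup isomorphic to the alternating group of degree five -/
theorem exists_rho (K N : Subgroup G) (hN : ∀ n ∈ N, ∀ k ∈ K, n * k * n⁻¹ ∈ K) (e : K ≃* alternatingGroup (Fin 5)) :
    ∃ ρ : N →* Equiv.Perm (Fin 5), ∀ (n : N) (k : K) (h : (n : G) * k * (n : G)⁻¹ ∈ K),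
      (e ⟨(n : G) * k * (n : G)⁻¹, h⟩ : Equiv.Perm (Fin 5)) = ρ n * e k * (ρ n)⁻¹ := by
  have hNK : N ≤ Subgroup.normalizer (K : Set G) := by
    intro n hn
    rw [Subgroup.mem_normalizer_iff]
    intro k
    constructor
    · exact hN n hn k
    · intro h
      have h1 := hN n⁻¹ (N.inv_mem hn) _ h
      have e1 : n⁻¹ * (n * k * n⁻¹) * n⁻¹⁻¹ = k := by group
      rwa [e1] at h1
  let c : Equiv.Perm (Fin 5) ≃* MulAut (alternatingGroup (Fin 5)) := MulEquiv.ofBijective MulAut.conjNormal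
    ⟨H40.AutAlt.injective_conjNormal (by rw [Fintype.card_fin]; norm_num),
      H40.AutAlt.surjective_conjNormal (by rw [Fintype.card_fin]; norm_num) (by rw [Fintype.card_fin]; norm_num)⟩
  let ρ : N →* Equiv.Perm (Fin 5) := c.symm.toMonoidHom.comp ((MulAut.congr e).toMonoidHom.comp
    ((Subgroup.normalizerMonoidHom K).comp (Subgroup.inclusion hNK)))
  refine ⟨ρ, fun n k h => ?_⟩
  have h1 : c (ρ n) = MulAut.congr e (Subgroup.normalizerMonoidHom K (Subgroup.inclusion hNK n)) := c.apply_symm_apply _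
  have h2 : c (ρ n) (e k) = e ⟨(n : G) * k * (n : G)⁻¹, h⟩ := by
    rw [h1]
    change e (Subgroup.normalizerMonoidHom K (Subgroup.inclusion hNK n) (e.symm (e k))) = _
    rw [e.symm_apply_apply]
    rfl
  rw [← h2]
  exact MulAut.conjNormal_apply _ _

theorem perm_central {σ : Equiv.Perm (Fin 5)} (h : ∀ τ : alternatingGroup (Fin 5), σ * (τ : Equiv.Perm (Fin 5)) * σ⁻¹ = τ) :
    σ = 1 := by
  apply H40.AutAlt.injective_conjNormal (α := Fin 5) (by rw [Fintype.card_fin]; norm_num)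
  ext1 τ
  apply Subtype.ext
  rw [map_one]
  exact (MulAut.conjNormal_apply _ _).trans (h τ)

section rho
variable {K N : Subgroup G} {e : K ≃* alternatingGroup (Fin 5)} {ρ : N →* Equiv.Perm (Fin 5)}
  (hN : ∀ n ∈ N, ∀ k ∈ K, n * k * n⁻¹ ∈ K)
  (hρ : ∀ (n : N) (k : K) (h : (n : G) * k * (n : G)⁻¹ ∈ K),
      (e ⟨(n : G) * k * (n : G)⁻¹, h⟩ : Equiv.Perm (Fin 5)) = ρ n * e k * (ρ n)⁻¹)
include hN hρ

theorem rho_eq_one_iff (n : N) : ρ n = 1 ↔ ∀ k ∈ K, (n : G) * k = k * n := by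
  constructor
  · intro h k hk
    have h1 := hρ n ⟨k, hk⟩ (hN n n.2 k hk)
    rw [h, one_mul, inv_one, mul_one] at h1
    have h2 := e.injective (Subtype.ext h1)
    have h3 : (n : G) * k * (n : G)⁻¹ = k := congrArg Subtype.val h2
    exact mul_inv_eq_iff_eq_mul.1 h3
  · intro h
    apply perm_central
    intro τ
    obtain ⟨k, hk⟩ := e.surjective τ
    have h3 : (n : G) * k * (n : G)⁻¹ = k := mul_inv_eq_iff_eq_mul.2 (h k k.2)
    have h1 := hρ n k (by rw [h3]; exact k.2)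
    rw [← hk, ← h1]
    congr 2
    exact Subtype.ext h3

theorem rho_of_mem (n : N) (hn : (n : G) ∈ K) : ρ n = e ⟨n, hn⟩ := by
  have h : (e ⟨n, hn⟩ : Equiv.Perm (Fin 5))⁻¹ * ρ n = 1 := by
    apply perm_central
    intro τ
    obtain ⟨k, hk⟩ := e.surjective τ
    have h1 := hρ n k (hN n n.2 k k.2)
    have h2 : e ⟨(n : G) * k * (n : G)⁻¹, hN n n.2 k k.2⟩ = e ⟨n, hn⟩ * e k * (e ⟨n, hn⟩)⁻¹ := by
      rw [← map_mul, ← map_inv, ← map_mul]
      rfl
    have h3 : ρ n * e k * (ρ n)⁻¹ = e ⟨n, hn⟩ * (e k : Equiv.Perm (Fin 5)) * (e ⟨n, hn⟩ : Equiv.Perm (Fin 5))⁻¹ := by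
      rw [← h1, h2]
      rfl
    rw [← hk]
    calc (e ⟨n, hn⟩ : Equiv.Perm (Fin 5))⁻¹ * ρ n * (e k) * ((e ⟨n, hn⟩ : Equiv.Perm (Fin 5))⁻¹ * ρ n)⁻¹ =
        (e ⟨n, hn⟩ : Equiv.Perm (Fin 5))⁻¹ * (ρ n * e k * (ρ n)⁻¹) * (e ⟨n, hn⟩ : Equiv.Perm (Fin 5)) := by group
      _ = e k := by rw [h3]; group
  exact (inv_mul_eq_one.1 h).symm

end rho

/-- internal direct products -/
theorem exists_prod_equiv (A B N : Subgroup G) (hA : A ≤ N) (hB : B ≤ N) (hAB : ∀ a ∈ A, ∀ b ∈ B, a * b = b * a)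
    (hinf : ∀ a ∈ A, a ∈ B → a = 1) (hdec : ∀ n ∈ N, ∃ a ∈ A, ∃ b ∈ B, n = a * b) : Nonempty (N ≃* A × B) := by
  let φ : A × B →* N :=
    { toFun := fun p => ⟨p.1 * p.2, N.mul_mem (hA p.1.2) (hB p.2.2)⟩
      map_one' := Subtype.ext (by change (1 : G) * 1 = 1; rw [one_mul])
      map_mul' := fun p q => Subtype.ext (by
        change (p.1 : G) * q.1 * (p.2 * q.2) = p.1 * p.2 * (q.1 * q.2)
        have h := hAB q.1 q.1.2 p.2 p.2.2
        calc (p.1 : G) * q.1 * (p.2 * q.2) = p.1 * (q.1 * p.2) * q.2 := by group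
          _ = p.1 * p.2 * (q.1 * q.2) := by rw [h]; group) }
  have hφ : Function.Bijective φ := by
    constructor
    · rw [injective_iff_map_eq_one]
      rintro ⟨a, b⟩ h
      have h1 : (a : G) * b = 1 := congrArg Subtype.val h
      have h2 : (a : G) = (b : G)⁻¹ := eq_inv_of_mul_eq_one_left h1
      have h3 : (a : G) = 1 := hinf a a.2 (by rw [h2]; exact B.inv_mem b.2)
      have h4 : (b : G) = 1 := by rw [h3, one_mul] at h1; exact h1
      exact Prod.ext (Subtype.ext h3) (Subtype.ext h4)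
    · rintro ⟨n, hn⟩
      obtain ⟨a, ha, b, hb, h⟩ := hdec n hn
      exact ⟨(⟨a, ha⟩, ⟨b, hb⟩), Subtype.ext h.symm⟩
  exact ⟨(MulEquiv.ofBijective φ hφ).symm⟩

theorem isKleinFour_of {V : Type*} [Group V] (hc : Nat.card V = 4) (hs : ∀ v : V, v * v = 1) : IsKleinFour V := by
  refine ⟨hc, ?_⟩
  have hfin : Finite V := Nat.finite_of_card_ne_zero (by rw [hc]; norm_num)
  have h1 : Monoid.exponent V ∣ 2 := Monoid.exponent_dvd_of_forall_pow_eq_one (fun v => by rw [pow_two]; exact hs v)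
  rcases (Nat.dvd_prime Nat.prime_two).1 h1 with h2 | h2
  · exfalso
    rw [Monoid.exp_eq_one_iff] at h2
    have : Nat.card V = 1 := Nat.card_eq_one_iff_unique.2 ⟨h2, ⟨1⟩⟩
    omega
  · exact h2

theorem klein_equiv {V : Type*} [Group V] (hc : Nat.card V = 4) (hs : ∀ v : V, v * v = 1) :
    Nonempty (V ≃* Multiplicative (ZMod 2) × Multiplicative (ZMod 2)) := by
  have h1 := isKleinFour_of hc hs
  have h2 : IsKleinFour (Multiplicative (ZMod 2) × Multiplicative (ZMod 2)) := isKleinFour_of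
    (by rw [Nat.card_prod, Nat.card_eq_fintype_card, Fintype.card_multiplicative, ZMod.card]) (by decide)
  exact IsKleinFour.nonempty_mulEquiv

/-- centralizers of conjugate elements -/
theorem map_centralizer (g t : G) : (Subgroup.centralizer ({t} : Set G)).map (MulAut.conj g).toMonoidHom =
    Subgroup.centralizer ({g * t * g⁻¹} : Set G) := by
  ext x
  rw [Subgroup.mem_map_equiv, MulAut.conj_symm_apply, Subgroup.mem_centralizer_singleton_iff,
    Subgroup.mem_centralizer_singleton_iff]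
  constructor
  · intro h
    calc x * (g * t * g⁻¹) = g * (g⁻¹ * x * g * t) * g⁻¹ := by group
      _ = g * t * g⁻¹ * x := by rw [h]; group
  · intro h
    calc g⁻¹ * x * g * t = g⁻¹ * (x * (g * t * g⁻¹)) * g := by group
      _ = t * (g⁻¹ * x * g) := by rw [h]; group

/-- the two-core of the centralizer, as a subgroup of the group -/
def W (t : G) : Subgroup G := (Cfsg.pCore 2 (Subgroup.centralizer ({t} : Set G))).map (Subgroup.centralizer ({t} : Set G)).subtype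

theorem map_W_le (g t : G) : (W t).map (MulAut.conj g).toMonoidHom ≤ W (g * t * g⁻¹) := by
  let e : Subgroup.centralizer ({t} : Set G) ≃* Subgroup.centralizer ({g * t * g⁻¹} : Set G) :=
    ((MulAut.conj g).subgroupMap (Subgroup.centralizer ({t} : Set G))).trans (MulEquiv.subgroupCongr (map_centralizer g t))
  rintro _ ⟨_, ⟨x, hx, rfl⟩, rfl⟩
  have h1 := H1.Cores.map_pCore_le 2 e.toMonoidHom e.surjective
  exact ⟨e x, h1 ⟨x, hx, rfl⟩, rfl⟩

theorem map_W (g t : G) : (W t).map (MulAut.conj g).toMonoidHom = W (g * t * g⁻¹) := by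
  apply le_antisymm (map_W_le g t)
  intro x hx
  have h1 := map_W_le g⁻¹ (g * t * g⁻¹) ⟨x, hx, rfl⟩
  have h2 : g⁻¹ * (g * t * g⁻¹) * g⁻¹⁻¹ = t := by group
  rw [h2] at h1
  refine ⟨_, h1, ?_⟩
  change g * (g⁻¹ * x * g⁻¹⁻¹) * g⁻¹ = x
  group

end H64.J2
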