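import Cfsg.Agent.Lib.H64.J2N
import Cfsg.Agent.Lib.H64.J2Q

set_option autoImplicit false

/-! Groups of Hall-Janko type: centralizer of the non-central involution and normalizer of its two-core. -/

namespace H64.J2

variable {G : Type*} [Group G] [Finite G] {z t y : G} (D : GD z t y)

/-- the residual as a subgroup of `G` -/
def GD.KG (D : GD z t y) : Subgroup G := D.K.map (Subgroup.centralizer ({t} : Set G)).subtype

omit [Finite G] in
theorem GD.memKG {k : G} : k ∈ D.KG ↔ ∃ k' : D.K, (k' : G) = k := by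
  constructor
  · rintro ⟨x, hx, rfl⟩
    exact ⟨⟨x, hx⟩, rfl⟩
  · rintro ⟨k', rfl⟩
    exact ⟨k', k'.2, rfl⟩

omit [Finite G] in
theorem GD.KG_comm_t {k : G} (hk : k ∈ D.KG) : k * t = t * k := by
  obtain ⟨k', rfl⟩ := D.memKG.1 hk
  exact Subgroup.mem_centralizer_singleton_iff.1 (k' : Subgroup.centralizer ({t} : Set G)).2

omit [Finite G] in
theorem GD.KG_le : D.KG ≤ Subgroup.centralizer ({t} : Set G) := fun _ hk =>
  Subgroup.mem_centralizer_singleton_iff.2 (D.KG_comm_t hk)

omit [Finite G] in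
theorem GD.E_comm {g k : G} (hg : g ∈ D.E) (hk : k ∈ D.KG) : g * k = k * g := by
  obtain ⟨k', rfl⟩ := D.memKG.1 hk
  exact (D.memE.1 hg).2 k'

omit [Finite G] in
/-- the isomorphism `K ≃ KG` -/
theorem GD.KG_equiv (e : D.K ≃* alternatingGroup (Fin 5)) : Nonempty (D.KG ≃* alternatingGroup (Fin 5)) :=
  ⟨(D.K.equivMapOfInjective _ (Subgroup.subtype_injective _)).symm.trans e⟩

omit [Finite G] in
/-- elements normalizing the centralizer of `t` normalize `K` -/
theorem GD.norm_KG {n : G} (hn : ∀ x, x * t = t * x → n * x * n⁻¹ * t = t * (n * x * n⁻¹)) {k : G} (hk : k ∈ D.KG) :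
    n * k * n⁻¹ ∈ D.KG := by
  let X := Subgroup.centralizer ({t} : Set G)
  have hX : ∀ x ∈ X, n * x * n⁻¹ ∈ X := fun x hx =>
    Subgroup.mem_centralizer_singleton_iff.2 (hn x (Subgroup.mem_centralizer_singleton_iff.1 hx))
  let φ : X →* X :=
    { toFun := fun x => ⟨n * x * n⁻¹, hX x x.2⟩
      map_one' := Subtype.ext (by change n * 1 * n⁻¹ = 1; group)
      map_mul' := fun a b => Subtype.ext (by
        change n * ((a : G) * b) * n⁻¹ = n * a * n⁻¹ * (n * b * n⁻¹)
        group) }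
  have h1 : D.K ≤ D.K.comap φ := by
    change Subgroup.closure _ ≤ _
    rw [Subgroup.closure_le]
    intro x hx
    have hx' : Nat.Coprime (orderOf x) 2 := hx
    change φ x ∈ D.K
    apply H2.Residual.mem_residual_of_coprime
    exact Nat.Coprime.coprime_dvd_left (orderOf_map_dvd φ x) hx'
  obtain ⟨k', rfl⟩ := D.memKG.1 hk
  have h2 : φ k' ∈ D.K := h1 k'.2
  exact D.memKG.2 ⟨⟨φ k', h2⟩, rfl⟩

section
variable (e : D.K ≃* alternatingGroup (Fin 5))
include e

theorem GD.decomp' {x : G} (hx : x * t = t * x) : ∃ g ∈ D.E, ∃ k ∈ D.KG, x = g * k := by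
  obtain ⟨g, hg, k, hk⟩ := D.decomp e hx
  exact ⟨g, hg, k, D.memKG.2 ⟨k, rfl⟩, hk⟩

omit e in
theorem GD.E_inf_KG {g : G} (h1 : g ∈ D.E) (h2 : g ∈ D.KG) : g = 1 := by
  obtain ⟨k', rfl⟩ := D.memKG.1 h2
  have := D.EK h1
  rw [this]
  rfl

omit e [Finite G] in
theorem GD.E_le : D.E ≤ Subgroup.centralizer ({t} : Set G) := fun _ hg =>
  Subgroup.mem_centralizer_singleton_iff.2 (D.memA.1 (D.memE.1 hg).1).2

omit [Finite G] in
theorem GD.cKG : Nat.card D.KG = 60 := by
  rw [← D.cK e]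
  exact (Nat.card_congr (D.K.equivMapOfInjective _ (Subgroup.subtype_injective _)).toEquiv).symm

/-- `E` commutes with the centralizer of `t` -/
theorem GD.E_central {g x : G} (hg : g ∈ D.E) (hx : x * t = t * x) : g * x = x * g := by
  obtain ⟨g', hg', k, hk, rfl⟩ := D.decomp' e hx
  have h1 := D.abA (D.memE.1 hg).1 (D.memE.1 hg').1
  have h2 := D.E_comm hg hk
  calc g * (g' * k) = (g * g') * k := by group
    _ = g' * (g * k) := by rw [h1]; group
    _ = g' * k * g := by rw [h2]; group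

/-- elements of the centralizer of `t` centralizing `K` -/
theorem GD.mem_E_of_comm {x : G} (hx : x * t = t * x) (hxK : ∀ k ∈ D.KG, x * k = k * x) : x ∈ D.E := by
  obtain ⟨g, hg, k, hk, rfl⟩ := D.decomp' e hx
  have h1 : k = 1 := by
    obtain ⟨k', hk'⟩ := D.memKG.1 hk
    have h2 : k' = 1 := by
      apply D.centerK
      intro l
      have h3 := hxK l (D.memKG.2 ⟨l, rfl⟩)
      have h4 := D.E_comm hg (D.memKG.2 ⟨l, rfl⟩)
      apply Subtype.ext
      apply Subtype.ext
      change (k' : G) * l = l * k'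
      rw [hk']
      have h5 : g * (k * (l : G)) = g * ((l : G) * k) := by
        calc g * (k * (l : G)) = g * k * l := by group
          _ = (l : G) * g * k := by rw [h3]; group
          _ = g * (l * k) := by rw [← h4]; group
      exact mul_left_cancel h5
    rw [← hk', h2]; rfl
  rw [h1, mul_one]
  exact hg

theorem GD.centralizer_equiv : Nonempty (Subgroup.centralizer ({t} : Set G) ≃*
    (Multiplicative (ZMod 2) × Multiplicative (ZMod 2)) × alternatingGroup (Fin 5)) := by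
  obtain ⟨f⟩ := exists_prod_equiv D.E D.KG (Subgroup.centralizer ({t} : Set G)) D.E_le D.KG_le
    (fun a ha b hb => D.E_comm ha hb) (fun a ha hb => D.E_inf_KG ha hb)
    (fun n hn => D.decomp' e (Subgroup.mem_centralizer_singleton_iff.1 hn))
  obtain ⟨e'⟩ := D.KG_equiv e
  obtain ⟨q⟩ := klein_equiv (V := D.E) (D.cE e) (fun v => Subtype.ext (D.el (D.memE.1 v.2).1))
  exact ⟨f.trans (q.prodCongr e')⟩

/-- the two-core of the centralizer -/
theorem GD.W_eq : W t = D.E := by
  have hp : Fact (Nat.Prime 2) := ⟨Nat.prime_two⟩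
  let X := Subgroup.centralizer ({t} : Set G)
  let P0 : Subgroup X := Cfsg.pCore 2 X
  have hP0 : IsPGroup 2 P0 := H1.Cores.isPGroup_pCore 2
  -- `E` is in the core
  have hEn : (D.E.subgroupOf X).Normal := by
    refine ⟨fun g hg x => ?_⟩
    rw [Subgroup.mem_subgroupOf] at hg ⊢
    have h1 := D.E_central e hg (Subgroup.mem_centralizer_singleton_iff.1 x.2)
    have h2 : ((x * g * x⁻¹ : X) : G) = g := by
      change (x : G) * g * (x : G)⁻¹ = g
      rw [← h1]; group
    rw [h2]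
    exact hg
  have hEP : D.E.subgroupOf X ≤ P0 := by
    apply H1.Cores.le_pCore hEn
    apply IsPGroup.of_card (n := 2)
    rw [Nat.card_congr (Subgroup.subgroupOfEquivOfLe D.E_le).toEquiv, D.cE e]
    norm_num
  -- the intersection with `K`
  have hsimp : IsSimpleGroup D.K := by
    have : IsSimpleGroup (alternatingGroup (Fin 5)) := alternatingGroup.isSimpleGroup (by rw [Nat.card_eq_fintype_card, Fintype.card_fin])
    exact e.isSimpleGroup
  have hPK : D.K.subgroupOf P0 = ⊥ := by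
    have hn : (P0.subgroupOf D.K).Normal := inferInstance
    rcases hn.eq_bot_or_eq_top with h | h
    · rw [Subgroup.subgroupOf_eq_bot] at h ⊢
      exact h.symm
    · exfalso
      rw [Subgroup.subgroupOf_eq_top] at h
      have h1 : IsPGroup 2 D.K := hP0.to_le h
      obtain ⟨k, hk⟩ := IsPGroup.iff_card.1 h1
      rw [D.cK e] at hk
      have h3 : 3 ∣ 2 ^ k := by rw [← hk]; norm_num
      have h4 := (Nat.Prime.dvd_of_dvd_pow Nat.prime_three h3)
      norm_num at h4
  have hc : Nat.card P0 ≤ 4 := by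
    have h1 : D.K.relIndex P0 ∣ D.K.index := Subgroup.relIndex_dvd_index_of_normal _ _
    rw [Subgroup.relIndex, hPK, Subgroup.index_bot, D.K_index] at h1
    exact Nat.le_of_dvd (by norm_num) h1
  have heq : D.E.subgroupOf X = P0 := by
    apply Subgroup.eq_of_le_of_card_ge hEP
    rw [Nat.card_congr (Subgroup.subgroupOfEquivOfLe D.E_le).toEquiv, D.cE e]
    exact hc
  change P0.map X.subtype = D.E
  rw [← heq, Subgroup.map_subgroupOf_eq_of_le D.E_le]

/-- elements of `E#` are conjugate to `t` -/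
theorem GD.E_conj {s : G} (hs : s ∈ D.E) (h1 : s ≠ 1) : IsConj t s := by
  have hA := (D.memE.1 hs).1
  rcases D.cls s (D.el hA) h1 with h | h
  · exfalso
    have h2 := D.memA.1 hA
    exact h1 (D.EY hs (D.typY h2.1 h2.2 h))
  · exact h

theorem GD.cent_E {s : G} (hs : s ∈ D.E) (h1 : s ≠ 1) : Subgroup.centralizer ({s} : Set G) = Subgroup.centralizer ({t} : Set G) := by
  obtain ⟨g, hg⟩ := isConj_iff.1 (D.E_conj e hs h1)
  symm
  apply Subgroup.eq_of_le_of_card_ge
  · intro x hx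
    exact Subgroup.mem_centralizer_singleton_iff.2 (D.E_central e hs (Subgroup.mem_centralizer_singleton_iff.1 hx)).symm
  · rw [← hg, ← map_centralizer, Subgroup.card_map_of_injective (MulAut.conj g).injective]

theorem GD.exists_norm {s : G} (hs : s ∈ D.E) (h1 : s ≠ 1) : ∃ n ∈ Subgroup.normalizer (D.E : Set G), n * t * n⁻¹ = s := by
  obtain ⟨g, hg⟩ := isConj_iff.1 (D.E_conj e hs h1)
  refine ⟨g, ?_, hg⟩
  have hX : (Subgroup.centralizer ({t} : Set G)).map (MulAut.conj g).toMonoidHom = Subgroup.centralizer ({t} : Set G) := by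
    rw [map_centralizer, hg, D.cent_E e hs h1]
  have hgX : ∀ x, x * t = t * x ↔ (g * x * g⁻¹) * t = t * (g * x * g⁻¹) := by
    intro x
    rw [← Subgroup.mem_centralizer_singleton_iff, ← Subgroup.mem_centralizer_singleton_iff]
    conv_rhs => rw [← hX, Subgroup.mem_map_equiv, MulAut.conj_symm_apply]
    have : g⁻¹ * (g * x * g⁻¹) * g = x := by group
    rw [this]
  -- `E` is the centre of `C(t)`
  have hEZ : ∀ x, x ∈ D.E ↔ (x * t = t * x ∧ ∀ w, w * t = t * w → x * w = w * x) := by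
    intro x
    constructor
    · intro hx
      exact ⟨(D.memA.1 (D.memE.1 hx).1).2, fun w hw => D.E_central e hx hw⟩
    · rintro ⟨hx1, hx2⟩
      exact D.mem_E_of_comm e hx1 (fun k hk => hx2 k (D.KG_comm_t hk))
  rw [Subgroup.mem_normalizer_iff]
  intro x
  rw [hEZ, hEZ, ← hgX]
  refine and_congr_right fun _ => ?_
  constructor
  · intro h w hw
    have h2 : w = g * (g⁻¹ * w * g) * g⁻¹ := by group
    have h3 : (g⁻¹ * w * g) * t = t * (g⁻¹ * w * g) := by
      rw [hgX, ← h2]
      exact hw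
    have h4 := h _ h3
    calc g * x * g⁻¹ * w = g * (x * (g⁻¹ * w * g)) * g⁻¹ := by group
      _ = w * (g * x * g⁻¹) := by rw [h4]; group
  · intro h w hw
    have h4 := h _ ((hgX w).1 hw)
    have h5 : g * (x * w) * g⁻¹ = g * (w * x) * g⁻¹ := by
      calc g * (x * w) * g⁻¹ = g * x * g⁻¹ * (g * w * g⁻¹) := by group
        _ = g * (w * x) * g⁻¹ := by rw [h4]; group
    exact mul_left_cancel (mul_right_cancel h5)

/-- elements of the normalizer of `E` normalize the centralizer of `t` -/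
theorem GD.norm_X {n : G} (hn : n ∈ Subgroup.normalizer (D.E : Set G)) {x : G} (hx : x * t = t * x) :
    n * x * n⁻¹ * t = t * (n * x * n⁻¹) := by
  have hnt : n * t * n⁻¹ ∈ D.E := (Subgroup.mem_normalizer_iff.1 hn t).1 D.tE
  have h1 : n * t * n⁻¹ ≠ 1 := fun h => D.t1 (conj_eq_one_iff.1 h)
  have h2 := D.cent_E e hnt h1
  have h3 : n * x * n⁻¹ ∈ Subgroup.centralizer ({n * t * n⁻¹} : Set G) := by
    refine Subgroup.mem_centralizer_singleton_iff.2 ?_
    calc n * x * n⁻¹ * (n * t * n⁻¹) = n * (x * t) * n⁻¹ := by group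
      _ = n * t * n⁻¹ * (n * x * n⁻¹) := by rw [hx]; group
  rw [h2] at h3
  exact Subgroup.mem_centralizer_singleton_iff.1 h3

theorem GD.X_le_norm : Subgroup.centralizer ({t} : Set G) ≤ Subgroup.normalizer (D.E : Set G) := by
  intro x hx
  rw [Subgroup.mem_normalizer_iff]
  have hx' := Subgroup.mem_centralizer_singleton_iff.1 hx
  intro g
  constructor
  · intro hg
    have h1 := D.E_central e hg hx'
    have h2 : x * g * x⁻¹ = g := by rw [← h1]; group
    rw [h2]; exact hg
  · intro hg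
    have h1 := D.E_central e hg hx'
    have h2 : g = x * g * x⁻¹ := by
      calc g = x⁻¹ * (x * g * x⁻¹ * x) := by group
        _ = x * g * x⁻¹ := by rw [h1]; group
    rw [h2]; exact hg

theorem GD.card_norm : Nat.card (Subgroup.normalizer (D.E : Set G)) = 720 := by
  let N : Subgroup G := Subgroup.normalizer (D.E : Set G)
  have hX := D.X_le_norm e
  have htN : t ∈ N := hX (Subgroup.mem_centralizer_singleton_iff.2 rfl)
  let t' : N := ⟨t, htN⟩
  have h1 := H18.CharInd.card_isConj_mul_card_centralizer t'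
  have h2 : Nat.card (Subgroup.centralizer ({t'} : Set N)) = 240 := by
    rw [← D.card240 e]
    refine Nat.card_congr ⟨fun x => ⟨x.1.1, ?_⟩, fun a => ⟨⟨a.1, hX a.2⟩, ?_⟩, fun x => rfl, fun a => rfl⟩
    · exact Subgroup.mem_centralizer_singleton_iff.2
        (congrArg Subtype.val (Subgroup.mem_centralizer_singleton_iff.1 x.2))
    · exact Subgroup.mem_centralizer_singleton_iff.2 (Subtype.ext (Subgroup.mem_centralizer_singleton_iff.1 a.2))
  have h3 : Nat.card {x : N // IsConj t' x} = 3 := by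
    have e1 : Nat.card {x : N // IsConj t' x} = Nat.card ((D.E : Set G) \ {1} : Set G) := by
      refine Nat.card_congr ⟨fun x => ⟨x.1.1, ?_⟩, fun w => ⟨⟨w.1, hX (D.E_le w.2.1)⟩, ?_⟩, fun x => rfl, fun a => rfl⟩
      · obtain ⟨g, hg⟩ := isConj_iff.1 x.2
        have h4 : (g : G) * t * (g : G)⁻¹ = x.1.1 := congrArg Subtype.val hg
        refine ⟨?_, ?_⟩
        · rw [← h4]
          exact (Subgroup.mem_normalizer_iff.1 g.2 t).1 D.tE
        · intro h
          rw [← h4] at h
          exact D.t1 (conj_eq_one_iff.1 h)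
      · obtain ⟨n, hn, hnt⟩ := D.exists_norm e w.2.1 w.2.2
        exact isConj_iff.2 ⟨⟨n, hn⟩, Subtype.ext hnt⟩
    have e2 : ((D.E : Set G) \ {1}).ncard = 3 := by
      rw [Set.ncard_sdiff_singleton_of_mem D.E.one_mem, ← card_eq_ncard, D.cE e]
    rw [e1, Nat.card_coe_set_eq]
    exact e2
  rw [h2, h3] at h1
  exact h1.symm

theorem GD.norm_equiv : Nonempty (Subgroup.normalizer (D.E : Set G) ≃* alternatingGroup (Fin 4) × alternatingGroup (Fin 5)) := by
  let N : Subgroup G := Subgroup.normalizer (D.E : Set G)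
  have hX : Subgroup.centralizer ({t} : Set G) ≤ N := D.X_le_norm e
  have hKN : D.KG ≤ N := D.KG_le.trans hX
  obtain ⟨e'⟩ := D.KG_equiv e
  have hN : ∀ n ∈ N, ∀ k ∈ D.KG, n * k * n⁻¹ ∈ D.KG := fun n hn k hk =>
    D.norm_KG (fun x hx => D.norm_X e hn hx) hk
  obtain ⟨ρ, hρ⟩ := exists_rho D.KG N hN e'
  have hker := rho_eq_one_iff hN hρ
  have hmem := rho_of_mem hN hρ
  have hEN : D.E ≤ N := D.E_le.trans hX
  -- the kernel
  let F : Subgroup G := ρ.ker.map N.subtype
  have hFmem : ∀ x : G, x ∈ F ↔ x ∈ N ∧ ∀ k ∈ D.KG, x * k = k * x := by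
    intro x
    constructor
    · rintro ⟨n, hn, rfl⟩
      exact ⟨n.2, (hker n).1 hn⟩
    · rintro ⟨h1, h2⟩
      exact ⟨⟨x, h1⟩, (hker ⟨x, h1⟩).2 h2, rfl⟩
  have hEF : D.E ≤ F := fun g hg => (hFmem g).2 ⟨hEN hg, fun k hk => D.E_comm hg hk⟩
  have hcF : Nat.card F = Nat.card ρ.ker := Subgroup.card_map_of_injective (Subgroup.subtype_injective _)
  have hmul := ρ.ker.card_mul_index
  rw [Subgroup.index_ker, D.card_norm e] at hmul
  -- the range contains the alternating group
  have hr : alternatingGroup (Fin 5) ≤ ρ.range := by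
    intro τ hτ
    obtain ⟨k, hk⟩ := e'.surjective ⟨τ, hτ⟩
    refine ⟨⟨k, hKN k.2⟩, ?_⟩
    rw [hmem ⟨k, hKN k.2⟩ k.2]
    exact congrArg Subtype.val hk
  have hA5 : Nat.card (alternatingGroup (Fin 5)) = 60 := by
    rw [← D.cKG e]
    exact (Nat.card_congr e'.toEquiv).symm
  have hr60 : 60 ∣ Nat.card ρ.range := by
    rw [← hA5]
    exact Subgroup.card_dvd_of_le hr
  have hr120 : Nat.card ρ.range ∣ 120 := by
    have h1 := Subgroup.card_subgroup_dvd_card ρ.range
    rw [Nat.card_eq_fintype_card (α := Equiv.Perm (Fin 5)), Fintype.card_perm, Fintype.card_fin] at h1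
    exact h1
  have h4F : 4 ∣ Nat.card ρ.ker := by
    rw [← hcF, ← D.cE e]
    exact Subgroup.card_dvd_of_le hEF
  have hF12 : Nat.card ρ.ker = 12 ∧ Nat.card ρ.range = 60 := by
    obtain ⟨c, hc⟩ := hr60
    obtain ⟨d, hd⟩ := h4F
    rw [hc, hd] at hmul
    rw [hc] at hr120
    have hcd : d * c = 3 := by
      have : 4 * d * (60 * c) = 240 * (d * c) := by ring
      rw [this] at hmul
      omega
    have hc2 : c ∣ 2 := by
      have h120 : (120 : ℕ) = 60 * 2 := by norm_num
      rw [h120] at hr120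
      exact Nat.dvd_of_mul_dvd_mul_left (by norm_num) hr120
    have hc3 : c ∣ 3 := ⟨d, by rw [← hcd, mul_comm]⟩
    have hc1 : c = 1 := Nat.eq_one_of_dvd_coprimes (by norm_num : Nat.Coprime 2 3) hc2 hc3
    subst hc1
    rw [mul_one] at hcd
    subst hcd
    exact ⟨by rw [hd], by rw [hc]⟩
  have hcF12 : Nat.card F = 12 := hcF.trans hF12.1
  have hreq : alternatingGroup (Fin 5) = ρ.range := Subgroup.eq_of_le_of_card_ge hr (by rw [hF12.2, hA5])
  -- `F ≅ A_4`
  have hFA : Nonempty (F ≃* alternatingGroup (Fin 4)) := by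
    have hFN : F ≤ N := fun x hx => ((hFmem x).1 hx).1
    have hn : (D.E.subgroupOf F).Normal := by
      refine ⟨fun g hg x => ?_⟩
      rw [Subgroup.mem_subgroupOf] at hg ⊢
      exact (Subgroup.mem_normalizer_iff.1 (hFN x.2) g).1 hg
    refine H71.AFour.iso_A4 (D.E.subgroupOf F) ?_ ?_ hcF12
    · rw [Nat.card_congr (Subgroup.subgroupOfEquivOfLe hEF).toEquiv, D.cE e]
    · intro x hx
      rw [Subgroup.mem_centralizer_iff] at hx
      rw [Subgroup.mem_subgroupOf]
      have h1 : t * (x : G) = x * t := congrArg Subtype.val (hx ⟨t, hEF D.tE⟩ D.tE)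
      exact D.mem_E_of_comm e h1.symm ((hFmem x).1 x.2).2
  obtain ⟨fF⟩ := hFA
  obtain ⟨f⟩ := exists_prod_equiv F D.KG N (fun x hx => ((hFmem x).1 hx).1) hKN
    (fun a ha b hb => ((hFmem a).1 ha).2 b hb) (fun a ha hb => by
      obtain ⟨k, hk⟩ := D.memKG.1 hb
      have h1 : k = 1 := by
        apply D.centerK
        intro l
        apply Subtype.ext
        apply Subtype.ext
        change (k : G) * l = l * k
        rw [hk]
        exact ((hFmem a).1 ha).2 l (D.memKG.2 ⟨l, rfl⟩)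
      rw [← hk, h1]; rfl) (by
      intro n hn
      have h1 : ρ ⟨n, hn⟩ ∈ alternatingGroup (Fin 5) := by rw [hreq]; exact ⟨_, rfl⟩
      obtain ⟨k, hk⟩ := e'.surjective ⟨_, h1⟩
      have hk' : (e' k : Equiv.Perm (Fin 5)) = ρ ⟨n, hn⟩ := congrArg Subtype.val hk
      have h2 : ρ ⟨k, hKN k.2⟩ = ρ ⟨n, hn⟩ := by rw [hmem ⟨k, hKN k.2⟩ k.2, ← hk']
      refine ⟨n * (k : G)⁻¹, ?_, k, k.2, by group⟩
      refine ⟨⟨n, hn⟩ * (⟨k, hKN k.2⟩ : N)⁻¹, ?_, rfl⟩
      change ρ (⟨n, hn⟩ * (⟨k, hKN k.2⟩ : N)⁻¹) = 1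
      rw [map_mul, map_inv, h2, mul_inv_cancel])
  exact ⟨f.trans (fF.prodCongr e')⟩

end

end H64.J2
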