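import Mathlib
set_option autoImplicit false

namespace H64.AbelianBound
open MulAction Equiv

/-- If `2 ^ d ≤ m` then `m ≤ (m / d) ^ d`. -/
theorem ineq1 (m d : ℕ) (hd : 1 ≤ d) (h : 2 ^ d ≤ m) : m * d ^ d ≤ m ^ d := by
  have h1 : d ≤ 2 ^ (d - 1) := by
    have := Nat.lt_two_pow_self (n := d - 1)
    omega
  have h2 : d ^ d ≤ m ^ (d - 1) := by
    calc d ^ d ≤ (2 ^ (d - 1)) ^ d := Nat.pow_le_pow_left h1 d
      _ = (2 ^ d) ^ (d - 1) := by rw [← pow_mul, ← pow_mul, mul_comm]
      _ ≤ m ^ (d - 1) := Nat.pow_le_pow_left h _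
  calc m * d ^ d ≤ m * m ^ (d - 1) := Nat.mul_le_mul_left _ h2
    _ = m ^ d := by rw [← pow_succ']; congr 1; omega

/-- Weighted AM-GM with integer weights. -/
theorem amgm (x y : ℝ) (hx : 0 ≤ x) (hy : 0 ≤ y) (d e : ℕ) (hd : 1 ≤ d) (he : 1 ≤ e) :
    (x / d) ^ d * (y / e) ^ e ≤ ((x + y) / ((d + e : ℕ) : ℝ)) ^ (d + e) := by
  have hd' : (0 : ℝ) < d := by exact_mod_cast hd
  have he' : (0 : ℝ) < e := by exact_mod_cast he
  have hk : (0 : ℝ) < ((d + e : ℕ) : ℝ) := by push_cast; linarith
  have h := Real.geom_mean_le_arith_mean2_weighted (w₁ := (d : ℝ) / ((d + e : ℕ) : ℝ))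
    (w₂ := (e : ℝ) / ((d + e : ℕ) : ℝ)) (p₁ := x / d) (p₂ := y / e) (by positivity) (by positivity)
    (by positivity) (by positivity) (by push_cast; field_simp)
  have h2 : (d : ℝ) / ((d + e : ℕ) : ℝ) * (x / d) + (e : ℝ) / ((d + e : ℕ) : ℝ) * (y / e) =
      (x + y) / ((d + e : ℕ) : ℝ) := by
    field_simp
  rw [h2] at h
  have h3 := pow_le_pow_left₀ (by positivity) h (d + e)
  refine le_trans (le_of_eq ?_) h3
  rw [mul_pow, ← Real.rpow_natCast ((x / d) ^ _), ← Real.rpow_natCast ((y / e) ^ _),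
    ← Real.rpow_mul (by positivity), ← Real.rpow_mul (by positivity),
    div_mul_cancel₀ _ hk.ne', div_mul_cancel₀ _ hk.ne', Real.rpow_natCast, Real.rpow_natCast]

theorem ineq2 (m r c d e : ℕ) (hd : 1 ≤ d) (h : 2 ^ d ≤ m) (hc : c * e ^ e ≤ r ^ e) :
    m * c * (d + e) ^ (d + e) ≤ (m + r) ^ (d + e) := by
  have h1 := ineq1 m d hd h
  rcases Nat.eq_zero_or_pos e with he | he
  · subst he
    simp only [pow_zero, mul_one, add_zero] at hc ⊢
    calc m * c * d ^ d ≤ m * 1 * d ^ d := by gcongr
      _ = m * d ^ d := by ring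
      _ ≤ m ^ d := h1
      _ ≤ (m + r) ^ d := Nat.pow_le_pow_left (by omega) d
  · have h2 := amgm (m : ℝ) (r : ℝ) (by positivity) (by positivity) d e hd he
    have hd' : (0 : ℝ) < d := by exact_mod_cast hd
    have he' : (0 : ℝ) < e := by exact_mod_cast he
    have h3 : (m : ℝ) * d ^ d ≤ m ^ d := by exact_mod_cast h1
    have h4 : (c : ℝ) * e ^ e ≤ r ^ e := by exact_mod_cast hc
    have h5 : (m : ℝ) ≤ (m / d) ^ d := by
      rw [div_pow, le_div_iff₀ (by positivity)]; exact h3
    have h6 : (c : ℝ) ≤ (r / e) ^ e := by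
      rw [div_pow, le_div_iff₀ (by positivity)]; exact h4
    have h7 : (m : ℝ) * c ≤ ((m + r) / ((d + e : ℕ) : ℝ)) ^ (d + e) :=
      le_trans (mul_le_mul h5 h6 (by positivity) (by positivity)) h2
    rw [div_pow, le_div_iff₀ (by positivity)] at h7
    exact_mod_cast h7

variable {Ω : Type*} [Fintype Ω] [DecidableEq Ω]

omit [Fintype Ω] [DecidableEq Ω] in
theorem relIndex_eq_card_orbit {G : Type*} [Group G] [MulAction G Ω] (H : Subgroup G) (b : Ω) :
    (stabilizer G b).relIndex H = Nat.card (orbit H b) := by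
  rw [Subgroup.relIndex]
  have : (stabilizer G b).subgroupOf H = stabilizer H b := by
    ext x
    simp [Subgroup.mem_subgroupOf, mem_stabilizer_iff, Subgroup.smul_def]
  rw [this, index_stabilizer, Nat.card_coe_set_eq]

/-- The elements of exponent `p` in a commutative subgroup. -/
def expo {G : Type*} [Group G] (p : ℕ) (B : Subgroup G) (hB : ∀ x ∈ B, ∀ y ∈ B, x * y = y * x) :
    Subgroup G where
  carrier := {x | x ∈ B ∧ x ^ p = 1}
  mul_mem' {x y} hx hy := ⟨B.mul_mem hx.1 hy.1, by
    rw [(show Commute x y from hB x hx.1 y hy.1).mul_pow, hx.2, hy.2, one_mul]⟩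
  one_mem' := ⟨B.one_mem, one_pow p⟩
  inv_mem' {x} hx := ⟨B.inv_mem hx.1, by rw [inv_pow, hx.2, inv_one]⟩

theorem main (p : ℕ) (hp : p.Prime) : ∀ (n : ℕ) (B : Subgroup (Perm Ω)) (X : Finset Ω),
    X.card = n → (hB : ∀ x ∈ B, ∀ y ∈ B, x * y = y * x) → IsPGroup p B →
    (∀ b ∈ B, ∀ x ∈ X, b x ∈ X) → (∀ b ∈ B, (∀ x ∈ X, b x = x) → b = 1) →
    ∀ k, Nat.card (expo p B hB) = p ^ k → Nat.card B * k ^ k ≤ X.card ^ k := by
  classical
  have : Fact p.Prime := ⟨hp⟩
  intro n
  induction n using Nat.strong_induction_on with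
  | _ n ih =>
  intro B X hXn hB hBp hinv hfaith k hk
  rcases Nat.eq_zero_or_pos k with hk0 | hkpos
  · subst hk0
    rw [pow_zero] at hk
    have hB1 : Nat.card B = 1 := by
      by_contra hne
      obtain ⟨m, hm⟩ := IsPGroup.iff_card.mp hBp
      have hpd : p ∣ Nat.card B := by
        rw [hm]
        apply dvd_pow_self
        rintro rfl
        exact hne (by rw [hm, pow_zero])
      obtain ⟨x, hx⟩ := exists_prime_orderOf_dvd_card' p hpd
      have h1 : (x : Perm Ω) ∈ expo p B hB := ⟨x.2, by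
        have := pow_orderOf_eq_one x
        rw [hx] at this
        exact congrArg Subtype.val this⟩
      have h2 : expo p B hB = ⊥ := Subgroup.eq_bot_of_card_eq _ hk
      rw [h2, Subgroup.mem_bot] at h1
      have h3 : x = 1 := Subtype.ext h1
      rw [h3, orderOf_one] at hx
      exact hp.one_lt.ne hx
    rw [hB1]
    simp
  · -- an element of order `p` moving a point
    obtain ⟨b, hb, hb1⟩ : ∃ b ∈ expo p B hB, b ≠ 1 := by
      by_contra hcon
      push Not at hcon
      have h2 : expo p B hB = ⊥ := by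
        rw [eq_bot_iff]; intro x hx; exact hcon x hx
      rw [h2, Subgroup.card_bot] at hk
      exact (Nat.one_lt_pow hkpos.ne' hp.one_lt).ne hk
    obtain ⟨x, hxX, hbx⟩ : ∃ x ∈ X, b x ≠ x := by
      by_contra hcon
      push Not at hcon
      exact hb1 (hfaith b hb.1 hcon)
    set S := stabilizer (Perm Ω) x with hS
    have hB' : ∀ u ∈ B ⊓ S, ∀ v ∈ B ⊓ S, u * v = v * u := fun u hu v hv => hB u hu.1 v hv.1
    -- orbit
    set m := S.relIndex B with hm
    have hmorb : m = Nat.card (orbit B x) := relIndex_eq_card_orbit B x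
    have hBcard : Nat.card B = m * Nat.card (B ⊓ S : Subgroup (Perm Ω)) := by
      have h1 := Subgroup.card_mul_index (S.subgroupOf B)
      rw [← h1, mul_comm]
      congr 1
      rw [Subgroup.subgroupOf]
      have : (B ⊓ S).subgroupOf B = S.subgroupOf B := by
        rw [inf_comm, Subgroup.inf_subgroupOf_right]
      change Nat.card (S.subgroupOf B) = _
      rw [← this]
      exact Nat.card_congr (Subgroup.subgroupOfEquivOfLe inf_le_left).toEquiv
    set E := expo p B hB with hE
    set E' := expo p (B ⊓ S) hB' with hE'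
    have hEE : E' = E ⊓ S := by
      ext z
      constructor
      · rintro ⟨⟨h1, h2⟩, h3⟩
        exact ⟨⟨h1, h3⟩, h2⟩
      · rintro ⟨⟨h1, h3⟩, h2⟩
        exact ⟨⟨h1, h2⟩, h3⟩
    have hEcard : Nat.card E = S.relIndex E * Nat.card E' := by
      have h1 := Subgroup.card_mul_index (S.subgroupOf E)
      rw [← h1, mul_comm]
      congr 1
      have : (E ⊓ S).subgroupOf E = S.subgroupOf E := by
        rw [inf_comm, Subgroup.inf_subgroupOf_right]
      rw [← this, hEE]
      exact Nat.card_congr (Subgroup.subgroupOfEquivOfLe inf_le_left).toEquiv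
    have hE'p : IsPGroup p E' := hBp.to_le (fun z hz => hz.1.1)
    obtain ⟨k', hk'⟩ := IsPGroup.iff_card.mp hE'p
    have hle : S.relIndex E ≤ m := by
      have hEB : E ≤ B := fun z hz => hz.1
      apply Subgroup.relIndex_le_of_le_right hEB
      exact Subgroup.index_ne_zero_of_finite
    have hlt : k' < k := by
      have hss : E' < E := by
        refine lt_of_le_of_ne (by rw [hEE]; exact inf_le_left) ?_
        intro h
        have : b ∈ E' := by rw [h]; exact hb
        rw [hEE] at this
        exact hbx this.2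
      have : Nat.card E' < Nat.card E := by
        by_contra hcon
        push Not at hcon
        exact hss.ne (Subgroup.eq_of_le_of_card_ge hss.le hcon)
      rw [hk', hk] at this
      exact (Nat.pow_lt_pow_iff_right hp.one_lt).mp this
    obtain ⟨d, hd⟩ := Nat.exists_eq_add_of_lt hlt
    have hmd : 2 ^ (d + 1) ≤ m := by
      have h1 : p ^ k ≤ m * p ^ k' := by
        rw [← hk, ← hk', hEcard]
        exact Nat.mul_le_mul_right _ hle
      have h2 : p ^ (d + 1) * p ^ k' ≤ m * p ^ k' := by
        rw [← pow_add]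
        refine le_trans (le_of_eq ?_) h1
        congr 1
        omega
      have h3 := Nat.le_of_mul_le_mul_right h2 (pow_pos hp.pos k')
      exact le_trans (Nat.pow_le_pow_left hp.two_le _) h3
    -- the complement of the orbit
    let O : Finset Ω := X.filter (fun z => ∃ u ∈ B, u x = z)
    have hOcard : O.card = m := by
      rw [hmorb, Nat.card_eq_fintype_card, ← Set.toFinset_card]
      congr 1
      ext z
      simp only [O, Finset.mem_filter, Set.mem_toFinset, mem_orbit_iff, Subtype.exists,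
        Subgroup.mk_smul, Perm.smul_def, exists_prop]
      constructor
      · rintro ⟨_, h⟩; exact h
      · rintro ⟨u, hu, rfl⟩
        exact ⟨hinv u hu x hxX, u, hu, rfl⟩
    have hOX : O ⊆ X := Finset.filter_subset _ _
    have hXcard : X.card = m + (X \ O).card := by
      rw [← hOcard, add_comm]
      exact (Finset.card_sdiff_add_card_eq_card hOX).symm
    have hmpos : 0 < m := lt_of_lt_of_le (by positivity) hmd
    have hind := ih (X \ O).card (by omega) (B ⊓ S) (X \ O) rfl hB'
      (hBp.to_le inf_le_left) (by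
        intro u hu z hz
        rw [Finset.mem_sdiff] at hz ⊢
        refine ⟨hinv u hu.1 z hz.1, ?_⟩
        intro h
        apply hz.2
        simp only [O, Finset.mem_filter] at h ⊢
        obtain ⟨-, v, hv, hvz⟩ := h
        refine ⟨hz.1, u⁻¹ * v, B.mul_mem (B.inv_mem hu.1) hv, ?_⟩
        rw [Perm.mul_apply, hvz, Perm.inv_eq_iff_eq]) (by
        intro u hu hfix
        apply hfaith u hu.1
        intro z hz
        by_cases hzO : z ∈ O
        · simp only [O, Finset.mem_filter] at hzO
          obtain ⟨-, v, hv, rfl⟩ := hzO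
          rw [← Perm.mul_apply, hB u hu.1 v hv, Perm.mul_apply]
          congr 1
          exact hu.2
        · exact hfix z (Finset.mem_sdiff.mpr ⟨hz, hzO⟩)) k' hk'
    rw [hBcard, hXcard]
    have hkd : k = (d + 1) + k' := by omega
    rw [hkd]
    exact ineq2 m _ _ (d + 1) k' (by omega) hmd hind

end H64.AbelianBound
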