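import Mathlib

set_option autoImplicit false

/-! Arithmetic for the characterization of `3^3:S_4`. -/

namespace H64.Alg648

theorem caseI {a D : ℤ} {N A X B C : ℝ} (hN : 0 < N) (ha : a ≠ 0) (he : D - a ≠ 0) (hD : D ≠ 0)
    (E1 : X ^ 2 * D = 6 * N * (3 * a - 1 - D) * (3 * a - 1))
    (E2 : C ^ 2 * D = 6 * N * a * (D - a))
    (F1 : A ^ 2 * (3 * a - 1) + X ^ 2 = 6 * N * (3 * a - 1))
    (E3 : 2 * a * (A ^ 2 * (3 * a - 1) + X ^ 2) = (3 * a - 1) * (A + X) ^ 2)
    (F2 : (3 * a - 1) * B ^ 2 = 24 * N * a)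
    (E7 : 2 * a * (a * B ^ 2 - C ^ 2 - 6 * N * a) = a * (B - C) ^ 2) : a = 3 := by
  have hN0 : N ≠ 0 := hN.ne'
  have hM : (3 * a - 1 : ℤ) ≠ 0 := by omega
  have haR : (a : ℝ) ≠ 0 := by exact_mod_cast ha
  have hDR : (D : ℝ) ≠ 0 := by exact_mod_cast hD
  have hMR : (3 * a - 1 : ℝ) ≠ 0 := by exact_mod_cast hM
  set M : ℝ := 3 * a - 1 with hMdef
  -- first relation
  have g1 : (A + X) ^ 2 = 12 * N * a := by
    have : M * ((A + X) ^ 2 - 12 * N * a) = 0 := by linear_combination -E3 + 2 * a * F1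
    rcases mul_eq_zero.1 this with h | h
    · exact absurd h hMR
    · linarith
  have g2 : A ^ 2 * D = 6 * N * (D - (M - D)) := by
    have : M * (A ^ 2 * D - 6 * N * (D - (M - D))) = 0 := by linear_combination D * F1 - E1
    rcases mul_eq_zero.1 this with h | h
    · exact absurd h hMR
    · linarith
  have g3 : 2 * A * X * D = 6 * N * (2 * a * D - D + (M - D) - (M - D) * M) := by
    linear_combination D * g1 - g2 - E1
  have g4 : 4 * (D - (M - D)) * (M - D) * M = (2 * a * D - D + (M - D) - (M - D) * M) ^ 2 := by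
    have h1 : (2 * A * X * D) ^ 2 = (6 * N * (2 * a * D - D + (M - D) - (M - D) * M)) ^ 2 := by rw [g3]
    have h2 : (2 * A * X * D) ^ 2 = 4 * (A ^ 2 * D) * (X ^ 2 * D) := by ring
    rw [h2, g2, E1] at h1
    have h3 : 36 * N ^ 2 * (4 * (D - (M - D)) * (M - D) * M - (2 * a * D - D + (M - D) - (M - D) * M) ^ 2) = 0 := by
      linear_combination h1
    rcases mul_eq_zero.1 h3 with h | h
    · exfalso
      have : N ^ 2 = 0 := by linarith
      exact hN0 (pow_eq_zero_iff (two_ne_zero) |>.1 this)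
    · linarith
  -- second relation
  have g5 : 2 * B * C * M * D = 6 * N * a * (4 * (1 - 2 * a) * D + 3 * (D - a) * M + 2 * M * D) := by
    have h1 : a * (2 * B * C - ((1 - 2 * a) * B ^ 2 + 3 * C ^ 2 + 12 * N * a)) = 0 := by
      linear_combination E7
    have h2 : 2 * B * C = (1 - 2 * a) * B ^ 2 + 3 * C ^ 2 + 12 * N * a := by
      rcases mul_eq_zero.1 h1 with h | h
      · exact absurd h haR
      · linarith
    linear_combination M * D * h2 + (1 - 2 * a) * D * F2 + 3 * M * E2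
  have g6 : 16 * (D - a) * M * D = (4 * (1 - 2 * a) * D + 3 * (D - a) * M + 2 * M * D : ℝ) ^ 2 := by
    have h1 : (2 * B * C * M * D) ^ 2 =
        (6 * N * a * (4 * (1 - 2 * a) * D + 3 * (D - a) * M + 2 * M * D)) ^ 2 := by rw [g5]
    have h2 : (2 * B * C * M * D) ^ 2 = 4 * (M * B ^ 2) * (C ^ 2 * D) * M * D := by ring
    rw [h2, F2, E2] at h1
    have h3 : 36 * N ^ 2 * a ^ 2 * (16 * (D - a) * M * D -
        (4 * (1 - 2 * a) * D + 3 * (D - a) * M + 2 * M * D) ^ 2) = 0 := by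
      linear_combination h1
    rcases mul_eq_zero.1 h3 with h | h
    · exfalso
      have : (N * a) ^ 2 = 0 := by linarith
      exact (mul_ne_zero hN0 haR) (pow_eq_zero_iff (two_ne_zero) |>.1 this)
    · linarith
  -- integers
  rw [hMdef] at g4 g6
  have z1 : 4 * (D - ((3 * a - 1) - D)) * ((3 * a - 1) - D) * (3 * a - 1) =
      (2 * a * D - D + ((3 * a - 1) - D) - ((3 * a - 1) - D) * (3 * a - 1)) ^ 2 := by exact_mod_cast g4
  have z2 : 16 * (D - a) * (3 * a - 1) * D =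
      (4 * (1 - 2 * a) * D + 3 * (D - a) * (3 * a - 1) + 2 * (3 * a - 1) * D) ^ 2 := by exact_mod_cast g6
  have r3 : (25 * a ^ 2 - 6 * a + 1) * D ^ 2 - 2 * a * (3 * a - 1) * (15 * a - 1) * D + 9 * a ^ 2 * (3 * a - 1) ^ 2 = 0 := by
    linear_combination -z1
  have r4 : (49 * a ^ 2 - 62 * a + 17) * D ^ 2 - 2 * a * (3 * a - 1) * (21 * a - 11) * D + 9 * a ^ 2 * (3 * a - 1) ^ 2 = 0 := by
    linear_combination -z2
  have r5 : 2 * (a - 2) * D = a * (3 * a - 5) := by
    have h1 : (4 * (3 * a - 1) * D) * (2 * (a - 2) * D - a * (3 * a - 5)) = 0 := by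
      linear_combination r4 - r3
    rcases mul_eq_zero.1 h1 with h | h
    · exfalso
      exact (mul_ne_zero (mul_ne_zero (by norm_num) hM) hD) h
    · linarith
  have r6 : a ^ 2 * ((a - 1) * ((a - 3) * (9 * a ^ 2 - 84 * a + 43))) = 0 := by
    linear_combination 4 * (a - 2) ^ 2 * r3 - ((25 * a ^ 2 - 6 * a + 1) * (2 * (a - 2) * D + a * (3 * a - 5)) -
      4 * a * (3 * a - 1) * (15 * a - 1) * (a - 2)) * r5
  rcases mul_eq_zero.1 r6 with h | h
  · exact absurd (pow_eq_zero_iff (two_ne_zero) |>.1 h) ha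
  rcases mul_eq_zero.1 h with h | h
  · exfalso
    have h1 : a = 1 := by omega
    subst h1
    omega
  rcases mul_eq_zero.1 h with h | h
  · omega
  · exfalso
    have h1 : 3 * (3 * a ^ 2 - 28 * a + 14) = -1 := by linarith
    omega

theorem caseII {a D : ℤ} {N A X B C : ℝ} (hN : 0 < N) (ha : a ≠ 0) (hD : D ≠ 0)
    (E1 : X ^ 2 * D = 6 * N * (1 + D))
    (E2 : C ^ 2 * D = 6 * N * a * (D - a))
    (F1 : A ^ 2 = X ^ 2 + 3 / 2 * N)
    (E3 : (A + X) ^ 2 = -(3 / 2) * N * a)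
    (F2 : B ^ 2 = -(3 / 2) * N * a)
    (E7 : -(a : ℝ) * B ^ 2 + C ^ 2 + 6 * N * a = (B - C) ^ 2) : False := by
  have hN0 : N ≠ 0 := hN.ne'
  have haR : (a : ℝ) ≠ 0 := by exact_mod_cast ha
  have hDR : (D : ℝ) ≠ 0 := by exact_mod_cast hD
  have g1 : 2 * A * X = -2 * X ^ 2 - 3 / 2 * N * (1 + a) := by linear_combination E3 - F1
  have g2 : -8 * a * X ^ 2 = 3 * N * (1 + a) ^ 2 := by
    have h1 : (2 * A * X) ^ 2 = (-2 * X ^ 2 - 3 / 2 * N * (1 + a)) ^ 2 := by rw [g1]
    have h2 : (2 * A * X) ^ 2 = 4 * A ^ 2 * X ^ 2 := by ring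
    rw [h2, F1] at h1
    have h3 : N * (-8 * a * X ^ 2 - 3 * N * (1 + a) ^ 2) = 0 := by linear_combination 4 / 3 * h1
    rcases mul_eq_zero.1 h3 with h | h
    · exact absurd h hN0
    · linarith
  have g3 : -16 * (a : ℝ) * (1 + D) = (1 + a) ^ 2 * D := by
    have h3 : N * (-16 * (a : ℝ) * (1 + D) - (1 + a) ^ 2 * D) = 0 := by
      linear_combination D / 3 * g2 + 8 * a / 3 * E1
    rcases mul_eq_zero.1 h3 with h | h
    · exact absurd h hN0
    · linarith
  have g4 : 2 * B * C = -(3 / 2) * N * a * (a + 5) := by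
    linear_combination E7 + (1 + a) * F2
  have g5 : -8 * C ^ 2 = 3 * N * a * (a + 5) ^ 2 := by
    have h1 : (2 * B * C) ^ 2 = (-(3 / 2) * N * a * (a + 5)) ^ 2 := by rw [g4]
    have h2 : (2 * B * C) ^ 2 = 4 * B ^ 2 * C ^ 2 := by ring
    rw [h2, F2] at h1
    have h3 : (N * a) * (-8 * C ^ 2 - 3 * N * a * (a + 5) ^ 2) = 0 := by linear_combination 4 / 3 * h1
    rcases mul_eq_zero.1 h3 with h | h
    · exact absurd h (mul_ne_zero hN0 haR)
    · linarith
  have g6 : -16 * ((D : ℝ) - a) = (a + 5) ^ 2 * D := by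
    have h3 : (N * a) * (-16 * ((D : ℝ) - a) - (a + 5) ^ 2 * D) = 0 := by
      linear_combination D / 3 * g5 + 8 / 3 * E2
    rcases mul_eq_zero.1 h3 with h | h
    · exact absurd h (mul_ne_zero hN0 haR)
    · linarith
  have z3 : -16 * a * (1 + D) = (1 + a) ^ 2 * D := by exact_mod_cast g3
  have z6 : -16 * (D - a) = (a + 5) ^ 2 * D := by exact_mod_cast g6
  have z7 : 2 * (D * (a ^ 2 + 14 * a + 21)) = 0 := by linear_combination -z3 - z6
  rcases mul_eq_zero.1 z7 with h | h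
  · norm_num at h
  rcases mul_eq_zero.1 h with h | h
  · exact hD h
  · have h1 : (a + 7) ^ 2 = 28 := by linarith [h, (show (a + 7) ^ 2 = a ^ 2 + 14 * a + 49 by ring)]
    have h2 : a + 7 ≤ 5 := by nlinarith
    have h3 : -5 ≤ a + 7 := by nlinarith
    interval_cases (a + 7) <;> omega

/-- the standard configuration -/
theorem std {p a e : ℤ} {N A X B C : ℝ} (hN : 0 < N) (ha : a ≠ 0) (he : e ≠ 0) (hD : a + e ≠ 0)
    (hM : p + a + e ≠ 0)
    (E1 : X ^ 2 * (a + e) = 6 * N * p * (p + a + e))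
    (E2 : C ^ 2 * (a + e) = 6 * N * a * e)
    (E3 : (1 + p + e) * (A ^ 2 * (p + a + e) + X ^ 2) = (p + a + e) * (A + X) ^ 2)
    (E4 : (1 + p + 2 * a + e) * (A ^ 2 * (p + a + e) + X ^ 2 - 3 * N * (p + a + e)) = (p + a + e) * (A + X) ^ 2)
    (E5 : (1 + p + e) * (A * B - 6 * N) = (A + X) * (B - C))
    (E6 : (1 + p + 2 * a + e) * (A * B - 3 * N) = (A + X) * (B + C))
    (E7 : (1 + p + e) * (a * B ^ 2 - C ^ 2 - 6 * N * a) = a * (B - C) ^ 2)
    (E8 : (1 + p + 2 * a + e) * (a * B ^ 2 + C ^ 2 - 9 * N * a) = a * (B + C) ^ 2) : a = 3 := by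
  have hN0 : N ≠ 0 := hN.ne'
  have haR : (a : ℝ) ≠ 0 := by exact_mod_cast ha
  have F1 : 2 * a * (A ^ 2 * (p + a + e) + X ^ 2) = 3 * N * (p + a + e) * (1 + p + 2 * a + e) := by
    linear_combination E4 - E3
  have F2 : 2 * (p + a + e) * B ^ 2 = 6 * N * (1 + p + e) + 9 * N * (1 + p + 2 * a + e) := by
    have : a * (2 * (p + a + e) * B ^ 2 - (6 * N * (1 + p + e) + 9 * N * (1 + p + 2 * a + e))) = 0 := by
      linear_combination E7 + E8
    rcases mul_eq_zero.1 this with h | h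
    · exact absurd h haR
    · linarith
  have F3 : 2 * ((p + a + e) * A - X) * B = 6 * N * (1 + p + e) + 3 * N * (1 + p + 2 * a + e) := by
    linear_combination E5 + E6
  have F4 : 2 * ((p + a + e) * A - X) ^ 2 = 3 * N * (p + a + e) * (1 + p + 2 * a + e) := by
    linear_combination F1 + 2 * E3
  have F5 : ((1 + p + 2 * a + e : ℝ) - 2 * (1 + p + e)) * ((1 + p + 2 * a + e) + (1 + p + e)) = 0 := by
    have h1 : (2 * ((p + a + e) * A - X) * B) ^ 2 =
        (6 * N * (1 + p + e) + 3 * N * (1 + p + 2 * a + e)) ^ 2 := by rw [F3]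
    have h2 : N ^ 2 * (((1 + p + 2 * a + e : ℝ) - 2 * (1 + p + e)) * ((1 + p + 2 * a + e) + (1 + p + e))) = 0 := by
      linear_combination (1 / 18) * h1 - (1 / 18) * (2 * B ^ 2 * F4) - (1 / 18) * (3 * N * (1 + p + 2 * a + e) * F2)
    rcases mul_eq_zero.1 h2 with h | h
    · exact absurd (pow_eq_zero_iff (two_ne_zero) |>.1 h) hN0
    · exact h
  have F6 : ((1 + p + 2 * a + e) - 2 * (1 + p + e)) * ((1 + p + 2 * a + e) + (1 + p + e)) = 0 := by exact_mod_cast F5
  rcases mul_eq_zero.1 F6 with h | h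
  · -- s = 2 a
    obtain rfl : e = 2 * a - 1 - p := by omega
    have hMa : p + a + (2 * a - 1 - p) = 3 * a - 1 := by ring
    push_cast at E1 E2 E3 E7 F1 F2
    refine caseI (a := a) (D := 3 * a - 1 - p) (N := N) (A := A) (X := X) (B := B) (C := C) hN ha (by omega)
      (by omega) ?_ ?_ ?_ ?_ ?_ ?_
    · push_cast; linear_combination E1
    · push_cast; linear_combination E2
    · have : a * (A ^ 2 * (3 * a - 1) + X ^ 2 - 6 * N * (3 * a - 1)) = 0 := by linear_combination (1 / 2) * F1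
      rcases mul_eq_zero.1 this with h | h
      · exact absurd h haR
      · linarith
    · linear_combination E3
    · linear_combination (1 / 2) * F2
    · linear_combination E7
  · exfalso
    obtain rfl : e = -1 - a - p := by omega
    push_cast at E1 E2 E3 E7 F1 F2
    refine caseII (a := a) (D := -1 - p) (N := N) (A := A) (X := X) (B := B) (C := C) hN ha (by omega) ?_ ?_ ?_ ?_ ?_ ?_
    · push_cast; linear_combination E1
    · push_cast; linear_combination E2
    · have : a * (A ^ 2 - (X ^ 2 + 3 / 2 * N)) = 0 := by linear_combination (-1 / 2) * F1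
      rcases mul_eq_zero.1 this with h | h
      · exact absurd h haR
      · linarith
    · have : (A + X) ^ 2 = -(3 / 2) * N * a := by linear_combination (1 / 2) * F1 + E3
      exact this
    · linear_combination (-1 / 2) * F2
    · have : a * (-(a : ℝ) * B ^ 2 + C ^ 2 + 6 * N * a - (B - C) ^ 2) = 0 := by linear_combination E7
      rcases mul_eq_zero.1 this with h | h
      · exact absurd h haR
      · linarith

end H64.Alg648
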