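import Mathlib
set_option autoImplicit false

namespace H64.Bochert
open MulAction Equiv

theorem apInv {α : Type*} (x : Perm α) (z : α) : x (x⁻¹ z) = z := by
  rw [← Perm.mul_apply, mul_inv_cancel, Perm.one_apply]

theorem invAp {α : Type*} (x : Perm α) (z : α) : x⁻¹ (x z) = z := by
  rw [← Perm.mul_apply, inv_mul_cancel, Perm.one_apply]

/-- The commutator of two permutations whose supports meet in exactly one point is a 3-cycle. -/
theorem isThreeCycle_comm {α : Type*} [Fintype α] [DecidableEq α] (x y : Perm α) (δ : α)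
    (hx : x δ ≠ δ) (hy : y δ ≠ δ) (h : ∀ z, x z ≠ z → y z ≠ z → z = δ) :
    (x * y * x⁻¹ * y⁻¹).IsThreeCycle := by
  have hxi : ∀ z, x z = z → x⁻¹ z = z := fun z hz => by
    rw [Perm.inv_eq_iff_eq, hz]
  have hyi : ∀ z, y z = z → y⁻¹ z = z := fun z hz => by
    rw [Perm.inv_eq_iff_eq, hz]
  have fixx : ∀ z, z ≠ δ → y z ≠ z → x z = z := fun z hz h1 => by
    by_contra h2; exact hz (h z h2 h1)
  have fixy : ∀ z, z ≠ δ → x z ≠ z → y z = z := fun z hz h1 => by
    by_contra h2; exact hz (h z h1 h2)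
  -- images of the three points
  have hxx : x (x δ) ≠ x δ := fun h' => hx (x.injective h')
  have hyy : y (y δ) ≠ y δ := fun h' => hy (y.injective h')
  have h1 : (x * y * x⁻¹ * y⁻¹) δ = x δ := by
    have e1 : y (y⁻¹ δ) ≠ y⁻¹ δ := by
      rw [apInv]
      intro h'
      apply hy
      rw [eq_comm, Perm.inv_eq_iff_eq] at h'
      exact h'.symm
    have e2 : y⁻¹ δ ≠ δ := fun h' => by
      rw [Perm.inv_eq_iff_eq] at h'
      exact hy h'.symm
    have e3 := fixx _ e2 e1
    simp only [Perm.mul_apply]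
    rw [hxi _ e3, apInv]
  have h2 : (x * y * x⁻¹ * y⁻¹) (x δ) = y δ := by
    have e1 := fixy _ hx hxx
    simp only [Perm.mul_apply]
    rw [hyi _ e1, invAp]
    exact fixx _ hy hyy
  have h3 : (x * y * x⁻¹ * y⁻¹) (y δ) = δ := by
    simp only [Perm.mul_apply]
    rw [invAp]
    have e1 : x (x⁻¹ δ) ≠ x⁻¹ δ := by
      rw [apInv]
      intro h'
      apply hx
      rw [eq_comm, Perm.inv_eq_iff_eq] at h'
      exact h'.symm
    have e2 : x⁻¹ δ ≠ δ := fun h' => by
      rw [Perm.inv_eq_iff_eq] at h'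
      exact hx h'.symm
    rw [fixy _ e2 e1, apInv]
  have h4 : ∀ z, z ≠ δ → z ≠ x δ → z ≠ y δ → (x * y * x⁻¹ * y⁻¹) z = z := by
    intro z hz1 hz2 hz3
    simp only [Perm.mul_apply]
    by_cases hyz : y z = z
    · rw [hyi _ hyz]
      by_cases hxz : x z = z
      · rw [hxi _ hxz, hyz, hxz]
      · have e1 : x (x⁻¹ z) ≠ x⁻¹ z := by
          rw [apInv]
          intro h'
          apply hxz
          rw [eq_comm, Perm.inv_eq_iff_eq] at h'
          exact h'.symm
        have e2 : x⁻¹ z ≠ δ := fun h' => by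
          rw [Perm.inv_eq_iff_eq] at h'
          exact hz2 h'
        rw [fixy _ e2 e1, apInv]
    · have e1 : y (y⁻¹ z) ≠ y⁻¹ z := by
        rw [apInv]
        intro h'
        apply hyz
        rw [eq_comm, Perm.inv_eq_iff_eq] at h'
        exact h'.symm
      have e2 : y⁻¹ z ≠ δ := fun h' => by
        rw [Perm.inv_eq_iff_eq] at h'
        exact hz3 h'
      rw [hxi _ (fixx _ e2 e1), apInv, fixx _ hz1 hyz]
  have hne : x δ ≠ y δ := by
    intro h'
    apply hxx
    rw [h']
    exact fixx _ hy hyy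
  rw [← card_support_eq_three_iff]
  have hs : (x * y * x⁻¹ * y⁻¹).support = {δ, x δ, y δ} := by
    ext z
    rw [Perm.mem_support]
    simp only [Finset.mem_insert, Finset.mem_singleton]
    constructor
    · intro hz
      by_contra hcon
      push Not at hcon
      exact hz (h4 z hcon.1 hcon.2.1 hcon.2.2)
    · rintro (rfl | rfl | rfl)
      · rw [h1]; exact hx
      · rw [h2]; exact hne.symm
      · rw [h3]; exact hy.symm
  rw [hs, Finset.card_eq_three]
  exact ⟨δ, x δ, y δ, hx.symm, hy.symm, hne, rfl⟩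

/-- The toPermHom range of a preprimitive action is preprimitive. -/
theorem isPreprimitive_range {G Ω : Type*} [Group G] [MulAction G Ω]
    (hprim : IsPreprimitive G Ω) : IsPreprimitive (toPermHom G Ω).range Ω := by
  let f : Ω →ₑ[(toPermHom G Ω).rangeRestrict] Ω :=
    { toFun := id
      map_smul' := fun g ω => rfl }
  exact IsPreprimitive.of_surjective (f := f) Function.surjective_id

theorem bochert {Ω : Type*} [Fintype Ω] [DecidableEq Ω] (R : Subgroup (Perm Ω))
    (hprim : IsPreprimitive R Ω) (hA : ¬ alternatingGroup Ω ≤ R) :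
    Nat.card R * Nat.factorial ((Fintype.card Ω + 1) / 2) ≤ Nat.factorial (Fintype.card Ω) := by
  classical
  -- the family of bases
  let fam : Finset (Finset Ω) := Finset.univ.filter
    (fun Δ => ∀ r ∈ R, (∀ z ∈ Δ, r z = z) → r = 1)
  have hfam : fam.Nonempty := by
    refine ⟨Finset.univ, ?_⟩
    simp only [fam, Finset.mem_filter, Finset.mem_univ, true_and, forall_const]
    intro r _ h
    ext z
    exact h z
  obtain ⟨Δ, hΔ, hmin⟩ := Finset.exists_min_image fam Finset.card hfam
  have hbase : ∀ r ∈ R, (∀ z ∈ Δ, r z = z) → r = 1 := (Finset.mem_filter.mp hΔ).2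
  have hsmall : ∀ Θ : Finset Ω, Θ.card < Δ.card → ∃ r ∈ R, (∀ z ∈ Θ, r z = z) ∧ r ≠ 1 := by
    intro Θ hlt
    by_contra hcon
    push Not at hcon
    have : Θ ∈ fam := by
      simp only [fam, Finset.mem_filter, Finset.mem_univ, true_and]
      exact hcon
    have := hmin _ this
    omega
  have hcardle : Δ.card ≤ Fintype.card Ω := Finset.card_le_univ Δ
  -- the base has at most half the points
  have hhalf : 2 * Δ.card ≤ Fintype.card Ω := by
    by_contra hcon
    push Not at hcon
    obtain ⟨x, hxR, hxfix, hx1⟩ := hsmall Δᶜ (by rw [Finset.card_compl]; omega)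
    obtain ⟨δ, hδ⟩ : ∃ δ, x δ ≠ δ := by
      by_contra h
      push Not at h
      exact hx1 (Equiv.ext h)
    have hsupp : ∀ z, x z ≠ z → z ∈ Δ := by
      intro z hz
      by_contra h
      exact hz (hxfix z (Finset.mem_compl.mpr h))
    have hδΔ : δ ∈ Δ := hsupp δ hδ
    obtain ⟨y, hyR, hyfix, hy1⟩ := hsmall (Δ.erase δ) (Finset.card_erase_lt_of_mem hδΔ)
    have hyδ : y δ ≠ δ := by
      intro h
      apply hy1
      apply hbase y hyR
      intro z hz
      by_cases hzδ : z = δ
      · rw [hzδ, h]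
      · exact hyfix z (Finset.mem_erase.mpr ⟨hzδ, hz⟩)
    have h3 := isThreeCycle_comm x y δ hδ hyδ (by
      intro z hxz hyz
      by_contra hzδ
      exact hyz (hyfix z (Finset.mem_erase.mpr ⟨hzδ, hsupp z hxz⟩)))
    apply hA
    exact Perm.alternatingGroup_le_of_isPreprimitive_of_isThreeCycle_mem hprim h3
      (R.mul_mem (R.mul_mem (R.mul_mem hxR hyR) (R.inv_mem hxR)) (R.inv_mem hyR))
  -- counting
  let S := {f : Perm Ω // ∀ a, ¬ a ∉ Δ → f a = a}
  have hS : Nat.card S = Nat.factorial (Fintype.card Ω - Δ.card) := by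
    rw [Nat.card_congr (Perm.subtypeEquivSubtypePerm (fun a => a ∉ Δ)).symm, Nat.card_perm,
      Nat.card_eq_fintype_card, Fintype.card_subtype_compl, Fintype.card_coe]
  have hinj : Function.Injective (fun p : R × S => (p.1 : Perm Ω) * (p.2 : Perm Ω)) := by
    rintro ⟨r, s⟩ ⟨r', s'⟩ h
    simp only at h
    have h1 : ((r' : Perm Ω)⁻¹ * (r : Perm Ω)) = (s' : Perm Ω) * (s : Perm Ω)⁻¹ := by
      rw [inv_mul_eq_iff_eq_mul, ← mul_assoc, ← h, mul_assoc, mul_inv_cancel, mul_one]
    have h2 : ((r' : Perm Ω)⁻¹ * (r : Perm Ω)) = 1 := by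
      apply hbase _ (R.mul_mem (R.inv_mem r'.2) r.2)
      intro z hz
      rw [h1, Perm.mul_apply]
      have e1 : (s : Perm Ω)⁻¹ z = z := by
        rw [Perm.inv_eq_iff_eq, s.2 z (not_not.mpr hz)]
      rw [e1, s'.2 z (not_not.mpr hz)]
    have h3 : r = r' := by
      apply Subtype.ext
      rw [inv_mul_eq_one] at h2
      exact h2.symm
    subst h3
    rw [mul_right_inj] at h
    have h4 : s = s' := Subtype.ext h
    rw [h4]
  have hle := Nat.card_le_card_of_injective _ hinj
  rw [Nat.card_prod, hS, Nat.card_perm, Nat.card_eq_fintype_card (α := Ω)] at hle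
  refine le_trans (Nat.mul_le_mul_left _ (Nat.factorial_le ?_)) hle
  omega

end H64.Bochert
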