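import Mathlib

set_option autoImplicit false

/-! Doubly transitive groups of degree 18 containing the translations of `ZMod 17`, the stabiliser
of the point at infinity acting by affine maps. -/

namespace H64.Deg18

open Equiv

abbrev F := ZMod 17
abbrev X := Option (ZMod 17)

instance fact17 : Fact (Nat.Prime 17) := ⟨by norm_num⟩

/-- translation by `b`, fixing infinity -/
def tr (b : F) : Perm X := Equiv.optionCongr (Equiv.addRight b)

/-- multiplication by `a`, fixing infinity -/
def mu : Fˣ →* Perm X where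
  toFun a := Equiv.optionCongr (Units.mulLeft a)
  map_one' := by ext x; cases x <;> simp
  map_mul' a b := by ext x; cases x <;> simp [mul_assoc]

@[simp] theorem tr_none (b : F) : tr b none = none := rfl
@[simp] theorem tr_some (b x : F) : tr b (some x) = some (x + b) := rfl
@[simp] theorem mu_none (a : Fˣ) : mu a none = none := rfl
@[simp] theorem mu_some (a : Fˣ) (x : F) : mu a (some x) = some (a * x) := rfl

theorem tr_zero : tr 0 = 1 := by ext x; cases x <;> simp
theorem tr_add (a b : F) : tr (a + b) = tr b * tr a := by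
  ext x; cases x <;> simp [add_assoc]
theorem tr_neg (b : F) : tr (-b) = (tr b)⁻¹ := by
  rw [eq_inv_iff_mul_eq_one, ← tr_add, add_neg_cancel, tr_zero]

theorem mu_injective : Function.Injective mu := by
  intro a b h
  have := congrArg (fun f : Perm X => f (some 1)) h
  simp at this
  exact Units.ext this

structure Good (H : Subgroup (Perm X)) : Prop where
  tr_one : tr 1 ∈ H
  trans : ∀ x : X, ∃ h ∈ H, h none = x
  stab : ∀ h ∈ H, h none = none → ∃ a b : F, ∀ x : F, h (some x) = some (a * x + b)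

variable {H : Subgroup (Perm X)}

theorem Good.tr_mem (hH : Good H) (b : F) : tr b ∈ H := by
  have : ∀ n : ℕ, tr (n : F) ∈ H := by
    intro n
    induction n with
    | zero => rw [Nat.cast_zero, tr_zero]; exact one_mem _
    | succ n ih => rw [Nat.cast_succ, tr_add]; exact mul_mem hH.tr_one ih
  have h := this b.val
  rwa [ZMod.natCast_zmod_val] at h

theorem Good.exists_affine (hH : Good H) {h : Perm X} (hh : h ∈ H) (h0 : h none = none) :
    ∃ (a : Fˣ) (b : F), mu a ∈ H ∧ h = tr b * mu a := by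
  obtain ⟨a, b, hab⟩ := hH.stab h hh h0
  have ha : a ≠ 0 := by
    rintro rfl
    have h1 : h (some 0) = h (some 1) := by rw [hab, hab]; simp
    have := h.injective h1
    simp at this
  have e : h = tr b * mu (Units.mk0 a ha) := by
    ext x; cases x with
    | none => simp [h0]
    | some x => simp [hab]
  refine ⟨Units.mk0 a ha, b, ?_, e⟩
  have : mu (Units.mk0 a ha) = (tr b)⁻¹ * h := by rw [e]; group
  rw [this]
  exact mul_mem (inv_mem (hH.tr_mem b)) hh

/-- stabiliser of two points -/
theorem Good.exists_mu (hH : Good H) {h : Perm X} (hh : h ∈ H) (h0 : h none = none)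
    (h1 : h (some 0) = some 0) : ∃ a : Fˣ, mu a ∈ H ∧ h = mu a := by
  obtain ⟨a, b, ha, e⟩ := hH.exists_affine hh h0
  rw [e] at h1
  simp at h1
  refine ⟨a, ha, ?_⟩
  rw [e, h1, tr_zero, one_mul]

theorem Good.eq_one_of_fix3 (hH : Good H) {h : Perm X} (hh : h ∈ H) {x y z : X} (hx : h x = x)
    (hy : h y = y) (hz : h z = z) (hxy : x ≠ y) (hxz : x ≠ z) (hyz : y ≠ z) : h = 1 := by
  obtain ⟨g, hg, hgx⟩ := hH.trans x
  have hc : g⁻¹ * h * g ∈ H := mul_mem (mul_mem (inv_mem hg) hh) hg
  have hc0 : (g⁻¹ * h * g) none = none := by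
    simp only [Perm.mul_apply, hgx, hx]
    rw [← hgx]; simp
  obtain ⟨a, b, ha, e⟩ := hH.exists_affine hc hc0
  -- images of `y` and `z`
  have key : ∀ v : X, h v = v → x ≠ v → ∃ u : F, g⁻¹ v = some u ∧ a * u + b = u := by
    intro v hv hxv
    have h1 : g⁻¹ v ≠ none := by
      intro hcon
      apply hxv
      rw [← hgx, ← hcon]; simp
    obtain ⟨u, hu⟩ := Option.ne_none_iff_exists'.1 h1
    refine ⟨u, hu, ?_⟩
    have h2 : (g⁻¹ * h * g) (g⁻¹ v) = g⁻¹ v := by
      simp only [Perm.mul_apply]
      rw [show g (g⁻¹ v) = v by simp, hv]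
    rw [hu, e] at h2
    simpa using h2
  obtain ⟨u, hu, hu'⟩ := key y hy hxy
  obtain ⟨v, hv, hv'⟩ := key z hz hxz
  have huv : u ≠ v := by
    rintro rfl
    exact hyz (g⁻¹.injective (hu.trans hv.symm))
  have ha1 : (a : F) = 1 := by
    have h3 : ((a : F) - 1) * (u - v) = 0 := by linear_combination hu' - hv'
    rcases mul_eq_zero.1 h3 with h4 | h4
    · exact sub_eq_zero.1 h4
    · exact absurd (sub_eq_zero.1 h4) huv
  have hb : b = 0 := by
    rw [ha1, one_mul] at hu'
    simpa using hu'
  have ha2 : a = 1 := Units.ext ha1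
  rw [hb, ha2, tr_zero, map_one, mul_one] at e
  have : h = g * (g⁻¹ * h * g) * g⁻¹ := by group
  rw [this, e]; group

open Classical in
/-- The set of involutions. -/
noncomputable def inv2 (H : Subgroup (Perm X)) : Finset (Perm X) :=
  Finset.univ.filter (fun i => i ∈ H ∧ i * i = 1 ∧ i ≠ 1)

theorem mem_inv2 {i : Perm X} : i ∈ inv2 H ↔ i ∈ H ∧ i * i = 1 ∧ i ≠ 1 := by
  classical simp [inv2]

theorem conj_mem_inv2 {i g : Perm X} (hi : i ∈ inv2 H) (hg : g ∈ H) : g * i * g⁻¹ ∈ inv2 H := by
  rw [mem_inv2] at hi ⊢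
  refine ⟨mul_mem (mul_mem hg hi.1) (inv_mem hg), ?_, ?_⟩
  · have : g * i * g⁻¹ * (g * i * g⁻¹) = g * (i * i) * g⁻¹ := by group
    rw [this, hi.2.1]; group
  · intro h
    apply hi.2.2
    have : i = g⁻¹ * (g * i * g⁻¹) * g := by group
    rw [this, h]; group

theorem card_conj {I : Finset (Perm X)} {g : Perm X} (hI : ∀ i ∈ I, g * i * g⁻¹ ∈ I) (x y : X) :
    (I.filter (fun i => i x = y)).card ≤ (I.filter (fun i => i (g x) = g y)).card := by
  apply Finset.card_le_card_of_injOn (fun i => g * i * g⁻¹)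
  · intro i hi
    rw [Finset.mem_coe, Finset.mem_filter] at hi ⊢
    refine ⟨hI i hi.1, ?_⟩
    simp [hi.2]
  · intro i _ j _ h
    simpa using h

theorem card_conj_eq {I : Finset (Perm X)} {g : Perm X} (hI : ∀ i ∈ I, g * i * g⁻¹ ∈ I)
    (hI' : ∀ i ∈ I, g⁻¹ * i * g ∈ I) (x y : X) :
    (I.filter (fun i => i x = y)).card = (I.filter (fun i => i (g x) = g y)).card := by
  apply le_antisymm (card_conj hI x y)
  have := card_conj (I := I) (g := g⁻¹) (by simpa using hI') (g x) (g y)
  simpa using this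

theorem Good.count_aux (hH : Good H) (I : Finset (Perm X)) (hIH : ∀ i ∈ I, i ∈ H ∧ i ≠ 1)
    (hI : ∀ g ∈ H, ∀ i ∈ I, g * i * g⁻¹ ∈ I)
    (h9 : 17 ≤ (I.filter (fun i => i none = none)).card) :
    8 ≤ (I.filter (fun i => i none = some 0)).card := by
  have hI' : ∀ g ∈ H, ∀ i ∈ I, g⁻¹ * i * g ∈ I := by
    intro g hg i hi
    have := hI g⁻¹ (inv_mem hg) i hi
    simpa using this
  have h1 : I.card = (I.filter (fun i => i none = none)).card +
      17 * (I.filter (fun i => i none = some 0)).card := by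
    have h2 := Finset.card_eq_sum_card_fiberwise (s := I) (t := (Finset.univ : Finset X))
      (f := fun i => i none) (fun _ _ => Finset.mem_univ _)
    rw [h2, Fintype.sum_option]
    have h3 : ∀ y : F, (I.filter (fun i => i none = some y)).card =
        (I.filter (fun i => i none = some 0)).card := by
      intro y
      rw [card_conj_eq (hI _ (hH.tr_mem y)) (hI' _ (hH.tr_mem y)) none (some 0)]
      simp
    rw [Finset.sum_congr rfl (fun y _ => h3 y), Finset.sum_const, Finset.card_univ, ZMod.card,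
      smul_eq_mul]
  have h4 : ∑ i ∈ I, (Finset.univ.filter (fun x : X => i x = x)).card =
      18 * (I.filter (fun i => i none = none)).card := by
    have h5 : ∑ i ∈ I, (Finset.univ.filter (fun x : X => i x = x)).card =
        ∑ x : X, (I.filter (fun i => i x = x)).card := by
      simp_rw [Finset.card_filter]
      rw [Finset.sum_comm]
    rw [h5]
    have h6 : ∀ x : X, (I.filter (fun i => i x = x)).card =
        (I.filter (fun i => i none = none)).card := by
      intro x
      obtain ⟨g, hg, hgx⟩ := hH.trans x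
      rw [card_conj_eq (hI g hg) (hI' g hg) none none, hgx]
    rw [Finset.sum_congr rfl (fun x _ => h6 x), Finset.sum_const, Finset.card_univ,
      Fintype.card_option, ZMod.card, smul_eq_mul]
  have h7 : ∀ i ∈ I, (Finset.univ.filter (fun x : X => i x = x)).card ≤ 2 := by
    intro i hi
    by_contra hcon
    push Not at hcon
    obtain ⟨x, hx, y, hy, z, hz, hxy, hxz, hyz⟩ := Finset.two_lt_card.1 hcon
    simp only [Finset.mem_filter, Finset.mem_univ, true_and] at hx hy hz
    exact (hIH i hi).2 (hH.eq_one_of_fix3 (hIH i hi).1 hx hy hz hxy hxz hyz)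
  have h8 : 18 * (I.filter (fun i => i none = none)).card ≤ 2 * I.card := by
    rw [← h4]
    calc _ ≤ ∑ i ∈ I, 2 := Finset.sum_le_sum h7
      _ = 2 * I.card := by rw [Finset.sum_const, smul_eq_mul, mul_comm]
  omega

theorem Good.count (hH : Good H) (hneg : mu (-1) ∈ H) :
    8 ≤ ((inv2 H).filter (fun i => i none = some 0)).card := by
  apply hH.count_aux (inv2 H)
  · intro i hi
    have := mem_inv2.1 hi
    exact ⟨this.1, this.2.2⟩
  · intro g hg i hi
    exact conj_mem_inv2 hi hg
  · have : (Finset.univ : Finset F).card ≤ ((inv2 H).filter (fun i => i none = none)).card := by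
      apply Finset.card_le_card_of_injOn (fun b => tr b * mu (-1))
      · intro b _
        rw [Finset.mem_coe, Finset.mem_filter, mem_inv2]
        refine ⟨⟨mul_mem (hH.tr_mem b) hneg, ?_, ?_⟩, by simp⟩
        · ext x; cases x <;> simp
        · intro h
          have h1 := congrArg (fun f : Perm X => f (some 0)) h
          have h2 := congrArg (fun f : Perm X => f (some 1)) h
          simp at h1 h2
          rw [h1] at h2
          revert h2; decide
      · intro b _ c _ h
        have h1 := congrArg (fun f : Perm X => f (some 0)) h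
        simpa using h1
    rwa [Finset.card_univ, ZMod.card] at this

/-! ### At least eight multiplications inverted by a swap -/

theorem Good.exists_swap (hH : Good H) (hneg : mu (-1) ∈ H) :
    ∃ t ∈ H, t none = some 0 ∧ t (some 0) = none ∧
      ∀ a : Fˣ, mu (a ^ 2) ∈ H ∧ t * mu (a ^ 2) * t⁻¹ = (mu (a ^ 2))⁻¹ := by
  classical
  have hc := hH.count hneg
  set S := (inv2 H).filter (fun i => i none = some 0) with hS
  have hSmem : ∀ i ∈ S, i ∈ H ∧ i * i = 1 ∧ i none = some 0 ∧ i (some 0) = none := by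
    intro i hi
    rw [hS, Finset.mem_filter, mem_inv2] at hi
    refine ⟨hi.1.1, hi.1.2.1, hi.2, ?_⟩
    have := congrArg (fun f : Perm X => f none) hi.1.2.1
    simpa [hi.2] using this
  have hne : S.Nonempty := by
    rw [← Finset.card_pos]; omega
  obtain ⟨t, ht⟩ := hne
  obtain ⟨ht1, ht2, ht3, ht4⟩ := hSmem t ht
  have htinv : t⁻¹ = t := inv_eq_of_mul_eq_one_left ht2
  let A : Subgroup Fˣ :=
    { carrier := {a | mu a ∈ H ∧ t * mu a * t⁻¹ = (mu a)⁻¹}
      mul_mem' := by
        rintro a b ⟨ha, ha'⟩ ⟨hb, hb'⟩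
        refine ⟨by rw [map_mul]; exact mul_mem ha hb, ?_⟩
        rw [mul_comm a b, map_mul, mul_inv_rev, ← map_mul, mul_comm b a, map_mul, ← ha', ← hb']
        group
      one_mem' := by
        refine ⟨by rw [map_one]; exact one_mem _, by simp⟩
      inv_mem' := by
        rintro a ⟨ha, ha'⟩
        refine ⟨by rw [map_inv]; exact inv_mem ha, ?_⟩
        have := congrArg (fun x => x⁻¹) ha'
        simpa [mul_assoc] using this }
  have hA : ∀ a, a ∈ A ↔ mu a ∈ H ∧ t * mu a * t⁻¹ = (mu a)⁻¹ := fun a => Iff.rfl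
  have key : ∀ i ∈ S, ∃ a ∈ A, t * i = mu a := by
    intro i hi
    obtain ⟨h1, h2, h3, h4⟩ := hSmem i hi
    obtain ⟨a, ha, e⟩ := hH.exists_mu (h := t * i) (mul_mem ht1 h1) (by simp [h3, ht4])
      (by simp [h4, ht3])
    refine ⟨a, ⟨ha, ?_⟩, e⟩
    rw [← e, mul_inv_rev, htinv, inv_eq_of_mul_eq_one_left h2]
    rw [← mul_assoc t t i, ht2, one_mul]
  choose! f hfA hf using key
  have hcard : S.card ≤ Nat.card A := by
    rw [Nat.card_eq_fintype_card, Fintype.card_subtype]
    apply Finset.card_le_card_of_injOn f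
    · intro i hi
      rw [Finset.mem_coe, Finset.mem_filter]
      exact ⟨Finset.mem_univ _, hfA i hi⟩
    · intro i hi j hj hij
      have h1 := hf i hi
      rw [hij, ← hf j hj] at h1
      exact mul_left_cancel h1
  have hidx : A.index ∣ 2 := by
    have h1 := A.index_mul_card
    have h2 : Nat.card Fˣ = 16 := by
      rw [Nat.card_eq_fintype_card, ZMod.card_units]
    rw [h2] at h1
    have h3 : 8 ≤ Nat.card A := le_trans hc hcard
    have h4 : A.index ≤ 2 := by
      by_contra hcon
      push Not at hcon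
      have : 3 * 8 ≤ A.index * Nat.card A := Nat.mul_le_mul hcon h3
      omega
    have h5 : A.index ≠ 0 := by
      intro h; rw [h] at h1; omega
    interval_cases A.index <;> simp_all
  refine ⟨t, ht1, ht3, ht4, fun a => ?_⟩
  have h1 : a ^ 2 ∈ A := by
    obtain ⟨k, hk⟩ := hidx
    rw [hk, pow_mul]
    exact pow_mem (Subgroup.pow_index_mem A a) k
  exact h1

/-! ### The swap is `x ↦ b / x` -/

def cf : Fin 17 → F := ![0, 1, 9, 6, 13, 7, 3, 5, 15, 2, 12, 14, 10, 4, 11, 8, 16]
def sqb : Fin 17 → Bool := ![true, true, true, false, true, false, false, false, true, true,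
  false, false, false, true, false, true, true]
def gg (b1 b2 x : F) : F := bif sqb x then b1 * cf x else b2 * cf x

set_option maxRecDepth 100000 in
set_option maxHeartbeats 0 in
theorem dec : ∀ b1 : F, b1 ≠ 0 → ∀ b2 : F, b2 ≠ 0 → ∀ a : F, a ≠ 0 →
    (∀ x : F, x ≠ 0 → gg b1 b2 x ≠ -1 →
      a * x ≠ 1 ∧ gg b1 b2 (gg b1 b2 x + 1) = gg b1 b2 (a * x - 1) + b1) →
    a * b1 = -1 ∧ ∀ x : F, x ≠ 0 → x * gg b1 b2 x = b1 := by
  decide +kernel

theorem cf_mul : ∀ x : F, x ≠ 0 → cf x * x = 1 := by decide +kernel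
theorem sqb_sq : ∀ x : F, x ≠ 0 → sqb (x ^ 2 : F) = true ∧ sqb (3 * x ^ 2 : F) = false := by
  decide +kernel
theorem ex_sq : ∀ x : F, x ≠ 0 → ∃ y : F, y ≠ 0 ∧ (x = y ^ 2 ∨ x = 3 * y ^ 2) := by
  decide +kernel

theorem cf_eq (x : F) (hx : x ≠ 0) : cf x = x⁻¹ :=
  eq_inv_of_mul_eq_one_left (cf_mul x hx)

/-- The main conclusion: `x ↦ -1/x` lies in `H`. -/
theorem Good.exists_inv (hH : Good H) (hneg : mu (-1) ∈ H) :
    ∃ w ∈ H, w none = some 0 ∧ w (some 0) = none ∧ ∀ x : F, x ≠ 0 → w (some x) = some (-x⁻¹) := by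
  obtain ⟨t, ht, ht0, ht1, htA⟩ := hH.exists_swap hneg
  -- values of t
  have hval : ∀ x : F, x ≠ 0 → ∃ y : F, y ≠ 0 ∧ t (some x) = some y := by
    intro x hx
    have h1 : t (some x) ≠ none := by
      intro h
      have := t.injective (h.trans ht1.symm)
      simp at this
      exact hx this
    obtain ⟨y, hy⟩ := Option.ne_none_iff_exists'.1 h1
    refine ⟨y, ?_, hy⟩
    rintro rfl
    have := t.injective (hy.trans ht0.symm)
    simp at this
  obtain ⟨b1, hb1, hb1'⟩ := hval 1 one_ne_zero
  obtain ⟨b3, hb3, hb3'⟩ := hval 3 (by decide)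
  have hsq : ∀ (a : F) (ha : a ≠ 0) (x y : F), t (some x) = some y →
      t (some (a ^ 2 * x)) = some ((a ^ 2)⁻¹ * y) := by
    intro a ha x y hxy
    obtain ⟨_, h2⟩ := htA (Units.mk0 a ha)
    rw [mul_inv_eq_iff_eq_mul] at h2
    have h3 := congrArg (fun f : Perm X => f (some x)) h2
    simp only [Perm.mul_apply, mu_some, hxy, ← map_inv] at h3
    simpa using h3
  set b2 : F := 3 * b3 with hb2
  have hb20 : b2 ≠ 0 := mul_ne_zero (by decide) hb3
  have hgg : ∀ x : F, x ≠ 0 → t (some x) = some (gg b1 b2 x) := by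
    intro x hx
    obtain ⟨y, hy, hxy | hxy⟩ := ex_sq x hx
    · have h1 := hsq y hy 1 b1 hb1'
      rw [mul_one, ← hxy] at h1
      rw [h1, gg, hxy, (sqb_sq y hy).1, cond_true, cf_eq _ (pow_ne_zero 2 hy), mul_comm]
    · have h1 := hsq y hy 3 b3 hb3'
      rw [mul_comm (y ^ 2) 3, ← hxy] at h1
      rw [h1, gg, hxy, (sqb_sq y hy).2, cond_false, cf_eq _ (mul_ne_zero (by decide) (pow_ne_zero 2 hy)),
        hb2, mul_inv]
      congr 1
      have h3 : (3 : F) ≠ 0 := by decide
      field_simp
  -- the element fixing infinity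
  have hr : t⁻¹ * (tr b1)⁻¹ * t * tr 1 * t ∈ H :=
    mul_mem (mul_mem (mul_mem (mul_mem (inv_mem ht) (inv_mem (hH.tr_mem b1))) ht) (hH.tr_mem 1)) ht
  have hr0 : (t⁻¹ * (tr b1)⁻¹ * t * tr 1 * t) none = none := by
    simp only [Perm.mul_apply, ht0, tr_some, zero_add, hb1', ← tr_neg, add_neg_cancel]
    rw [← ht0]; simp
  obtain ⟨a, b, ha, hab⟩ := hH.exists_affine hr hr0
  have hrel : t * tr 1 * t = tr b1 * t * (tr b * mu a) := by
    rw [← hab]; group
  have hrelx : ∀ x : X, t (tr 1 (t x)) = tr b1 (t (tr b (mu a x))) := by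
    intro x
    have := congrArg (fun f : Perm X => f x) hrel
    simpa only [Perm.mul_apply] using this
  have hb : b = -1 := by
    have h1 := hrelx (some 0)
    rw [ht1, tr_none, ht0, mu_some, mul_zero, tr_some, zero_add] at h1
    have h2 : b ≠ 0 := by
      rintro rfl
      rw [ht1, tr_none] at h1
      simp at h1
    obtain ⟨y, hy, hy'⟩ := hval b h2
    rw [hy', tr_some] at h1
    have h3 : y = -b1 := by
      have := Option.some.inj h1
      linear_combination -this
    have h4 := hsq 4 (by decide) 1 b1 hb1'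
    have h5 : ((4 : F) ^ 2)⁻¹ = -1 := by decide +kernel
    have h6 : (4 : F) ^ 2 * 1 = -1 := by decide +kernel
    rw [h5, h6, neg_one_mul, ← h3, ← hy'] at h4
    exact (Option.some.inj (t.injective h4)).symm
  have hfin := dec b1 hb1 b2 hb20 (a : F) a.ne_zero (by
    intro x hx hgx
    have h1 := hrelx (some x)
    rw [hgg x hx, tr_some, mu_some, tr_some, hb, ← sub_eq_add_neg] at h1
    have h2 : gg b1 b2 x + 1 ≠ 0 := by
      intro h; exact hgx (eq_neg_of_add_eq_zero_left h)
    rw [hgg _ h2] at h1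
    have h3 : (a : F) * x - 1 ≠ 0 := by
      intro h
      rw [h, ht1, tr_none] at h1
      simp at h1
    refine ⟨fun h => h3 (by rw [h, sub_self]), ?_⟩
    rw [hgg _ h3, tr_some] at h1
    exact Option.some.inj h1)
  refine ⟨t * (mu a)⁻¹, mul_mem ht (inv_mem ha), ?_, ?_, ?_⟩
  · rw [← map_inv, Perm.mul_apply, mu_none, ht0]
  · rw [← map_inv, Perm.mul_apply, mu_some, mul_zero, ht1]
  · intro x hx
    rw [← map_inv, Perm.mul_apply, mu_some]
    have h1 : ((a⁻¹ : Fˣ) : F) * x ≠ 0 := mul_ne_zero (Units.ne_zero _) hx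
    rw [hgg _ h1]
    congr 1
    have h2 := hfin.2 _ h1
    have h3 := hfin.1
    have h4 : ((a⁻¹ : Fˣ) : F) * (a : F) = 1 := Units.inv_mul a
    have h5 : ((a⁻¹ : Fˣ) : F) = -b1 := by
      have : (a : F) * (((a⁻¹ : Fˣ) : F) + b1) = 0 := by linear_combination h4 + h3
      rcases mul_eq_zero.1 this with h | h
      · exact absurd h a.ne_zero
      · exact eq_neg_of_add_eq_zero_left h
    rw [h5] at h2 ⊢
    generalize gg b1 b2 (-b1 * x) = z at *
    have h6 : b1 * (x * z + 1) = 0 := by linear_combination -h2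
    rcases mul_eq_zero.1 h6 with h | h
    · exact absurd h hb1
    · field_simp
      linear_combination h

/-! ### Orders -/

/-- the group of multipliers -/
def AA (H : Subgroup (Perm X)) : Subgroup Fˣ := H.comap mu

theorem mem_AA {a : Fˣ} : a ∈ AA H ↔ mu a ∈ H := Iff.rfl

theorem Good.card_stab (hH : Good H) :
    Nat.card (MulAction.stabilizer H (none : X)) = 17 * Nat.card (AA H) := by
  let f : F × AA H → MulAction.stabilizer H (none : X) := fun q =>
    ⟨⟨tr q.1 * mu q.2.1, mul_mem (hH.tr_mem _) q.2.2⟩, by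
      rw [MulAction.mem_stabilizer_iff]; rfl⟩
  have hf : Function.Bijective f := by
    constructor
    · rintro ⟨b, a⟩ ⟨b', a'⟩ h
      have h1 : tr b * mu a.1 = tr b' * mu a'.1 := congrArg (fun x => x.1.1) h
      have h2 := congrArg (fun g : Perm X => g (some 0)) h1
      simp at h2
      subst h2
      have h3 := mul_left_cancel h1
      have h4 := mu_injective h3
      rw [Prod.mk.injEq]
      exact ⟨rfl, Subtype.ext h4⟩
    · rintro ⟨⟨g, hg⟩, hg'⟩
      rw [MulAction.mem_stabilizer_iff] at hg'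
      obtain ⟨a, b, ha, e⟩ := hH.exists_affine hg hg'
      exact ⟨⟨b, ⟨a, ha⟩⟩, Subtype.ext (Subtype.ext e.symm)⟩
  rw [← Nat.card_congr (Equiv.ofBijective f hf), Nat.card_prod, Nat.card_zmod]

theorem Good.card_eq (hH : Good H) : Nat.card H = 306 * Nat.card (AA H) := by
  have h1 := (MulAction.stabilizer H (none : X)).card_mul_index
  rw [MulAction.index_stabilizer] at h1
  have h2 : MulAction.orbit H (none : X) = Set.univ := by
    ext x; simp only [Set.mem_univ, iff_true]
    obtain ⟨h, hh, hx⟩ := hH.trans x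
    exact ⟨⟨h, hh⟩, hx⟩
  rw [h2, Set.ncard_univ, Nat.card_eq_fintype_card (α := X), Fintype.card_option, ZMod.card,
    hH.card_stab] at h1
  omega

theorem Good.neg_mem (hH : Good H) : mu (-1) ∈ H := by
  by_contra hcon
  have h1 : Nat.card (AA H) = 1 := by
    rw [Subgroup.card_eq_one, eq_bot_iff]
    intro a ha
    rw [Subgroup.mem_bot]
    by_contra ha1
    have hdec : ∀ a : F, a ≠ 0 → a ≠ 1 → ∃ k : Fin 16, a ^ (k : ℕ) = -1 := by decide +kernel
    obtain ⟨k, hk⟩ := hdec a a.ne_zero (fun h => ha1 (Units.ext h))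
    apply hcon
    have : (-1 : Fˣ) = a ^ (k : ℕ) := by
      apply Units.ext
      rw [Units.val_pow_eq_pow_val, hk]; rfl
    rw [this, map_pow]
    exact pow_mem (mem_AA.1 ha) _
  have hcard : Nat.card H = 306 := by rw [hH.card_eq, h1]
  have : Fact (Nat.Prime 2) := ⟨Nat.prime_two⟩
  obtain ⟨P⟩ : Nonempty (Sylow 2 H) := inferInstance
  have hP : Nat.card P = 2 := by
    have h306 : Nat.factorization 306 2 = 1 := by
      rw [show 306 = 2 * 153 by norm_num, Nat.factorization_mul (by norm_num) (by norm_num),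
        Finsupp.add_apply, Nat.Prime.factorization_self Nat.prime_two,
        Nat.factorization_eq_zero_of_not_dvd (show ¬ 2 ∣ 153 by norm_num)]
    have := P.card_eq_multiplicity
    rw [hcard, h306, pow_one] at this
    exact this
  have hcyc : IsCyclic P := isCyclic_of_prime_card (p := 2) hP
  have hmin : (Nat.card H).minFac = 2 := by rw [hcard]; norm_num
  have hcomp := IsCyclic.isComplement' hmin hcyc
  generalize (MonoidHom.transferSylow P (IsCyclic.normalizer_le_centralizer hmin hcyc)).ker = N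
    at hcomp
  have hNcard : Nat.card N = 153 := by
    have := hcomp.card_mul_card
    have hP' : Nat.card (P : Subgroup H) = 2 := hP
    rw [hP', hcard] at this
    omega
  have hNidx : N.index = 2 := by
    have := N.card_mul_index
    rw [hNcard, hcard] at this
    omega
  have htr : ∀ b : F, (⟨tr b, hH.tr_mem b⟩ : H) ∈ N := by
    intro b
    have h2 := Subgroup.sq_mem_of_index_two hNidx ⟨tr (9 * b), hH.tr_mem _⟩
    have h3 : (⟨tr (9 * b), hH.tr_mem _⟩ : H) ^ 2 = ⟨tr b, hH.tr_mem b⟩ := by
      rw [pow_two]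
      apply Subtype.ext
      change tr (9 * b) * tr (9 * b) = tr b
      rw [← tr_add]
      congr 1
      have : (18 : F) = 1 := by decide
      linear_combination this * b
    rwa [h3] at h2
  -- some element of `N` moves infinity
  have hmove : ∃ n ∈ N, (n : H).1 none ≠ none := by
    by_contra hno
    push Not at hno
    have hle : N ≤ MulAction.stabilizer H (none : X) := by
      intro n hn
      rw [MulAction.mem_stabilizer_iff]
      exact hno n hn
    have h2 := Subgroup.card_dvd_of_le hle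
    rw [hNcard, hH.card_stab, h1] at h2
    omega
  obtain ⟨n, hn, hn1⟩ := hmove
  obtain ⟨y, hy⟩ := Option.ne_none_iff_exists'.1 hn1
  have hex : ∀ x : X, ∃ m ∈ N, (m : H).1 none = x := by
    intro x
    cases x with
    | none => exact ⟨1, one_mem _, rfl⟩
    | some x =>
      refine ⟨(⟨tr (x - y), hH.tr_mem (x - y)⟩ : H) * n, N.mul_mem (htr (x - y)) hn, ?_⟩
      rw [Subgroup.coe_mul, Perm.mul_apply, hy, tr_some]
      congr 1; ring
  have horb : MulAction.orbit N (none : X) = Set.univ := by
    ext x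
    simp only [Set.mem_univ, iff_true]
    obtain ⟨m, hm, hmx⟩ := hex x
    exact ⟨⟨m, hm⟩, hmx⟩
  have h2 := (MulAction.stabilizer N (none : X)).card_mul_index
  rw [MulAction.index_stabilizer, horb, Set.ncard_univ, Nat.card_eq_fintype_card (α := X),
    Fintype.card_option, ZMod.card, hNcard] at h2
  omega

theorem Good.card_AA (hH : Good H) : Nat.card (AA H) = 8 ∨ Nat.card (AA H) = 16 := by
  obtain ⟨t, _, _, _, htA⟩ := hH.exists_swap hH.neg_mem
  have h2 : Nat.card Fˣ = 16 := by
    rw [Nat.card_eq_fintype_card, ZMod.card_units]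
  have h3 : Nat.card (AA H) ∣ 2 ^ 4 := by
    have := Subgroup.card_subgroup_dvd_card (AA H)
    rwa [h2] at this
  -- the element 9 has order 8
  let u : Fˣ := Units.mk0 3 (by decide)
  have hu : orderOf (u ^ 2) = 2 ^ (2 + 1) := by
    apply orderOf_eq_prime_pow
    · intro h
      have := congrArg (fun x : Fˣ => (x : F)) h
      simp only [Units.val_pow_eq_pow_val, Units.val_one] at this
      revert this
      change ¬ ((((3 : F) ^ 2) ^ 2 ^ 2) = 1)
      decide +kernel
    · apply Units.ext
      simp only [Units.val_pow_eq_pow_val, Units.val_one]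
      change (((3 : F) ^ 2) ^ 2 ^ (2 + 1)) = 1
      decide +kernel
  have h4 : 8 ∣ Nat.card (AA H) := by
    have h5 : u ^ 2 ∈ AA H := (htA u).1
    have h6 := Subgroup.orderOf_dvd_natCard (AA H) h5
    rw [hu] at h6
    exact h6
  obtain ⟨k, hk, hk'⟩ := (Nat.dvd_prime_pow Nat.prime_two).1 h3
  rw [hk'] at h4 ⊢
  interval_cases k <;> simp_all

end H64.Deg18
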