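import Cfsg.Agent.Lib.H64.Deg18

set_option autoImplicit false

/-! Sylow numbers of the doubly transitive groups of degree 18. -/

namespace H64.Deg18

open Equiv

variable {H : Subgroup (Perm X)}

/-- setwise stabiliser of `{∞, 0}` -/
def DD (H : Subgroup (Perm X)) : Subgroup H where
  carrier := {h | ∀ x, (h.1 x = none ∨ h.1 x = some 0) ↔ (x = none ∨ x = some 0)}
  mul_mem' := by
    intro a b ha hb x
    rw [Subgroup.coe_mul, Perm.mul_apply, ha, hb]
  one_mem' := by intro x; rfl
  inv_mem' := by
    intro a ha x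
    have := ha (a.1⁻¹ x)
    rw [Subgroup.coe_inv, ← this]
    simp

theorem mem_DD {h : H} : h ∈ DD H ↔ ∀ x, (h.1 x = none ∨ h.1 x = some 0) ↔ (x = none ∨ x = some 0) :=
  Iff.rfl

theorem dd_aux {g : H} (h1 : g.1 none = none ∨ g.1 none = some 0)
    (h2 : g.1 (some 0) = none ∨ g.1 (some 0) = some 0) :
    (g.1 none = none ∧ g.1 (some 0) = some 0) ∨ (g.1 none = some 0 ∧ g.1 (some 0) = none) := by
  have h3 : g.1 none ≠ g.1 (some 0) := fun h => by
    have := g.1.injective h
    simp at this
  rcases h1 with h1 | h1 <;> rcases h2 with h2 | h2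
  · exact absurd (h1.trans h2.symm) h3
  · exact Or.inl ⟨h1, h2⟩
  · exact Or.inr ⟨h1, h2⟩
  · exact absurd (h1.trans h2.symm) h3

theorem mem_DD_iff {g : H} : g ∈ DD H ↔ (g.1 none = none ∧ g.1 (some 0) = some 0) ∨
    (g.1 none = some 0 ∧ g.1 (some 0) = none) := by
  constructor
  · intro hh
    exact dd_aux ((hh none).2 (Or.inl rfl)) ((hh (some 0)).2 (Or.inr rfl))
  · rintro (⟨h1, h2⟩ | ⟨h1, h2⟩) x
    · constructor
      · rintro (h | h)
        · left; exact g.1.injective (h.trans h1.symm)
        · right; exact g.1.injective (h.trans h2.symm)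
      · rintro (rfl | rfl)
        · left; exact h1
        · right; exact h2
    · constructor
      · rintro (h | h)
        · right; exact g.1.injective (h.trans h2.symm)
        · left; exact g.1.injective (h.trans h1.symm)
      · rintro (rfl | rfl)
        · right; exact h1
        · left; exact h2

theorem Good.card_DD (hH : Good H) : Nat.card (DD H) = 2 * Nat.card (AA H) := by
  obtain ⟨t, ht, ht0, ht1, htA⟩ := hH.exists_swap hH.neg_mem
  let f : Bool × AA H → DD H := fun q => bif q.1 then
    ⟨(⟨t, ht⟩ : H) * (⟨mu q.2.1, q.2.2⟩ : H), mem_DD_iff.2 (Or.inr ⟨by simp [ht0], by simp [ht1]⟩)⟩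
    else ⟨⟨mu q.2.1, q.2.2⟩, mem_DD_iff.2 (Or.inl ⟨by simp, by simp⟩)⟩
  have hft : ∀ a, (f (true, a)).1.1 = t * mu a.1 := fun a => rfl
  have hff : ∀ a, (f (false, a)).1.1 = mu a.1 := fun a => rfl
  have hf : Function.Bijective f := by
    constructor
    · rintro ⟨b, a⟩ ⟨b', a'⟩ h
      have h1 : (f (b, a)).1.1 = (f (b', a')).1.1 := by rw [h]
      cases b <;> cases b'
      · rw [hff, hff] at h1
        rw [Prod.mk.injEq]
        exact ⟨rfl, Subtype.ext (mu_injective h1)⟩
      · rw [hff, hft] at h1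
        have h2 := congrArg (fun g : Perm X => g none) h1
        simp [ht0] at h2
      · rw [hff, hft] at h1
        have h2 := congrArg (fun g : Perm X => g none) h1
        simp [ht0] at h2
      · rw [hft, hft] at h1
        rw [Prod.mk.injEq]
        exact ⟨rfl, Subtype.ext (mu_injective (mul_left_cancel h1))⟩
    · rintro ⟨g, hg⟩
      rcases mem_DD_iff.1 hg with ⟨h1, h2⟩ | ⟨h1, h2⟩
      · obtain ⟨a, ha, e⟩ := hH.exists_mu g.2 h1 h2
        exact ⟨(false, ⟨a, ha⟩), Subtype.ext (Subtype.ext e.symm)⟩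
      · obtain ⟨a, ha, e⟩ := hH.exists_mu (h := t⁻¹ * g.1) (mul_mem (inv_mem ht) g.2)
          (by rw [Perm.mul_apply, h1, ← ht0]; simp) (by rw [Perm.mul_apply, h2, ← ht1]; simp)
        refine ⟨(true, ⟨a, ha⟩), Subtype.ext (Subtype.ext ?_)⟩
        rw [hft, ← e]; group
  rw [← Nat.card_congr (Equiv.ofBijective f hf), Nat.card_prod]
  simp

theorem Good.index_DD (hH : Good H) : (DD H).index = 153 := by
  have h1 := (DD H).card_mul_index
  rw [hH.card_DD, hH.card_eq] at h1
  rcases hH.card_AA with h | h <;> rw [h] at h1 <;> omega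

theorem Good.normalizer_DD (hH : Good H) : Subgroup.normalizer (DD H : Set H) ≤ DD H := by
  obtain ⟨t, ht, ht0, ht1, htA⟩ := hH.exists_swap hH.neg_mem
  intro g hg
  have hgD : ∀ d ∈ DD H, g * d * g⁻¹ ∈ DD H := fun d hd => (Subgroup.mem_normalizer_iff.1 hg d).1 hd
  have hgD' : ∀ d ∈ DD H, g⁻¹ * d * g ∈ DD H := fun d hd => by
    have := (Subgroup.mem_normalizer_iff.1 (inv_mem hg) d).1 hd
    simpa using this
  have hdec : ∀ d ∈ DD H, ∃ a : Fˣ, mu a ∈ H ∧ (d.1 = mu a ∨ d.1 = t * mu a) := by
    intro d hd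
    rcases mem_DD_iff.1 hd with ⟨h1, h2⟩ | ⟨h1, h2⟩
    · obtain ⟨a, ha, e⟩ := hH.exists_mu d.2 h1 h2
      exact ⟨a, ha, Or.inl e⟩
    · obtain ⟨a, ha, e⟩ := hH.exists_mu (h := t⁻¹ * d.1) (mul_mem (inv_mem ht) d.2)
        (by rw [Perm.mul_apply, h1, ← ht0]; simp) (by rw [Perm.mul_apply, h2, ← ht1]; simp)
      refine ⟨a, ha, Or.inr ?_⟩
      rw [← e]; group
  -- the central involution
  let u4 : Fˣ := Units.mk0 4 (by decide)
  let u3 : Fˣ := Units.mk0 3 (by decide)
  have hu4 : u4 ^ 2 = -1 := by
    apply Units.ext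
    rw [Units.val_pow_eq_pow_val]
    change (4 : F) ^ 2 = -1
    decide +kernel
  have hz2 : mu (-1) * mu (-1) = 1 := by
    rw [← map_mul]; simp
  have hzinv : (mu (-1))⁻¹ = mu (-1) := inv_eq_of_mul_eq_one_left hz2
  have htz : t * mu (-1) = mu (-1) * t := by
    have := (htA u4).2
    rw [hu4, hzinv, mul_inv_eq_iff_eq_mul] at this
    exact this
  have hcomm : ∀ a b : Fˣ, mu a * mu b = mu b * mu a := fun a b => by
    rw [← map_mul, mul_comm, map_mul]
  have hzc : ∀ d ∈ DD H, d.1 * mu (-1) = mu (-1) * d.1 := by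
    intro d hd
    obtain ⟨a, ha, h | h⟩ := hdec d hd
    · rw [h, hcomm]
    · rw [h, mul_assoc, hcomm, ← mul_assoc, htz, mul_assoc]
  let z : H := ⟨mu (-1), hH.neg_mem⟩
  let m : H := ⟨mu (u3 ^ 2), (htA u3).1⟩
  have hzD : z ∈ DD H := mem_DD_iff.2 (Or.inl ⟨by simp [z], by simp [z]⟩)
  have hmD : m ∈ DD H := mem_DD_iff.2 (Or.inl ⟨mu_none _, by
    change mu (u3 ^ 2) (some 0) = some 0
    rw [mu_some, mul_zero]⟩)
  have hy := hgD z hzD
  have hym : (g * z * g⁻¹) * m = m * (g * z * g⁻¹) := by
    have h1 : (g⁻¹ * m * g) * z = z * (g⁻¹ * m * g) := Subtype.ext (hzc _ (hgD' m hmD))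
    calc (g * z * g⁻¹) * m = g * (z * (g⁻¹ * m * g)) * g⁻¹ := by group
      _ = g * ((g⁻¹ * m * g) * z) * g⁻¹ := by rw [h1]
      _ = m * (g * z * g⁻¹) := by group
  rcases mem_DD_iff.1 hy with ⟨h1, h2⟩ | ⟨h1, h2⟩
  · obtain ⟨a, ha, e⟩ := hH.exists_mu (g * z * g⁻¹).2 h1 h2
    have hy2 : (g * z * g⁻¹) * (g * z * g⁻¹) = 1 := by
      have : z * z = 1 := Subtype.ext hz2
      calc (g * z * g⁻¹) * (g * z * g⁻¹) = g * (z * z) * g⁻¹ := by group
        _ = 1 := by rw [this]; group
    have ha2 : a * a = 1 := by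
      apply mu_injective
      rw [map_mul, map_one, ← e]
      exact congrArg Subtype.val hy2
    have ha1 : a ≠ 1 := by
      rintro rfl
      rw [map_one] at e
      have h3 : g * z * g⁻¹ = 1 := Subtype.ext e
      have h4 : z = 1 := by
        calc z = g⁻¹ * (g * z * g⁻¹) * g := by group
          _ = 1 := by rw [h3]; group
      have h5 : mu (-1) = 1 := congrArg Subtype.val h4
      have h6 := congrArg (fun g : Perm X => g (some 1)) h5
      simp at h6
      revert h6; decide
    have ha3 : a = -1 := by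
      have h3 : (a : F) * a = 1 := by
        have := congrArg (fun x : Fˣ => (x : F)) ha2
        simpa using this
      have h4 : ((a : F) - 1) * ((a : F) + 1) = 0 := by linear_combination h3
      rcases mul_eq_zero.1 h4 with h5 | h5
      · exact absurd (Units.ext (sub_eq_zero.1 h5)) ha1
      · exact Units.ext (by rw [eq_neg_of_add_eq_zero_left h5]; simp)
    rw [ha3] at e
    have hgz : g.1 * mu (-1) = mu (-1) * g.1 := by
      have h3 : g * z = z * g := by
        have : g * z * g⁻¹ = z := Subtype.ext e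
        rw [mul_inv_eq_iff_eq_mul] at this
        exact this
      exact congrArg Subtype.val h3
    have hfix : ∀ x : X, mu (-1) x = x → x = none ∨ x = some 0 := by
      intro x hx
      cases x with
      | none => exact Or.inl rfl
      | some x =>
        right
        rw [mu_some] at hx
        have h3 := Option.some.inj hx
        have h4 : ((-1 : Fˣ) : F) * x = x := h3
        have h5 : (2 : F) * x = 0 := by
          rw [Units.val_neg, Units.val_one] at h4
          linear_combination -h4
        rcases mul_eq_zero.1 h5 with h6 | h6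
        · exact absurd h6 (by decide)
        · rw [h6]
    rw [mem_DD_iff]
    apply dd_aux
    · apply hfix
      have := congrArg (fun g : Perm X => g none) hgz
      simp only [Perm.mul_apply, mu_none] at this
      exact this.symm
    · apply hfix
      have := congrArg (fun g : Perm X => g (some 0)) hgz
      simp only [Perm.mul_apply, mu_some, mul_zero] at this
      exact this.symm
  · exfalso
    obtain ⟨a, ha, h | h⟩ := hdec _ hy
    · rw [h] at h1; simp at h1
    · have h3 : t * mu a * mu (u3 ^ 2) = mu (u3 ^ 2) * (t * mu a) := by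
        rw [← h]
        exact congrArg Subtype.val hym
      have h4 : t * mu (u3 ^ 2) = (mu (u3 ^ 2))⁻¹ * t := by
        have := (htA u3).2
        rw [mul_inv_eq_iff_eq_mul] at this
        exact this
      have h5 : (mu (u3 ^ 2))⁻¹ = mu (u3 ^ 2) := by
        rw [mul_assoc, hcomm, ← mul_assoc, h4, mul_assoc] at h3
        exact mul_right_cancel h3
      rw [← map_inv] at h5
      have h6 := mu_injective h5
      have h7 : u3 ^ 4 = 1 := by
        have : u3 ^ 4 = u3 ^ 2 * u3 ^ 2 := by rw [← pow_add]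
        rw [this]
        nth_rewrite 1 [← h6]
        exact inv_mul_cancel _
      have h8 : (3 : F) ^ 4 = 1 := by
        have := congrArg (fun x : Fˣ => (x : F)) h7
        simpa [u3] using this
      revert h8
      decide +kernel

theorem Good.card_sylow_two (hH : Good H) : Nat.card (Sylow 2 H) = 153 := by
  have : Fact (Nat.Prime 2) := ⟨Nat.prime_two⟩
  have hp : IsPGroup 2 (DD H) := by
    rcases hH.card_AA with h | h
    · exact IsPGroup.of_card (n := 4) (by rw [hH.card_DD, h]; norm_num)
    · exact IsPGroup.of_card (n := 5) (by rw [hH.card_DD, h]; norm_num)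
  let P : Sylow 2 H := hp.toSylow (by rw [hH.index_DD]; norm_num)
  rw [P.card_eq_index_normalizer]
  have hPD : (P : Set H) = (DD H : Set H) := rfl
  rw [hPD, le_antisymm hH.normalizer_DD Subgroup.le_normalizer, hH.index_DD]

/-! ### The Sylow 3-subgroups -/

/-- `x ↦ -1/x` -/
def wf : X → X
  | none => some 0
  | some x => if x = 0 then none else some (-cf x)

/-- `x ↦ -1/(x+7)`, of order 9 -/
def zf (x : X) : X := wf (x.map (· + 7))

def aff (a b : F) (x : X) : X := x.map (fun x => a * x + b)

set_option maxRecDepth 100000 in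
theorem decZ : ∀ a : F, a ≠ 0 → ∀ b : F, ∀ k : Fin 9,
    (∀ x : X, aff a b (zf x) = zf^[(k : ℕ)] (aff a b x)) → (a = 1 ∧ b = 0) ∨ (a = -1 ∧ b = 10) := by
  decide +kernel

theorem zf9 : ∀ x : X, zf^[9] x = x := by decide +kernel
theorem zf3 : zf^[3] none ≠ none := by decide +kernel

theorem Good.exists_z (hH : Good H) : ∃ z : H, ∀ x : X, z.1 x = zf x := by
  obtain ⟨w, hw, hw0, hw1, hw2⟩ := hH.exists_inv hH.neg_mem
  refine ⟨⟨w * tr 7, mul_mem hw (hH.tr_mem 7)⟩, ?_⟩
  intro x
  have hww : ∀ x : X, w x = wf x := by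
    intro x
    cases x with
    | none => rw [hw0]; rfl
    | some x =>
      by_cases hx : x = 0
      · rw [hx, hw1]; rfl
      · rw [hw2 x hx, wf, if_neg hx, cf_eq x hx]
  change w (tr 7 x) = zf x
  rw [hww]
  cases x <;> rfl

theorem zpow_apply {z : H} (hz : ∀ x : X, z.1 x = zf x) (n : ℕ) (x : X) :
    (z ^ n).1 x = zf^[n] x := by
  induction n generalizing x with
  | zero => rfl
  | succ n ih =>
    rw [pow_succ, Subgroup.coe_mul, Perm.mul_apply, hz, Function.iterate_succ_apply]
    exact ih _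

theorem orderOf_z {z : H} (hz : ∀ x : X, z.1 x = zf x) : orderOf z = 9 := by
  have : orderOf z = 3 ^ (1 + 1) := by
    have : Fact (Nat.Prime 3) := ⟨Nat.prime_three⟩
    apply orderOf_eq_prime_pow
    · intro h
      have h1 := zpow_apply hz 3 none
      have h2 : z ^ 3 = 1 := by simpa using h
      rw [h2] at h1
      exact zf3 h1.symm
    · apply Subtype.ext
      apply Equiv.ext
      intro x
      have h1 := zpow_apply hz 9 x
      rw [zf9] at h1
      simpa using h1
  simpa using this

theorem Good.card_sylow_three (hH : Good H) : 34 < Nat.card (Sylow 3 H) := by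
  have : Fact (Nat.Prime 3) := ⟨Nat.prime_three⟩
  obtain ⟨z, hz⟩ := hH.exists_z
  have hoz := orderOf_z hz
  have hcard : Nat.card (Subgroup.zpowers z) = 9 := by rw [Nat.card_zpowers, hoz]
  have hp : IsPGroup 3 (Subgroup.zpowers z) := IsPGroup.of_card (n := 2) (by rw [hcard]; norm_num)
  have hidx := (Subgroup.zpowers z).card_mul_index
  rw [hcard, hH.card_eq] at hidx
  have h3 : ¬ 3 ∣ (Subgroup.zpowers z).index := by
    rcases hH.card_AA with h | h <;> rw [h] at hidx <;> omega
  let P : Sylow 3 H := hp.toSylow h3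
  rw [P.card_eq_index_normalizer]
  have hPD : (P : Set H) = (Subgroup.zpowers z : Set H) := rfl
  rw [hPD]
  generalize hN : Subgroup.normalizer (Subgroup.zpowers z : Set H) = N
  -- the stabiliser of infinity in `N`
  have hst : Nat.card (MulAction.stabilizer N (none : X)) ≤ 2 := by
    let f : MulAction.stabilizer N (none : X) → Bool := fun g => decide (g.1.1.1 (some 0) = some 0)
    have hf : Function.Injective f := by
      have key : ∀ g : MulAction.stabilizer N (none : X), ∃ a b : F,
          (∀ x : X, g.1.1.1 x = aff a b x) ∧ ((a = 1 ∧ b = 0) ∨ (a = -1 ∧ b = 10)) := by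
        rintro ⟨⟨⟨g, hg⟩, hgN⟩, hg0⟩
        have hg0' : g none = none := hg0
        obtain ⟨a, b, ha, e⟩ := hH.exists_affine hg hg0'
        have hgx : ∀ x : X, g x = aff (a : F) b x := by
          intro x; rw [e]; cases x <;> rfl
        refine ⟨(a : F), b, hgx, ?_⟩
        rw [← hN, Subgroup.mem_normalizer_iff] at hgN
        have h1 := (hgN z).1 (Subgroup.mem_zpowers z)
        obtain ⟨k, hk, hk'⟩ : ∃ k < orderOf z, z ^ k = ⟨g, hg⟩ * z * ⟨g, hg⟩⁻¹ := by
          obtain ⟨k, hk⟩ := (Subgroup.mem_zpowers_iff.1 h1)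
          have h2 : IsOfFinOrder z := isOfFinOrder_of_finite z
          have h3 := (h2.mem_zpowers_iff_mem_range_orderOf).1 h1
          rw [Finset.mem_image] at h3
          obtain ⟨k, hk, hk'⟩ := h3
          exact ⟨k, Finset.mem_range.1 hk, hk'⟩
        rw [hoz] at hk
        apply decZ (a : F) a.ne_zero b ⟨k, hk⟩
        intro x
        have h2 : ⟨g, hg⟩ * z = z ^ k * ⟨g, hg⟩ := by rw [hk']; group
        have h3 : (((⟨g, hg⟩ : H) * z : H)).1 x = (z ^ k * (⟨g, hg⟩ : H) : H).1 x := by rw [h2]
        rw [Subgroup.coe_mul, Perm.mul_apply, hz, Subgroup.coe_mul, Perm.mul_apply,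
          zpow_apply hz, hgx, hgx] at h3
        exact h3
      intro g g' hgg
      obtain ⟨a, b, hab, h1⟩ := key g
      obtain ⟨a', b', hab', h1'⟩ := key g'
      have h0 : f g = decide (b = 0) := by
        change decide (g.1.1.1 (some 0) = some 0) = _
        rw [hab]; simp [aff]
      have h0' : f g' = decide (b' = 0) := by
        change decide (g'.1.1.1 (some 0) = some 0) = _
        rw [hab']; simp [aff]
      rw [h0, h0'] at hgg
      have hten : (10 : F) ≠ 0 := by decide
      have : a = a' ∧ b = b' := by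
        rcases h1 with ⟨rfl, rfl⟩ | ⟨rfl, rfl⟩ <;> rcases h1' with ⟨rfl, rfl⟩ | ⟨rfl, rfl⟩
        · exact ⟨rfl, rfl⟩
        · simp [hten] at hgg
        · simp [hten] at hgg
        · exact ⟨rfl, rfl⟩
      apply Subtype.ext
      apply Subtype.ext
      apply Subtype.ext
      ext1 x
      rw [hab, hab', this.1, this.2]
    have := Nat.card_le_card_of_injective f hf
    simpa using this
  have h1 := (MulAction.stabilizer N (none : X)).card_mul_index
  rw [MulAction.index_stabilizer] at h1
  have h2 : (MulAction.orbit N (none : X)).ncard ≤ 18 := by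
    have h3 := Set.ncard_le_ncard (Set.subset_univ (MulAction.orbit N (none : X)))
    rwa [Set.ncard_univ, Nat.card_eq_fintype_card (α := X), Fintype.card_option, ZMod.card] at h3
  have h4 : Nat.card N ≤ 36 := by
    rw [← h1]
    calc _ ≤ 2 * 18 := Nat.mul_le_mul hst h2
      _ = 36 := by norm_num
  have h5 := N.card_mul_index
  rw [hH.card_eq] at h5
  by_contra hcon
  push Not at hcon
  have h6 : Nat.card N * N.index ≤ 36 * 34 := Nat.mul_le_mul h4 hcon
  rw [h5] at h6
  rcases hH.card_AA with h | h <;> rw [h] at h6 <;> omega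

end H64.Deg18
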