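import Cfsg.Agent.Lib.H64.Deg18

set_option autoImplicit false

/-! A group with 18 Sylow 17-subgroups acts on them as one of the groups of `Deg18`. -/

namespace H64.Deg18

open Equiv

theorem not_sq_dvd : ¬ 17 ^ 2 ∣ Nat.factorial 18 := by decide +kernel

theorem exists_hom {G : Type*} [Group G] [Finite G] (h18 : Nat.card (Sylow 17 G) = 18) :
    ∃ ψ : G →* Perm X, Good ψ.range ∧
      ∀ g, ψ g = 1 → ∀ P : Sylow 17 G, g ∈ Subgroup.normalizer (P : Set G) := by
  classical
  have hcardPerm : Nat.card (Perm (Sylow 17 G)) = Nat.factorial 18 := by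
    rw [Nat.card_perm, h18]
  have hcardPermX : Nat.card (Perm X) = Nat.factorial 18 := by
    rw [Nat.card_perm, Nat.card_eq_fintype_card, Fintype.card_option, ZMod.card]
  obtain ⟨P⟩ : Nonempty (Sylow 17 G) := inferInstance
  have hnt : Nontrivial (Sylow 17 G) := by
    rw [← Finite.one_lt_card_iff_nontrivial, h18]; norm_num
  obtain ⟨Q, hQP⟩ := exists_ne P
  obtain ⟨u, huP, huQ⟩ : ∃ u ∈ P, u • Q ≠ Q := by
    by_contra hcon
    push Not at hcon
    apply hQP
    have h1 : Q ∈ MulAction.fixedPoints P (Sylow 17 G) := fun x => hcon x.1 x.2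
    rw [P.2.sylow_mem_fixedPoints_iff] at h1
    exact Sylow.ext (P.3 Q.2 h1)
  let σ : Perm (Sylow 17 G) := MulAction.toPermHom G _ u
  have hσ : ∀ R, σ R = u • R := fun R => rfl
  have hσ17 : σ ^ 17 = 1 := by
    obtain ⟨n, hn⟩ := P.2 ⟨u, huP⟩
    have hn' : u ^ 17 ^ n = 1 := by
      have := congrArg (fun x : P => (x : G)) hn
      simpa using this
    have h1 : σ ^ 17 ^ n = 1 := by
      change (MulAction.toPermHom G (Sylow 17 G) u) ^ 17 ^ n = 1
      rw [← map_pow, hn', map_one]
    obtain ⟨k, hk, hk'⟩ := (Nat.dvd_prime_pow fact17.out).1 (orderOf_dvd_of_pow_eq_one h1)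
    have h2 : 17 ^ k ∣ Nat.factorial 18 := by
      rw [← hk', ← hcardPerm]; exact orderOf_dvd_natCard σ
    have h3 : k ≤ 1 := by
      by_contra hcon
      push Not at hcon
      exact not_sq_dvd ((pow_dvd_pow 17 hcon).trans h2)
    apply orderOf_dvd_iff_pow_eq_one.1
    rw [hk']
    calc 17 ^ k ∣ 17 ^ 1 := pow_dvd_pow 17 h3
      _ = 17 := pow_one 17
  have hper : ∀ n : ℕ, (σ ^ n) Q = Q → 17 ∣ n := by
    intro n hn
    by_contra hcon
    have h1 : Function.IsPeriodicPt σ n Q := by
      change σ^[n] Q = Q
      rw [Equiv.Perm.iterate_eq_pow]; exact hn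
    have h2 : Function.IsPeriodicPt σ 17 Q := by
      change σ^[17] Q = Q
      rw [Equiv.Perm.iterate_eq_pow, hσ17]; rfl
    have h3 := h1.gcd h2
    have h4 : n.gcd 17 = 1 := Nat.Coprime.symm ((Nat.Prime.coprime_iff_not_dvd fact17.out).2 hcon)
    rw [h4] at h3
    exact huQ h3
  have huP' : σ P = P := by
    rw [hσ, Sylow.smul_eq_iff_mem_normalizer]
    exact Subgroup.le_normalizer huP
  let φ : X → Sylow 17 G := fun x => x.elim P (fun y => (σ ^ y.val) Q)
  have hφ0 : φ none = P := rfl
  have hφ1 : ∀ n : ℕ, φ (some (n : F)) = (σ ^ n) Q := by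
    intro n
    change (σ ^ (n : F).val) Q = _
    rw [ZMod.val_natCast, pow_eq_pow_mod n hσ17]
  have hφs : ∀ x : F, φ (some (x + 1)) = σ (φ (some x)) := by
    intro x
    rw [← ZMod.natCast_zmod_val x, ← Nat.cast_succ, hφ1, hφ1, pow_succ']
    rfl
  have hPpow : ∀ n : ℕ, (σ ^ n) P = P := by
    intro n
    induction n with
    | zero => rfl
    | succ n ih => rw [pow_succ, Perm.mul_apply, huP', ih]
  have hφinj : Function.Injective φ := by
    have key : ∀ i j : ℕ, i ≤ j → j < 17 → (σ ^ i) Q = (σ ^ j) Q → i = j := by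
      intro i j hij hj h
      obtain ⟨d, rfl⟩ := Nat.exists_eq_add_of_le hij
      rw [pow_add, Perm.mul_apply] at h
      have := hper d ((σ ^ i).injective h).symm
      omega
    intro x y hxy
    cases x with
    | none =>
      cases y with
      | none => rfl
      | some y =>
        exfalso
        apply hQP
        have h1 : (σ ^ y.val) P = (σ ^ y.val) Q := by rw [hPpow]; exact hxy
        exact ((σ ^ y.val).injective h1).symm
    | some x =>
      cases y with
      | none =>
        exfalso
        apply hQP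
        have h1 : (σ ^ x.val) Q = (σ ^ x.val) P := by rw [hPpow]; exact hxy
        exact (σ ^ x.val).injective h1
      | some y =>
        have h1 : (σ ^ x.val) Q = (σ ^ y.val) Q := hxy
        congr 1
        apply ZMod.val_injective
        rcases le_total x.val y.val with h | h
        · exact key _ _ h (ZMod.val_lt y) h1
        · exact (key _ _ h (ZMod.val_lt x) h1.symm).symm
  have hφbij : Function.Bijective φ := by
    apply hφinj.bijective_of_nat_card_le
    rw [h18, Nat.card_eq_fintype_card, Fintype.card_option, ZMod.card]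
  let e : X ≃ Sylow 17 G := Equiv.ofBijective φ hφbij
  have he : ∀ x, e x = φ x := fun x => rfl
  let ψ : G →* Perm X :=
    { toFun := fun g => (e.trans (MulAction.toPerm g)).trans e.symm
      map_one' := by ext1 x; simp
      map_mul' := by intro a b; ext1 x; simp [mul_smul] }
  have hψ : ∀ g x, e (ψ g x) = g • e x := by
    intro g x
    change e (e.symm (g • e x)) = _
    rw [Equiv.apply_symm_apply]
  have hψu : ψ u = tr 1 := by
    ext1 x
    apply e.injective
    rw [hψ]
    cases x with
    | none => exact huP'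
    | some x => rw [tr_some, he, he, hφs, hσ]
  refine ⟨ψ, ⟨⟨u, hψu⟩, ?_, ?_⟩, ?_⟩
  · intro x
    obtain ⟨g, hg⟩ := MulAction.exists_smul_eq G P (e x)
    refine ⟨ψ g, ⟨g, rfl⟩, ?_⟩
    apply e.injective
    rw [hψ]; exact hg
  · rintro _ ⟨g, rfl⟩ hg0
    have hgP : g • P = P := by
      have := hψ g none
      rw [hg0] at this
      exact this.symm
    rw [Sylow.smul_eq_iff_mem_normalizer, Subgroup.mem_set_normalizer_iff] at hgP
    have h1 := (hgP u).1 huP
    have hR : Subgroup.zpowers (tr 1) = (P : Subgroup G).map ψ := by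
      apply Subgroup.eq_of_le_of_card_ge
      · rw [Subgroup.zpowers_le]
        exact ⟨u, huP, hψu⟩
      · obtain ⟨k, hk⟩ := (IsPGroup.iff_card.1 (P.2.map ψ))
        have h2 : 17 ^ k ∣ Nat.factorial 18 := by
          rw [← hk, ← hcardPermX]; exact Subgroup.card_subgroup_dvd_card _
        have h3 : k ≤ 1 := by
          by_contra hcon
          push Not at hcon
          exact not_sq_dvd ((pow_dvd_pow 17 hcon).trans h2)
        have h4 : 17 ^ k ≤ 17 ^ 1 := Nat.pow_le_pow_right (by norm_num) h3
        have h5 : orderOf (tr 1) = 17 := by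
          apply orderOf_eq_prime
          · have : ∀ n : ℕ, (tr 1) ^ n = tr (n : F) := by
              intro n
              induction n with
              | zero => rw [Nat.cast_zero, tr_zero]; rfl
              | succ n ih => rw [pow_succ', ih, Nat.cast_succ, tr_add]
            rw [this]
            have : ((17 : ℕ) : F) = 0 := by decide
            rw [this, tr_zero]
          · intro h
            have := congrArg (fun f : Perm X => f (some 0)) h
            simp at this
        rw [hk, Nat.card_zpowers, h5]
        simpa using h4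
    have h2 : ψ (g * u * g⁻¹) ∈ Subgroup.zpowers (tr 1) := by
      rw [hR]; exact ⟨_, h1, rfl⟩
    obtain ⟨k, hk⟩ := Subgroup.mem_zpowers_iff.1 h2
    have htrk : ∀ k : ℤ, (tr 1) ^ k = tr (k : F) := by
      intro k
      have hnat : ∀ n : ℕ, (tr 1) ^ n = tr (n : F) := by
        intro n
        induction n with
        | zero => rw [Nat.cast_zero, tr_zero]; rfl
        | succ n ih => rw [pow_succ', ih, Nat.cast_succ, ← tr_add]
      cases k with
      | ofNat n => simpa using hnat n
      | negSucc n =>
        rw [zpow_negSucc, hnat, ← tr_neg]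
        congr 1
    rw [htrk, map_mul, map_mul, map_inv, hψu, eq_mul_inv_iff_mul_eq] at hk
    have hstep : ∀ x : F, ψ g (some (x + 1)) = tr (k : F) (ψ g (some x)) := by
      intro x
      have := congrArg (fun f : Perm X => f (some x)) hk
      simp only [Perm.mul_apply, tr_some] at this
      exact this.symm
    have h0 : ψ g (some 0) ≠ none := by
      intro h
      have := (ψ g).injective (h.trans hg0.symm)
      simp at this
    obtain ⟨b, hb⟩ := Option.ne_none_iff_exists'.1 h0
    refine ⟨(k : F), b, ?_⟩
    have hn : ∀ n : ℕ, ψ g (some (n : F)) = some ((k : F) * n + b) := by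
      intro n
      induction n with
      | zero => simpa using hb
      | succ n ih =>
        rw [Nat.cast_succ, hstep, ih, tr_some]
        congr 1; ring
    intro x
    have := hn x.val
    rwa [ZMod.natCast_zmod_val] at this
  · intro g hg R
    rw [← Sylow.smul_eq_iff_mem_normalizer]
    obtain ⟨x, rfl⟩ := e.surjective R
    rw [← hψ, hg]; rfl

end H64.Deg18
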