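import Cfsg.Agent.Lib.H64.Deg18B
import Cfsg.Agent.Lib.H64.Deg18C
import Cfsg.Agent.Lib.H64.SylowNumbers
import Cfsg.Agent.Lib.H25.PSL2Recog
import Cfsg.Agent.Lib.H6.Frame

set_option autoImplicit false

/-! The doubly transitive groups of `Deg18` are `PSL(2,17)` and `PGL(2,17)`; groups with Sylow
numbers 18, 136, 153. -/

namespace H64.Deg18

open Equiv

theorem Good.le_of_gens {H : Subgroup (Perm X)} (hH : Good H) (R : Subgroup (Perm X))
    (h1 : ∀ b, tr b ∈ R) (h2 : ∀ a, mu a ∈ H → mu a ∈ R) {w : Perm X} (hwH : w ∈ H)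
    (hw0 : w none = some 0) (hwR : w ∈ R) : H ≤ R := by
  have haff : ∀ h ∈ H, h none = none → h ∈ R := by
    intro h hh h0
    obtain ⟨a, b, ha, e⟩ := hH.exists_affine hh h0
    rw [e]
    exact mul_mem (h1 b) (h2 a ha)
  intro h hh
  by_cases h0 : h none = none
  · exact haff h hh h0
  · obtain ⟨y, hy⟩ := Option.ne_none_iff_exists'.1 h0
    have h3 := haff (w⁻¹ * tr (-y) * h)
      (mul_mem (mul_mem (inv_mem hwH) (hH.tr_mem _)) hh) (by
        simp only [Perm.mul_apply, hy, tr_some, add_neg_cancel]
        rw [← hw0]; simp)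
    have : h = (tr (-y))⁻¹ * w * (w⁻¹ * tr (-y) * h) := by group
    rw [this]
    exact mul_mem (mul_mem (inv_mem (h1 _)) hwR) h3

theorem exists_sl (a b c d : F) (h : a * d - b * c = 1) :
    ∃ m : Matrix.SpecialLinearGroup (Fin 2) F, m 0 0 = a ∧ m 0 1 = b ∧ m 1 0 = c ∧ m 1 1 = d :=
  ⟨⟨!![a, b; c, d], by rw [Matrix.det_fin_two_of, h]⟩, by simp, by simp, by simp, by simp⟩

/-- A faithful group of type `Good` is `PSL(2,17)` or `PGL(2,17)`. -/
theorem iso_of_good {G : Type*} [Group G] (ψ : G →* Perm X) (hinj : Function.Injective ψ)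
    (hG : Good ψ.range) :
    Nonempty (G ≃* Matrix.ProjectiveSpecialLinearGroup (Fin 2) F) ∨
      Nonempty (G ≃* (GL (Fin 2) F ⧸ Subgroup.center (GL (Fin 2) F))) := by
  obtain ⟨w, hw, hw0, hw1, hw2⟩ := hG.exists_inv hG.neg_mem
  obtain ⟨t, -, -, -, htA⟩ := hG.exists_swap hG.neg_mem
  rcases hG.card_AA with hA | hA
  · -- `PSL`
    left
    have hfin : Finite G := Finite.of_injective ψ hinj
    let π : G →* Perm (OnePoint F) := ψ
    have hsq : ∀ a : F, a ≠ 0 → ∃ g : G, π g (OnePoint.infty) = OnePoint.infty ∧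
        ∀ x : F, π g (x : OnePoint F) = ((a ^ 2 * x : F) : OnePoint F) := by
      intro a ha
      obtain ⟨g, hg⟩ := (htA (Units.mk0 a ha)).1
      refine ⟨g, ?_, ?_⟩
      · change ψ g none = none
        rw [hg]; rfl
      · intro x
        change ψ g (some x) = some (a ^ 2 * x)
        rw [hg, mu_some]; simp
    have htr : ∀ b : F, ∃ g : G, π g (OnePoint.infty) = OnePoint.infty ∧
        ∀ x : F, π g (x : OnePoint F) = ((x + b : F) : OnePoint F) := by
      intro b
      obtain ⟨g, hg⟩ := hG.tr_mem b
      refine ⟨g, ?_, ?_⟩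
      · change ψ g none = none
        rw [hg]; rfl
      · intro x
        change ψ g (some x) = some (x + b)
        rw [hg]; simp
    have hwG : ∃ g : G, π g (OnePoint.infty) = ((0 : F) : OnePoint F) ∧
        π g ((0 : F) : OnePoint F) = OnePoint.infty ∧
        ∀ x : F, x ≠ 0 → π g (x : OnePoint F) = ((-x⁻¹ : F) : OnePoint F) := by
      obtain ⟨g, hg⟩ := hw
      refine ⟨g, ?_, ?_, ?_⟩
      · change ψ g none = some 0
        rw [hg, hw0]
      · change ψ g (some 0) = none
        rw [hg, hw1]
      · intro x hx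
        change ψ g (some x) = some (-x⁻¹)
        rw [hg, hw2 x hx]
    apply H25.PSL2Recog.iso_of_mobius π hinj htr hsq hwG
    -- the order
    rw [H25.PSL2Recog.card_psl]
    let ρ : Matrix.SpecialLinearGroup (Fin 2) F →* Perm X := H25.PSL2Recog.rho F
    have hρ0 : ∀ g : Matrix.SpecialLinearGroup (Fin 2) F,
        ρ g none = if g 1 0 = 0 then none else some (g 0 0 / g 1 0) :=
      fun g => H25.PSL2Recog.rho_infty g
    have hρ1 : ∀ (g : Matrix.SpecialLinearGroup (Fin 2) F) (k : F),
        ρ g (some k) = if g 1 0 * k + g 1 1 = 0 then none else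
        some ((g 0 0 * k + g 0 1) / (g 1 0 * k + g 1 1)) := fun g k => H25.PSL2Recog.rho_some g k
    have hle : ψ.range ≤ ρ.range := by
      apply hG.le_of_gens _ _ _ hw hw0 _
      · intro b
        obtain ⟨m, m1, m2, m3, m4⟩ := exists_sl 1 b 0 1 (by ring)
        refine ⟨m, ?_⟩
        apply Equiv.ext
        intro x
        cases x with
        | none => rw [hρ0, m3, if_pos rfl]; rfl
        | some x => rw [hρ1, m1, m2, m3, m4]; simp
      · intro a ha
        have h8 : (a : F) ^ 8 = 1 := by
          have h1 : (⟨a, ha⟩ : AA ψ.range) ^ 8 = 1 := by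
            rw [← hA]; exact pow_card_eq_one'
          have h2 := congrArg (fun x : AA ψ.range => ((x : Fˣ) : F)) h1
          simpa using h2
        have hdec : ∀ a : F, a ^ 8 = 1 → ∃ e : F, e ≠ 0 ∧ a = e ^ 2 := by decide +kernel
        obtain ⟨e, he, hae⟩ := hdec a h8
        obtain ⟨m, m1, m2, m3, m4⟩ := exists_sl e 0 0 e⁻¹ (by field_simp; ring)
        refine ⟨m, ?_⟩
        apply Equiv.ext
        intro x
        cases x with
        | none => rw [hρ0, m3, if_pos rfl]; rfl
        | some x =>
          rw [hρ1, mu_some, hae, m1, m2, m3, m4, zero_mul, zero_add, if_neg (inv_ne_zero he)]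
          congr 1
          field_simp
          ring
      · obtain ⟨m, m1, m2, m3, m4⟩ := exists_sl 0 (-1) 1 0 (by ring)
        refine ⟨m, ?_⟩
        apply Equiv.ext
        intro x
        cases x with
        | none => rw [hρ0, hw0, m1, m3]; simp
        | some x =>
          rw [hρ1, m1, m2, m3, m4]
          by_cases hx : x = 0
          · rw [hx, hw1]; simp
          · rw [hw2 x hx, one_mul, add_zero, if_neg hx]
            congr 1
            field_simp
            ring
    have h1 : Nat.card G = Nat.card ψ.range :=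
      Nat.card_congr (MonoidHom.ofInjective hinj).toEquiv
    rw [h1]
    exact Nat.card_le_card_of_injective _ (Subgroup.inclusion_injective hle)
  · -- `PGL`
    right
    have hall : ∀ a : Fˣ, mu a ∈ ψ.range := by
      have h1 : AA ψ.range = ⊤ := by
        apply Subgroup.eq_top_of_card_eq
        rw [hA, Nat.card_eq_fintype_card, ZMod.card_units]
      intro a
      rw [← mem_AA, h1]; trivial
    let ρ : GL (Fin 2) F →* Perm X := MulAction.toPermHom (GL (Fin 2) F) (OnePoint F)
    have hρ0 : ∀ g : GL (Fin 2) F, ρ g none = if g 1 0 = 0 then none else some (g 0 0 / g 1 0) :=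
      fun g => OnePoint.smul_infty_eq_ite g
    have hρ1 : ∀ (g : GL (Fin 2) F) (k : F), ρ g (some k) = if g 1 0 * k + g 1 1 = 0 then none else
        some ((g 0 0 * k + g 0 1) / (g 1 0 * k + g 1 1)) := fun g k => OnePoint.smul_some_eq_ite
    have hker : ρ.ker = Subgroup.center (GL (Fin 2) F) := by
      ext g
      rw [MonoidHom.mem_ker, Matrix.GeneralLinearGroup.mem_center_iff_val_mem_range_scalar]
      constructor
      · intro h
        have h1 : ρ g none = none := by rw [h]; rfl
        have h2 : ρ g (some 0) = some 0 := by rw [h]; rfl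
        have h3 : ρ g (some 1) = some 1 := by rw [h]; rfl
        rw [hρ0] at h1
        have c0 : g 1 0 = 0 := by
          by_contra hc
          rw [if_neg hc] at h1
          simp at h1
        rw [hρ1, c0, zero_mul, zero_add] at h2 h3
        have hdet := g.det_ne_zero
        rw [Matrix.det_fin_two, c0, mul_zero, sub_zero] at hdet
        have d0 : g 1 1 ≠ 0 := right_ne_zero_of_mul hdet
        rw [if_neg d0] at h2 h3
        have h2' := Option.some.inj h2
        have h3' := Option.some.inj h3
        rw [div_eq_iff d0] at h2' h3'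
        rw [mul_zero, zero_add, zero_mul] at h2'
        rw [h2', mul_one, add_zero, one_mul] at h3'
        refine ⟨g 0 0, ?_⟩
        ext i j
        fin_cases i <;> fin_cases j <;> simp [c0, h2', h3']
      · rintro ⟨r, hr⟩
        have e00 : g 0 0 = r := by rw [← hr]; simp
        have e11 : g 1 1 = r := by rw [← hr]; simp
        have e01 : g 0 1 = 0 := by rw [← hr]; simp
        have e10 : g 1 0 = 0 := by rw [← hr]; simp
        have hdet := g.det_ne_zero
        rw [Matrix.det_fin_two, e10, mul_zero, sub_zero, e00] at hdet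
        have hr0 : r ≠ 0 := left_ne_zero_of_mul hdet
        apply Equiv.ext
        intro x
        cases x with
        | none => rw [hρ0, if_pos e10]; rfl
        | some x =>
          rw [hρ1, e10, e11, e00, e01, zero_mul, zero_add, if_neg hr0, add_zero,
            mul_div_cancel_left₀ x hr0]
          rfl
    have hrange : ρ.range = ψ.range := by
      apply le_antisymm
      · rintro _ ⟨g, rfl⟩
        have hdet := g.det_ne_zero
        rw [Matrix.det_fin_two] at hdet
        by_cases hc : g 1 0 = 0
        · rw [hc, mul_zero, sub_zero] at hdet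
          have d0 : g 1 1 ≠ 0 := right_ne_zero_of_mul hdet
          have a0 : g 0 0 ≠ 0 := left_ne_zero_of_mul hdet
          have : ρ g = tr (g 0 1 / g 1 1) * mu (Units.mk0 (g 0 0 / g 1 1) (div_ne_zero a0 d0)) := by
            apply Equiv.ext
            intro x
            cases x with
            | none => rw [hρ0, if_pos hc]; rfl
            | some x =>
              rw [hρ1, hc, zero_mul, zero_add, if_neg d0, Perm.mul_apply, mu_some, tr_some,
                Units.val_mk0]
              congr 1
              field_simp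
          rw [this]
          exact mul_mem (hG.tr_mem _) (hall _)
        · set D := g 0 0 * g 1 1 - g 0 1 * g 1 0 with hD
          have : ρ g = tr (g 0 0 / g 1 0) * w * (tr (g 1 0 * g 1 1 / D) *
              mu (Units.mk0 (g 1 0 ^ 2 / D) (div_ne_zero (pow_ne_zero 2 hc) hdet))) := by
            apply Equiv.ext
            intro x
            simp only [Perm.mul_apply]
            cases x with
            | none => rw [hρ0, if_neg hc, mu_none, tr_none, hw0, tr_some, zero_add]
            | some x =>
              rw [hρ1, mu_some, tr_some, Units.val_mk0]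
              have e1 : g 1 0 ^ 2 / D * x + g 1 0 * g 1 1 / D = g 1 0 * (g 1 0 * x + g 1 1) / D := by
                field_simp
              rw [e1]
              by_cases hz : g 1 0 * x + g 1 1 = 0
              · rw [if_pos hz, hz, mul_zero, zero_div, hw1, tr_none]
              · rw [if_neg hz, hw2 _ (div_ne_zero (mul_ne_zero hc hz) hdet), tr_some]
                congr 1
                obtain ⟨y, hy⟩ : ∃ y, y = g 1 0 * x + g 1 1 := ⟨_, rfl⟩
                rw [← hy] at hz ⊢
                clear_value D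
                field_simp
                linear_combination hD - g 0 0 * hy
          rw [this]
          exact mul_mem (mul_mem (hG.tr_mem _) hw) (mul_mem (hG.tr_mem _) (hall _))
      · apply hG.le_of_gens _ _ _ hw hw0 _
        · intro b
          refine ⟨Matrix.GeneralLinearGroup.mkOfDetNeZero !![1, b; 0, 1]
            (by simp [Matrix.det_fin_two]), ?_⟩
          apply Equiv.ext
          intro x
          cases x with
          | none => rw [hρ0]; simp [Matrix.GeneralLinearGroup.mkOfDetNeZero]
          | some x => rw [hρ1]; simp [Matrix.GeneralLinearGroup.mkOfDetNeZero]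
        · intro a ha
          refine ⟨Matrix.GeneralLinearGroup.mkOfDetNeZero !![(a : F), 0; 0, 1]
            (by simp [Matrix.det_fin_two]), ?_⟩
          apply Equiv.ext
          intro x
          cases x with
          | none => rw [hρ0]; simp [Matrix.GeneralLinearGroup.mkOfDetNeZero]
          | some x => rw [hρ1]; simp [Matrix.GeneralLinearGroup.mkOfDetNeZero]
        · refine ⟨Matrix.GeneralLinearGroup.mkOfDetNeZero !![0, -1; 1, 0]
            (by simp [Matrix.det_fin_two]), ?_⟩
          apply Equiv.ext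
          intro x
          cases x with
          | none => rw [hρ0, hw0]; simp [Matrix.GeneralLinearGroup.mkOfDetNeZero]
          | some x =>
            rw [hρ1]
            by_cases hx : x = 0
            · rw [hx, hw1]; simp [Matrix.GeneralLinearGroup.mkOfDetNeZero]
            · rw [hw2 x hx]
              simp [Matrix.GeneralLinearGroup.mkOfDetNeZero, hx]
              field_simp
    exact ⟨((MonoidHom.ofInjective hinj).trans (MulEquiv.subgroupCongr hrange.symm)).trans
      ((QuotientGroup.quotientMulEquivOfEq hker.symm).trans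
        (QuotientGroup.quotientKerEquivRange ρ)).symm⟩

theorem nprime {G : Type*} [Group G] [Finite G]
    (hNS : {c : ℕ | ∃ r : ℕ, r.Prime ∧ r ∣ Nat.card G ∧ c = Nat.card (Sylow r G)} =
      ({18, 136, 153} : Set ℕ)) (r : ℕ) (hr : r.Prime) (hrG : r ∣ Nat.card G) :
    (Nat.card (Sylow r G) = 18 ∧ r = 17) ∨ (Nat.card (Sylow r G) = 136 ∧ (r = 3 ∨ r = 5)) ∨
      (Nat.card (Sylow r G) = 153 ∧ (r = 2 ∨ r = 19)) := by
  have : Fact r.Prime := ⟨hr⟩
  have h1 : Nat.card (Sylow r G) ∈ ({18, 136, 153} : Set ℕ) := by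
    rw [← hNS]; exact ⟨r, hr, hrG, rfl⟩
  have h2 := card_sylow_modEq_one r G
  have key : ∀ n : ℕ, 1 ≤ n → n ≡ 1 [MOD r] → r ∣ n - 1 := fun n hn h =>
    (Nat.modEq_iff_dvd' hn).1 h.symm
  simp only [Set.mem_insert_iff, Set.mem_singleton_iff] at h1
  rcases h1 with h | h | h
  · left
    rw [h] at h2
    have h3 : r ∣ 17 := key 18 (by norm_num) h2
    exact ⟨h, (Nat.prime_dvd_prime_iff_eq hr (by norm_num)).1 h3⟩
  · right; left
    rw [h] at h2
    have h3 : r ∣ 3 ^ 3 * 5 := key 136 (by norm_num) h2
    refine ⟨h, ?_⟩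
    rcases (Nat.Prime.dvd_mul hr).1 h3 with h4 | h4
    · left; exact (Nat.prime_dvd_prime_iff_eq hr (by norm_num)).1 (hr.dvd_of_dvd_pow h4)
    · right; exact (Nat.prime_dvd_prime_iff_eq hr (by norm_num)).1 h4
  · right; right
    rw [h] at h2
    have h3 : r ∣ 2 ^ 3 * 19 := key 153 (by norm_num) h2
    refine ⟨h, ?_⟩
    rcases (Nat.Prime.dvd_mul hr).1 h3 with h4 | h4
    · left; exact (Nat.prime_dvd_prime_iff_eq hr (by norm_num)).1 (hr.dvd_of_dvd_pow h4)
    · right; exact (Nat.prime_dvd_prime_iff_eq hr (by norm_num)).1 h4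

theorem main {G : Type*} [Group G] [Finite G] (hZ : Subgroup.center G = ⊥)
    (hNS : {c : ℕ | ∃ r : ℕ, r.Prime ∧ r ∣ Nat.card G ∧ c = Nat.card (Sylow r G)} =
      ({18, 136, 153} : Set ℕ)) :
    Nonempty (G ≃* Matrix.ProjectiveSpecialLinearGroup (Fin 2) F) ∨
      Nonempty (G ≃* (GL (Fin 2) F ⧸ Subgroup.center (GL (Fin 2) F))) := by
  have f2 : Fact (Nat.Prime 2) := ⟨Nat.prime_two⟩
  have f3 : Fact (Nat.Prime 3) := ⟨Nat.prime_three⟩
  have f5 : Fact (Nat.Prime 5) := ⟨Nat.prime_five⟩
  have f19 : Fact (Nat.Prime 19) := ⟨by norm_num⟩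
  have hn := nprime hNS
  have h17 : 17 ∣ Nat.card G ∧ Nat.card (Sylow 17 G) = 18 := by
    have : (18 : ℕ) ∈ ({18, 136, 153} : Set ℕ) := by simp
    rw [← hNS] at this
    obtain ⟨r, hr, hrG, h⟩ := this
    rcases hn r hr hrG with ⟨_, rfl⟩ | ⟨h1, _⟩ | ⟨h1, _⟩
    · exact ⟨hrG, h.symm⟩
    · omega
    · omega
  have h18G : 18 ∣ Nat.card G := by
    obtain ⟨P⟩ : Nonempty (Sylow 17 G) := inferInstance
    rw [← h17.2, P.card_eq_index_normalizer]
    exact Subgroup.index_dvd_card _
  have h2 : Nat.card (Sylow 2 G) = 153 := by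
    rcases hn 2 Nat.prime_two (dvd_trans (by norm_num) h18G) with ⟨_, h⟩ | ⟨_, h⟩ | ⟨h, _⟩
    · omega
    · omega
    · exact h
  have h3 : Nat.card (Sylow 3 G) = 136 := by
    rcases hn 3 Nat.prime_three (dvd_trans (by norm_num) h18G) with ⟨_, h⟩ | ⟨h, _⟩ | ⟨_, h⟩
    · omega
    · exact h
    · omega
  obtain ⟨ψ, hG, hker⟩ := exists_hom h17.2
  have hsurj : Function.Surjective ψ.rangeRestrict := ψ.rangeRestrict_surjective
  have hfinr : Finite ψ.range := inferInstance
  have hK17 : ∀ P : Sylow 17 G, ∀ g ∈ ψ.ker, g • P = P := by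
    intro P g hg
    rw [Sylow.smul_eq_iff_mem_normalizer]
    exact hker g hg P
  have hone : ∀ g ∈ ψ.ker, ψ.rangeRestrict g = 1 := fun g hg => Subtype.ext hg
  have hK2 : ∀ P : Sylow 2 G, ∀ g ∈ ψ.ker, g • P = P := by
    intro P g hg
    apply SylowNumbers.ker_smul_eq ψ.rangeRestrict hsurj _ (hone g hg)
    rw [h2, hG.card_sylow_two]
  have hK3 : ∀ P : Sylow 3 G, ∀ g ∈ ψ.ker, g • P = P := by
    intro P g hg
    apply SylowNumbers.ker_smul_eq ψ.rangeRestrict hsurj _ (hone g hg)
    have e1 : Nat.card (Sylow 3 ψ.range) ∣ 136 := by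
      rw [← h3]; exact SylowNumbers.card_dvd_of_surjective ψ.rangeRestrict hsurj
    have e2 := hG.card_sylow_three
    have e3 : Nat.card (Sylow 3 ψ.range) % 3 = 1 := card_sylow_modEq_one 3 ψ.range
    rw [h3]
    obtain ⟨k, hk⟩ := e1
    have hk4 : k < 4 := by
      by_contra hcon
      push Not at hcon
      have : 35 * 4 ≤ Nat.card (Sylow 3 ψ.range) * k := Nat.mul_le_mul e2 hcon
      omega
    interval_cases k <;> omega
  -- primes 5 and 19
  have hbad : ∀ p : ℕ, p.Prime → p ∣ Nat.card G → (p = 5 ∨ p = 19) → False := by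
    intro p hp hpG hp5
    have : Fact p.Prime := ⟨hp⟩
    have hpH : ¬ p ∣ Nat.card ψ.range := by
      rw [hG.card_eq]
      rcases hG.card_AA with h | h <;> rw [h] <;> rcases hp5 with rfl | rfl <;> omega
    have hle : ∀ Q : Sylow p G, (Q : Subgroup G) ≤ ψ.ker := by
      intro Q x hx
      rw [MonoidHom.mem_ker]
      have h1 : ψ.rangeRestrict x = 1 := by
        rw [← orderOf_eq_one_iff]
        obtain ⟨n, hn⟩ := Q.2 ⟨x, hx⟩
        have hn' : x ^ p ^ n = 1 := by simpa using congrArg Subtype.val hn
        have h2 : orderOf (ψ.rangeRestrict x) ∣ p ^ n := by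
          apply orderOf_dvd_of_pow_eq_one
          rw [← map_pow, hn', map_one]
        have h3 : orderOf (ψ.rangeRestrict x) ∣ Nat.card ψ.range := orderOf_dvd_natCard _
        have h4 : Nat.Coprime (p ^ n) (Nat.card ψ.range) :=
          Nat.Coprime.pow_left n ((Nat.Prime.coprime_iff_not_dvd hp).2 hpH)
        have h5 := Nat.dvd_gcd h2 h3
        rw [h4] at h5
        exact Nat.dvd_one.1 h5
      exact congrArg Subtype.val h1
    have hcard := SylowNumbers.card_sylow_eq_of_le hle
    obtain ⟨V⟩ : Nonempty (Sylow 17 ψ.ker) := inferInstance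
    have hV := SylowNumbers.normal_of_normalizes (K := ψ.ker) hK17 V
    rcases hn p hp hpG with ⟨_, h⟩ | ⟨h1, h⟩ | ⟨h1, h⟩
    · omega
    · apply SylowNumbers.no_seventeen p 17 (by omega) (by rcases hp5 with rfl | rfl <;> omega) V
      · rw [hcard, h1]; norm_num
      · rw [hcard, h1]; norm_num
    · apply SylowNumbers.no_seventeen p 17 (by omega) (by rcases hp5 with rfl | rfl <;> omega) V
      · rw [hcard, h1]; norm_num
      · rw [hcard, h1]; norm_num
  have hbot : ψ.ker = ⊥ := by
    apply SylowNumbers.eq_bot_of_normalizes hZ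
    intro p hp P g hg
    have : Fact p.Prime := ⟨hp⟩
    by_cases hpG : p ∣ Nat.card G
    · rcases hn p hp hpG with ⟨_, rfl⟩ | ⟨_, rfl | h⟩ | ⟨_, rfl | h⟩
      · exact hK17 P g hg
      · exact hK3 P g hg
      · exact (hbad p hp hpG (Or.inl h)).elim
      · exact hK2 P g hg
      · exact (hbad p hp hpG (Or.inr h)).elim
    · have h1 : (P : Subgroup G) = ⊥ := by
        obtain ⟨n, hn⟩ := IsPGroup.iff_card.1 P.2
        rw [← Subgroup.card_eq_one, hn]
        have h2 : p ^ n ∣ Nat.card G := by
          rw [← hn]; exact Subgroup.card_subgroup_dvd_card _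
        cases n with
        | zero => rfl
        | succ n => exact absurd ((dvd_pow_self p (Nat.succ_ne_zero n)).trans h2) hpG
      have hPn : (P : Subgroup G).Normal := by rw [h1]; infer_instance
      exact Sylow.smul_eq_of_normal
  exact iso_of_good ψ ((MonoidHom.ker_eq_bot_iff ψ).1 hbot) hG

end H64.Deg18
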