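import Mathlib

set_option autoImplicit false

/-! A computable field with 4 elements. -/

namespace H64

/-- The field with 4 elements, as bit vectors modulo `x^2 + x + 1`. -/
def F4 : Type := Fin 4

namespace F4

instance : DecidableEq F4 := inferInstanceAs (DecidableEq (Fin 4))
instance : Fintype F4 := inferInstanceAs (Fintype (Fin 4))

/-- multiplication table -/
def TAB : ℕ := 2625168384

/-- the element with code `n` -/
def c (n : ℕ) : F4 := (⟨n % 4, Nat.mod_lt _ (by norm_num)⟩ : Fin 4)

/-- the code of an element -/
def code (a : F4) : ℕ := Fin.val (n := 4) a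

def add (a b : F4) : F4 := c (Nat.xor a.code b.code)
def mul (a b : F4) : F4 := c (Nat.shiftRight TAB (2 * (4 * a.code + b.code)))
def inv (a : F4) : F4 := c (Nat.shiftRight 180 (2 * a.code))

instance : Zero F4 := ⟨c 0⟩
instance : One F4 := ⟨c 1⟩
instance : Add F4 := ⟨add⟩
instance : Mul F4 := ⟨mul⟩
instance : Neg F4 := ⟨id⟩
instance : Inv F4 := ⟨inv⟩

instance : CommRing F4 where
  add_assoc := by decide +kernel
  zero_add := by decide +kernel
  add_zero := by decide +kernel
  add_comm := by decide +kernel
  neg_add_cancel := by decide +kernel
  left_distrib := by decide +kernel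
  right_distrib := by decide +kernel
  zero_mul := by decide +kernel
  mul_zero := by decide +kernel
  mul_assoc := by decide +kernel
  one_mul := by decide +kernel
  mul_one := by decide +kernel
  mul_comm := by decide +kernel
  nsmul := nsmulRec
  zsmul := zsmulRec

instance : Field F4 where
  inv := inv
  exists_pair_ne := ⟨0, 1, by decide +kernel⟩
  mul_inv_cancel := by decide +kernel
  inv_zero := by decide +kernel
  nnqsmul := _
  nnqsmul_def := fun _ _ => rfl
  qsmul := _
  qsmul_def := fun _ _ => rfl

theorem card : Fintype.card F4 = 4 := rfl

end F4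

end H64
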