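import Cfsg.Agent.Lib.H64.F4
import Cfsg.Prelude.Def_Steinberg
import Cfsg.Prelude.Def_ChevG2

set_option autoImplicit false

/-! The 6-dimensional representation of `G2(4)`: the root elements and Steinberg's relations. -/

namespace H64.G24

open H64 Matrix Cfsg.Lie

abbrev M6 := Matrix (Fin 6) (Fin 6) F4

/-- the off-diagonal entries of the root elements: `(row, column, exponent)` -/
def ent : List (List (ℕ × ℕ × ℕ)) := [
  [(4, 0, 1), (5, 1, 1)],
  [(3, 0, 1), (5, 2, 1)],
  [(3, 1, 1), (4, 2, 1), (5, 0, 2)],
  [(2, 0, 1), (4, 1, 2), (5, 3, 1)],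
  [(1, 0, 1), (3, 2, 2), (5, 4, 1)],
  [(2, 1, 1), (4, 3, 1)],
  [(1, 2, 1), (3, 4, 1)],
  [(0, 1, 1), (2, 3, 2), (4, 5, 1)],
  [(0, 2, 1), (1, 4, 2), (3, 5, 1)],
  [(0, 5, 2), (1, 3, 1), (2, 4, 1)],
  [(0, 3, 1), (2, 5, 1)],
  [(0, 4, 1), (1, 5, 1)]]

/-- the off-diagonal entry in row `i`: column and exponent -/
def rowE (r i : ℕ) : Option (ℕ × ℕ) := ((ent.getD r []).find? fun e => e.1 = i).map Prod.snd

def app (r : ℕ) (t : F4) (B : M6) : M6 := Matrix.of fun i j =>
  match rowE r i.1 with
  | none => B i j
  | some e => F4.add (B i j) (F4.mul (if e.2 = 1 then t else F4.mul t t) (B (Fin.ofNat 6 e.1) j))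

def appW (w : List (ℕ × F4)) (B : M6) : M6 := w.foldr (fun p C => app p.1 p.2 C) B

def els : List F4 := [F4.c 0, F4.c 1, F4.c 2, F4.c 3]

theorem mem_els : ∀ t : F4, t ∈ els := by decide +kernel

def eqM (A B : M6) : Bool :=
  (List.finRange 6).all fun i => (List.finRange 6).all fun j => (A i j).code == (B i j).code

theorem eq_of_eqM {A B : M6} (h : eqM A B = true) : A = B := by
  unfold eqM at h
  rw [List.all_eq_true] at h
  ext i j
  have h1 := h i (List.mem_finRange i)
  rw [List.all_eq_true] at h1
  have h2 := h1 j (List.mem_finRange j)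
  rw [beq_iff_eq] at h2
  exact Fin.ext h2

def X (r : ℕ) (t : F4) : M6 := app r t 1

theorem app_eq (r : ℕ) (t : F4) (B : M6) : app r t B = X r t * B := by
  ext i j
  rw [Matrix.mul_apply]
  unfold X app
  simp only [Matrix.of_apply]
  rcases rowE r i.1 with _ | e
  · simp [Matrix.one_apply]
  · have h : ∀ a b : F4, F4.add a b = a + b := fun _ _ => rfl
    have h' : ∀ a b : F4, F4.mul a b = a * b := fun _ _ => rfl
    simp only [h, h']
    simp [Matrix.one_apply, add_mul, Finset.sum_add_distrib]

theorem X_big {r : ℕ} (hr : 12 ≤ r) (t : F4) : X r t = 1 := by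
  have h1 : ent.getD r [] = [] := List.getD_eq_default _ _ (by simpa [ent] using hr)
  ext i j
  unfold X app rowE
  rw [h1]
  rfl

def wordM (w : List (ℕ × F4)) : M6 := (w.map fun p => X p.1 p.2).prod

theorem appW_eq (w : List (ℕ × F4)) (B : M6) : appW w B = wordM w * B := by
  induction w with
  | nil => simp [appW, wordM]
  | cons p w ih =>
    unfold appW wordM at *
    rw [List.foldr_cons, ih, app_eq, List.map_cons, List.prod_cons, Matrix.mul_assoc]

theorem wordM_eq_of {w w' : List (ℕ × F4)} (h : eqM (appW w 1) (appW w' 1) = true) : wordM w = wordM w' := by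
  have := eq_of_eqM h
  rwa [appW_eq, appW_eq, mul_one, mul_one] at this

def checkR1 (r : ℕ) : Bool := els.all fun t => els.all fun u =>
  eqM (appW [(r, t), (r, u)] 1) (appW [(r, t + u)] 1)

theorem R1_all : (List.range 12).all checkR1 = true := by decide +kernel

def checkR3 (r : ℕ) : Bool := els.all fun t => els.all fun u =>
  (t.code == 0) || (u.code == 0) ||
    eqM (appW (chevG2.hWord r t ++ chevG2.hWord r u) 1) (appW (chevG2.hWord r (t * u)) 1)

theorem R3_all : (List.range 12).all checkR3 = true := by decide +kernel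

def checkR2 (r s : ℕ) : Bool :=
  (s == r) || (s == chevG2.neg r) || (els.all fun t => els.all fun u =>
    eqM (appW [(s, u), (r, t), (s, u), (r, t)] 1) (appW (chevG2.commWord F4 r s t u) 1))

theorem R2_0 : (List.range 12).all (checkR2 0) = true := by decide +kernel
theorem R2_1 : (List.range 12).all (checkR2 1) = true := by decide +kernel
theorem R2_2 : (List.range 12).all (checkR2 2) = true := by decide +kernel
theorem R2_3 : (List.range 12).all (checkR2 3) = true := by decide +kernel
theorem R2_4 : (List.range 12).all (checkR2 4) = true := by decide +kernel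
theorem R2_5 : (List.range 12).all (checkR2 5) = true := by decide +kernel
theorem R2_6 : (List.range 12).all (checkR2 6) = true := by decide +kernel
theorem R2_7 : (List.range 12).all (checkR2 7) = true := by decide +kernel
theorem R2_8 : (List.range 12).all (checkR2 8) = true := by decide +kernel
theorem R2_9 : (List.range 12).all (checkR2 9) = true := by decide +kernel
theorem R2_10 : (List.range 12).all (checkR2 10) = true := by decide +kernel
theorem R2_11 : (List.range 12).all (checkR2 11) = true := by decide +kernel

theorem R2_all (r s : ℕ) (hr : r < 12) (hs : s < 12) : checkR2 r s = true := by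
  have h : (List.range 12).all (checkR2 r) = true := by
    interval_cases r
    · exact R2_0
    · exact R2_1
    · exact R2_2
    · exact R2_3
    · exact R2_4
    · exact R2_5
    · exact R2_6
    · exact R2_7
    · exact R2_8
    · exact R2_9
    · exact R2_10
    · exact R2_11
  rw [List.all_eq_true] at h
  exact h s (List.mem_range.2 hs)

end H64.G24
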