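import Cfsg.Agent.Lib.H64.G24
import Cfsg.Agent.Lib.H64.PrimeGraph
import Cfsg.Agent.Lib.H64.SylowPrime
import Cfsg.Agent.Lib.H22.StThm
import Cfsg.Agent.Lib.H22.ChevAll
import Cfsg.Agent.Lib.H22.ChevField
import Cfsg.Agent.S1059

set_option autoImplicit false

/-! The 6-dimensional representation of `G2(4)`. -/

namespace H64.G24

open H64 Matrix Cfsg.Lie

theorem X_mul (r : ℕ) (t u : F4) : X r t * X r u = X r (t + u) := by
  by_cases hr : r < 12
  · have h := R1_all
    rw [List.all_eq_true] at h
    have h1 := h r (List.mem_range.2 hr)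
    unfold checkR1 at h1
    rw [List.all_eq_true] at h1
    have h2 := h1 t (mem_els t)
    rw [List.all_eq_true] at h2
    have h3 := wordM_eq_of (h2 u (mem_els u))
    simpa [wordM] using h3
  · rw [X_big (by omega), X_big (by omega), X_big (by omega), one_mul]

theorem add_self (t : F4) : t + t = 0 := by revert t; decide +kernel

theorem X_zero (r : ℕ) : X r 0 = 1 := by
  ext i j
  unfold X app
  simp only [Matrix.of_apply]
  rcases rowE r i.1 with _ | e
  · rfl
  · have h1 : ∀ a b : F4, F4.add a b = a + b := fun _ _ => rfl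
    have h2 : ∀ a b : F4, F4.mul a b = a * b := fun _ _ => rfl
    simp [h1, h2]

theorem X_sq (r : ℕ) (t : F4) : X r t * X r t = 1 := by
  rw [X_mul, add_self, X_zero]

/-- the root elements as units -/
def U (r : ℕ) (t : F4) : M6ˣ := ⟨X r t, X r t, X_sq r t, X_sq r t⟩

theorem U_val (r : ℕ) (t : F4) : (U r t : M6) = X r t := rfl

theorem U_inv (r : ℕ) (t : F4) : (U r t)⁻¹ = U r t := rfl

theorem U_big {r : ℕ} (hr : 12 ≤ r) (t : F4) : U r t = 1 := Units.ext (X_big hr t)

def f0 (p : Fin chevG2.nroots × F4) : M6ˣ := U p.1.1 p.2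

theorem lift_stX (r : ℕ) (t : F4) : FreeGroup.lift f0 (chevG2.stX r t) = U r t := by
  unfold ChevalleyDatum.stX
  split_ifs with h
  · rw [FreeGroup.lift_apply_of]; rfl
  · rw [map_one, U_big]
    exact Nat.not_lt.1 h

theorem lift_stWord (w : List (ℕ × F4)) :
    ((FreeGroup.lift f0 (chevG2.stWord w) : M6ˣ) : M6) = wordM w := by
  induction w with
  | nil => simp [ChevalleyDatum.stWord, wordM]
  | cons p w ih =>
    unfold ChevalleyDatum.stWord wordM at *
    rw [List.map_cons, List.prod_cons, map_mul, Units.val_mul, ih, lift_stX, List.map_cons, List.prod_cons]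
    rfl

theorem wordM_append (w w' : List (ℕ × F4)) : wordM (w ++ w') = wordM w * wordM w' := by
  unfold wordM
  rw [List.map_append, List.prod_append]

theorem rels : ∀ g ∈ chevG2.steinbergRels F4, FreeGroup.lift f0 g = 1 := by
  rintro g ((⟨r, t, u, hr, rfl⟩ | ⟨r, s, t, u, hr, hs, hsr, hsn, rfl⟩) | ⟨r, t, u, hr, ht, hu, rfl⟩)
  · rw [map_mul, map_mul, map_inv, lift_stX, lift_stX, lift_stX, mul_inv_eq_one]
    apply Units.ext
    rw [Units.val_mul]
    exact X_mul r t u
  · rw [map_mul, map_mul, map_mul, map_mul, map_inv, map_inv, map_inv, lift_stX, lift_stX, mul_inv_eq_one]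
    apply Units.ext
    rw [lift_stWord]
    rw [U_inv, U_inv]
    have h := R2_all r s hr hs
    unfold checkR2 at h
    rw [Bool.or_eq_true, Bool.or_eq_true] at h
    rcases h with (h | h) | h
    · exact absurd (beq_iff_eq.1 h) hsr
    · exact absurd (beq_iff_eq.1 h) hsn
    · rw [List.all_eq_true] at h
      have h1 := h t (mem_els t)
      rw [List.all_eq_true] at h1
      have h2 := wordM_eq_of (h1 u (mem_els u))
      rw [← h2]
      simp [wordM, U_val, mul_assoc]
  · rw [map_mul, map_mul, map_inv, mul_inv_eq_one]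
    apply Units.ext
    rw [Units.val_mul]
    unfold ChevalleyDatum.stH
    rw [lift_stWord, lift_stWord, lift_stWord]
    have h := R3_all
    rw [List.all_eq_true] at h
    have h1 := h r (List.mem_range.2 hr)
    unfold checkR3 at h1
    rw [List.all_eq_true] at h1
    have h2 := h1 t (mem_els t)
    rw [List.all_eq_true] at h2
    have h3 := h2 u (mem_els u)
    rw [Bool.or_eq_true, Bool.or_eq_true] at h3
    rcases h3 with (h3 | h3) | h3
    · exact absurd (Fin.ext (beq_iff_eq.1 h3)) ht
    · exact absurd (Fin.ext (beq_iff_eq.1 h3)) hu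
    · rw [← wordM_append]
      exact wordM_eq_of h3

/-- the presented group -/
abbrev L := chevG2.SteinbergGroup F4

/-- the 6-dimensional representation -/
def ρ : L →* M6ˣ := PresentedGroup.toGroup rels

theorem ρ_word (w : List (ℕ × F4)) :
    ((ρ (PresentedGroup.mk _ (chevG2.stWord w)) : M6ˣ) : M6) = wordM w := by
  rw [← lift_stWord]
  rfl

/-! ### `L` is `G2(4)` -/

theorem mem_list : chevG2 ∈ [chevG2, chevB2, chevD4, chevF4, chevE6, chevE7, chevE8] := by simp

theorem exists_equiv : Nonempty (L ≃* chevG2.group F4) := by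
  obtain ⟨θ, hs, hk, -⟩ := H22.St.s1077 (K := F4) chevG2 mem_list
  have hc := H22.St.s1078 (K := F4) chevG2 (by simp)
  rw [hc] at hk
  exact ⟨MulEquiv.ofBijective θ ⟨(MonoidHom.ker_eq_bot_iff θ).1 hk, hs⟩⟩

theorem card_L : Nat.card L = 251596800 := by
  obtain ⟨e⟩ := exists_equiv
  rw [Nat.card_congr e.toEquiv, Cfsg.Agent.S1059.result F4.card]
  norm_num

instance : Finite L := Nat.finite_of_card_ne_zero (by rw [card_L]; norm_num)

theorem simple_L : IsSimpleGroup L := by
  obtain ⟨e⟩ := exists_equiv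
  have h := (H22.ChevSimple.s1055 (H22.ChevAll.rel chevG2 (by simp) F4)
    ⟨F4.c 2, by decide +kernel, by decide +kernel⟩).1
  exact e.isSimpleGroup

end H64.G24
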