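import Cfsg.Agent.Lib.H64.G24B

set_option autoImplicit false

/-! Arbitrarily large groups with the prime graph of `G2(4)`. -/

namespace H64.G24

open H64 Matrix Cfsg.Lie

def mat (l : List (List ℕ)) : M6 := Matrix.of fun i j => F4.c ((l.getD i.1 []).getD j.1 0)

def w6 : List (ℕ × F4) := [(4, 1), (5, 1), (6, 1)]
def w7 : List (ℕ × F4) := [(4, 1), (5, 1), (7, 1), (6, 1)]
def w10 : List (ℕ × F4) := [(4, 1), (5, 1), (6, F4.c 2)]
def w13 : List (ℕ × F4) := [(4, 1), (5, 1), (7, F4.c 2), (6, F4.c 3)]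

def A6 : M6 := mat [[1, 0, 0, 0, 0, 0], [1, 1, 1, 0, 0, 0], [0, 1, 0, 0, 0, 0], [0, 1, 0, 1, 1, 0], [0, 0, 0, 1, 0, 0], [0, 0, 0, 1, 0, 1]]
def A7 : M6 := mat [[1, 1, 1, 0, 0, 0], [1, 0, 0, 0, 0, 0], [0, 1, 0, 1, 1, 0], [0, 1, 0, 0, 0, 0], [0, 0, 0, 1, 0, 1], [0, 0, 0, 1, 0, 0]]
def A10 : M6 := mat [[1, 0, 0, 0, 0, 0], [1, 1, 2, 0, 0, 0], [0, 1, 3, 0, 0, 0], [0, 1, 3, 1, 2, 0], [0, 0, 0, 1, 3, 0], [0, 0, 0, 1, 3, 1]]
def A13 : M6 := mat [[1, 2, 1, 0, 0, 0], [1, 3, 2, 0, 0, 0], [0, 1, 2, 3, 2, 0], [0, 1, 2, 2, 1, 0], [0, 0, 0, 1, 2, 2], [0, 0, 0, 1, 2, 3]]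

theorem wordM_eq' {w : List (ℕ × F4)} {A : M6} (h : eqM (appW w 1) A = true) : wordM w = A := by
  have := eq_of_eqM h
  rwa [appW_eq, mul_one] at this

theorem w6_eq : wordM w6 = A6 := wordM_eq' (by decide +kernel)
theorem w7_eq : wordM w7 = A7 := wordM_eq' (by decide +kernel)
theorem w10_eq : wordM w10 = A10 := wordM_eq' (by decide +kernel)
theorem w13_eq : wordM w13 = A13 := wordM_eq' (by decide +kernel)

/-- the element of `L` given by a word -/
def el (w : List (ℕ × F4)) : L := PresentedGroup.mk _ (chevG2.stWord w)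

theorem ρ_el (w : List (ℕ × F4)) : ((ρ (el w) : M6ˣ) : M6) = wordM w := ρ_word w

theorem ρ_injective : Function.Injective ρ := by
  have := simple_L
  rw [← MonoidHom.ker_eq_bot_iff]
  rcases Subgroup.Normal.eq_bot_or_eq_top (inferInstance : ρ.ker.Normal) with h | h
  · exact h
  · exfalso
    have h1 : el w6 ∈ ρ.ker := by rw [h]; trivial
    rw [MonoidHom.mem_ker] at h1
    have h2 := congrArg (fun u : M6ˣ => (u : M6)) h1
    simp only [ρ_el, w6_eq, Units.val_one] at h2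
    revert h2
    decide +kernel

theorem el_pow_eq_one_iff (w : List (ℕ × F4)) (n : ℕ) : el w ^ n = 1 ↔ wordM w ^ n = 1 := by
  rw [← ρ_injective.eq_iff, map_pow, map_one, Units.ext_iff, Units.val_pow_eq_pow_val, ρ_el, Units.val_one]

theorem order7 : orderOf (el w7) = 7 := by
  have : Fact (Nat.Prime 7) := ⟨by norm_num⟩
  apply orderOf_eq_prime
  · rw [el_pow_eq_one_iff, w7_eq]; decide +kernel
  · intro h
    have := (el_pow_eq_one_iff w7 1).1 (by rw [h, one_pow])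
    rw [w7_eq] at this
    revert this
    decide +kernel

theorem order13 : orderOf (el w13) = 13 := by
  have : Fact (Nat.Prime 13) := ⟨by norm_num⟩
  apply orderOf_eq_prime
  · rw [el_pow_eq_one_iff, w13_eq]; decide +kernel
  · intro h
    have := (el_pow_eq_one_iff w13 1).1 (by rw [h, one_pow])
    rw [w13_eq] at this
    revert this
    decide +kernel

theorem order6 : orderOf (el w6) = 6 := by
  apply orderOf_eq_of_pow_and_pow_div_prime (by norm_num)
  · rw [el_pow_eq_one_iff, w6_eq]; decide +kernel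
  · intro q hq hqn
    rw [Ne, el_pow_eq_one_iff, w6_eq]
    have : q ≤ 6 := Nat.le_of_dvd (by norm_num) hqn
    interval_cases q <;> revert hqn hq <;> decide +kernel

theorem order10 : orderOf (el w10) = 10 := by
  apply orderOf_eq_of_pow_and_pow_div_prime (by norm_num)
  · rw [el_pow_eq_one_iff, w10_eq]; decide +kernel
  · intro q hq hqn
    rw [Ne, el_pow_eq_one_iff, w10_eq]
    have : q ≤ 10 := Nat.le_of_dvd (by norm_num) hqn
    interval_cases q <;> revert hqn hq <;> decide +kernel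

abbrev V := Fin 6 → F4

theorem free_of {A C : M6} (h : C * (A + 1) = 1) {v : V} (hv : A *ᵥ v = v) : v = 0 := by
  have h1 : (A + 1) *ᵥ v = 0 := by
    rw [Matrix.add_mulVec, Matrix.one_mulVec, hv]
    funext i
    exact add_self (v i)
  calc v = (C * (A + 1)) *ᵥ v := by rw [h, Matrix.one_mulVec]
    _ = C *ᵥ ((A + 1) *ᵥ v) := by rw [Matrix.mulVec_mulVec]
    _ = 0 := by rw [h1, Matrix.mulVec_zero]

theorem free7 {v : V} (hv : A7 *ᵥ v = v) : v = 0 :=
  free_of (C := mat [[1, 1, 1, 1, 1, 1], [1, 0, 1, 1, 1, 1], [0, 0, 1, 1, 1, 1], [1, 0, 1, 0, 1, 1], [0, 0, 0, 0, 1, 1], [1, 0, 1, 0, 1, 0]])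
    (by decide +kernel) hv

theorem free13 {v : V} (hv : A13 *ᵥ v = v) : v = 0 :=
  free_of (C := mat [[1, 1, 3, 3, 2, 2], [3, 0, 3, 3, 2, 2], [0, 0, 1, 1, 3, 3], [1, 0, 2, 0, 3, 3], [0, 0, 0, 0, 1, 1], [3, 0, 1, 0, 3, 0]])
    (by decide +kernel) hv

/-- the representation as linear maps -/
noncomputable def ρL : L →* (V →ₗ[F4] V) :=
  (Matrix.toLinAlgEquiv' : M6 ≃ₐ[F4] _).toAlgHom.toRingHom.toMonoidHom.comp ((Units.coeHom M6).comp ρ)

theorem ρL_apply (g : L) (v : V) : ρL g v = (ρ g : M6) *ᵥ v := rfl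

theorem pow_fixed {x : L} {v : V} (h : ρL x v = v) (n : ℕ) : ρL (x ^ n) v = v := by
  induction n with
  | zero => rw [pow_zero, map_one]; rfl
  | succ n ih => rw [pow_succ, map_mul, Module.End.mul_apply, h, ih]

theorem free {p : ℕ} [Fact p.Prime] (hp : ¬ p ^ 2 ∣ Nat.card L) {e x : L} (he : orderOf e = p)
    (hfree : ∀ v : V, ρL e v = v → v = 0) (hx : orderOf x = p) {v : V} (hv : ρL x v = v) : v = 0 := by
  obtain ⟨y, n, -, -, hy⟩ := SylowPrime.exists_conj hp he hx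
  have h1 := pow_fixed hv n
  rw [← hy] at h1
  have h2 : ρL e (ρL y⁻¹ v) = ρL y⁻¹ v := by
    have : e * y⁻¹ = y⁻¹ * (y * e * y⁻¹) := by group
    rw [← Module.End.mul_apply, ← map_mul, this, map_mul, Module.End.mul_apply, h1]
  have h3 := hfree _ h2
  have h4 : v = ρL y (ρL y⁻¹ v) := by
    rw [← Module.End.mul_apply, ← map_mul, mul_inv_cancel, map_one]; rfl
  rw [h4, h3, map_zero]

instance : CharP F4 2 := by
  have : Fact (Nat.Prime 2) := ⟨Nat.prime_two⟩
  exact charP_of_card_eq_prime_pow (R := F4) (p := 2) (f := 2) F4.card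

theorem main (N : ℕ) :
    ∃ (H : Type) (_ : Group H) (_ : Finite H), N < Nat.card H ∧
      ((∀ r : ℕ, r.Prime → (r ∣ Nat.card L ↔ r ∣ Nat.card H)) ∧
      (∀ r s : ℕ, r.Prime → s.Prime → r ≠ s →
        ((∃ x : L, orderOf x = r * s) ↔ (∃ y : H, orderOf y = r * s)))) := by
  refine H64.PrimeGraph.unbounded_self_rep L F4 V ρL 2 Nat.prime_two (by rw [card_L]; norm_num) ?_ N
  intro s hs hs2 x hx v hv hxv
  have h1 : s ∣ 2 ^ 12 * (3 ^ 3 * (5 ^ 2 * (7 * 13))) := by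
    have : Nat.card L = 2 ^ 12 * (3 ^ 3 * (5 ^ 2 * (7 * 13))) := by rw [card_L]; norm_num
    rw [← this, ← hx]; exact orderOf_dvd_natCard x
  rcases (Nat.Prime.dvd_mul hs).1 h1 with h | h
  · exact absurd ((Nat.prime_dvd_prime_iff_eq hs Nat.prime_two).1 (hs.dvd_of_dvd_pow h)) hs2
  rcases (Nat.Prime.dvd_mul hs).1 h with h | h
  · have h2 := (Nat.prime_dvd_prime_iff_eq hs (by norm_num)).1 (hs.dvd_of_dvd_pow h)
    subst h2
    exact ⟨_, order6⟩
  rcases (Nat.Prime.dvd_mul hs).1 h with h | h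
  · have h2 := (Nat.prime_dvd_prime_iff_eq hs (by norm_num)).1 (hs.dvd_of_dvd_pow h)
    subst h2
    exact ⟨_, order10⟩
  rcases (Nat.Prime.dvd_mul hs).1 h with h | h
  · have h2 := (Nat.prime_dvd_prime_iff_eq hs (by norm_num)).1 h
    subst h2
    have : Fact (Nat.Prime 7) := ⟨by norm_num⟩
    refine absurd (free (by rw [card_L]; norm_num) order7 ?_ hx hxv) hv
    intro w hw
    rw [ρL_apply, ρ_el, w7_eq] at hw
    exact free7 hw
  · have h2 := (Nat.prime_dvd_prime_iff_eq hs (by norm_num)).1 h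
    subst h2
    have : Fact (Nat.Prime 13) := ⟨by norm_num⟩
    refine absurd (free (by rw [card_L]; norm_num) order13 ?_ hx hxv) hv
    intro w hw
    rw [ρL_apply, ρ_el, w13_eq] at hw
    exact free13 hw

theorem equivF {F : Type*} [Field F] [Fintype F] (hF : Fintype.card F = 4) :
    Nonempty (L ≃* chevG2.group F) := by
  obtain ⟨e⟩ := exists_equiv
  let f := FiniteField.ringEquivOfCardEq (K := F4) (K' := F) (by rw [hF]; rfl)
  exact ⟨e.trans (H22.ChevField.fieldEquiv chevG2 f)⟩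

end H64.G24
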