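import Mathlib
import Cfsg.Agent.Lib.H1.FrobSyl

set_option autoImplicit false

/-! The last step of the characterizations of `3^3:2^2` and `3^3:S_4`: a normal subgroup meeting the
special subgroup in the elementary abelian group of order 27. -/

namespace H64.Kernel27

universe u

theorem finish {G : Type u} [Group G] [Finite G] (H T K : Subgroup G) (hKn : K.Normal) (hTH : T ≤ H)
    (hT : Nat.card T = 27) (hN : Subgroup.normalizer (T : Set G) = H)
    (hC : ∀ t ∈ T, t ≠ 1 → Subgroup.centralizer ({t} : Set G) ≤ H)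
    (hab : ∀ a ∈ T, ∀ b ∈ T, a * b = b * a) (hT3 : ∀ t ∈ T, t ^ 3 = 1)
    (hKH : ∀ g ∈ H, g ∈ K ↔ g ∈ T) : H = ⊤ := by
  classical
  have : Fact (Nat.Prime 3) := ⟨Nat.prime_three⟩
  have hTK : T ≤ K := fun t ht => (hKH t (hTH ht)).2 ht
  have hcardTK : Nat.card (T.subgroupOf K) = 27 := by
    rw [← hT]
    exact Nat.card_congr (Subgroup.subgroupOfEquivOfLe hTK).toEquiv
  have hNK : Subgroup.normalizer ((T.subgroupOf K : Subgroup K) : Set K) = T.subgroupOf K := by
    apply le_antisymm _ Subgroup.le_normalizer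
    intro x hx
    rw [Subgroup.mem_normalizer_iff] at hx
    have hxH : (x : G) ∈ H := by
      rw [← hN, Subgroup.mem_normalizer_iff]
      intro y
      constructor
      · intro hy
        exact (hx ⟨y, hTK hy⟩).1 hy
      · intro hy
        have hyK : y ∈ K := by
          have h1 := hTK hy
          have h2 := K.mul_mem (K.mul_mem (K.inv_mem x.2) h1) x.2
          have : (x : G)⁻¹ * ((x : G) * y * (x : G)⁻¹) * (x : G) = y := by group
          rwa [this] at h2
        exact (hx ⟨y, hyK⟩).2 hy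
    exact (hKH x hxH).1 x.2
  -- Sylow subgroup of K
  have h81 : ¬ 81 ∣ Nat.card K := by
    have h := Sylow.card_normalizer_modEq_card (p := 3) (n := 3) (H := T.subgroupOf K) (by rw [hcardTK]; norm_num)
    rw [hNK, hcardTK] at h
    have h2 : 27 % 81 = Nat.card K % 81 := h
    omega
  have hK27 : 27 ∣ Nat.card K := hT ▸ Subgroup.card_dvd_of_le hTK
  have hfac : (Nat.card K).factorization 3 = 3 := by
    have h0 : Nat.card K ≠ 0 := Nat.card_pos.ne'
    apply le_antisymm
    · by_contra hlt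
      have h1 : 3 ^ 4 ∣ Nat.card K := (Nat.prime_three.pow_dvd_iff_le_factorization h0).2 (by omega)
      exact h81 ((show 81 = 3 ^ 4 by norm_num) ▸ h1)
    · exact (Nat.prime_three.pow_dvd_iff_le_factorization h0).1 (by exact hK27)
  let P : Sylow 3 K := Sylow.ofCard (T.subgroupOf K) (by rw [hcardTK, hfac]; norm_num)
  have hPT : (P : Subgroup K) = T.subgroupOf K := rfl
  have hPn : Subgroup.normalizer ((P : Subgroup K) : Set K) ≤ Subgroup.centralizer ((P : Subgroup K) : Set K) := by
    intro x hx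
    have hxT : (x : G) ∈ T := by
      have h1 : x ∈ Subgroup.normalizer ((T.subgroupOf K : Subgroup K) : Set K) := hx
      rw [hNK] at h1
      exact h1
    rw [Subgroup.mem_centralizer_iff]
    intro y hy
    exact Subtype.ext (hab _ hy _ hxT)
  obtain ⟨R0, hR0n, hcomp⟩ : ∃ R0 : Subgroup K, R0.Normal ∧ Subgroup.IsComplement' R0 (P : Subgroup K) :=
    ⟨(MonoidHom.transferSylow P hPn).ker, inferInstance, MonoidHom.ker_transferSylow_isComplement' P hPn⟩
  let R : Subgroup G := R0.map K.subtype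
  have hRK : R ≤ K := by
    rintro _ ⟨x, -, rfl⟩
    exact x.2
  have hRT : ∀ x ∈ R, x ∈ T → x = 1 := by
    rintro _ ⟨x, hx, rfl⟩ hxT
    have h1 : x ∈ R0 ⊓ (P : Subgroup K) := ⟨hx, hxT⟩
    rw [hcomp.disjoint.eq_bot] at h1
    rw [Subgroup.mem_bot.1 h1]
    rfl
  have hTR : T ≤ Subgroup.normalizer (R : Set G) := by
    intro t ht
    rw [Subgroup.mem_normalizer_iff]
    have key : ∀ t ∈ T, ∀ x ∈ R, t * x * t⁻¹ ∈ R := by
      rintro t ht _ ⟨x, hx, rfl⟩
      have h1 := hR0n.conj_mem x hx ⟨t, hTK ht⟩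
      exact Subgroup.mem_map_of_mem K.subtype h1
    intro x
    refine ⟨key t ht x, fun hx => ?_⟩
    have := key t⁻¹ (T.inv_mem ht) _ hx
    have e : t⁻¹ * (t * x * t⁻¹) * t⁻¹⁻¹ = x := by group
    rwa [e] at this
  have hR : R = ⊥ := by
    by_contra hne
    have hfpf : ∀ a ∈ T, a ≠ 1 → R ⊓ Subgroup.centralizer {a} = ⊥ := by
      intro a ha ha1
      rw [eq_bot_iff]
      rintro x ⟨hx1, hx2⟩
      have hxH := hC a ha ha1 hx2
      exact hRT x hx1 ((hKH x hxH).1 (hRK hx1))
    have h3 : IsPGroup 3 T := IsPGroup.of_card (n := 3) (by rw [hT]; norm_num)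
    rcases H1.FrobSyl.cyclic_or_quaternion T R hne hTR hfpf 3 h3 with h | ⟨h, -⟩
    · obtain ⟨g, hg⟩ := h.exists_generator
      have h1 : orderOf g = 27 := by
        rw [← hT, orderOf_eq_card_of_forall_mem_zpowers hg]
      have h2 : g ^ 3 = 1 := Subtype.ext (hT3 g g.2)
      have h4 := orderOf_dvd_of_pow_eq_one h2
      rw [h1] at h4
      norm_num at h4
    · norm_num at h
  have hR0b : R0 = ⊥ := by
    rw [eq_bot_iff]
    intro x hx
    have h1 : (x : G) ∈ R := ⟨x, hx, rfl⟩
    rw [hR] at h1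
    exact Subgroup.mem_bot.2 (Subtype.ext (Subgroup.mem_bot.1 h1))
  have hPtop : (P : Subgroup K) = ⊤ := by
    have h1 := hcomp
    rw [hR0b] at h1
    exact Subgroup.isComplement'_bot_left.1 h1
  have hKT : K = T := by
    apply le_antisymm _ hTK
    intro x hx
    have h1 : (⟨x, hx⟩ : K) ∈ (P : Subgroup K) := by rw [hPtop]; trivial
    exact h1
  have hTn : T.Normal := hKT ▸ hKn
  rw [← hN]
  exact Subgroup.normalizer_eq_top_iff.2 hTn

end H64.Kernel27
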