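import Cfsg.Agent.Lib.H64.Lattice

set_option autoImplicit false

/-! The lattice computation behind the characterization of `3^3:2^2`. -/

namespace H64.Lat27

open Matrix H64.Lattice

variable {ι : Type*} [Fintype ι]

/-- moments -/
structure Mom (ι : Type*) [Fintype ι] where
  M0 : (ι → ℤ) →+ ℤ
  M1 : (ι → ℤ) →+ ℝ
  M2 : (ι → ℤ) →+ ℝ
  unit : ∀ u : ι → ℤ, IsU u → ∃ κ : ℝ, M0 u ≠ 0 ∧ M1 u = M0 u * κ ∧ M2 u = M0 u * κ ^ 2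

theorem dot_split {a x y : ι → ℤ} (hx : IsU x) (hy : IsU y) (ha : a ⬝ᵥ a ≤ 3) (h : a ⬝ᵥ (x + y) = 1) :
    (a ⬝ᵥ x = 1 ∧ a ⬝ᵥ y = 0) ∨ (a ⬝ᵥ x = 0 ∧ a ⬝ᵥ y = 1) := by
  rw [dotProduct_add] at h
  rcases hx.dot_le ha with h1 | h1 | h1 <;> rcases hy.dot_le ha with h2 | h2 | h2 <;> omega

theorem dot_split' {a x y : ι → ℤ} (hx : IsU x) (hy : IsU y) (ha : a ⬝ᵥ a ≤ 3) (h : a ⬝ᵥ (x + y) = -1) :
    (a ⬝ᵥ x = -1 ∧ a ⬝ᵥ y = 0) ∨ (a ⬝ᵥ x = 0 ∧ a ⬝ᵥ y = -1) := by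
  rw [dotProduct_add] at h
  rcases hx.dot_le ha with h1 | h1 | h1 <;> rcases hy.dot_le ha with h2 | h2 | h2 <;> omega

/-- two orthogonal vectors of norm two with the same value of a functional not vanishing on units -/
theorem cross {M0 : (ι → ℤ) →+ ℤ} (hM : ∀ u : ι → ℤ, IsU u → M0 u ≠ 0) {x y x' y' : ι → ℤ}
    (hx : IsU x) (hy : IsU y) (hxy : x ⬝ᵥ y = 0) (hx' : IsU x') (hy' : IsU y') (hxy' : x' ⬝ᵥ y' = 0)
    (h : (x + y) ⬝ᵥ (x' + y') = 0) (h0 : M0 (x + y) = M0 (x' + y')) :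
    x ⬝ᵥ x' = 0 ∧ x ⬝ᵥ y' = 0 ∧ y ⬝ᵥ x' = 0 ∧ y ⬝ᵥ y' = 0 := by
  have key : ∀ {x y x' y' : ι → ℤ}, IsU x → IsU y → x ⬝ᵥ y = 0 → IsU x' → IsU y' → x' ⬝ᵥ y' = 0 →
      (x + y) ⬝ᵥ (x' + y') = 0 → M0 (x + y) = M0 (x' + y') → x ⬝ᵥ x' = 0 := by
    intro x y x' y' hx hy hxy hx' hy' hxy' h h0
    rw [add_dotProduct, dotProduct_add, dotProduct_add] at h
    rcases hx.dot hx' with h1 | h1 | h1
    · exact h1
    · exfalso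
      subst h1
      rw [hx, hxy', dotProduct_comm y x, hxy] at h
      have h2 : y = -y' := eq_neg_of_dot_unit hy hy' (by omega)
      rw [h2, map_add, map_add, map_neg] at h0
      exact hM y' hy' (by omega)
    · exfalso
      have h3 : x' = -x := by rw [h1, neg_neg]
      subst h3
      rw [dotProduct_neg, hx, dotProduct_neg, dotProduct_comm y x, hxy] at h
      rw [neg_dotProduct] at hxy'
      have h2 : y = y' := eq_of_dot_unit hy hy' (by omega)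
      rw [h2, map_add, map_add, map_neg] at h0
      exact hM x hx (by omega)
  refine ⟨key hx hy hxy hx' hy' hxy' h h0, ?_, ?_, ?_⟩
  · exact key hx hy hxy hy' hx' (by rw [dotProduct_comm]; exact hxy') (by rw [add_comm y' x']; exact h)
      (by rw [add_comm y' x']; exact h0)
  · exact key hy hx (by rw [dotProduct_comm]; exact hxy) hx' hy' hxy' (by rw [add_comm y x]; exact h)
      (by rw [add_comm y x]; exact h0)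
  · exact key hy hx (by rw [dotProduct_comm]; exact hxy) hy' hx' (by rw [dotProduct_comm]; exact hxy')
      (by rw [add_comm y x, add_comm y' x']; exact h) (by rw [add_comm y x, add_comm y' x']; exact h0)

/-- four orthogonal units cannot all have product one with a vector of norm three -/
theorem four_units {a : ι → ℤ} (ha : a ⬝ᵥ a = 3) {u1 u2 u3 u4 : ι → ℤ} (h1 : IsU u1) (h2 : IsU u2) (h3 : IsU u3)
    (h4 : IsU u4) (h12 : u1 ⬝ᵥ u2 = 0) (h13 : u1 ⬝ᵥ u3 = 0) (h14 : u1 ⬝ᵥ u4 = 0) (h23 : u2 ⬝ᵥ u3 = 0)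
    (h24 : u2 ⬝ᵥ u4 = 0) (h34 : u3 ⬝ᵥ u4 = 0) (e1 : a ⬝ᵥ u1 = 1) (e2 : a ⬝ᵥ u2 = 1) (e3 : a ⬝ᵥ u3 = 1)
    (e4 : a ⬝ᵥ u4 = 1) : False := by
  have n1 := norm_sub_unit (a := a) h1
  have n2 := norm_sub_unit (a := a - u1) h2
  have n3 := norm_sub_unit (a := a - u1 - u2) h3
  have n4 := norm_sub_unit (a := a - u1 - u2 - u3) h4
  have f2 : (a - u1) ⬝ᵥ u2 = 1 := by rw [sub_dotProduct, e2, h12]; norm_num
  have f3 : (a - u1 - u2) ⬝ᵥ u3 = 1 := by rw [sub_dotProduct, sub_dotProduct, e3, h13, h23]; norm_num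
  have f4 : (a - u1 - u2 - u3) ⬝ᵥ u4 = 1 := by
    rw [sub_dotProduct, sub_dotProduct, sub_dotProduct, e4, h14, h24, h34]; norm_num
  rw [ha, e1] at n1
  rw [n1, f2] at n2
  rw [n2, f3] at n3
  rw [n3, f4] at n4
  have := Lattice.norm_nonneg (a - u1 - u2 - u3 - u4)
  omega

theorem exists_two_named {a b : ι → ℤ} (h : a ⬝ᵥ a = 2) (hb : b ⬝ᵥ b ≤ 3) (hab : b ⬝ᵥ a = 1) :
    ∃ u v : ι → ℤ, IsU u ∧ IsU v ∧ u ⬝ᵥ v = 0 ∧ a = u + v ∧ b ⬝ᵥ u = 1 ∧ b ⬝ᵥ v = 0 := by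
  obtain ⟨u, v, hu, hv, huv, rfl⟩ := exists_two h
  rcases dot_split hu hv hb hab with h1 | h1
  · exact ⟨u, v, hu, hv, huv, rfl, h1.1, h1.2⟩
  · exact ⟨v, u, hv, hu, by rw [dotProduct_comm]; exact huv, add_comm _ _, h1.2, h1.1⟩

theorem exists_two_named' {a b : ι → ℤ} (h : a ⬝ᵥ a = 2) (hb : b ⬝ᵥ b ≤ 3) (hab : b ⬝ᵥ a = -1) :
    ∃ u v : ι → ℤ, IsU u ∧ IsU v ∧ u ⬝ᵥ v = 0 ∧ a = u + v ∧ b ⬝ᵥ u = 0 ∧ b ⬝ᵥ v = -1 := by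
  obtain ⟨u, v, hu, hv, huv, rfl⟩ := exists_two h
  rcases dot_split' hu hv hb hab with h1 | h1
  · exact ⟨v, u, hv, hu, by rw [dotProduct_comm]; exact huv, add_comm _ _, h1.2, h1.1⟩
  · exact ⟨u, v, hu, hv, huv, rfl, h1.1, h1.2⟩

/-- a unit with zero sum of products with two orthogonal units is orthogonal to both -/
theorem unit_zero {z x y : ι → ℤ} (hz : IsU z) (hx : IsU x) (hxy : x ⬝ᵥ y = 0)
    (h : z ⬝ᵥ x + z ⬝ᵥ y = 0) : z ⬝ᵥ x = 0 ∧ z ⬝ᵥ y = 0 := by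
  rcases hz.dot hx with k | k | k
  · exact ⟨k, by omega⟩
  · exfalso
    rw [k, hxy, hx] at h
    omega
  · exfalso
    rw [k, neg_dotProduct, neg_dotProduct, hxy, hx] at h
    omega

theorem parity {a b x y : ι → ℤ} (hx : IsU x) (hy : IsU y) (hxy : x ⬝ᵥ y = 0) (ha : a ⬝ᵥ a = 2)
    (h1 : a ⬝ᵥ x + a ⬝ᵥ y = 0) (h2 : b ⬝ᵥ x + b ⬝ᵥ y = 0) (hab : b ⬝ᵥ a = 1) :
    a ⬝ᵥ x = 0 ∧ a ⬝ᵥ y = 0 := by
  rcases hx.dot_le (a := a) (by omega) with k | k | k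
  · exact ⟨k, by omega⟩
  · exfalso
    have e1 : (a - x + y) ⬝ᵥ (a - x + y) = 0 := by
      rw [norm_add_unit hy, norm_sub_unit hx, ha, k, sub_dotProduct, hxy]
      omega
    have e2 : a - x + y = 0 := dotProduct_self_eq_zero.1 e1
    have e3 : a = x - y := by rw [← sub_eq_zero, ← e2]; abel
    rw [e3, dotProduct_sub] at hab
    omega
  · exfalso
    have e1 : (a + x - y) ⬝ᵥ (a + x - y) = 0 := by
      rw [norm_sub_unit hy, norm_add_unit hx, ha, k, add_dotProduct, hxy]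
      omega
    have e2 : a + x - y = 0 := dotProduct_self_eq_zero.1 e1
    have e3 : a = y - x := by rw [← sub_eq_zero, ← e2]; abel
    rw [e3, dotProduct_sub] at hab
    omega

theorem third {a u v x y : ι → ℤ} (ha : a ⬝ᵥ a = 3) (hu : IsU u) (hv : IsU v) (huv : u ⬝ᵥ v = 0)
    (g1 : a ⬝ᵥ u = 1) (g3 : a ⬝ᵥ v = 1) (hx : IsU x) (hxy : x ⬝ᵥ y = 0)
    (h1x : u ⬝ᵥ x = 0) (h1y : u ⬝ᵥ y = 0) (h3x : v ⬝ᵥ x = 0) (h3y : v ⬝ᵥ y = 0)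
    (h : a ⬝ᵥ (x + y) = 0) : a ⬝ᵥ x = 0 ∧ a ⬝ᵥ y = 0 := by
  have ht : IsU (a - u - v) := by
    unfold IsU
    rw [norm_sub_unit hv, norm_sub_unit hu, ha, g1, sub_dotProduct, g3, huv]; norm_num
  have e1 : (a - u - v) ⬝ᵥ x = a ⬝ᵥ x := by rw [sub_dotProduct, sub_dotProduct, h1x, h3x]; ring
  have e2 : (a - u - v) ⬝ᵥ y = a ⬝ᵥ y := by rw [sub_dotProduct, sub_dotProduct, h1y, h3y]; ring
  have := unit_zero ht hx hxy (by rw [e1, e2, ← dotProduct_add]; exact h)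
  rwa [e1, e2] at this

/-- The combinatorial part: decomposition into units. -/
theorem decomp (M : Mom ι) (e A1 A2 A3 A4 A5 : ι → ℤ) (B : Fin 3 → ι → ℤ) (he : IsU e)
    (n1 : A1 ⬝ᵥ A1 = 3) (n2 : A2 ⬝ᵥ A2 = 3) (n3 : A3 ⬝ᵥ A3 = 3) (n4 : A4 ⬝ᵥ A4 = 3) (n5 : A5 ⬝ᵥ A5 = 3)
    (e1 : A1 ⬝ᵥ e = -1) (e2 : A2 ⬝ᵥ e = -1) (e3 : A3 ⬝ᵥ e = -1) (e4 : A4 ⬝ᵥ e = 0) (e5 : A5 ⬝ᵥ e = 0)
    (h12 : A1 ⬝ᵥ A2 = 1) (h13 : A1 ⬝ᵥ A3 = 1) (h23 : A2 ⬝ᵥ A3 = 1)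
    (h41 : A4 ⬝ᵥ A1 = 0) (h42 : A4 ⬝ᵥ A2 = 1) (h43 : A4 ⬝ᵥ A3 = 1)
    (h51 : A5 ⬝ᵥ A1 = 1) (h52 : A5 ⬝ᵥ A2 = 0) (h53 : A5 ⬝ᵥ A3 = 1) (h54 : A5 ⬝ᵥ A4 = 1)
    (nB : ∀ i, B i ⬝ᵥ B i = 3) (hB : ∀ i j, i ≠ j → B i ⬝ᵥ B j = 2) (eB : ∀ i, B i ⬝ᵥ e = 0)
    (hB1 : ∀ i, B i ⬝ᵥ A1 = -1) (hB2 : ∀ i, B i ⬝ᵥ A2 = 0) (hB3 : ∀ i, B i ⬝ᵥ A3 = 0)
    (hB4 : ∀ i, B i ⬝ᵥ A4 = -1) (hB5 : ∀ i, B i ⬝ᵥ A5 = 0)
    (z1 : M.M0 A1 = 0) (z2 : M.M0 A2 = 0) (z3 : M.M0 A3 = 0) (zB : ∀ i, M.M0 (B i) = 0) (ze : M.M0 e = 1) :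
    ∃ x1 y1 x2 y2 x3 y3 w t1 t2 : ι → ℤ, IsU x1 ∧ IsU y1 ∧ IsU x2 ∧ IsU y2 ∧ IsU x3 ∧ IsU y3 ∧ IsU w ∧
      IsU t1 ∧ IsU t2 ∧ A1 + e = x1 + y1 ∧ A2 + e = x2 + y2 ∧ A3 + e = x3 + y3 ∧
      A4 = x2 + x3 + t1 ∧ A5 = x1 + x3 + t2 ∧ B 0 = w - y1 - t1 ∧
      x1 ⬝ᵥ y1 = 0 ∧ x2 ⬝ᵥ y2 = 0 ∧ e ⬝ᵥ x1 = 0 ∧ e ⬝ᵥ x2 = 0 ∧
      A5 ⬝ᵥ x1 = 1 ∧ A4 ⬝ᵥ x2 = 1 := by
  have hM : ∀ u : ι → ℤ, IsU u → M.M0 u ≠ 0 := fun u hu => (M.unit u hu).choose_spec.1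
  have he' : e ⬝ᵥ e = 1 := he
  have m1 : (A1 + e) ⬝ᵥ (A1 + e) = 2 := by rw [norm_add_unit he, n1, e1]; norm_num
  have m2 : (A2 + e) ⬝ᵥ (A2 + e) = 2 := by rw [norm_add_unit he, n2, e2]; norm_num
  have m3 : (A3 + e) ⬝ᵥ (A3 + e) = 2 := by rw [norm_add_unit he, n3, e3]; norm_num
  have b1 : ∀ i, B i ⬝ᵥ (A1 + e) = -1 := by intro i; rw [dotProduct_add, hB1, eB]; norm_num
  have b2 : ∀ i, B i ⬝ᵥ (A2 + e) = 0 := by intro i; rw [dotProduct_add, hB2, eB]; norm_num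
  have b3 : ∀ i, B i ⬝ᵥ (A3 + e) = 0 := by intro i; rw [dotProduct_add, hB3, eB]; norm_num
  obtain ⟨x1, y1, hx1, hy1, hxy1, s1, Bx1, By1⟩ := exists_two_named' m1 (nB 0).le (b1 0)
  obtain ⟨x2, y2, hx2, hy2, hxy2, s2, A4x2, A4y2⟩ := exists_two_named m2 n4.le
    (by rw [dotProduct_add, h42, e4]; norm_num)
  obtain ⟨x3, y3, hx3, hy3, hxy3, s3, A4x3, A4y3⟩ := exists_two_named m3 n4.le
    (by rw [dotProduct_add, h43, e4]; norm_num)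
  have c12 : (x1 + y1) ⬝ᵥ (x2 + y2) = 0 := by
    rw [← s1, ← s2, add_dotProduct, dotProduct_add, dotProduct_add, h12, e1, dotProduct_comm e A2, e2, he']
    norm_num
  have c13 : (x1 + y1) ⬝ᵥ (x3 + y3) = 0 := by
    rw [← s1, ← s3, add_dotProduct, dotProduct_add, dotProduct_add, h13, e1, dotProduct_comm e A3, e3, he']
    norm_num
  have c23 : (x2 + y2) ⬝ᵥ (x3 + y3) = 0 := by
    rw [← s2, ← s3, add_dotProduct, dotProduct_add, dotProduct_add, h23, e2, dotProduct_comm e A3, e3, he']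
    norm_num
  have q1 : M.M0 (x1 + y1) = 1 := by rw [← s1, map_add, z1, ze]; norm_num
  have q2 : M.M0 (x2 + y2) = 1 := by rw [← s2, map_add, z2, ze]; norm_num
  have q3 : M.M0 (x3 + y3) = 1 := by rw [← s3, map_add, z3, ze]; norm_num
  -- orthogonality to e
  have oe : ∀ {x y A : ι → ℤ}, IsU x → x ⬝ᵥ y = 0 → A + e = x + y → A ⬝ᵥ e = -1 → e ⬝ᵥ x = 0 ∧ e ⬝ᵥ y = 0 := by
    intro x y A hx hxy hs hA
    have h1 : e ⬝ᵥ (x + y) = 0 := by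
      rw [← hs, dotProduct_add, dotProduct_comm e A, hA, he']; norm_num
    rw [dotProduct_add] at h1
    exact unit_zero he hx hxy h1
  obtain ⟨ex1, ey1⟩ := oe hx1 hxy1 s1 e1
  obtain ⟨ex2, ey2⟩ := oe hx2 hxy2 s2 e2
  obtain ⟨ex3, ey3⟩ := oe hx3 hxy3 s3 e3
  obtain ⟨o12, o1y2, oy12, oyy12⟩ := cross hM hx1 hy1 hxy1 hx2 hy2 hxy2 c12 (by rw [q1, q2])
  obtain ⟨o13, o1y3, oy13, oyy13⟩ := cross hM hx1 hy1 hxy1 hx3 hy3 hxy3 c13 (by rw [q1, q3])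
  obtain ⟨o23, o2y3, oy23, oyy23⟩ := cross hM hx2 hy2 hxy2 hx3 hy3 hxy3 c23 (by rw [q2, q3])
  -- A4
  set t1 := A4 - x2 - x3 with ht1
  have ht1U : IsU t1 := by
    unfold IsU
    rw [ht1, norm_sub_unit hx3, norm_sub_unit hx2, n4, A4x2, sub_dotProduct, A4x3, o23]; norm_num
  have hA4 : A4 = x2 + x3 + t1 := by rw [ht1]; abel
  have t1x2 : t1 ⬝ᵥ x2 = 0 := by
    rw [ht1, sub_dotProduct, sub_dotProduct, A4x2, hx2, dotProduct_comm x3 x2, o23]; norm_num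
  have t1x3 : t1 ⬝ᵥ x3 = 0 := by
    rw [ht1, sub_dotProduct, sub_dotProduct, A4x3, hx3, o23]; norm_num
  have t1y2 : t1 ⬝ᵥ y2 = 0 := by
    rw [ht1, sub_dotProduct, sub_dotProduct, A4y2, hxy2, dotProduct_comm x3 y2, oy23]; norm_num
  have t1y3 : t1 ⬝ᵥ y3 = 0 := by
    rw [ht1, sub_dotProduct, sub_dotProduct, A4y3, hxy3, o2y3]; norm_num
  obtain ⟨t1x1, t1y1⟩ : t1 ⬝ᵥ x1 = 0 ∧ t1 ⬝ᵥ y1 = 0 := by
    apply unit_zero ht1U hx1 hxy1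
    rw [← dotProduct_add, ← s1, ht1, sub_dotProduct, sub_dotProduct, dotProduct_add, h41, e4, s1, dotProduct_add,
      dotProduct_add, dotProduct_comm x2 x1, o12, dotProduct_comm x2 y1, oy12, dotProduct_comm x3 x1, o13,
      dotProduct_comm x3 y1, oy13]
    norm_num
  -- the choice in the pair (x1, y1) is the same for all B i
  have Byall : ∀ i, B i ⬝ᵥ x1 = 0 ∧ B i ⬝ᵥ y1 = -1 := by
    intro i
    by_cases hi : i = 0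
    · rw [hi]; exact ⟨Bx1, By1⟩
    have h1 := b1 i
    rw [s1] at h1
    rcases dot_split' hx1 hy1 (nB i).le h1 with h | h
    · exfalso
      -- B 0 + y1 and B i + x1 are equal
      have h2 : (B 0 + y1 - (B i + x1)) ⬝ᵥ (B 0 + y1 - (B i + x1)) = 0 := by
        have e0 : (B 0 + y1) ⬝ᵥ (B 0 + y1) = 2 := by rw [norm_add_unit hy1, nB, By1]; norm_num
        have ei : (B i + x1) ⬝ᵥ (B i + x1) = 2 := by rw [norm_add_unit hx1, nB, h.1]; norm_num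
        have e0i : (B 0 + y1) ⬝ᵥ (B i + x1) = 2 := by
          rw [add_dotProduct, dotProduct_add, dotProduct_add, hB 0 i (Ne.symm hi), Bx1,
            dotProduct_comm y1 (B i), h.2, dotProduct_comm y1 x1, hxy1]; norm_num
        rw [sub_dotProduct, dotProduct_sub, dotProduct_sub, e0, ei, e0i, dotProduct_comm (B i + x1), e0i]
        norm_num
      have h3 : B 0 + y1 = B i + x1 := sub_eq_zero.1 (dotProduct_self_eq_zero.1 h2)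
      have h4 := congrArg M.M0 h3
      rw [map_add, map_add, zB, zB] at h4
      rw [map_add] at q1
      omega
    · exact h
  -- the remaining part R i = B i + y1
  have Rn : ∀ i, (B i + y1) ⬝ᵥ (B i + y1) = 2 := by
    intro i; rw [norm_add_unit hy1, nB, (Byall i).2]; norm_num
  have Rij : ∀ i j, i ≠ j → (B i + y1) ⬝ᵥ (B j + y1) = 1 := by
    intro i j hij
    rw [add_dotProduct, dotProduct_add, dotProduct_add, hB i j hij, (Byall i).2, dotProduct_comm y1 (B j),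
      (Byall j).2, hy1]; norm_num
  have R2 : ∀ i, (B i + y1) ⬝ᵥ x2 + (B i + y1) ⬝ᵥ y2 = 0 := by
    intro i
    rw [← dotProduct_add, ← s2, add_dotProduct, b2, s2, dotProduct_add, oy12, oyy12]; norm_num
  have R3 : ∀ i, (B i + y1) ⬝ᵥ x3 + (B i + y1) ⬝ᵥ y3 = 0 := by
    intro i
    rw [← dotProduct_add, ← s3, add_dotProduct, b3, s3, dotProduct_add, oy13, oyy13]; norm_num
  have hne : ∀ i : Fin 3, ∃ j : Fin 3, j ≠ i := by decide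
  have R2' : ∀ i, (B i + y1) ⬝ᵥ x2 = 0 ∧ (B i + y1) ⬝ᵥ y2 = 0 := by
    intro i
    obtain ⟨j, hj⟩ := hne i
    exact parity hx2 hy2 hxy2 (Rn i) (R2 i) (R2 j) (Rij j i hj)
  have R3' : ∀ i, (B i + y1) ⬝ᵥ x3 = 0 ∧ (B i + y1) ⬝ᵥ y3 = 0 := by
    intro i
    obtain ⟨j, hj⟩ := hne i
    exact parity hx3 hy3 hxy3 (Rn i) (R3 i) (R3 j) (Rij j i hj)
  have Rt : ∀ i, (B i + y1) ⬝ᵥ t1 = -1 := by
    intro i
    rw [ht1, dotProduct_sub, dotProduct_sub, (R2' i).1, (R3' i).1, add_dotProduct, hB4, hA4, dotProduct_add,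
      dotProduct_add, oy12, oy13, dotProduct_comm y1 t1, t1y1]; norm_num
  have Rx1 : ∀ i, (B i + y1) ⬝ᵥ x1 = 0 := by
    intro i; rw [add_dotProduct, (Byall i).1, dotProduct_comm y1 x1, hxy1]; norm_num
  have Ry1 : ∀ i, (B i + y1) ⬝ᵥ y1 = 0 := by
    intro i; rw [add_dotProduct, (Byall i).2, hy1]; norm_num
  have wU : ∀ i, IsU (B i + y1 + t1) := by
    intro i; unfold IsU; rw [norm_add_unit ht1U, Rn, Rt]; norm_num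
  have wt : ∀ i, (B i + y1 + t1) ⬝ᵥ t1 = 0 := by
    intro i; rw [add_dotProduct, Rt, ht1U]; norm_num
  have wy : ∀ i, (B i + y1 + t1) ⬝ᵥ y1 = 0 := by
    intro i; rw [add_dotProduct, Ry1, t1y1]; norm_num
  have ww : ∀ i j, i ≠ j → (B i + y1 + t1) ⬝ᵥ (B j + y1 + t1) = 0 := by
    intro i j hij
    have k1 : (B i + y1 + t1) ⬝ᵥ (B j + y1 + t1) = (B i + y1) ⬝ᵥ (B j + y1) + (B i + y1) ⬝ᵥ t1 +
        (t1 ⬝ᵥ (B j + y1) + t1 ⬝ᵥ t1) := by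
      rw [add_dotProduct (B i + y1) t1, dotProduct_add (B i + y1) (B j + y1), dotProduct_add t1 (B j + y1)]
    rw [k1, Rij i j hij, Rt, dotProduct_comm t1 (B j + y1), Rt, ht1U]; norm_num
  -- A5
  have f1 : A5 ⬝ᵥ (x1 + y1) = 1 := by rw [← s1, dotProduct_add, h51, e5]; norm_num
  have f2 : A5 ⬝ᵥ (x2 + y2) = 0 := by rw [← s2, dotProduct_add, h52, e5]; norm_num
  have f3 : A5 ⬝ᵥ (x3 + y3) = 1 := by rw [← s3, dotProduct_add, h53, e5]; norm_num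
  have f4 : A5 ⬝ᵥ x2 + A5 ⬝ᵥ x3 + A5 ⬝ᵥ t1 = 1 := by
    rw [← dotProduct_add, ← dotProduct_add, ← hA4, h54]
  have fw : ∀ i, A5 ⬝ᵥ (B i + y1 + t1) = A5 ⬝ᵥ y1 + A5 ⬝ᵥ t1 := by
    intro i
    rw [dotProduct_add, dotProduct_add, dotProduct_comm A5 (B i), hB5]; ring
  have o32 : x3 ⬝ᵥ x2 = 0 := by rw [dotProduct_comm]; exact o23
  have o32' : x3 ⬝ᵥ y2 = 0 := by rw [dotProduct_comm]; exact oy23
  have o32'' : y3 ⬝ᵥ x2 = 0 := by rw [dotProduct_comm]; exact o2y3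
  have o32''' : y3 ⬝ᵥ y2 = 0 := by rw [dotProduct_comm]; exact oyy23
  have w01 := ww 0 1 (by decide)
  have w02 := ww 0 2 (by decide)
  have w12 := ww 1 2 (by decide)
  rcases dot_split hx1 hy1 n5.le f1 with ⟨g1, g1'⟩ | ⟨g1', g1⟩
  · rcases dot_split hx3 hy3 n5.le f3 with ⟨g3, g3'⟩ | ⟨g3', g3⟩
    · -- the good case
      have k2 := third n5 hx1 hx3 o13 g1 g3 hx2 hxy2 o12 o1y2 o32 o32' f2
      have ht2 : IsU (A5 - x1 - x3) := by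
        unfold IsU
        rw [norm_sub_unit hx3, norm_sub_unit hx1, n5, g1, sub_dotProduct, g3, o13]; norm_num
      refine ⟨x1, y1, x2, y2, x3, y3, B 0 + y1 + t1, t1, A5 - x1 - x3, hx1, hy1, hx2, hy2, hx3, hy3, wU 0, ht1U,
        ht2, s1, s2, s3, hA4, by abel, by abel, hxy1, hxy2, ex1, ex2, g1, A4x2⟩
    · exfalso
      have k2 := third n5 hx1 hy3 o1y3 g1 g3 hx2 hxy2 o12 o1y2 o32'' o32''' f2
      have kt : A5 ⬝ᵥ t1 = 1 := by omega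
      have kw : ∀ i, A5 ⬝ᵥ (B i + y1 + t1) = 1 := by intro i; rw [fw, g1', kt]; norm_num
      exact four_units n5 ht1U (wU 0) (wU 1) (wU 2) (by rw [dotProduct_comm]; exact wt 0)
        (by rw [dotProduct_comm]; exact wt 1) (by rw [dotProduct_comm]; exact wt 2) w01 w02 w12 kt (kw 0) (kw 1) (kw 2)
  · exfalso
    rcases dot_split hx3 hy3 n5.le f3 with ⟨g3, g3'⟩ | ⟨g3', g3⟩
    · have k2 := third n5 hy1 hx3 oy13 g1 g3 hx2 hxy2 oy12 oyy12 o32 o32' f2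
      have kt : A5 ⬝ᵥ t1 = 0 := by omega
      have kw : ∀ i, A5 ⬝ᵥ (B i + y1 + t1) = 1 := by intro i; rw [fw, g1, kt]; norm_num
      exact four_units n5 hy1 (wU 0) (wU 1) (wU 2) (by rw [dotProduct_comm]; exact wy 0)
        (by rw [dotProduct_comm]; exact wy 1) (by rw [dotProduct_comm]; exact wy 2) w01 w02 w12 g1 (kw 0) (kw 1) (kw 2)
    · have k2 := third n5 hy1 hy3 oyy13 g1 g3 hx2 hxy2 oy12 oyy12 o32'' o32''' f2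
      have kt : A5 ⬝ᵥ t1 = 1 := by omega
      have kw : A5 ⬝ᵥ (B 0 + y1 + t1) = 2 := by rw [fw, g1, kt]; norm_num
      rcases (wU 0).dot_le n5.le with h | h | h <;> omega

/-- The arithmetic part. -/
theorem arith {n T Y1 Y2 Y3 W : ℝ} (hn : 0 < n) {η1 η2 η3 ω : ℝ} {X1 X2 X3 κ1 κ2 κ3 Z1 ζ1 Z2 ζ2 : ℝ}
    (hX1 : X1 ≠ 0) (hX2 : X2 ≠ 0) (hX3 : X3 ≠ 0) (hZ1 : Z1 ≠ 0)
    (a10 : X1 + Y1 = 1) (a11 : X1 * κ1 + Y1 * η1 = T) (a12 : X1 * κ1 ^ 2 + Y1 * η1 ^ 2 = T ^ 2 - 6 * n)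
    (a20 : X2 + Y2 = 1) (a21 : X2 * κ2 + Y2 * η2 = T) (a22 : X2 * κ2 ^ 2 + Y2 * η2 ^ 2 = T ^ 2 - 6 * n)
    (a30 : X3 + Y3 = 1) (a31 : X3 * κ3 + Y3 * η3 = T) (a32 : X3 * κ3 ^ 2 + Y3 * η3 ^ 2 = T ^ 2 - 6 * n)
    (a40 : X2 + X3 + Z1 = 0) (a41 : X2 * κ2 + X3 * κ3 + Z1 * ζ1 = 0) (a42 : X2 * κ2 ^ 2 + X3 * κ3 ^ 2 + Z1 * ζ1 ^ 2 = 0)
    (a50 : X1 + X3 + Z2 = 0) (a51 : X1 * κ1 + X3 * κ3 + Z2 * ζ2 = 0) (a52 : X1 * κ1 ^ 2 + X3 * κ3 ^ 2 + Z2 * ζ2 ^ 2 = 0)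
    (b0 : W - Y1 - Z1 = 0) (b1 : W * ω - Y1 * η1 - Z1 * ζ1 = 0)
    (b2 : W * ω ^ 2 - Y1 * η1 ^ 2 - Z1 * ζ1 ^ 2 = -3 * n) : X1 = -1 ∧ X2 = -1 := by
  have var : ∀ {x y z a b c : ℝ}, x ≠ 0 → y ≠ 0 → x + y + z = 0 → x * a + y * b + z * c = 0 →
      x * a ^ 2 + y * b ^ 2 + z * c ^ 2 = 0 → a = b := by
    intro x y z a b c hx hy h0 h1 h2
    have hz : z = -(x + y) := by linarith
    subst hz
    have h3 : x * y * (a - b) ^ 2 = 0 := by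
      have e1 : x * (a - c) + y * (b - c) = 0 := by linear_combination h1
      have e2 : x * (a - c) ^ 2 + y * (b - c) ^ 2 = 0 := by linear_combination h2 - 2 * c * h1
      have e3 : x * y * (a - b) ^ 2 = (x + y) * (x * (a - c) ^ 2 + y * (b - c) ^ 2) - (x * (a - c) + y * (b - c)) ^ 2 := by
        ring
      rw [e3, e1, e2]; ring
    have h4 : (a - b) ^ 2 = 0 := by
      rcases mul_eq_zero.1 h3 with h | h
      · rcases mul_eq_zero.1 h with h | h <;> contradiction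
      · exact h
    exact sub_eq_zero.1 (pow_eq_zero_iff (two_ne_zero) |>.1 h4)
  have k23 : κ2 = κ3 := var hX2 hX3 a40 a41 a42
  have k2z : κ2 = ζ1 := var hX2 hZ1 (by linarith) (show X2 * κ2 + Z1 * ζ1 + X3 * κ3 = 0 by linarith) (by linarith)
  have k13 : κ1 = κ3 := var hX1 hX3 a50 a51 a52
  -- relation for each i
  have rel : ∀ {X Y k η : ℝ}, X + Y = 1 → X * k + Y * η = T → X * k ^ 2 + Y * η ^ 2 = T ^ 2 - 6 * n →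
      Y * (η - k) = T - k ∧ (T - k) ^ 2 * (-X) = 6 * n * Y := by
    intro X Y k η h0 h1 h2
    have e1 : Y * (η - k) = T - k := by linear_combination h1 - k * h0
    refine ⟨e1, ?_⟩
    have hX : X = 1 - Y := by linarith
    have e2 : Y * (η - k) ^ 2 = (T - k) ^ 2 - 6 * n := by
      rw [hX] at h2
      rw [hX] at h1
      linear_combination h2 - 2 * k * h1
    have e3 : Y * (Y * (η - k) ^ 2) = (T - k) ^ 2 := by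
      rw [← e1]; ring
    rw [e2] at e3
    rw [hX]
    linear_combination e3
  obtain ⟨r1, r1'⟩ := rel a10 a11 a12
  obtain ⟨r2, r2'⟩ := rel a20 a21 a22
  obtain ⟨r3, r3'⟩ := rel a30 a31 a32
  rw [k13, ← k23] at r1 r1'
  rw [← k23] at r3 r3'
  set S := (T - κ2) ^ 2 with hS
  have hS0 : 0 ≤ S := sq_nonneg _
  -- all X equal
  have eqX : ∀ {X Y : ℝ}, X + Y = 1 → S * (-X) = 6 * n * Y → (6 * n - S) * X = 6 * n := by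
    intro X Y h0 h1
    have hY : Y = 1 - X := by linarith
    rw [hY] at h1
    linear_combination h1
  have q1 := eqX a10 r1'
  have q2 := eqX a20 r2'
  have q3 := eqX a30 r3'
  have hne : 6 * n - S ≠ 0 := by
    intro h
    rw [h, zero_mul] at q1
    linarith
  have x12 : X1 = X2 := mul_left_cancel₀ hne (q1.trans q2.symm)
  have x32 : X3 = X2 := mul_left_cancel₀ hne (q3.trans q2.symm)
  rw [← k2z] at b1 b2
  -- W part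
  have w1 : W * (ω - κ2) = Y1 * (η1 - κ2) := by
    have : Z1 = W - Y1 := by linarith
    rw [this] at b1
    linear_combination b1
  have w2 : W * (ω - κ2) ^ 2 = Y1 * (η1 - κ2) ^ 2 - 3 * n := by
    have hz : Z1 = W - Y1 := by linarith
    rw [hz] at b1 b2
    linear_combination b2 - 2 * κ2 * b1
  rw [r1] at w1
  have w3 : Y1 * (η1 - κ2) ^ 2 = S - 6 * n := by
    have : X1 = 1 - Y1 := by linarith
    rw [k13, ← k23] at a11 a12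
    rw [this] at a11 a12
    rw [hS]
    linear_combination a12 - 2 * κ2 * a11
  rw [w3] at w2
  have w4 : S = W * (S - 9 * n) := by
    have : W * (W * (ω - κ2) ^ 2) = (T - κ2) ^ 2 := by rw [← w1]; ring
    rw [w2] at this
    rw [hS]
    linear_combination -this
  -- W = Y1 + Z1 = 1 - X1 - X2 - X3
  have hWX : W = 1 - 3 * X2 := by linarith
  rw [hWX] at w4
  -- (6 n - S) X = 6 n, S = (1 - 3 X)(S - 9 n)
  have hX : X2 = -1 := by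
    have h1 : S * X2 = 6 * n * (X2 - 1) := by linear_combination -q2
    have h2 : (3 * S - 27 * n) * X2 = - 9 * n := by linear_combination w4
    have h3 : n * (X2 + 1) = 0 := by linear_combination (-1 / 9) * h2 + (1 / 3) * h1
    rcases mul_eq_zero.1 h3 with h | h
    · exact absurd h hn.ne'
    · linarith
  exact ⟨by rw [x12]; exact hX, hX⟩

/-- The lattice theorem. -/
theorem main (M : Mom ι) {n T : ℝ} (hn : 0 < n) (e A1 A2 A3 A4 A5 : ι → ℤ) (B : Fin 3 → ι → ℤ) (he : IsU e)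
    (n1 : A1 ⬝ᵥ A1 = 3) (n2 : A2 ⬝ᵥ A2 = 3) (n3 : A3 ⬝ᵥ A3 = 3) (n4 : A4 ⬝ᵥ A4 = 3) (n5 : A5 ⬝ᵥ A5 = 3)
    (e1 : A1 ⬝ᵥ e = -1) (e2 : A2 ⬝ᵥ e = -1) (e3 : A3 ⬝ᵥ e = -1) (e4 : A4 ⬝ᵥ e = 0) (e5 : A5 ⬝ᵥ e = 0)
    (h12 : A1 ⬝ᵥ A2 = 1) (h13 : A1 ⬝ᵥ A3 = 1) (h23 : A2 ⬝ᵥ A3 = 1)
    (h41 : A4 ⬝ᵥ A1 = 0) (h42 : A4 ⬝ᵥ A2 = 1) (h43 : A4 ⬝ᵥ A3 = 1)
    (h51 : A5 ⬝ᵥ A1 = 1) (h52 : A5 ⬝ᵥ A2 = 0) (h53 : A5 ⬝ᵥ A3 = 1) (h54 : A5 ⬝ᵥ A4 = 1)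
    (nB : ∀ i, B i ⬝ᵥ B i = 3) (hB : ∀ i j, i ≠ j → B i ⬝ᵥ B j = 2) (eB : ∀ i, B i ⬝ᵥ e = 0)
    (hB1 : ∀ i, B i ⬝ᵥ A1 = -1) (hB2 : ∀ i, B i ⬝ᵥ A2 = 0) (hB3 : ∀ i, B i ⬝ᵥ A3 = 0)
    (hB4 : ∀ i, B i ⬝ᵥ A4 = -1) (hB5 : ∀ i, B i ⬝ᵥ A5 = 0)
    (z1 : M.M0 A1 = 0) (z2 : M.M0 A2 = 0) (z3 : M.M0 A3 = 0) (z4 : M.M0 A4 = 0) (z5 : M.M0 A5 = 0)
    (zB : ∀ i, M.M0 (B i) = 0)
    (v1 : M.M1 A1 = 0) (v2 : M.M1 A2 = 0) (v3 : M.M1 A3 = 0) (v4 : M.M1 A4 = 0) (v5 : M.M1 A5 = 0)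
    (vB : M.M1 (B 0) = 0)
    (ze : M.M0 e = 1) (ze1 : M.M1 e = T) (ze2 : M.M2 e = T ^ 2)
    (y1 : M.M2 A1 = -6 * n) (y2 : M.M2 A2 = -6 * n) (y3 : M.M2 A3 = -6 * n) (y4 : M.M2 A4 = 0) (y5 : M.M2 A5 = 0)
    (yB : M.M2 (B 0) = -3 * n) :
    ∃ u1 u2 : ι → ℤ, IsU u1 ∧ M.M0 u1 = -1 ∧ A1 ⬝ᵥ u1 = 1 ∧ A5 ⬝ᵥ u1 = 1 ∧
      IsU u2 ∧ M.M0 u2 = -1 ∧ A2 ⬝ᵥ u2 = 1 ∧ A4 ⬝ᵥ u2 = 1 := by
  obtain ⟨x1, Y1, x2, Y2, x3, Y3, w, t1, t2, hx1, hY1, hx2, hY2, hx3, hY3, hw, ht1, ht2, s1, s2, s3, s4, s5, sB,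
    hxy1, hxy2, ex1, ex2, A5x1, A4x2⟩ := decomp M e A1 A2 A3 A4 A5 B he n1 n2 n3 n4 n5 e1 e2 e3 e4 e5 h12 h13 h23
      h41 h42 h43 h51 h52 h53 h54 nB hB eB hB1 hB2 hB3 hB4 hB5 z1 z2 z3 zB ze
  obtain ⟨κ1, p1, p1', p1''⟩ := M.unit x1 hx1
  obtain ⟨κ2, p2, p2', p2''⟩ := M.unit x2 hx2
  obtain ⟨κ3, p3, p3', p3''⟩ := M.unit x3 hx3
  obtain ⟨η1, q1, q1', q1''⟩ := M.unit Y1 hY1
  obtain ⟨η2, q2, q2', q2''⟩ := M.unit Y2 hY2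
  obtain ⟨η3, q3, q3', q3''⟩ := M.unit Y3 hY3
  obtain ⟨ω, r, r', r''⟩ := M.unit w hw
  obtain ⟨ζ1, t, t', t''⟩ := M.unit t1 ht1
  obtain ⟨ζ2, o, o', o''⟩ := M.unit t2 ht2
  have c0 : ∀ {A x y : ι → ℤ}, A + e = x + y → M.M0 A = 0 → ((M.M0 x : ℤ) : ℝ) + ((M.M0 y : ℤ) : ℝ) = 1 := by
    intro A x y hs h
    have := congrArg M.M0 hs
    rw [map_add, map_add, h, ze] at this
    have h2 : M.M0 x + M.M0 y = 1 := by omega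
    exact_mod_cast h2
  have c1 : ∀ {A x y : ι → ℤ}, A + e = x + y → M.M1 A = 0 → M.M1 x + M.M1 y = T := by
    intro A x y hs h
    have := congrArg M.M1 hs
    rw [map_add, map_add, h, ze1] at this
    linarith
  have c2 : ∀ {A x y : ι → ℤ}, A + e = x + y → M.M2 A = -6 * n → M.M2 x + M.M2 y = T ^ 2 - 6 * n := by
    intro A x y hs h
    have := congrArg M.M2 hs
    rw [map_add, map_add, h, ze2] at this
    linarith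
  have d0 : ∀ {A x y z : ι → ℤ}, A = x + y + z → M.M0 A = 0 →
      ((M.M0 x : ℤ) : ℝ) + ((M.M0 y : ℤ) : ℝ) + ((M.M0 z : ℤ) : ℝ) = 0 := by
    intro A x y z hs h
    rw [hs, map_add, map_add] at h
    exact_mod_cast h
  have d1 : ∀ {A x y z : ι → ℤ}, A = x + y + z → M.M1 A = 0 → M.M1 x + M.M1 y + M.M1 z = 0 := by
    intro A x y z hs h
    rw [hs, map_add, map_add] at h
    exact h
  have d2 : ∀ {A x y z : ι → ℤ}, A = x + y + z → M.M2 A = 0 → M.M2 x + M.M2 y + M.M2 z = 0 := by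
    intro A x y z hs h
    rw [hs, map_add, map_add] at h
    exact h
  have b0 : ((M.M0 w : ℤ) : ℝ) - ((M.M0 Y1 : ℤ) : ℝ) - ((M.M0 t1 : ℤ) : ℝ) = 0 := by
    have h := zB 0
    rw [sB, map_sub, map_sub] at h
    exact_mod_cast h
  have b1 : M.M1 w - M.M1 Y1 - M.M1 t1 = 0 := by
    rw [← map_sub, ← map_sub, ← sB, vB]
  have b2 : M.M2 w - M.M2 Y1 - M.M2 t1 = -3 * n := by
    rw [← map_sub, ← map_sub, ← sB, yB]
  have a11 := c1 s1 v1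
  have a12 := c2 s1 y1
  have a21 := c1 s2 v2
  have a22 := c2 s2 y2
  have a31 := c1 s3 v3
  have a32 := c2 s3 y3
  have a41 := d1 s4 v4
  have a42 := d2 s4 y4
  have a51 := d1 s5 v5
  have a52 := d2 s5 y5
  rw [p1', q1'] at a11
  rw [p1'', q1''] at a12
  rw [p2', q2'] at a21
  rw [p2'', q2''] at a22
  rw [p3', q3'] at a31
  rw [p3'', q3''] at a32
  rw [p2', p3', t'] at a41
  rw [p2'', p3'', t''] at a42
  rw [p1', p3', o'] at a51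
  rw [p1'', p3'', o''] at a52
  rw [r', q1', t'] at b1
  rw [r'', q1'', t''] at b2
  have key := arith hn (Int.cast_ne_zero.2 p1) (Int.cast_ne_zero.2 p2) (Int.cast_ne_zero.2 p3)
    (Int.cast_ne_zero.2 t) (c0 s1 z1) a11 a12 (c0 s2 z2) a21 a22 (c0 s3 z3) a31 a32 (d0 s4 z4) a41 a42
    (d0 s5 z5) a51 a52 b0 b1 b2
  have dot1 : ∀ {A x y : ι → ℤ}, A + e = x + y → IsU x → x ⬝ᵥ y = 0 → e ⬝ᵥ x = 0 → A ⬝ᵥ x = 1 := by
    intro A x y hs hx hxy hex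
    have h1 : A = x + y - e := by rw [← hs]; abel
    rw [h1, sub_dotProduct, add_dotProduct, hx, dotProduct_comm y x, hxy, hex]; norm_num
  refine ⟨x1, x2, hx1, ?_, dot1 s1 hx1 hxy1 ex1, A5x1, hx2, ?_, dot1 s2 hx2 hxy2 ex2, A4x2⟩
  · exact_mod_cast key.1
  · exact_mod_cast key.2

end H64.Lat27
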