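import Cfsg.Agent.Lib.H64.Lat27
import Cfsg.Agent.Lib.H64.Alg648

set_option autoImplicit false

/-! The lattice computation behind the characterization of `3^3:S_4`. -/

namespace H64.Lat648

open Matrix H64.Lattice H64.Lat27

variable {ι : Type*} [Fintype ι]

/-- moments with respect to two families -/
structure Mom2 (ι : Type*) [Fintype ι] where
  M0 : (ι → ℤ) →+ ℤ
  Ma : (ι → ℤ) →+ ℝ
  Mb : (ι → ℤ) →+ ℝ
  Maa : (ι → ℤ) →+ ℝ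
  Mab : (ι → ℤ) →+ ℝ
  Mbb : (ι → ℤ) →+ ℝ
  unit : ∀ u : ι → ℤ, IsU u → ∃ α β : ℝ, M0 u ≠ 0 ∧ Ma u = M0 u * α ∧ Mb u = M0 u * β ∧ Maa u = M0 u * α ^ 2 ∧
    Mab u = M0 u * (α * β) ∧ Mbb u = M0 u * β ^ 2

namespace Mom2

variable (M : Mom2 ι)

theorem ne {u : ι → ℤ} (hu : IsU u) : M.M0 u ≠ 0 := by
  obtain ⟨α, β, h, -⟩ := M.unit u hu
  exact h

theorem sqs {u : ι → ℤ} (hu : IsU u) : (M.M0 u : ℝ) * M.Maa u = M.Ma u ^ 2 ∧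
    (M.M0 u : ℝ) * M.Mab u = M.Ma u * M.Mb u ∧ (M.M0 u : ℝ) * M.Mbb u = M.Mb u ^ 2 := by
  obtain ⟨α, β, h, h1, h2, h3, h4, h5⟩ := M.unit u hu
  rw [h1, h2, h3, h4, h5]
  refine ⟨by ring, by ring, by ring⟩

/-- zero position gives zero second moments -/
theorem zero_pos {u : ι → ℤ} (hu : IsU u) (ha : M.Ma u = 0) : M.Maa u = 0 ∧ M.Mab u = 0 := by
  have n : (M.M0 u : ℝ) ≠ 0 := by exact_mod_cast M.ne hu
  obtain ⟨h1, h2, -⟩ := M.sqs hu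
  rw [ha] at h1 h2
  rw [zero_pow two_ne_zero] at h1
  rw [zero_mul] at h2
  exact ⟨(mul_eq_zero.1 h1).resolve_left n, (mul_eq_zero.1 h2).resolve_left n⟩

theorem zero_pos' {u : ι → ℤ} (hu : IsU u) (hb : M.Mb u = 0) : M.Mbb u = 0 ∧ M.Mab u = 0 := by
  have n : (M.M0 u : ℝ) ≠ 0 := by exact_mod_cast M.ne hu
  obtain ⟨-, h2, h1⟩ := M.sqs hu
  rw [hb] at h1 h2
  rw [zero_pow two_ne_zero] at h1
  rw [mul_zero] at h2
  exact ⟨(mul_eq_zero.1 h1).resolve_left n, (mul_eq_zero.1 h2).resolve_left n⟩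

/-- translate the positions -/
noncomputable def shift (c d : ℝ) : Mom2 ι where
  M0 := M.M0
  Ma := AddMonoidHom.mk' (fun u => M.Ma u - c * M.M0 u) fun a b => by simp only [map_add]; push_cast; ring
  Mb := AddMonoidHom.mk' (fun u => M.Mb u - d * M.M0 u) fun a b => by simp only [map_add]; push_cast; ring
  Maa := AddMonoidHom.mk' (fun u => M.Maa u - 2 * c * M.Ma u + c ^ 2 * M.M0 u) fun a b => by
    simp only [map_add]; push_cast; ring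
  Mab := AddMonoidHom.mk' (fun u => M.Mab u - c * M.Mb u - d * M.Ma u + c * d * M.M0 u) fun a b => by
    simp only [map_add]; push_cast; ring
  Mbb := AddMonoidHom.mk' (fun u => M.Mbb u - 2 * d * M.Mb u + d ^ 2 * M.M0 u) fun a b => by
    simp only [map_add]; push_cast; ring
  unit := by
    intro u hu
    obtain ⟨α, β, h, h1, h2, h3, h4, h5⟩ := M.unit u hu
    refine ⟨α - c, β - d, h, ?_, ?_, ?_, ?_, ?_⟩
    · change M.Ma u - c * M.M0 u = _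
      rw [h1]; ring
    · change M.Mb u - d * M.M0 u = _
      rw [h2]; ring
    · change M.Maa u - 2 * c * M.Ma u + c ^ 2 * M.M0 u = _
      rw [h1, h3]; ring
    · change M.Mab u - c * M.Mb u - d * M.Ma u + c * d * M.M0 u = _
      rw [h1, h2, h4]; ring
    · change M.Mbb u - 2 * d * M.Mb u + d ^ 2 * M.M0 u = _
      rw [h2, h5]; ring

end Mom2

/-- a vector with vanishing zeroth and first moments and given second moments -/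
structure Vec (M : Mom2 ι) (u : ι → ℤ) (qa qab qb : ℝ) : Prop where
  h0 : M.M0 u = 0
  ha : M.Ma u = 0
  hb : M.Mb u = 0
  haa : M.Maa u = qa
  hab : M.Mab u = qab
  hbb : M.Mbb u = qb

theorem Vec.shift {M : Mom2 ι} {u : ι → ℤ} {qa qab qb : ℝ} (h : Vec M u qa qab qb) (c d : ℝ) :
    Vec (M.shift c d) u qa qab qb := by
  refine ⟨h.h0, ?_, ?_, ?_, ?_, ?_⟩
  · change M.Ma u - c * M.M0 u = _
    rw [h.ha, h.h0]; simp
  · change M.Mb u - d * M.M0 u = _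
    rw [h.hb, h.h0]; simp
  · change M.Maa u - 2 * c * M.Ma u + c ^ 2 * M.M0 u = _
    rw [h.haa, h.ha, h.h0]; simp
  · change M.Mab u - c * M.Mb u - d * M.Ma u + c * d * M.M0 u = _
    rw [h.hab, h.ha, h.hb, h.h0]; simp
  · change M.Mbb u - 2 * d * M.Mb u + d ^ 2 * M.M0 u = _
    rw [h.hbb, h.hb, h.h0]; simp

/-- orthogonality and positions of the first units -/
structure Base (M : Mom2 ι) (N : ℝ) (e E3 E8 E9 E11 E12 : ι → ℤ) : Prop where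
  ue : IsU e
  u3 : IsU E3
  u8 : IsU E8
  u9 : IsU E9
  u11 : IsU E11
  u12 : IsU E12
  oe3 : e ⬝ᵥ E3 = 0
  oe8 : e ⬝ᵥ E8 = 0
  oe9 : e ⬝ᵥ E9 = 0
  oe11 : e ⬝ᵥ E11 = 0
  oe12 : e ⬝ᵥ E12 = 0
  o38 : E3 ⬝ᵥ E8 = 0
  o39 : E3 ⬝ᵥ E9 = 0
  o311 : E3 ⬝ᵥ E11 = 0
  o312 : E3 ⬝ᵥ E12 = 0
  o89 : E8 ⬝ᵥ E9 = 0
  o811 : E8 ⬝ᵥ E11 = 0
  o812 : E8 ⬝ᵥ E12 = 0
  o911 : E9 ⬝ᵥ E11 = 0
  o912 : E9 ⬝ᵥ E12 = 0
  o1112 : E11 ⬝ᵥ E12 = 0
  m9 : M.M0 E9 = M.M0 E8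
  m12 : M.M0 E12 = M.M0 E11
  m11 : M.M0 E11 = M.M0 E3 + M.M0 E8
  me : M.M0 e = 1
  a8 : M.Ma E8 = 0
  b8 : M.Mb E8 = 0
  a9 : M.Ma E9 = 0
  b9 : M.Mb E9 = 0
  a3 : M.Ma E3 = M.Ma E11
  b3 : M.Mb E3 = 0
  b11 : M.Mb E11 = 0
  a12 : M.Ma E12 = M.Ma E11
  b12 : M.Mb E12 = 0
  V : M.Ma E11 ^ 2 * M.M0 E8 = 6 * N * M.M0 E3 * M.M0 E11

/-- the vectors -/
structure Vecs (M : Mom2 ι) (N : ℝ) (e d8 d11 v : ι → ℤ) : Prop where
  ue : IsU e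
  me : M.M0 e = 1
  n8 : d8 ⬝ᵥ d8 = 2
  n11 : d11 ⬝ᵥ d11 = 2
  nv : v ⬝ᵥ v = 3
  e8 : e ⬝ᵥ d8 = 0
  e11 : e ⬝ᵥ d11 = 0
  ev : e ⬝ᵥ v = 0
  d8d11 : d8 ⬝ᵥ d11 = 0
  vd8 : v ⬝ᵥ d8 = 1
  vd11 : v ⬝ᵥ d11 = -1
  q8 : Vec M d8 0 0 0
  q11 : Vec M d11 0 0 0
  qv : Vec M v (6 * N) 0 0

/-- the first decomposition -/
theorem decomp {M : Mom2 ι} {N : ℝ} {e d8 d11 v : ι → ℤ} (h : Vecs M N e d8 d11 v) :
    ∃ E3 E8 E9 E11 E12 : ι → ℤ, IsU E3 ∧ IsU E8 ∧ IsU E9 ∧ IsU E11 ∧ IsU E12 ∧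
      d8 = E8 - E9 ∧ d11 = E11 - E12 ∧ v = E3 + E8 - E11 ∧
      e ⬝ᵥ E3 = 0 ∧ e ⬝ᵥ E8 = 0 ∧ e ⬝ᵥ E9 = 0 ∧ e ⬝ᵥ E11 = 0 ∧ e ⬝ᵥ E12 = 0 ∧
      E3 ⬝ᵥ E8 = 0 ∧ E3 ⬝ᵥ E9 = 0 ∧ E3 ⬝ᵥ E11 = 0 ∧ E3 ⬝ᵥ E12 = 0 ∧ E8 ⬝ᵥ E9 = 0 ∧ E8 ⬝ᵥ E11 = 0 ∧
      E8 ⬝ᵥ E12 = 0 ∧ E9 ⬝ᵥ E11 = 0 ∧ E9 ⬝ᵥ E12 = 0 ∧ E11 ⬝ᵥ E12 = 0 := by
  obtain ⟨x, y, hx, hy, hxy, hd8, vx, vy⟩ := exists_two_named h.n8 (by rw [h.nv]) h.vd8
  obtain ⟨z, w, hz, hw, hzw, hd11, vz, vw⟩ := exists_two_named' h.n11 (by rw [h.nv]) h.vd11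
  have hM : ∀ u : ι → ℤ, IsU u → M.M0 u ≠ 0 := fun u hu => M.ne hu
  obtain ⟨c1, c2, c3, c4⟩ := cross (M0 := M.M0) hM hx hy hxy hz hw hzw (by rw [← hd8, ← hd11]; exact h.d8d11)
    (by rw [← hd8, ← hd11, h.q8.h0, h.q11.h0])
  obtain ⟨f1, f2⟩ := unit_zero h.ue hx hxy (by rw [← dotProduct_add, ← hd8]; exact h.e8)
  obtain ⟨f3, f4⟩ := unit_zero h.ue hz hzw (by rw [← dotProduct_add, ← hd11]; exact h.e11)
  refine ⟨v - x + w, x, -y, w, -z, ?_, hx, hy.neg, hw, hz.neg, ?_, ?_, ?_, ?_, f1, ?_, f4, ?_, ?_, ?_, ?_, ?_, ?_, c2,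
    ?_, ?_, ?_, ?_⟩
  · unfold IsU
    rw [norm_add_unit hw, norm_sub_unit hx, h.nv, vx, sub_dotProduct, vw, c2]
    norm_num
  · rw [hd8]; abel
  · rw [hd11]; abel
  · abel
  · rw [dotProduct_add, dotProduct_sub, h.ev, f1, f4]; norm_num
  · rw [dotProduct_neg, f2, neg_zero]
  · rw [dotProduct_neg, f3, neg_zero]
  · rw [add_dotProduct, sub_dotProduct, vx, hx, dotProduct_comm w x, c2]; norm_num
  · rw [dotProduct_neg, add_dotProduct, sub_dotProduct, vy, hxy, dotProduct_comm w y, c4]; norm_num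
  · rw [add_dotProduct, sub_dotProduct, vw, c2, hw]; norm_num
  · rw [dotProduct_neg, add_dotProduct, sub_dotProduct, vz, c1, dotProduct_comm w z, hzw]; norm_num
  · rw [dotProduct_neg, hxy, neg_zero]
  · rw [dotProduct_neg, c1, neg_zero]
  · rw [neg_dotProduct, c4, neg_zero]
  · rw [neg_dotProduct, dotProduct_neg, c3]; norm_num
  · rw [dotProduct_neg, dotProduct_comm w z, hzw, neg_zero]

/-- the base after translating the origin -/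
theorem base {M : Mom2 ι} {N : ℝ} {e d8 d11 v E3 E8 E9 E11 E12 : ι → ℤ} (h : Vecs M N e d8 d11 v)
    (u3 : IsU E3) (u8 : IsU E8) (u9 : IsU E9) (u11 : IsU E11) (u12 : IsU E12)
    (hd8 : d8 = E8 - E9) (hd11 : d11 = E11 - E12) (hv : v = E3 + E8 - E11)
    (oe3 : e ⬝ᵥ E3 = 0) (oe8 : e ⬝ᵥ E8 = 0) (oe9 : e ⬝ᵥ E9 = 0) (oe11 : e ⬝ᵥ E11 = 0) (oe12 : e ⬝ᵥ E12 = 0)
    (o38 : E3 ⬝ᵥ E8 = 0) (o39 : E3 ⬝ᵥ E9 = 0) (o311 : E3 ⬝ᵥ E11 = 0) (o312 : E3 ⬝ᵥ E12 = 0)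
    (o89 : E8 ⬝ᵥ E9 = 0) (o811 : E8 ⬝ᵥ E11 = 0) (o812 : E8 ⬝ᵥ E12 = 0) (o911 : E9 ⬝ᵥ E11 = 0)
    (o912 : E9 ⬝ᵥ E12 = 0) (o1112 : E11 ⬝ᵥ E12 = 0) :
    Base (M.shift (M.Ma E8 / M.M0 E8) (M.Mb E8 / M.M0 E8)) N e E3 E8 E9 E11 E12 := by
  have k8 := h.q8.shift (M.Ma E8 / M.M0 E8) (M.Mb E8 / M.M0 E8)
  have k11 := h.q11.shift (M.Ma E8 / M.M0 E8) (M.Mb E8 / M.M0 E8)
  have kv := h.qv.shift (M.Ma E8 / M.M0 E8) (M.Mb E8 / M.M0 E8)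
  have n8 : (M.M0 E8 : ℝ) ≠ 0 := by exact_mod_cast M.ne u8
  have A8 : (M.shift (M.Ma E8 / M.M0 E8) (M.Mb E8 / M.M0 E8)).Ma E8 = 0 := by
    change M.Ma E8 - M.Ma E8 / M.M0 E8 * M.M0 E8 = 0
    field_simp
    ring
  have B8 : (M.shift (M.Ma E8 / M.M0 E8) (M.Mb E8 / M.M0 E8)).Mb E8 = 0 := by
    change M.Mb E8 - M.Mb E8 / M.M0 E8 * M.M0 E8 = 0
    field_simp
    ring
  have hme : (M.shift (M.Ma E8 / M.M0 E8) (M.Mb E8 / M.M0 E8)).M0 e = 1 := h.me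
  generalize M.shift (M.Ma E8 / M.M0 E8) (M.Mb E8 / M.M0 E8) = M' at *
  rw [hd8] at k8
  rw [hd11] at k11
  rw [hv] at kv
  have m9 : M'.M0 E9 = M'.M0 E8 := by
    have := k8.h0
    rw [map_sub] at this
    omega
  have m12 : M'.M0 E12 = M'.M0 E11 := by
    have := k11.h0
    rw [map_sub] at this
    omega
  have m11 : M'.M0 E11 = M'.M0 E3 + M'.M0 E8 := by
    have := kv.h0
    rw [map_sub, map_add] at this
    omega
  have A9 : M'.Ma E9 = 0 := by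
    have := k8.ha
    rw [map_sub, A8] at this
    linarith
  have B9 : M'.Mb E9 = 0 := by
    have := k8.hb
    rw [map_sub, B8] at this
    linarith
  have A12 : M'.Ma E12 = M'.Ma E11 := by
    have := k11.ha
    rw [map_sub] at this
    linarith
  have B12 : M'.Mb E12 = M'.Mb E11 := by
    have := k11.hb
    rw [map_sub] at this
    linarith
  have A3 : M'.Ma E3 = M'.Ma E11 := by
    have := kv.ha
    rw [map_sub, map_add, A8] at this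
    linarith
  have B3 : M'.Mb E3 = M'.Mb E11 := by
    have := kv.hb
    rw [map_sub, map_add, B8] at this
    linarith
  have n3 : (M'.M0 E3 : ℝ) ≠ 0 := by exact_mod_cast M'.ne u3
  have n8' : (M'.M0 E8 : ℝ) ≠ 0 := by exact_mod_cast M'.ne u8
  have n11 : (M'.M0 E11 : ℝ) ≠ 0 := by exact_mod_cast M'.ne u11
  have m11R : (M'.M0 E11 : ℝ) = M'.M0 E3 + M'.M0 E8 := by exact_mod_cast m11
  obtain ⟨s3, -, t3⟩ := M'.sqs u3
  obtain ⟨s8, -, t8⟩ := M'.sqs u8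
  obtain ⟨s11, -, t11⟩ := M'.sqs u11
  rw [A8, zero_pow two_ne_zero] at s8
  rw [B8, zero_pow two_ne_zero] at t8
  have AA8 : M'.Maa E8 = 0 := (mul_eq_zero.1 s8).resolve_left n8'
  have BB8 : M'.Mbb E8 = 0 := (mul_eq_zero.1 t8).resolve_left n8'
  have vA := kv.haa
  have vB := kv.hbb
  rw [map_sub, map_add, AA8] at vA
  rw [map_sub, map_add, BB8] at vB
  rw [A3] at s3
  rw [B3] at t3
  have V : M'.Ma E11 ^ 2 * M'.M0 E8 = 6 * N * M'.M0 E3 * M'.M0 E11 := by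
    linear_combination (M'.M0 E3 * M'.M0 E11 : ℝ) * vA - M'.M0 E11 * s3 + M'.M0 E3 * s11 - M'.Ma E11 ^ 2 * m11R
  have VB : M'.Mb E11 ^ 2 * M'.M0 E8 = 0 := by
    linear_combination (M'.M0 E3 * M'.M0 E11 : ℝ) * vB - M'.M0 E11 * t3 + M'.M0 E3 * t11 - M'.Mb E11 ^ 2 * m11R
  have B11 : M'.Mb E11 = 0 := (pow_eq_zero_iff two_ne_zero).1 ((mul_eq_zero.1 VB).resolve_right n8')
  exact ⟨h.ue, u3, u8, u9, u11, u12, oe3, oe8, oe9, oe11, oe12, o38, o39, o311, o312, o89, o811, o812, o911, o912,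
    o1112, m9, m12, m11, hme, A8, B8, A9, B9, A3, by rw [B3, B11], B11, A12, by rw [B12, B11], V⟩

namespace Base

variable {M : Mom2 ι} {N : ℝ} {e E3 E8 E9 E11 E12 : ι → ℤ} (h : Base M N e E3 E8 E9 E11 E12)

include h

theorem A11_ne (hN : 0 < N) : M.Ma E11 ≠ 0 := by
  intro h0
  have := h.V
  rw [h0] at this
  have n3 : (M.M0 E3 : ℝ) ≠ 0 := by exact_mod_cast M.ne h.u3
  have n11 : (M.M0 E11 : ℝ) ≠ 0 := by exact_mod_cast M.ne h.u11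
  have : 6 * N * M.M0 E3 * M.M0 E11 = 0 := by rw [← this]; ring
  have h6 : 6 * N * M.M0 E3 * M.M0 E11 ≠ 0 := by positivity
  exact h6 this

end Base

/-- four orthogonal units cannot all have nonzero product with a vector of norm three -/
theorem four_units' {a : ι → ℤ} (ha : a ⬝ᵥ a = 3) {u1 u2 u3 u4 : ι → ℤ} (h1 : IsU u1) (h2 : IsU u2) (h3 : IsU u3)
    (h4 : IsU u4) (h12 : u1 ⬝ᵥ u2 = 0) (h13 : u1 ⬝ᵥ u3 = 0) (h14 : u1 ⬝ᵥ u4 = 0) (h23 : u2 ⬝ᵥ u3 = 0)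
    (h24 : u2 ⬝ᵥ u4 = 0) (h34 : u3 ⬝ᵥ u4 = 0) (e1 : a ⬝ᵥ u1 ≠ 0) (e2 : a ⬝ᵥ u2 ≠ 0) (e3 : a ⬝ᵥ u3 ≠ 0)
    (e4 : a ⬝ᵥ u4 ≠ 0) : False := by
  have key : ∀ u : ι → ℤ, IsU u → a ⬝ᵥ u ≠ 0 → ∃ w : ι → ℤ, IsU w ∧ a ⬝ᵥ w = 1 ∧ (w = u ∨ w = -u) := by
    intro u hu hau
    rcases hu.dot_le (a := a) (by omega) with k | k | k
    · exact absurd k hau
    · exact ⟨u, hu, k, Or.inl rfl⟩
    · exact ⟨-u, hu.neg, by rw [dotProduct_neg, k]; norm_num, Or.inr rfl⟩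
  obtain ⟨w1, k1, l1, m1⟩ := key u1 h1 e1
  obtain ⟨w2, k2, l2, m2⟩ := key u2 h2 e2
  obtain ⟨w3, k3, l3, m3⟩ := key u3 h3 e3
  obtain ⟨w4, k4, l4, m4⟩ := key u4 h4 e4
  have orth : ∀ {x y x' y' : ι → ℤ}, x ⬝ᵥ y = 0 → (x' = x ∨ x' = -x) → (y' = y ∨ y' = -y) → x' ⬝ᵥ y' = 0 := by
    intro x y x' y' hxy hx hy
    rcases hx with rfl | rfl <;> rcases hy with rfl | rfl <;> simp [hxy]
  exact four_units ha k1 k2 k3 k4 (orth h12 m1 m2) (orth h13 m1 m3) (orth h14 m1 m4) (orth h23 m2 m3)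
    (orth h24 m2 m4) (orth h34 m3 m4) l1 l2 l3 l4

/-- a vector of norm three which is the sum of three named units -/
theorem eq_three {a x y z : ι → ℤ} (ha : a ⬝ᵥ a = 3) (hx : IsU x) (hy : IsU y) (hz : IsU z)
    (hxy : x ⬝ᵥ y = 0) (hxz : x ⬝ᵥ z = 0) (hyz : y ⬝ᵥ z = 0) (ax : a ⬝ᵥ x = 1) (ay : a ⬝ᵥ y = 1)
    (az : a ⬝ᵥ z = 1) : a = x + y + z := by
  have h1 : (a - x - y - z) ⬝ᵥ (a - x - y - z) = 0 := by
    rw [norm_sub_unit hz, norm_sub_unit hy, norm_sub_unit hx, ha, ax]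
    simp only [sub_dotProduct]
    rw [ay, az, hxy, hxz, hyz]
    norm_num
  have h2 : a - x - y - z = 0 := dotProduct_self_eq_zero.1 h1
  rw [← sub_eq_zero, ← h2]
  abel

/-- the second vector -/
theorem step_a {M : Mom2 ι} {N : ℝ} (hN : 0 < N) {e E3 E8 E9 E11 E12 a : ι → ℤ}
    (h : Base M N e E3 E8 E9 E11 E12) (na : a ⬝ᵥ a = 3) (ae : e ⬝ᵥ a = 0) (ad8 : a ⬝ᵥ E8 - a ⬝ᵥ E9 = -1)
    (ad11 : a ⬝ᵥ E11 - a ⬝ᵥ E12 = 0) (av : a ⬝ᵥ E3 + a ⬝ᵥ E8 - a ⬝ᵥ E11 = -1) (qa : Vec M a 0 0 (6 * N)) :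
    ∃ E4 E5 : ι → ℤ, IsU E4 ∧ IsU E5 ∧ a = E4 + E5 - E8 ∧ E4 ⬝ᵥ E5 = 0 ∧
      (∀ x ∈ ({e, E3, E8, E9, E11, E12} : Set (ι → ℤ)), E4 ⬝ᵥ x = 0 ∧ E5 ⬝ᵥ x = 0) ∧
      M.Ma E4 = 0 ∧ M.Ma E5 = 0 ∧ M.Mb E5 = -M.Mb E4 ∧ M.M0 E8 = M.M0 E4 + M.M0 E5 ∧
      M.Mb E4 ^ 2 * M.M0 E8 = 6 * N * M.M0 E4 * M.M0 E5 := by
  have hX := h.A11_ne hN
  have n8 : (M.M0 E8 : ℝ) ≠ 0 := by exact_mod_cast M.ne h.u8
  have aeq : a ⬝ᵥ e = 0 := by rw [dotProduct_comm]; exact ae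
  rcases h.u8.dot_le (a := a) (by omega) with k8 | k8 | k8
  · -- a·E8 = 0, a·E9 = 1
    exfalso
    have k9 : a ⬝ᵥ E9 = 1 := by omega
    rcases h.u11.dot_le (a := a) (by omega) with k11 | k11 | k11
    · -- a = E9 - E3 + X
      have k3 : a ⬝ᵥ E3 = -1 := by omega
      have uX : IsU (a - E9 + E3) := by
        unfold IsU
        rw [norm_add_unit h.u3, norm_sub_unit h.u9, na, k9, sub_dotProduct, k3, dotProduct_comm E9 E3, h.o39]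
        norm_num
      have hX0 : M.M0 (a - E9 + E3) = M.M0 E3 - M.M0 E9 := by
        rw [map_add, map_sub, qa.h0]; ring
      have hXA : M.Ma (a - E9 + E3) = M.Ma E3 := by
        rw [map_add, map_sub, qa.ha, h.a9]; ring
      have hXAA : M.Maa (a - E9 + E3) = M.Maa E3 := by
        rw [map_add, map_sub, qa.haa, (M.zero_pos h.u9 h.a9).1]; ring
      obtain ⟨s1, -, -⟩ := M.sqs uX
      obtain ⟨s3, -, -⟩ := M.sqs h.u3
      rw [hX0, hXA, hXAA] at s1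
      have n3 : (M.M0 E3 : ℝ) ≠ 0 := by exact_mod_cast M.ne h.u3
      push_cast at s1
      have m9 : (M.M0 E9 : ℝ) = M.M0 E8 := by exact_mod_cast h.m9
      have h1 : M.M0 E8 * M.Maa E3 = 0 := by linear_combination s3 - s1 - M.Maa E3 * m9
      have h2 : M.Maa E3 = 0 := (mul_eq_zero.1 h1).resolve_left n8
      rw [h2, mul_zero, h.a3] at s3
      exact hX ((pow_eq_zero_iff two_ne_zero).1 s3.symm)
    · -- a = E9 + E11 + E12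
      have k12 : a ⬝ᵥ E12 = 1 := by omega
      have := eq_three na h.u9 h.u11 h.u12 h.o911 h.o912 h.o1112 k9 k11 k12
      have h1 := qa.ha
      rw [this, map_add, map_add, h.a9, h.a12] at h1
      apply hX
      linarith
    · -- impossible
      have k3 : a ⬝ᵥ E3 = -2 := by omega
      rcases h.u3.dot_le (a := a) (by omega) with k | k | k <;> omega
  · exfalso
    rcases h.u9.dot_le (a := a) (by omega) with k | k | k <;> omega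
  · have k9 : a ⬝ᵥ E9 = 0 := by omega
    have k3 : a ⬝ᵥ E3 = a ⬝ᵥ E11 := by omega
    have k12 : a ⬝ᵥ E12 = a ⬝ᵥ E11 := by omega
    have k11 : a ⬝ᵥ E11 = 0 := by
      by_contra hne
      refine four_units' na h.u8 h.u11 h.u12 h.u3 h.o811 h.o812 (by rw [dotProduct_comm]; exact h.o38) h.o1112
        (by rw [dotProduct_comm]; exact h.o311) (by rw [dotProduct_comm]; exact h.o312) (by omega) hne
        (by omega) (by omega)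
    rw [k11] at k3 k12
    have nn : (a + E8) ⬝ᵥ (a + E8) = 2 := by rw [norm_add_unit h.u8, na, k8]; norm_num
    obtain ⟨E4, E5, u4, u5, o45, hs⟩ := exists_two nn
    have ha : a = E4 + E5 - E8 := by rw [← hs]; abel
    have orth : ∀ x : ι → ℤ, IsU x → a ⬝ᵥ x + E8 ⬝ᵥ x = 0 → E4 ⬝ᵥ x = 0 ∧ E5 ⬝ᵥ x = 0 := by
      intro x hx h0
      have h1 : x ⬝ᵥ E4 + x ⬝ᵥ E5 = 0 := by
        rw [← dotProduct_add, ← hs, dotProduct_add, dotProduct_comm x a, dotProduct_comm x E8]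
        exact h0
      obtain ⟨h2, h3⟩ := unit_zero hx u4 o45 h1
      exact ⟨by rw [dotProduct_comm]; exact h2, by rw [dotProduct_comm]; exact h3⟩
    have horth : ∀ x ∈ ({e, E3, E8, E9, E11, E12} : Set (ι → ℤ)), E4 ⬝ᵥ x = 0 ∧ E5 ⬝ᵥ x = 0 := by
      intro x hx
      simp only [Set.mem_insert_iff, Set.mem_singleton_iff] at hx
      rcases hx with rfl | rfl | rfl | rfl | rfl | rfl
      · exact orth _ h.ue (by rw [aeq, dotProduct_comm E8, h.oe8]; norm_num)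
      · exact orth _ h.u3 (by rw [k3, dotProduct_comm E8, h.o38]; norm_num)
      · exact orth _ h.u8 (by rw [k8, h.u8]; norm_num)
      · exact orth _ h.u9 (by rw [k9, h.o89]; norm_num)
      · exact orth _ h.u11 (by rw [k11, h.o811]; norm_num)
      · exact orth _ h.u12 (by rw [k12, h.o812]; norm_num)
    have m8 : M.M0 E8 = M.M0 E4 + M.M0 E5 := by
      have := qa.h0
      rw [ha, map_sub, map_add] at this
      omega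
    have m8R : (M.M0 E8 : ℝ) = M.M0 E4 + M.M0 E5 := by exact_mod_cast m8
    have sA := qa.ha
    have sB := qa.hb
    have sAA := qa.haa
    have sBB := qa.hbb
    rw [ha, map_sub, map_add, h.a8] at sA
    rw [ha, map_sub, map_add, h.b8] at sB
    rw [ha, map_sub, map_add, (M.zero_pos h.u8 h.a8).1] at sAA
    rw [ha, map_sub, map_add, (M.zero_pos' h.u8 h.b8).1] at sBB
    obtain ⟨s4, -, t4⟩ := M.sqs u4
    obtain ⟨s5, -, t5⟩ := M.sqs u5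
    have A5 : M.Ma E5 = -M.Ma E4 := by linarith
    have B5 : M.Mb E5 = -M.Mb E4 := by linarith
    rw [A5] at s5
    rw [B5] at t5
    have h1 : M.Ma E4 ^ 2 * M.M0 E8 = 0 := by
      linear_combination (M.M0 E4 * M.M0 E5 : ℝ) * sAA - M.M0 E5 * s4 - M.M0 E4 * s5 + M.Ma E4 ^ 2 * m8R
    have A4 : M.Ma E4 = 0 := (pow_eq_zero_iff two_ne_zero).1 ((mul_eq_zero.1 h1).resolve_right n8)
    have h2 : M.Mb E4 ^ 2 * M.M0 E8 = 6 * N * M.M0 E4 * M.M0 E5 := by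
      linear_combination (M.M0 E4 * M.M0 E5 : ℝ) * sBB - M.M0 E5 * t4 - M.M0 E4 * t5 + M.Mb E4 ^ 2 * m8R
    exact ⟨E4, E5, u4, u5, ha, o45, horth, A4, by rw [A5, A4, neg_zero], B5, m8, h2⟩

end H64.Lat648
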