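import Cfsg.Agent.Lib.H64.Lat648

set_option autoImplicit false

/-! The lattice computation behind the characterization of `3^3:S_4`, continued. -/

namespace H64.Lat648

open Matrix H64.Lattice H64.Lat27

variable {ι : Type*} [Fintype ι]

/-- the data after the second vector -/
structure Base2 (M : Mom2 ι) (N : ℝ) (e E3 E4 E5 E8 E9 E11 E12 : ι → ℤ) : Prop extends
    Base M N e E3 E8 E9 E11 E12 where
  u4 : IsU E4
  u5 : IsU E5
  o45 : E4 ⬝ᵥ E5 = 0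
  orth : ∀ x ∈ ({e, E3, E8, E9, E11, E12} : Set (ι → ℤ)), E4 ⬝ᵥ x = 0 ∧ E5 ⬝ᵥ x = 0
  a4 : M.Ma E4 = 0
  a5 : M.Ma E5 = 0
  b5 : M.Mb E5 = -M.Mb E4
  m8 : M.M0 E8 = M.M0 E4 + M.M0 E5
  VC : M.Mb E4 ^ 2 * M.M0 E8 = 6 * N * M.M0 E4 * M.M0 E5

theorem Base2.swap {M : Mom2 ι} {N : ℝ} {e E3 E4 E5 E8 E9 E11 E12 : ι → ℤ}
    (h : Base2 M N e E3 E4 E5 E8 E9 E11 E12) : Base2 M N e E3 E5 E4 E8 E9 E11 E12 :=
  { h.toBase with
    u4 := h.u5
    u5 := h.u4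
    o45 := by rw [dotProduct_comm]; exact h.o45
    orth := fun x hx => ⟨(h.orth x hx).2, (h.orth x hx).1⟩
    a4 := h.a5
    a5 := h.a4
    b5 := by rw [h.b5, neg_neg]
    m8 := by rw [h.m8, add_comm]
    VC := by rw [h.b5]; linear_combination h.VC }

/-- moments of `w - e` -/
structure VecE (M : Mom2 ι) (e W : ι → ℤ) (qa qab qb : ℝ) : Prop where
  h0 : M.M0 W = -1
  ha : M.Ma W = -M.Ma e
  hb : M.Mb W = -M.Mb e
  haa : M.Maa W = qa - M.Ma e ^ 2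
  hab : M.Mab W = qab - M.Ma e * M.Mb e
  hbb : M.Mbb W = qb - M.Mb e ^ 2

theorem sum_prod {x y : ℤ} (h : x + y = 4 * x * y) : x = 0 := by
  have h1 : (4 * x - 1) * (4 * y - 1) = 1 := by linarith
  rcases Int.eq_one_or_neg_one_of_mul_eq_one h1 with h2 | h2 <;> omega

theorem sum_prod' {x y : ℤ} (h : x + 3 * y = 8 * x * y) (_hx : x ≠ 0) (hy : y ≠ 0) : False := by
  have h1 : (8 * x - 3) * (8 * y - 1) = 3 := by linarith
  have h2 : (8 * y - 1) ∣ 3 := ⟨8 * x - 3, by linarith⟩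
  have h3 : 8 * y - 1 ≤ 3 := Int.le_of_dvd (by norm_num) h2
  have h4 : -(8 * y - 1) ≤ 3 := Int.le_of_dvd (by norm_num) ((neg_dvd).2 h2)
  have h5 : y = 0 := by omega
  exact hy h5

/-- the third vector -/
theorem step_w {M : Mom2 ι} {N : ℝ} (hN : 0 < N) {e E3 E4 E5 E8 E9 E11 E12 W : ι → ℤ}
    (h : Base2 M N e E3 E4 E5 E8 E9 E11 E12) (nW : W ⬝ᵥ W = 3)
    (Wd8 : W ⬝ᵥ E8 - W ⬝ᵥ E9 = 0) (Wd11 : W ⬝ᵥ E11 - W ⬝ᵥ E12 = 1) (Wv : W ⬝ᵥ E3 + W ⬝ᵥ E8 - W ⬝ᵥ E11 = -1)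
    (Wa : W ⬝ᵥ E4 + W ⬝ᵥ E5 - W ⬝ᵥ E8 = -1) (q : VecE M e W 0 (6 * N) (6 * N)) :
    W ⬝ᵥ E11 = 1 ∧ W ⬝ᵥ E12 = 0 ∧ W ⬝ᵥ E3 = 0 ∧ W ⬝ᵥ E8 = 0 ∧
      ((W ⬝ᵥ E4 = -1 ∧ W ⬝ᵥ E5 = 0) ∨ (W ⬝ᵥ E4 = 0 ∧ W ⬝ᵥ E5 = -1)) := by
  have hX := h.A11_ne hN
  have o4 := fun x hx => (h.orth x hx).1
  have o5 := fun x hx => (h.orth x hx).2
  have hbad : ∀ F : ι → ℤ, IsU F → M.Ma F = 0 → F ⬝ᵥ E12 = 0 → F ⬝ᵥ E3 = 0 → W ⬝ᵥ F = -1 → W ⬝ᵥ E12 = -1 →
      W ⬝ᵥ E3 = -1 → False := by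
    intro F uF aF o1 o2 hF h12 h3
    have hs := eq_three nW h.u12.neg h.u3.neg uF.neg (by simp [dotProduct_comm E12 E3, h.o312])
      (by simp [dotProduct_comm E12 F, o1]) (by simp [dotProduct_comm E3 F, o2]) (by simp [h12]) (by simp [h3])
      (by simp [hF])
    have sa := q.ha
    have saa := q.haa
    rw [hs, map_add, map_add, map_neg, map_neg, map_neg, h.a12, h.a3, aF] at sa
    rw [hs, map_add, map_add, map_neg, map_neg, map_neg, (M.zero_pos uF aF).1] at saa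
    obtain ⟨s12, -, -⟩ := M.sqs h.u12
    obtain ⟨s3, -, -⟩ := M.sqs h.u3
    rw [h.m12, h.a12] at s12
    rw [h.a3] at s3
    have e1 : M.Ma e = 2 * M.Ma E11 := by linarith
    rw [e1] at saa
    have h1 : M.Ma E11 ^ 2 * ((M.M0 E3 + M.M0 E11 : ℝ) - 4 * M.M0 E3 * M.M0 E11) = 0 := by
      linear_combination -(M.M0 E3 * M.M0 E11 : ℝ) * saa - M.M0 E3 * s12 - M.M0 E11 * s3
    have h2 : ((M.M0 E3 + M.M0 E11 : ℝ) - 4 * M.M0 E3 * M.M0 E11) = 0 :=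
      (mul_eq_zero.1 h1).resolve_left (pow_ne_zero 2 hX)
    have h3 : M.M0 E3 + M.M0 E11 = 4 * M.M0 E3 * M.M0 E11 := by
      have : ((M.M0 E3 + M.M0 E11 : ℤ) : ℝ) = ((4 * M.M0 E3 * M.M0 E11 : ℤ) : ℝ) := by push_cast; linarith
      exact_mod_cast this
    exact M.ne h.u3 (sum_prod h3)
  rcases h.u11.dot_le (a := W) (by omega) with k11 | k11 | k11
  · -- (0,-1)
    exfalso
    have k12 : W ⬝ᵥ E12 = -1 := by omega
    rcases h.u8.dot_le (a := W) (by omega) with k8 | k8 | k8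
    · have k3 : W ⬝ᵥ E3 = -1 := by omega
      rcases h.u4.dot_le (a := W) (by omega) with k4 | k4 | k4
      · exact hbad E5 h.u5 h.a5 (o5 _ (by simp)) (o5 _ (by simp)) (by omega) k12 k3
      · rcases h.u5.dot_le (a := W) (by omega) with k5 | k5 | k5 <;> omega
      · exact hbad E4 h.u4 h.a4 (o4 _ (by simp)) (o4 _ (by simp)) (by omega) k12 k3
    · rcases h.u3.dot_le (a := W) (by omega) with k3 | k3 | k3 <;> omega
    · have k4 : W ⬝ᵥ E4 ≠ 0 := by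
        intro k4
        rcases h.u5.dot_le (a := W) (by omega) with k5 | k5 | k5 <;> omega
      exact four_units' nW h.u8 h.u9 h.u12 h.u4 h.o89 h.o812 (by rw [dotProduct_comm]; exact o4 _ (by simp))
        h.o912 (by rw [dotProduct_comm]; exact o4 _ (by simp)) (by rw [dotProduct_comm]; exact o4 _ (by simp))
        (by omega) (by omega) (by omega) k4
  · have k12 : W ⬝ᵥ E12 = 0 := by omega
    have k8 : W ⬝ᵥ E8 = 0 := by
      by_contra hne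
      exact four_units' nW h.u8 h.u9 h.u11 h.u3 h.o89 h.o811 (by rw [dotProduct_comm]; exact h.o38) h.o911
        (by rw [dotProduct_comm]; exact h.o39) (by rw [dotProduct_comm]; exact h.o311) hne (by omega) (by omega)
        (by omega)
    refine ⟨k11, k12, by omega, k8, ?_⟩
    rcases h.u4.dot_le (a := W) (by omega) with k4 | k4 | k4
    · right; omega
    · exfalso
      rcases h.u5.dot_le (a := W) (by omega) with k5 | k5 | k5 <;> omega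
    · left; omega
  · exfalso
    rcases h.u12.dot_le (a := W) (by omega) with k | k | k <;> omega

/-- the last vector -/
theorem step_u {M : Mom2 ι} {N : ℝ} (hN : 0 < N) {e E3 E4 E5 E8 E9 E11 E12 W U : ι → ℤ}
    (h : Base2 M N e E3 E4 E5 E8 E9 E11 E12) (nW : W ⬝ᵥ W = 3) (nU : U ⬝ᵥ U = 3)
    (W11 : W ⬝ᵥ E11 = 1) (W12 : W ⬝ᵥ E12 = 0) (W3 : W ⬝ᵥ E3 = 0) (W4 : W ⬝ᵥ E4 = -1) (W5 : W ⬝ᵥ E5 = 0)
    (Ud8 : U ⬝ᵥ E8 - U ⬝ᵥ E9 = 0) (Ud11 : U ⬝ᵥ E11 - U ⬝ᵥ E12 = 1) (Uv : U ⬝ᵥ E3 + U ⬝ᵥ E8 - U ⬝ᵥ E11 = -1)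
    (Ua : U ⬝ᵥ E4 + U ⬝ᵥ E5 - U ⬝ᵥ E8 = 1) (UW : U ⬝ᵥ W = 0)
    (q : VecE M e W 0 (6 * N) (6 * N)) (r : VecE M e U (3 * N) (3 * N) (9 * N)) : M.M0 E4 = 3 := by
  have hX := h.A11_ne hN
  have o4 := fun x hx => (h.orth x hx).1
  have o5 := fun x hx => (h.orth x hx).2
  -- the unit E6
  obtain ⟨E6, hE6⟩ : ∃ E6, E6 = E11 - E4 - W := ⟨_, rfl⟩
  have u6 : IsU E6 := by
    have h1 : IsU (W - E11 + E4) := by
      unfold IsU
      rw [norm_add_unit h.u4, norm_sub_unit h.u11, nW, W11, sub_dotProduct, W4, dotProduct_comm E11 E4, o4 _ (by simp)]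
      norm_num
    have h2 : E6 = -(W - E11 + E4) := by rw [hE6]; abel
    rw [h2]
    exact h1.neg
  have hW : W = E11 - E4 - E6 := by rw [hE6]; abel
  have d6 : ∀ x : ι → ℤ, E6 ⬝ᵥ x = E11 ⬝ᵥ x - E4 ⬝ᵥ x - W ⬝ᵥ x := by
    intro x
    rw [hE6, sub_dotProduct, sub_dotProduct]
  have o611 : E6 ⬝ᵥ E11 = 0 := by rw [d6, h.u11, o4 _ (by simp), W11]; norm_num
  have o612 : E6 ⬝ᵥ E12 = 0 := by rw [d6, h.o1112, o4 _ (by simp), W12]; norm_num
  have o63 : E6 ⬝ᵥ E3 = 0 := by rw [d6, dotProduct_comm E11, h.o311, o4 _ (by simp), W3]; norm_num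
  have o64 : E6 ⬝ᵥ E4 = 0 := by rw [d6, dotProduct_comm E11, o4 _ (by simp), h.u4, W4]; norm_num
  have o65 : E6 ⬝ᵥ E5 = 0 := by rw [d6, dotProduct_comm E11, o5 _ (by simp), h.o45, W5]; norm_num
  have UW' : U ⬝ᵥ E11 - U ⬝ᵥ E4 - U ⬝ᵥ E6 = 0 := by
    rw [← UW, hW, dotProduct_sub, dotProduct_sub]
  obtain ⟨e1, -, e2⟩ := M.sqs h.ue
  obtain ⟨s11, -, -⟩ := M.sqs h.u11
  obtain ⟨s3, -, -⟩ := M.sqs h.u3
  obtain ⟨s12, -, -⟩ := M.sqs h.u12
  obtain ⟨s6, sab6, sb6⟩ := M.sqs u6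
  obtain ⟨s4, sab4, sb4⟩ := M.sqs h.u4
  rw [h.m12, h.a12] at s12
  rw [h.a3] at s3
  have z11 := M.zero_pos' h.u11 h.b11
  have z12 := M.zero_pos' h.u12 h.b12
  have z4 := M.zero_pos h.u4 h.a4
  have z5 := M.zero_pos h.u5 h.a5
  have z8 := M.zero_pos h.u8 h.a8
  have z9 := M.zero_pos h.u9 h.a9
  have n11 : (M.M0 E11 : ℝ) ≠ 0 := by exact_mod_cast M.ne h.u11
  have n4 : (M.M0 E4 : ℝ) ≠ 0 := by exact_mod_cast M.ne h.u4
  have m8R : (M.M0 E8 : ℝ) = M.M0 E4 + M.M0 E5 := by exact_mod_cast h.m8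
  have m11R : (M.M0 E11 : ℝ) = M.M0 E3 + M.M0 E8 := by exact_mod_cast h.m11
  have Wa := q.ha
  have Wb := q.hb
  have Waa := q.haa
  have Wab := q.hab
  have Wbb := q.hbb
  have W0 := q.h0
  rw [hW, map_sub, map_sub, h.a4] at Wa
  rw [hW, map_sub, map_sub, h.b11] at Wb
  rw [hW, map_sub, map_sub, z4.1] at Waa
  rw [hW, map_sub, map_sub, z11.2, z4.2] at Wab
  rw [hW, map_sub, map_sub, z11.1] at Wbb
  rw [hW, map_sub, map_sub] at W0
  rcases h.u11.dot_le (a := U) (by omega) with k11 | k11 | k11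
  · exfalso
    have k12 : U ⬝ᵥ E12 = -1 := by omega
    rcases h.u8.dot_le (a := U) (by omega) with k8 | k8 | k8
    · have k3 : U ⬝ᵥ E3 = -1 := by omega
      rcases h.u4.dot_le (a := U) (by omega) with k4 | k4 | k4
      · -- U = -E12 - E3 + E5
        have hs := eq_three nU h.u12.neg h.u3.neg h.u5 (by simp [dotProduct_comm E12 E3, h.o312])
          (by rw [neg_dotProduct, dotProduct_comm, o5 _ (by simp), neg_zero])
          (by rw [neg_dotProduct, dotProduct_comm, o5 _ (by simp), neg_zero]) (by simp [k12]) (by simp [k3])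
          (by omega)
        have sa := r.ha
        have saa := r.haa
        rw [hs, map_add, map_add, map_neg, map_neg, h.a12, h.a3, h.a5] at sa
        rw [hs, map_add, map_add, map_neg, map_neg, z5.1] at saa
        have e3 : M.Ma e = 2 * M.Ma E11 := by linarith
        rw [e3] at saa
        have V := h.V
        have h1 : M.Ma E11 ^ 2 * ((M.M0 E3 + 3 * M.M0 E11 : ℝ) - 8 * M.M0 E3 * M.M0 E11) = 0 := by
          linear_combination -2 * (M.M0 E3 * M.M0 E11 : ℝ) * saa - 2 * M.M0 E3 * s12 - 2 * M.M0 E11 * s3 +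
            V + M.Ma E11 ^ 2 * m11R
        have h2 := (mul_eq_zero.1 h1).resolve_left (pow_ne_zero 2 hX)
        have h3 : M.M0 E3 + 3 * M.M0 E11 = 8 * M.M0 E3 * M.M0 E11 := by
          have : ((M.M0 E3 + 3 * M.M0 E11 : ℤ) : ℝ) = ((8 * M.M0 E3 * M.M0 E11 : ℤ) : ℝ) := by push_cast; linarith
          exact_mod_cast this
        exact sum_prod' h3 (M.ne h.u3) (M.ne h.u11)
      · exact four_units' nU h.u12 h.u3 h.u4 u6 (by rw [dotProduct_comm]; exact h.o312)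
          (by rw [dotProduct_comm]; exact o4 _ (by simp)) (by rw [dotProduct_comm]; exact o612)
          (by rw [dotProduct_comm]; exact o4 _ (by simp)) (by rw [dotProduct_comm]; exact o63)
          (by rw [dotProduct_comm]; exact o64) (by omega) (by omega) (by omega) (by omega)
      · rcases h.u5.dot_le (a := U) (by omega) with k5 | k5 | k5 <;> omega
    · rcases h.u3.dot_le (a := U) (by omega) with k3 | k3 | k3 <;> omega
    · -- U = -E8 - E9 - E12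
      have hs := eq_three nU h.u8.neg h.u9.neg h.u12.neg (by simp [h.o89]) (by simp [h.o812]) (by simp [h.o912])
        (by simp [k8]) (by simp; omega) (by simp [k12])
      have sb := r.hb
      have sab := r.hab
      rw [hs, map_add, map_add, map_neg, map_neg, map_neg, h.b8, h.b9, h.b12] at sb
      rw [hs, map_add, map_add, map_neg, map_neg, map_neg, z8.2, z9.2, z12.2] at sab
      have e3 : M.Mb e = 0 := by linarith
      rw [e3] at sab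
      linarith
  · have k12 : U ⬝ᵥ E12 = 0 := by omega
    have k8 : U ⬝ᵥ E8 = 0 := by
      by_contra hne
      exact four_units' nU h.u8 h.u9 h.u11 h.u3 h.o89 h.o811 (by rw [dotProduct_comm]; exact h.o38) h.o911
        (by rw [dotProduct_comm]; exact h.o39) (by rw [dotProduct_comm]; exact h.o311) hne (by omega) (by omega)
        (by omega)
    rcases h.u4.dot_le (a := U) (by omega) with k4 | k4 | k4
    · -- U = E11 + E5 + E6
      exfalso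
      have hs := eq_three nU h.u11 h.u5 u6 (by rw [dotProduct_comm]; exact o5 _ (by simp))
        (by rw [dotProduct_comm]; exact o611) (by rw [dotProduct_comm]; exact o65) k11 (by omega) (by omega)
      have sa := r.ha
      have saa := r.haa
      rw [hs, map_add, map_add, h.a5] at sa
      rw [hs, map_add, map_add, z5.1] at saa
      have A6 : M.Ma E6 = 0 := by linarith
      have z6 := M.zero_pos u6 A6
      rw [z6.1] at saa Waa
      linarith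
    · -- standard
      obtain ⟨E13, hE13⟩ : ∃ E13, E13 = E11 + E4 - U := ⟨_, rfl⟩
      have u13 : IsU E13 := by
        have h1 : IsU (U - E11 - E4) := by
          unfold IsU
          rw [norm_sub_unit h.u4, norm_sub_unit h.u11, nU, k11, sub_dotProduct, k4, dotProduct_comm E11 E4,
            o4 _ (by simp)]
          norm_num
        have h2 : E13 = -(U - E11 - E4) := by rw [hE13]; abel
        rw [h2]
        exact h1.neg
      have hU : U = E11 + E4 - E13 := by rw [hE13]; abel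
      have Ua := r.ha
      have Ub := r.hb
      have Uaa := r.haa
      have Uab := r.hab
      have Ubb := r.hbb
      have U0 := r.h0
      rw [hU, map_sub, map_add, h.a4] at Ua
      rw [hU, map_sub, map_add, h.b11] at Ub
      rw [hU, map_sub, map_add, z4.1] at Uaa
      rw [hU, map_sub, map_add, z11.2, z4.2] at Uab
      rw [hU, map_sub, map_add, z11.1] at Ubb
      rw [hU, map_sub, map_add] at U0
      obtain ⟨s13, sab13, sb13⟩ := M.sqs u13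
      have m6 : (M.M0 E6 : ℝ) = 1 + M.M0 E3 + M.M0 E5 := by
        have : M.M0 E6 = 1 + M.M0 E3 + M.M0 E5 := by
          have h1 := h.m8
          have h2 := h.m11
          omega
        exact_mod_cast this
      have m13 : (M.M0 E13 : ℝ) = 1 + M.M0 E3 + 2 * M.M0 E4 + M.M0 E5 := by
        have : M.M0 E13 = 1 + M.M0 E3 + 2 * M.M0 E4 + M.M0 E5 := by
          have h1 := h.m8
          have h2 := h.m11
          omega
        exact_mod_cast this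
      have m11' : (M.M0 E11 : ℝ) = M.M0 E3 + M.M0 E4 + M.M0 E5 := by rw [m11R, m8R]; ring
      have A6 : M.Ma E6 = M.Ma e + M.Ma E11 := by linarith
      have B6 : M.Mb E6 = M.Mb e - M.Mb E4 := by linarith
      have A13 : M.Ma E13 = M.Ma e + M.Ma E11 := by linarith
      have B13 : M.Mb E13 = M.Mb e + M.Mb E4 := by linarith
      have AA6 : M.Maa E6 = M.Ma e ^ 2 + M.Maa E11 := by linarith
      have AB6 : M.Mab E6 = M.Ma e * M.Mb e - 6 * N := by linarith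
      have BB6 : M.Mbb E6 = M.Mb e ^ 2 - M.Mbb E4 - 6 * N := by linarith
      have AA13 : M.Maa E13 = M.Ma e ^ 2 + M.Maa E11 - 3 * N := by linarith
      have AB13 : M.Mab E13 = M.Ma e * M.Mb e - 3 * N := by linarith
      have BB13 : M.Mbb E13 = M.Mb e ^ 2 + M.Mbb E4 - 9 * N := by linarith
      rw [m6, A6, AA6] at s6
      rw [m6, A6, B6, AB6] at sab6
      rw [m6, B6, BB6] at sb6
      rw [m13, A13, AA13] at s13
      rw [m13, A13, B13, AB13] at sab13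
      rw [m13, B13, BB13] at sb13
      have V := h.V
      have VC := h.VC
      rw [m8R, m11'] at V
      rw [m8R] at VC
      rw [m11'] at s11
      refine Alg648.std (p := M.M0 E3) (a := M.M0 E4) (e := M.M0 E5) (N := N) (A := M.Ma e) (X := M.Ma E11)
        (B := M.Mb e) (C := M.Mb E4) hN (M.ne h.u4) (M.ne h.u5) ?_ ?_ V VC ?_ ?_ ?_ ?_ ?_ ?_
      · rw [← h.m8]; exact M.ne h.u8
      · have : M.M0 E3 + M.M0 E4 + M.M0 E5 = M.M0 E11 := by rw [h.m11, h.m8]; ring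
        rw [this]; exact M.ne h.u11
      · linear_combination (M.M0 E3 + M.M0 E4 + M.M0 E5 : ℝ) * s6 - (1 + M.M0 E3 + M.M0 E5 : ℝ) * s11
      · linear_combination (M.M0 E3 + M.M0 E4 + M.M0 E5 : ℝ) * s13 - (1 + M.M0 E3 + 2 * M.M0 E4 + M.M0 E5 : ℝ) * s11
      · linear_combination sab6
      · linear_combination sab13
      · linear_combination (M.M0 E4 : ℝ) * sb6 + (1 + M.M0 E3 + M.M0 E5 : ℝ) * sb4
      · linear_combination (M.M0 E4 : ℝ) * sb13 - (1 + M.M0 E3 + 2 * M.M0 E4 + M.M0 E5 : ℝ) * sb4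
    · exfalso
      rcases h.u5.dot_le (a := U) (by omega) with k5 | k5 | k5 <;> omega
  · exfalso
    rcases h.u12.dot_le (a := U) (by omega) with k | k | k <;> omega

theorem vecE {M : Mom2 ι} {e w : ι → ℤ} {qa qab qb : ℝ} (ue : IsU e) (me : M.M0 e = 1) (h : Vec M w qa qab qb) :
    VecE M e (w - e) qa qab qb := by
  obtain ⟨h1, h2, h3⟩ := M.sqs ue
  rw [me, Int.cast_one, one_mul] at h1 h2 h3
  refine ⟨?_, ?_, ?_, ?_, ?_, ?_⟩
  · rw [map_sub, h.h0, me]; norm_num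
  · rw [map_sub, h.ha]; ring
  · rw [map_sub, h.hb]; ring
  · rw [map_sub, h.haa, h1]
  · rw [map_sub, h.hab, h2]
  · rw [map_sub, h.hbb, h3]

theorem main {M : Mom2 ι} {N : ℝ} (hN : 0 < N) {e d8 d11 v a w4 w3 : ι → ℤ} (h : Vecs M N e d8 d11 v)
    (na : a ⬝ᵥ a = 3) (ea : e ⬝ᵥ a = 0) (ad8 : a ⬝ᵥ d8 = -1) (ad11 : a ⬝ᵥ d11 = 0) (av : a ⬝ᵥ v = -1)
    (qa : Vec M a 0 0 (6 * N))
    (n4 : w4 ⬝ᵥ w4 = 4) (w4e : w4 ⬝ᵥ e = 1) (w4d8 : w4 ⬝ᵥ d8 = 0) (w4d11 : w4 ⬝ᵥ d11 = 1) (w4v : w4 ⬝ᵥ v = -1)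
    (w4a : w4 ⬝ᵥ a = -1) (q4 : Vec M w4 0 (6 * N) (6 * N))
    (n3 : w3 ⬝ᵥ w3 = 4) (w3e : w3 ⬝ᵥ e = 1) (w3d8 : w3 ⬝ᵥ d8 = 0) (w3d11 : w3 ⬝ᵥ d11 = 1) (w3v : w3 ⬝ᵥ v = -1)
    (w3a : w3 ⬝ᵥ a = 1) (w34 : w3 ⬝ᵥ w4 = 1) (q3 : Vec M w3 (3 * N) (3 * N) (9 * N)) :
    ∃ u : ι → ℤ, IsU u ∧ M.M0 u = 3 ∧ a ⬝ᵥ u = 1 := by
  obtain ⟨E3, E8, E9, E11, E12, u3, u8, u9, u11, u12, hd8, hd11, hv, oe3, oe8, oe9, oe11, oe12, o38, o39, o311, o312,
    o89, o811, o812, o911, o912, o1112⟩ := decomp h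
  have hB := base h u3 u8 u9 u11 u12 hd8 hd11 hv oe3 oe8 oe9 oe11 oe12 o38 o39 o311 o312 o89 o811 o812 o911 o912 o1112
  have qa' := qa.shift (M.Ma E8 / M.M0 E8) (M.Mb E8 / M.M0 E8)
  have q4' := q4.shift (M.Ma E8 / M.M0 E8) (M.Mb E8 / M.M0 E8)
  have q3' := q3.shift (M.Ma E8 / M.M0 E8) (M.Mb E8 / M.M0 E8)
  have hM0 : ∀ u, (M.shift (M.Ma E8 / M.M0 E8) (M.Mb E8 / M.M0 E8)).M0 u = M.M0 u := fun u => rfl
  generalize M.shift (M.Ma E8 / M.M0 E8) (M.Mb E8 / M.M0 E8) = M' at *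
  rw [hd8, dotProduct_sub] at ad8 w4d8 w3d8
  rw [hd11, dotProduct_sub] at ad11 w4d11 w3d11
  rw [hv, dotProduct_sub, dotProduct_add] at av w4v w3v
  obtain ⟨E4, E5, u4, u5, ha, o45, orth, a4, a5, b5, m8, VC⟩ := step_a hN hB na ea ad8 ad11 av qa'
  have hB2 : Base2 M' N e E3 E4 E5 E8 E9 E11 E12 := { hB with
    u4 := u4, u5 := u5, o45 := o45, orth := orth, a4 := a4, a5 := a5, b5 := b5, m8 := m8, VC := VC }
  have ox : ∀ x ∈ ({e, E3, E8, E9, E11, E12} : Set (ι → ℤ)), x ⬝ᵥ E4 = 0 ∧ x ⬝ᵥ E5 = 0 := fun x hx =>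
    ⟨by rw [dotProduct_comm]; exact (orth x hx).1, by rw [dotProduct_comm]; exact (orth x hx).2⟩
  have w4a' : w4 ⬝ᵥ E4 + w4 ⬝ᵥ E5 - w4 ⬝ᵥ E8 = -1 := by rw [← w4a, ha, dotProduct_sub, dotProduct_add]
  have w3a' : w3 ⬝ᵥ E4 + w3 ⬝ᵥ E5 - w3 ⬝ᵥ E8 = 1 := by rw [← w3a, ha, dotProduct_sub, dotProduct_add]
  have nW : (w4 - e) ⬝ᵥ (w4 - e) = 3 := by rw [norm_sub_unit h.ue, n4, w4e]; norm_num
  have nU : (w3 - e) ⬝ᵥ (w3 - e) = 3 := by rw [norm_sub_unit h.ue, n3, w3e]; norm_num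
  have UW : (w3 - e) ⬝ᵥ (w4 - e) = 0 := by
    have hee : e ⬝ᵥ e = 1 := h.ue
    rw [sub_dotProduct, dotProduct_sub, dotProduct_sub, w34, w3e, dotProduct_comm e w4, w4e, hee]
    norm_num
  have dW : ∀ w x : ι → ℤ, (w - e) ⬝ᵥ x = w ⬝ᵥ x - e ⬝ᵥ x := fun w x => sub_dotProduct _ _ _
  have eE4 := (ox e (by simp)).1
  have eE5 := (ox e (by simp)).2
  have q4e := vecE h.ue hB.me q4'
  have q3e := vecE h.ue hB.me q3'
  obtain ⟨W11, W12, W3, W8, hor⟩ := step_w hN hB2 nW (by rw [dW, dW, oe8, oe9]; omega) (by rw [dW, dW, oe11, oe12]; omega)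
    (by rw [dW, dW, dW, oe3, oe8, oe11]; omega) (by rw [dW, dW, dW, eE4, eE5, oe8]; omega) q4e
  have aE4 : a ⬝ᵥ E4 = 1 := by
    have h44 : E4 ⬝ᵥ E4 = 1 := u4
    rw [ha, sub_dotProduct, add_dotProduct, h44, dotProduct_comm E5 E4, o45, (ox E8 (by simp)).1]
    norm_num
  have aE5 : a ⬝ᵥ E5 = 1 := by
    have h55 : E5 ⬝ᵥ E5 = 1 := u5
    rw [ha, sub_dotProduct, add_dotProduct, h55, o45, (ox E8 (by simp)).2]
    norm_num
  rcases hor with ⟨W4, W5⟩ | ⟨W4, W5⟩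
  · refine ⟨E4, u4, ?_, aE4⟩
    rw [← hM0]
    exact step_u hN hB2 nW nU W11 W12 W3 W4 W5 (by rw [dW, dW, oe8, oe9]; omega) (by rw [dW, dW, oe11, oe12]; omega)
      (by rw [dW, dW, dW, oe3, oe8, oe11]; omega) (by rw [dW, dW, dW, eE4, eE5, oe8]; omega) UW q4e q3e
  · refine ⟨E5, u5, ?_, aE5⟩
    rw [← hM0]
    exact step_u hN hB2.swap nW nU W11 W12 W3 W5 W4 (by rw [dW, dW, oe8, oe9]; omega)
      (by rw [dW, dW, oe11, oe12]; omega)
      (by rw [dW, dW, dW, oe3, oe8, oe11]; omega) (by rw [dW, dW, dW, eE4, eE5, oe8]; omega) UW q4e q3e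

end H64.Lat648
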