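import Mathlib

set_option autoImplicit false

/-! Vectors of small norm in `ℤ^ι`. -/

namespace H64.Lattice

open Matrix

variable {ι : Type*} [Fintype ι]

/-- vectors of norm one -/
def IsU (u : ι → ℤ) : Prop := u ⬝ᵥ u = 1

theorem sq_le_norm (a : ι → ℤ) (i : ι) : a i * a i ≤ a ⬝ᵥ a :=
  Finset.single_le_sum (f := fun j => a j * a j) (fun j _ => mul_self_nonneg (a j)) (Finset.mem_univ i)

theorem norm_nonneg (a : ι → ℤ) : 0 ≤ a ⬝ᵥ a := Finset.sum_nonneg fun j _ => mul_self_nonneg (a j)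

theorem eq_of_norm_sub {a b : ι → ℤ} (h : (a - b) ⬝ᵥ (a - b) = 0) : a = b :=
  sub_eq_zero.1 (dotProduct_self_eq_zero.1 h)

theorem abs_le_one {x : ℤ} (h : x * x ≤ 3) : x = 0 ∨ x = 1 ∨ x = -1 := by
  have h1 : x ≤ 1 := by nlinarith
  have h2 : -1 ≤ x := by nlinarith
  omega

theorem norm_split [DecidableEq ι] (a : ι → ℤ) (i : ι) (h : a i = 1 ∨ a i = -1) :
    IsU (Pi.single i (a i)) ∧ (Pi.single i (a i)) ⬝ᵥ (a - Pi.single i (a i)) = 0 ∧
      (a - Pi.single i (a i)) ⬝ᵥ (a - Pi.single i (a i)) = a ⬝ᵥ a - 1 := by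
  have h1 : a i * a i = 1 := by rcases h with h | h <;> rw [h] <;> norm_num
  have h2 : (Pi.single i (a i) : ι → ℤ) ⬝ᵥ Pi.single i (a i) = 1 := by
    rw [single_dotProduct, Pi.single_eq_same, h1]
  have h3 : (Pi.single i (a i) : ι → ℤ) ⬝ᵥ a = 1 := by
    rw [single_dotProduct, h1]
  refine ⟨h2, ?_, ?_⟩
  · rw [dotProduct_sub, h3, h2]; norm_num
  · rw [sub_dotProduct, dotProduct_sub, dotProduct_sub, h2, h3, dotProduct_comm a (Pi.single i (a i)), h3]; ring

theorem IsU.exists_single [DecidableEq ι] {u : ι → ℤ} (h : IsU u) :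
    ∃ i : ι, (u i = 1 ∨ u i = -1) ∧ u = Pi.single i (u i) := by
  have hne : u ≠ 0 := by
    rintro rfl
    unfold IsU at h
    rw [dotProduct_zero] at h
    norm_num at h
  obtain ⟨i, hi⟩ := Function.ne_iff.1 hne
  have h1 := sq_le_norm u i
  rw [h] at h1
  have h2 : u i = 1 ∨ u i = -1 := by
    rcases abs_le_one (x := u i) (by omega) with h | h
    · exact absurd h hi
    · exact h
  refine ⟨i, h2, ?_⟩
  obtain ⟨-, -, h3⟩ := norm_split u i h2
  rw [h, sub_self] at h3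
  exact eq_of_norm_sub h3

theorem IsU.neg {u : ι → ℤ} (h : IsU u) : IsU (-u) := by
  unfold IsU at *
  rw [neg_dotProduct, dotProduct_neg, neg_neg, h]

theorem IsU.dot {u v : ι → ℤ} (hu : IsU u) (hv : IsU v) : u ⬝ᵥ v = 0 ∨ u = v ∨ u = -v := by
  classical
  obtain ⟨i, hi, hu'⟩ := hu.exists_single
  obtain ⟨j, hj, hv'⟩ := hv.exists_single
  by_cases hij : i = j
  · subst hij
    right
    rcases hi with hi | hi <;> rcases hj with hj | hj
    · left; rw [hu', hv', hi, hj]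
    · right; rw [hu', hv', hi, hj, ← Pi.single_neg]; simp
    · right; rw [hu', hv', hi, hj, ← Pi.single_neg]
    · left; rw [hu', hv', hi, hj]
  · left
    rw [hu', single_dotProduct, hv', Pi.single_eq_of_ne hij, mul_zero]

theorem IsU.dot_le {u a : ι → ℤ} (hu : IsU u) (ha : a ⬝ᵥ a ≤ 3) : a ⬝ᵥ u = 0 ∨ a ⬝ᵥ u = 1 ∨ a ⬝ᵥ u = -1 := by
  classical
  obtain ⟨i, hi, hu'⟩ := hu.exists_single
  have h1 := abs_le_one ((sq_le_norm a i).trans ha)
  rw [hu', dotProduct_single]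
  rcases hi with hi | hi <;> rw [hi] <;> omega

theorem exists_two {a : ι → ℤ} (h : a ⬝ᵥ a = 2) :
    ∃ u v : ι → ℤ, IsU u ∧ IsU v ∧ u ⬝ᵥ v = 0 ∧ a = u + v := by
  classical
  have hne : a ≠ 0 := by
    rintro rfl
    rw [dotProduct_zero] at h
    norm_num at h
  obtain ⟨i, hi⟩ := Function.ne_iff.1 hne
  have h1 := sq_le_norm a i
  have h2 : a i = 1 ∨ a i = -1 := by
    rcases abs_le_one (x := a i) (by omega) with h | h
    · exact absurd h hi
    · exact h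
  obtain ⟨h3, h4, h5⟩ := norm_split a i h2
  exact ⟨Pi.single i (a i), a - Pi.single i (a i), h3, by unfold IsU; rw [h5, h]; norm_num, h4, by simp⟩

/-- remove a unit -/
theorem norm_sub_unit {a u : ι → ℤ} (hu : IsU u) : (a - u) ⬝ᵥ (a - u) = a ⬝ᵥ a - 2 * (a ⬝ᵥ u) + 1 := by
  unfold IsU at hu
  rw [sub_dotProduct, dotProduct_sub, dotProduct_sub, hu, dotProduct_comm u a]; ring

theorem norm_add_unit {a u : ι → ℤ} (hu : IsU u) : (a + u) ⬝ᵥ (a + u) = a ⬝ᵥ a + 2 * (a ⬝ᵥ u) + 1 := by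
  unfold IsU at hu
  rw [add_dotProduct, dotProduct_add, dotProduct_add, hu, dotProduct_comm u a]; ring

theorem eq_of_dot_unit {u v : ι → ℤ} (hu : IsU u) (hv : IsU v) (h : u ⬝ᵥ v = 1) : u = v := by
  apply eq_of_norm_sub
  rw [norm_sub_unit hv, hu, h]; norm_num

theorem eq_neg_of_dot_unit {u v : ι → ℤ} (hu : IsU u) (hv : IsU v) (h : u ⬝ᵥ v = -1) : u = -v := by
  have := eq_of_dot_unit hu hv.neg (by rw [dotProduct_neg, h]; norm_num)
  exact this

end H64.Lattice
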