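import Cfsg.Agent.Lib.H64.Transport

set_option autoImplicit false

/-! The group `3^3:2^2` of order 108, its characters, and the resulting linear characters of a group
in which it is the normalizer of a Sylow 3-subgroup. -/

namespace H64.M108

open Cfsg Representation Matrix
open H18.CharBasic H18.CharOrtho H18.CharInd H18.CharQuot H64.Lattice H64.Lat27 H64.Special H64.SpecialTI
open H64.Transport

abbrev P := Equiv.Perm (Fin 3)

/-- fixed points minus one -/
def fx (σ : P) : ℤ := (if σ 0 = 0 then 1 else 0) + (if σ 1 = 1 then 1 else 0) + (if σ 2 = 2 then 1 else 0) - 1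

/-- sign -/
def sg : P →* ℤˣ := MonoidHom.mk' (fun σ => if fx σ = 0 then -1 else 1) (by decide +kernel)

/-- the product of the three signs -/
def sg3 : (P × P × P) →* ℤˣ := MonoidHom.mk' (fun x => sg x.1 * sg x.2.1 * sg x.2.2) (by
  intro a b
  simp only [Prod.fst_mul, Prod.snd_mul, map_mul]
  rw [mul_mul_mul_comm (sg a.1) (sg b.1), mul_mul_mul_comm (sg a.1 * sg a.2.1)])

/-- the model -/
abbrev M := sg3.ker

def s1 (m : M) : ℤ := (sg m.1.1 : ℤ)
def s2 (m : M) : ℤ := (sg m.1.2.1 : ℤ)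
def s3 (m : M) : ℤ := (sg m.1.2.2 : ℤ)
def r1 (m : M) : ℤ := fx m.1.1
def r2 (m : M) : ℤ := fx m.1.2.1
def r3 (m : M) : ℤ := fx m.1.2.2

/-- projections -/
def p1 : M →* P := (MonoidHom.fst P (P × P)).comp sg3.ker.subtype
def p2 : M →* P := ((MonoidHom.fst P P).comp (MonoidHom.snd P (P × P))).comp sg3.ker.subtype
def p3 : M →* P := ((MonoidHom.snd P P).comp (MonoidHom.snd P (P × P))).comp sg3.ker.subtype

theorem fx_gen : IsGeneralizedCharacter P (fun σ => (fx σ : ℂ)) := by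
  have h := isGen_sub (isGen_of_isCharacter (isCharacter_fix 3)) isGen_one
  convert h using 1
  funext σ
  have : fx σ = ((Finset.univ.filter fun x => σ x = x).card : ℤ) - 1 := by
    revert σ
    decide +kernel
  rw [this]
  simp

/-- integer valued generalized characters of the model -/
def IsG (f : M → ℤ) : Prop := IsGeneralizedCharacter M (fun m => (f m : ℂ))

theorem IsG.sub {f g : M → ℤ} (hf : IsG f) (hg : IsG g) : IsG (f - g) := by
  have := isGen_sub hf hg
  unfold IsG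
  convert this using 1
  funext m
  simp

theorem IsG.mul {f g : M → ℤ} (hf : IsG f) (hg : IsG g) : IsG (f * g) := by
  have := isGen_mul hf hg
  unfold IsG
  convert this using 1
  funext m
  simp

theorem isG_one : IsG 1 := by
  have := isGen_one (G := M)
  unfold IsG
  convert this using 1
  funext m
  simp

theorem isG_r (p : M →* P) : IsG (fun m => fx (p m)) := by
  obtain ⟨a, b, ha, hb, h⟩ := fx_gen
  exact ⟨_, _, isCharacter_comp p ha, isCharacter_comp p hb, by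
    funext m
    exact congrFun h (p m)⟩

/-- linear characters -/
noncomputable def lin (p : M →* P) : M →* ℂˣ := (Units.map (Int.castRingHom ℂ).toMonoidHom).comp (sg.comp p)

theorem isG_s (p : M →* P) : IsG (fun m => (sg (p m) : ℤ)) := by
  have := isGen_of_isIrr (isIrrCharacter_of_hom (lin p))
  unfold IsG
  convert this using 1
  funext m
  simp [lin]

theorem isG_r1 : IsG r1 := isG_r p1
theorem isG_r2 : IsG r2 := isG_r p2
theorem isG_r3 : IsG r3 := isG_r p3
theorem isG_s1 : IsG s1 := isG_s p1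
theorem isG_s2 : IsG s2 := isG_s p2
theorem isG_s3 : IsG s3 := isG_s p3

def A1 : M → ℤ := r1 - 1 - s1
def A2 : M → ℤ := r2 - 1 - s2
def A3 : M → ℤ := r3 - 1 - s3
def A4 : M → ℤ := r1 * s2 - s2 - s3
def A5 : M → ℤ := r2 * s1 - s1 - s3
def B : Fin 3 → M → ℤ := ![r1 * r2 - r1 - r1 * s2, r1 * r3 - r1 - r1 * s2, r2 * r3 - r1 - r1 * s2]

theorem isG_A1 : IsG A1 := (isG_r1.sub isG_one).sub isG_s1
theorem isG_A2 : IsG A2 := (isG_r2.sub isG_one).sub isG_s2
theorem isG_A3 : IsG A3 := (isG_r3.sub isG_one).sub isG_s3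
theorem isG_A4 : IsG A4 := ((isG_r1.mul isG_s2).sub isG_s2).sub isG_s3
theorem isG_A5 : IsG A5 := ((isG_r2.mul isG_s1).sub isG_s1).sub isG_s3
theorem isG_B (i : Fin 3) : IsG (B i) := by
  fin_cases i
  · exact ((isG_r1.mul isG_r2).sub isG_r1).sub (isG_r1.mul isG_s2)
  · exact ((isG_r1.mul isG_r3).sub isG_r1).sub (isG_r1.mul isG_s2)
  · exact ((isG_r2.mul isG_r3).sub isG_r1).sub (isG_r1.mul isG_s2)

theorem card_M : Fintype.card M = 108 := by decide +kernel

/-- vanishing on the elements of square 1 -/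
theorem van : ∀ m : M, m * m = 1 → A1 m = 0 ∧ A2 m = 0 ∧ A3 m = 0 ∧ A4 m = 0 ∧ A5 m = 0 ∧ ∀ i, B i m = 0 := by
  decide +kernel

theorem n1 : ∑ x, A1 x * A1 x = (3 : ℤ) * (108 : ℕ) := by decide +kernel
theorem n2 : ∑ x, A2 x * A2 x = (3 : ℤ) * (108 : ℕ) := by decide +kernel
theorem n3 : ∑ x, A3 x * A3 x = (3 : ℤ) * (108 : ℕ) := by decide +kernel
theorem n4 : ∑ x, A4 x * A4 x = (3 : ℤ) * (108 : ℕ) := by decide +kernel
theorem n5 : ∑ x, A5 x * A5 x = (3 : ℤ) * (108 : ℕ) := by decide +kernel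
theorem e1 : ∑ x, A1 x * (1 : M → ℤ) x = (-1 : ℤ) * (108 : ℕ) := by decide +kernel
theorem e2 : ∑ x, A2 x * (1 : M → ℤ) x = (-1 : ℤ) * (108 : ℕ) := by decide +kernel
theorem e3 : ∑ x, A3 x * (1 : M → ℤ) x = (-1 : ℤ) * (108 : ℕ) := by decide +kernel
theorem e4 : ∑ x, A4 x * (1 : M → ℤ) x = (0 : ℤ) * (108 : ℕ) := by decide +kernel
theorem e5 : ∑ x, A5 x * (1 : M → ℤ) x = (0 : ℤ) * (108 : ℕ) := by decide +kernel
theorem h12 : ∑ x, A1 x * A2 x = (1 : ℤ) * (108 : ℕ) := by decide +kernel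
theorem h13 : ∑ x, A1 x * A3 x = (1 : ℤ) * (108 : ℕ) := by decide +kernel
theorem h23 : ∑ x, A2 x * A3 x = (1 : ℤ) * (108 : ℕ) := by decide +kernel
theorem h41 : ∑ x, A4 x * A1 x = (0 : ℤ) * (108 : ℕ) := by decide +kernel
theorem h42 : ∑ x, A4 x * A2 x = (1 : ℤ) * (108 : ℕ) := by decide +kernel
theorem h43 : ∑ x, A4 x * A3 x = (1 : ℤ) * (108 : ℕ) := by decide +kernel
theorem h51 : ∑ x, A5 x * A1 x = (1 : ℤ) * (108 : ℕ) := by decide +kernel
theorem h52 : ∑ x, A5 x * A2 x = (0 : ℤ) * (108 : ℕ) := by decide +kernel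
theorem h53 : ∑ x, A5 x * A3 x = (1 : ℤ) * (108 : ℕ) := by decide +kernel
theorem h54 : ∑ x, A5 x * A4 x = (1 : ℤ) * (108 : ℕ) := by decide +kernel
theorem nB : ∀ i, ∑ x, B i x * B i x = (3 : ℤ) * (108 : ℕ) := by decide +kernel
theorem hB : ∀ i j, i ≠ j → ∑ x, B i x * B j x = (2 : ℤ) * (108 : ℕ) := by decide +kernel
theorem eB : ∀ i, ∑ x, B i x * (1 : M → ℤ) x = (0 : ℤ) * (108 : ℕ) := by decide +kernel
theorem hB1 : ∀ i, ∑ x, B i x * A1 x = (-1 : ℤ) * (108 : ℕ) := by decide +kernel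
theorem hB2 : ∀ i, ∑ x, B i x * A2 x = (0 : ℤ) * (108 : ℕ) := by decide +kernel
theorem hB3 : ∀ i, ∑ x, B i x * A3 x = (0 : ℤ) * (108 : ℕ) := by decide +kernel
theorem hB4 : ∀ i, ∑ x, B i x * A4 x = (-1 : ℤ) * (108 : ℕ) := by decide +kernel
theorem hB5 : ∀ i, ∑ x, B i x * A5 x = (0 : ℤ) * (108 : ℕ) := by decide +kernel
theorem q1 : q A1 = -648 := by decide +kernel
theorem q2 : q A2 = -648 := by decide +kernel
theorem q3 : q A3 = -648 := by decide +kernel
theorem q4 : q A4 = 0 := by decide +kernel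
theorem q5 : q A5 = 0 := by decide +kernel
theorem qB : q (B 0) = -324 := by decide +kernel

end H64.M108
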