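import Cfsg.Agent.Lib.H64.M108

set_option autoImplicit false

/-! The linear characters of a group with a TI-subgroup of type `3^3:2^2`. -/

namespace H64.M108

open Cfsg Representation Matrix
open H18.CharBasic H18.CharOrtho H18.CharInd H18.CharQuot H64.Lattice H64.Lat27 H64.Special H64.SpecialTI
open H64.Transport

universe u

theorem s1_ne : (fun m : M => ((s1 m : ℤ) : ℂ)) ≠ fun _ => 1 := by
  intro h
  obtain ⟨m, hm⟩ : ∃ m : M, s1 m ≠ 1 := by decide +kernel
  have h1 : ((s1 m : ℤ) : ℂ) = 1 := congrFun h m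
  exact hm (by exact_mod_cast h1)

theorem s3_ne : (fun m : M => ((s3 m : ℤ) : ℂ)) ≠ fun _ => 1 := by
  intro h
  obtain ⟨m, hm⟩ : ∃ m : M, s3 m ≠ 1 := by decide +kernel
  have h1 : ((s3 m : ℤ) : ℂ) = 1 := congrFun h m
  exact hm (by exact_mod_cast h1)

theorem s2_ne : (fun m : M => ((s2 m : ℤ) : ℂ)) ≠ fun _ => 1 := by
  intro h
  obtain ⟨m, hm⟩ : ∃ m : M, s2 m ≠ 1 := by decide +kernel
  have h1 : ((s2 m : ℤ) : ℂ) = 1 := congrFun h m
  exact hm (by exact_mod_cast h1)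

theorem norms : ∑ x : M, r1 x * r1 x = (1 : ℤ) * (108 : ℕ) ∧ ∑ x : M, r2 x * r2 x = (1 : ℤ) * (108 : ℕ) ∧
    ∑ x : M, (r2 * s1) x * (r2 * s1) x = (1 : ℤ) * (108 : ℕ) ∧ ∑ x : M, (r1 * s2) x * (r1 * s2) x = (1 : ℤ) * (108 : ℕ) := by
  decide +kernel

theorem pos1 : r1 1 = 2 ∧ r2 1 = 2 ∧ (r2 * s1) 1 = 2 ∧ (r1 * s2) 1 = 2 := by decide +kernel

variable {H : Type u} [Group H] [Fintype H] (ε : H ≃* M)

/-- irreducibility by norm -/
theorem irr_lift {f : M → ℤ} (hf : IsG f) (hn : ∑ x : M, f x * f x = (1 : ℤ) * (108 : ℕ)) (h1 : 0 < f 1) :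
    IsIrrCharacter H (lift ε.toMonoidHom f) := by
  refine isIrr_of_gen_norm_one (isGen_lift _ hf) ?_ ?_
  · have := inner_lift ε f f card_M hn
    rw [this, Int.cast_one]
  · simp only [lift, map_one]
    rw [← Complex.ofReal_intCast, Complex.ofReal_re]
    exact_mod_cast h1

theorem lin_lift (p : M →* P) : IsIrrCharacter H (lift ε.toMonoidHom fun m => (sg (p m) : ℤ)) := by
  have := isIrrCharacter_of_hom ((lin p).comp ε.toMonoidHom)
  convert this using 1
  funext m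
  simp [lin, lift]

/-- a linear character `λ` with `⟨ρ - μ - ν, λ⟩ = -1` is `μ` or `ν` -/
theorem eq_or {ρ μ ν lam : H → ℂ} (hρ : IsIrrCharacter H ρ) (hμ : IsIrrCharacter H μ) (hν : IsIrrCharacter H ν)
    (hl : IsIrrCharacter H lam) (h : classInner (ρ - μ - ν) lam = -1) : μ = lam ∨ ν = lam := by
  classical
  by_contra hcon
  rw [not_or] at hcon
  rw [H18.CharOrtho.inner_sub_left, H18.CharOrtho.inner_sub_left, inner_irr hρ hl, inner_irr hμ hl, inner_irr hν hl, if_neg hcon.1,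
    if_neg hcon.2] at h
  split_ifs at h <;> norm_num at h

/-- The linear characters. -/
theorem exists_linear {G : Type u} [Group G] [Fintype G] (H : Subgroup G) [Fintype H] (ε : H ≃* M)
    (D : Set G) (hD : TIData H D) (hDH : ∀ x : H, (x : G) ∉ D → x * x = 1) :
    ∃ X1 X2 : G →* ℂˣ, (∀ h : H, (X1 h : ℂ) = (s1 (ε h) : ℤ)) ∧ (∀ h : H, (X2 h : ℂ) = (s2 (ε h) : ℤ)) := by
  classical
  let _i : Fintype (IrrCharacter G) := Fintype.ofFinite _
  let L : (M → ℤ) → H → ℂ := fun f => lift ε.toMonoidHom f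
  have hLg : ∀ {f : M → ℤ}, IsG f → IsGeneralizedCharacter H (L f) := fun hf => isGen_lift _ hf
  have hLi : ∀ {f : M → ℤ}, IsG f → IsGeneralizedCharacter G (indFun H (L f)) := fun hf => isGen_ind H (hLg hf)
  let Vn : (M → ℤ) → Prop := fun f => ∀ m : M, m * m = 1 → f m = 0
  have supp : ∀ {f : M → ℤ}, Vn f → ∀ x : H, (x : G) ∉ D → L f x = 0 := by
    intro f hf x hx
    have h1 := hDH x hx
    have h2 : ε x * ε x = 1 := by rw [← map_mul, h1, map_one]
    change ((f (ε x) : ℤ) : ℂ) = 0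
    rw [hf _ h2]
    simp
  let I : (M → ℤ) → IrrCharacter G → ℤ := fun f => coeff (indFun H (L f))
  have dot : ∀ {f g : M → ℤ}, IsG f → IsG g → Vn f → Vn g → ∀ {m : ℤ}, ∑ x, f x * g x = m * (108 : ℕ) →
      I f ⬝ᵥ I g = m := by
    intro f g hf hg vf vg m hm
    refine dot_eq (hLi hf) (hLi hg) ?_
    rw [inner_ind hD (isClassFunction_of_isGen (hLg hg)) (supp vf) (supp vg)]
    exact inner_lift ε f g card_M hm
  let e : IrrCharacter G → ℤ := coeff (fun _ : G => (1 : ℂ))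
  have dote : ∀ {f : M → ℤ}, IsG f → ∀ {m : ℤ}, ∑ x, f x * (1 : M → ℤ) x = m * (108 : ℕ) → I f ⬝ᵥ e = m := by
    intro f hf m hm
    refine dot_eq (hLi hf) isGen_one ?_
    rw [frobenius H _ (isClassFunction_const 1)]
    have := inner_lift ε f 1 card_M hm
    rw [← this]
    congr 1
    funext x
    simp [lift]
  have hM0 : ∀ {f : M → ℤ}, IsG f → Vn f → (mom G).M0 (I f) = 0 := by
    intro f hf vf
    have h1 := M0_coeff (hLi hf)
    rw [ind_one hD (supp vf)] at h1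
    exact_mod_cast h1.symm
  have hM1 : ∀ {f : M → ℤ}, IsG f → Vn f → (mom G).M1 (I f) = 0 := by
    intro f hf vf
    rw [← S1_coeff (hLi hf), S1_ind hD (supp vf), Complex.zero_re]
  have hM2 : ∀ {f : M → ℤ}, IsG f → Vn f → (mom G).M2 (I f) = (H.index : ℝ) * (q f : ℤ) := by
    intro f hf vf
    rw [← S2_coeff (hLi hf), S2_ind hD (supp vf), S2_lift ε f]
    rw [← Complex.ofReal_natCast, ← Complex.ofReal_intCast, ← Complex.ofReal_mul, Complex.ofReal_re]
  have g1 := isG_A1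
  have g2 := isG_A2
  have g3 := isG_A3
  have g4 := isG_A4
  have g5 := isG_A5
  have gB := isG_B
  have w1 : Vn A1 := fun m hm => (van m hm).1
  have w2 : Vn A2 := fun m hm => (van m hm).2.1
  have w3 : Vn A3 := fun m hm => (van m hm).2.2.1
  have w4 : Vn A4 := fun m hm => (van m hm).2.2.2.1
  have w5 : Vn A5 := fun m hm => (van m hm).2.2.2.2.1
  have wB : ∀ i, Vn (B i) := fun i m hm => (van m hm).2.2.2.2.2 i
  have hidx : (0 : ℝ) < H.index := by
    exact_mod_cast Nat.pos_of_ne_zero Subgroup.index_ne_zero_of_finite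
  have he : IsU e := isU_of_norm isGen_one (inner_irr_self isIrrCharacter_one)
  have hT : (S1 (fun _ : G => (1 : ℂ))).re = ((Iv G).card : ℝ) := by
    rw [S1]
    simp
  have hT2 : (S2 (fun _ : G => (1 : ℂ))).re = ((Iv G).card : ℝ) ^ 2 := by
    rw [S2]
    simp [sq]
  obtain ⟨u1, u2, hu1, hu1', hu1a, hu1b, hu2, hu2', hu2a, hu2b⟩ :=
    Lat27.main (mom G) (n := (H.index : ℝ) * 108) (T := ((Iv G).card : ℝ)) (by positivity) e (I A1) (I A2) (I A3)
      (I A4) (I A5) (fun i => I (B i)) he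
      (dot g1 g1 w1 w1 n1) (dot g2 g2 w2 w2 n2) (dot g3 g3 w3 w3 n3) (dot g4 g4 w4 w4 n4) (dot g5 g5 w5 w5 n5)
      (dote g1 e1) (dote g2 e2) (dote g3 e3) (dote g4 e4) (dote g5 e5)
      (dot g1 g2 w1 w2 h12) (dot g1 g3 w1 w3 h13) (dot g2 g3 w2 w3 h23)
      (dot g4 g1 w4 w1 h41) (dot g4 g2 w4 w2 h42) (dot g4 g3 w4 w3 h43)
      (dot g5 g1 w5 w1 h51) (dot g5 g2 w5 w2 h52) (dot g5 g3 w5 w3 h53) (dot g5 g4 w5 w4 h54)
      (fun i => dot (gB i) (gB i) (wB i) (wB i) (nB i))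
      (fun i j hij => dot (gB i) (gB j) (wB i) (wB j) (hB i j hij))
      (fun i => dote (gB i) (eB i))
      (fun i => dot (gB i) g1 (wB i) w1 (hB1 i)) (fun i => dot (gB i) g2 (wB i) w2 (hB2 i))
      (fun i => dot (gB i) g3 (wB i) w3 (hB3 i)) (fun i => dot (gB i) g4 (wB i) w4 (hB4 i))
      (fun i => dot (gB i) g5 (wB i) w5 (hB5 i))
      (hM0 g1 w1) (hM0 g2 w2) (hM0 g3 w3) (hM0 g4 w4) (hM0 g5 w5) (fun i => hM0 (gB i) (wB i))
      (hM1 g1 w1) (hM1 g2 w2) (hM1 g3 w3) (hM1 g4 w4) (hM1 g5 w5) (hM1 (gB 0) (wB 0))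
      (by have := M0_coeff (G := G) isGen_one; exact_mod_cast this.symm)
      (by rw [← S1_coeff isGen_one, hT]) (by rw [← S2_coeff isGen_one, hT2])
      (by rw [hM2 g1 w1, q1]; push_cast; ring) (by rw [hM2 g2 w2, q2]; push_cast; ring)
      (by rw [hM2 g3 w3, q3]; push_cast; ring) (by rw [hM2 g4 w4, q4]; push_cast; ring)
      (by rw [hM2 g5 w5, q5]; push_cast; ring) (by rw [hM2 (gB 0) (wB 0), qB]; push_cast; ring)
  have one_irr : IsIrrCharacter H (L 1) := by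
    have : L 1 = fun _ => 1 := by
      funext x
      simp [L, lift]
    rw [this]
    exact isIrrCharacter_one
  have irr1 : IsIrrCharacter H (L r1) := irr_lift ε isG_r1 norms.1 (by rw [pos1.1]; norm_num)
  have irr2 : IsIrrCharacter H (L r2) := irr_lift ε isG_r2 norms.2.1 (by rw [pos1.2.1]; norm_num)
  have irr3 : IsIrrCharacter H (L (r2 * s1)) := irr_lift ε (isG_r2.mul isG_s1) norms.2.2.1
    (by rw [pos1.2.2.1]; norm_num)
  have irr4 : IsIrrCharacter H (L (r1 * s2)) := irr_lift ε (isG_r1.mul isG_s2) norms.2.2.2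
    (by rw [pos1.2.2.2]; norm_num)
  have l1 : IsIrrCharacter H (L s1) := lin_lift ε p1
  have l2 : IsIrrCharacter H (L s2) := lin_lift ε p2
  have l3 : IsIrrCharacter H (L s3) := lin_lift ε p3
  have Lsub : ∀ f g : M → ℤ, L (f - g) = L f - L g := by
    intro f g
    funext x
    simp [L, lift]
  have key : ∀ (u : IrrCharacter G → ℤ), IsU u → (mom G).M0 u = -1 → ∃ X : G →* ℂˣ,
      ∀ f : M → ℤ, IsG f → I f ⬝ᵥ u = 1 → classInner (L f) (fun x : H => (X x : ℂ)) = -1 := by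
    intro u hu hu0
    obtain ⟨χ, hχ, hχ2⟩ := unit_neg_one hu hu0
    obtain ⟨X, hX⟩ := exists_hom_of_degree_one (isCharacter_of_isIrr χ.2) hχ
    refine ⟨X, fun f hf hd => ?_⟩
    have h1 := hχ2 _ (hLi hf)
    change classInner (indFun H (L f)) χ = ((-(I f ⬝ᵥ u) : ℤ) : ℂ) at h1
    rw [hd, frobenius H _ (isClassFunction_of_isIrr χ.2), hX] at h1
    rw [h1]
    simp
  have hne : ∀ f : M → ℤ, (fun m : M => ((f m : ℤ) : ℂ)) ≠ (fun _ => 1) → L f ≠ L 1 := by
    intro f hf h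
    apply hf
    funext m
    obtain ⟨x, rfl⟩ := ε.surjective m
    have := congrFun h x
    change ((f (ε x) : ℤ) : ℂ) = (((1 : M → ℤ) (ε x) : ℤ) : ℂ) at this
    rw [this]
    simp
  obtain ⟨X1, hX1⟩ := key u1 hu1 hu1'
  obtain ⟨X2, hX2⟩ := key u2 hu2 hu2'
  have hl : ∀ X : G →* ℂˣ, IsIrrCharacter H (fun x : H => (X x : ℂ)) := fun X =>
    isIrrCharacter_of_hom (X.comp H.subtype)
  refine ⟨X1, X2, ?_, ?_⟩
  · have a1 := hX1 A1 g1 hu1a
    have a2 := hX1 A5 g5 hu1b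
    change classInner (L (r1 - 1 - s1)) _ = -1 at a1
    change classInner (L (r2 * s1 - s1 - s3)) _ = -1 at a2
    rw [Lsub, Lsub] at a1 a2
    have b1 := eq_or irr1 one_irr l1 (hl X1) a1
    have b2 := eq_or irr3 l1 l3 (hl X1) a2
    have : L s1 = fun x : H => (X1 x : ℂ) := by
      rcases b1 with b1 | b1
      · exfalso
        rcases b2 with b2 | b2
        · exact hne s1 s1_ne (b2.trans b1.symm)
        · exact hne s3 s3_ne (b2.trans b1.symm)
      · exact b1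
    intro h
    exact (congrFun this h).symm
  · have a1 := hX2 A2 g2 hu2a
    have a2 := hX2 A4 g4 hu2b
    change classInner (L (r2 - 1 - s2)) _ = -1 at a1
    change classInner (L (r1 * s2 - s2 - s3)) _ = -1 at a2
    rw [Lsub, Lsub] at a1 a2
    have b1 := eq_or irr2 one_irr l2 (hl X2) a1
    have b2 := eq_or irr4 l2 l3 (hl X2) a2
    have : L s2 = fun x : H => (X2 x : ℂ) := by
      rcases b1 with b1 | b1
      · exfalso
        rcases b2 with b2 | b2
        · exact hne s2 s2_ne (b2.trans b1.symm)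
        · exact hne s3 s3_ne (b2.trans b1.symm)
      · exact b1
    intro h
    exact (congrFun this h).symm

end H64.M108
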