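import Cfsg.Agent.Lib.H64.M108B

set_option autoImplicit false

/-! The model of order 108 is the permutation group of the statement. -/

namespace H64.M108

/-- the embedding into permutations of nine points -/
def jf (x : P × P × P) : Equiv.Perm (Fin 9) :=
  (finProdFinEquiv : Fin 3 × Fin 3 ≃ Fin 9).permCongr (Equiv.prodCongrRight ![x.1, x.2.1, x.2.2])

def j0 : (P × P × P) →* Equiv.Perm (Fin 9) := MonoidHom.mk' jf (by
  intro a b
  refine Equiv.ext fun k => ?_
  obtain ⟨⟨i, l⟩, rfl⟩ := (finProdFinEquiv : Fin 3 × Fin 3 ≃ Fin 9).surjective k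
  simp only [jf, Equiv.permCongr_apply, Equiv.symm_apply_apply, Equiv.Perm.mul_apply]
  fin_cases i <;> rfl)

theorem j0_injective : Function.Injective j0 := by
  rw [injective_iff_map_eq_one]
  decide +kernel

def j : M →* Equiv.Perm (Fin 9) := j0.comp sg3.ker.subtype

theorem j_injective : Function.Injective j := j0_injective.comp Subtype.val_injective

abbrev ga : Equiv.Perm (Fin 9) := Equiv.swap (0 : Fin 9) 1 * Equiv.swap 1 2
abbrev gb : Equiv.Perm (Fin 9) := Equiv.swap (3 : Fin 9) 4 * Equiv.swap 4 5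
abbrev gc : Equiv.Perm (Fin 9) := Equiv.swap (6 : Fin 9) 7 * Equiv.swap 7 8
abbrev gu : Equiv.Perm (Fin 9) := Equiv.swap (0 : Fin 9) 1 * Equiv.swap 3 4
abbrev gv : Equiv.Perm (Fin 9) := Equiv.swap (0 : Fin 9) 1 * Equiv.swap 6 7

theorem gens : (∃ m : M, j m = ga) ∧ (∃ m : M, j m = gb) ∧ (∃ m : M, j m = gc) ∧ (∃ m : M, j m = gu) ∧
    (∃ m : M, j m = gv) := by
  refine ⟨?_, ?_, ?_, ?_, ?_⟩ <;> decide +kernel

theorem words : ∀ m : M, ∃ (i k l : Fin 3) (r s : Fin 2),
    j m = ga ^ (i : ℕ) * gb ^ (k : ℕ) * gc ^ (l : ℕ) * gu ^ (r : ℕ) * gv ^ (s : ℕ) := by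
  decide +kernel

abbrev C : Subgroup (Equiv.Perm (Fin 9)) := Subgroup.closure ({ga, gb, gc, gu, gv} : Set (Equiv.Perm (Fin 9)))

theorem range_j : j.range = C := by
  apply le_antisymm
  · rintro _ ⟨m, rfl⟩
    obtain ⟨i, k, l, r, s, h⟩ := words m
    rw [h]
    have ha : ga ∈ C := Subgroup.subset_closure (by simp)
    have hb : gb ∈ C := Subgroup.subset_closure (by simp)
    have hc : gc ∈ C := Subgroup.subset_closure (by simp)
    have hu : gu ∈ C := Subgroup.subset_closure (by simp)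
    have hv : gv ∈ C := Subgroup.subset_closure (by simp)
    exact C.mul_mem (C.mul_mem (C.mul_mem (C.mul_mem (C.pow_mem ha _) (C.pow_mem hb _)) (C.pow_mem hc _))
      (C.pow_mem hu _)) (C.pow_mem hv _)
  · rw [Subgroup.closure_le]
    intro x hx
    simp only [Set.mem_insert_iff, Set.mem_singleton_iff] at hx
    obtain ⟨h1, h2, h3, h4, h5⟩ := gens
    rcases hx with rfl | rfl | rfl | rfl | rfl
    · exact h1
    · exact h2
    · exact h3
    · exact h4
    · exact h5

/-- the model is isomorphic to the closure -/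
noncomputable def equivC : M ≃* C := (MonoidHom.ofInjective j_injective).trans (MulEquiv.subgroupCongr range_j)

theorem facts : (∀ m : M, (m * m) ^ 3 = 1) ∧ (∀ m : M, m ^ 27 = 1 → m ^ 3 = 1) ∧
    (∀ m : M, (s1 m = 1 ∧ s2 m = 1) ↔ m ^ 3 = 1) := by
  refine ⟨?_, ?_, ?_⟩ <;> decide +kernel

theorem comm_three_aux : ∀ a b : P, a ^ 3 = 1 → b ^ 3 = 1 → a * b = b * a := by
  decide +kernel

theorem comm_three (a b : M) (ha : a ^ 3 = 1) (hb : b ^ 3 = 1) : a * b = b * a := by
  have ha' : (a : P × P × P) ^ 3 = 1 := congrArg Subtype.val ha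
  have hb' : (b : P × P × P) ^ 3 = 1 := congrArg Subtype.val hb
  refine Subtype.ext (Prod.ext ?_ (Prod.ext ?_ ?_))
  · exact comm_three_aux _ _ (congrArg Prod.fst ha') (congrArg Prod.fst hb')
  · exact comm_three_aux _ _ (congrArg (fun x => x.2.1) ha') (congrArg (fun x => x.2.1) hb')
  · exact comm_three_aux _ _ (congrArg (fun x => x.2.2) ha') (congrArg (fun x => x.2.2) hb')

theorem card_three : (Finset.univ.filter fun m : M => m ^ 3 = 1).card = 27 := by decide +kernel

end H64.M108
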