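import Cfsg.Agent.Lib.H64.M108C
import Cfsg.Agent.Lib.H1.FrobSyl

set_option autoImplicit false

/-! Groups in which `3^3:2^2` is the normalizer of an abelian Sylow 3-subgroup of TI-type. -/

namespace H64.M108

open Cfsg H64.SpecialTI

universe u

/-- A finite group of order prime-power normalizer data: a `p`-subgroup whose normalizer has index prime to `p` over it. -/
theorem not_dvd_of_normalizer {G : Type u} [Group G] [Finite G] (T : Subgroup G) (hT : Nat.card T = 27)
    (hN : Nat.card (Subgroup.normalizer (T : Set G)) = 108) : ¬ 81 ∣ Nat.card G := by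
  have : Fact (Nat.Prime 3) := ⟨Nat.prime_three⟩
  have h := Sylow.card_normalizer_modEq_card (p := 3) (n := 3) (H := T) (by rw [hT]; norm_num)
  rw [hN] at h
  have h2 : 108 % 81 = Nat.card G % 81 := h
  omega

theorem main {G : Type u} [Group G] [Finite G] (H : Subgroup G) (ε : H ≃* M) (T : Subgroup G) (hTH : T ≤ H)
    (hT : Nat.card T = 27) (hN : Subgroup.normalizer (T : Set G) = H)
    (hC : ∀ t ∈ T, t ≠ 1 → Subgroup.centralizer ({t} : Set G) ≤ H) : H = ⊤ := by
  classical
  have : Fact (Nat.Prime 3) := ⟨Nat.prime_three⟩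
  let _i1 := Fintype.ofFinite G
  let _i2 := Fintype.ofFinite H
  have hcardH : Nat.card H = 108 := by
    rw [Nat.card_congr ε.toEquiv, Nat.card_eq_fintype_card, card_M]
  -- membership in T
  have hmem1 : ∀ h : H, (h : G) ∈ T → (ε h) ^ 3 = 1 := by
    intro h hh
    apply facts.2.1
    rw [← map_pow]
    have h1 : (⟨(h : G), hh⟩ : T) ^ 27 = 1 := by
      rw [← hT]
      exact pow_card_eq_one'
    have h2 : h ^ 27 = 1 := by
      apply Subtype.ext
      have := congrArg Subtype.val h1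
      simpa using this
    rw [h2, map_one]
  have hmem : ∀ h : H, (h : G) ∈ T ↔ (ε h) ^ 3 = 1 := by
    -- cardinality
    let S : Finset M := (Finset.univ.filter fun x : H => (x : G) ∈ T).map ε.toEquiv.toEmbedding
    have hS : S ⊆ Finset.univ.filter fun m : M => m ^ 3 = 1 := by
      intro m hm
      obtain ⟨x, hx, rfl⟩ := Finset.mem_map.1 hm
      rw [Finset.mem_filter] at hx ⊢
      exact ⟨Finset.mem_univ _, hmem1 x hx.2⟩
    have hSc : S.card = 27 := by
      rw [Finset.card_map]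
      have h1 : Nat.card (T.subgroupOf H) = 27 := by
        rw [← hT]
        exact Nat.card_congr (Subgroup.subgroupOfEquivOfLe hTH).toEquiv
      rw [← h1, Nat.card_eq_fintype_card]
      exact (Fintype.card_subtype _).symm
    have hSe := Finset.eq_of_subset_of_card_le hS (by rw [hSc, card_three])
    intro h
    refine ⟨hmem1 h, fun h3 => ?_⟩
    have h4 : ε h ∈ S := by
      rw [hSe, Finset.mem_filter]
      exact ⟨Finset.mem_univ _, h3⟩
    obtain ⟨x, hx, hxe⟩ := Finset.mem_map.1 h4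
    have hxh : x = h := ε.injective hxe
    subst hxh
    exact (Finset.mem_filter.1 hx).2
  have hab : ∀ a ∈ T, ∀ b ∈ T, a * b = b * a := by
    intro a ha b hb
    have h1 := comm_three (ε ⟨a, hTH ha⟩) (ε ⟨b, hTH hb⟩) ((hmem _).1 ha) ((hmem _).1 hb)
    rw [← map_mul, ← map_mul] at h1
    exact congrArg Subtype.val (ε.injective h1)
  have hcube : ∀ g ∈ H, g ^ 3 = 1 → g ∈ T := by
    intro g hg h3
    refine (hmem ⟨g, hg⟩).2 ?_
    rw [← map_pow]
    have : (⟨g, hg⟩ : H) ^ 3 = 1 := Subtype.ext (by simpa using h3)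
    rw [this, map_one]
  have hT3 : ∀ t ∈ T, t ^ 3 = 1 := by
    intro t ht
    have h1 := (hmem ⟨t, hTH ht⟩).1 ht
    rw [← map_pow, map_eq_one_iff ε ε.injective] at h1
    simpa using congrArg Subtype.val h1
  -- fusion
  have claim : ∀ g t : G, t ∈ T → t ≠ 1 → g * t * g⁻¹ ∈ T → ∀ x ∈ T, g * x * g⁻¹ ∈ T := by
    intro g t ht ht1 hgt x hx
    have h1 : g * x * g⁻¹ ∈ H := by
      refine hC (g * t * g⁻¹) hgt ?_ ?_
      · rwa [Ne, conj_eq_one_iff]
      · rw [Subgroup.mem_centralizer_singleton_iff]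
        have := hab x hx t ht
        calc g * x * g⁻¹ * (g * t * g⁻¹) = g * (x * t) * g⁻¹ := by group
          _ = g * (t * x) * g⁻¹ := by rw [this]
          _ = g * t * g⁻¹ * (g * x * g⁻¹) := by group
    refine hcube _ h1 ?_
    rw [conj_pow, hT3 x hx]
    group
  have fus : ∀ g t : G, t ∈ T → t ≠ 1 → g * t * g⁻¹ ∈ T → g ∈ H := by
    intro g t ht ht1 hgt
    rw [← hN, Subgroup.mem_normalizer_iff]
    intro x
    refine ⟨claim g t ht ht1 hgt x, fun hx => ?_⟩
    have h2 := claim g⁻¹ (g * t * g⁻¹) hgt (by rwa [Ne, conj_eq_one_iff]) (by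
      have : g⁻¹ * (g * t * g⁻¹) * g⁻¹⁻¹ = t := by group
      rwa [this]) _ hx
    have : g⁻¹ * (g * x * g⁻¹) * g⁻¹⁻¹ = x := by group
    rwa [this] at h2
  have hsq : ∀ g ∈ H, g * g ∈ T := by
    intro g hg
    refine hcube _ (H.mul_mem hg hg) ?_
    have h1 := facts.1 (ε ⟨g, hg⟩)
    rw [← map_mul, ← map_pow, map_eq_one_iff ε ε.injective] at h1
    simpa using congrArg Subtype.val h1
  let D : Set G := {g | g ∈ H ∧ g * g ≠ 1}
  have hD : TIData H D := by
    refine ⟨?_, ?_, ?_⟩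
    · rintro g d ⟨hd, hd2⟩ ⟨hd', hd2'⟩
      refine fus g (d * d) (hsq d hd) hd2 ?_
      have : g * (d * d) * g⁻¹ = (g * d * g⁻¹) * (g * d * g⁻¹) := by group
      rw [this]
      exact hsq _ hd'
    · rintro d ⟨hd, hd2⟩
      refine ⟨H.inv_mem hd, fun h => hd2 ?_⟩
      have : (d * d)⁻¹ = 1 := by rw [mul_inv_rev, h]
      rwa [inv_eq_one] at this
    · rintro d ⟨-, hd2⟩
      exact hd2
  have hDH : ∀ x : H, (x : G) ∉ D → x * x = 1 := by
    intro x hx
    by_contra h
    exact hx ⟨x.2, fun h1 => h (Subtype.ext h1)⟩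
  obtain ⟨X1, X2, hX1, hX2⟩ := exists_linear H ε D hD hDH
  let K : Subgroup G := X1.ker ⊓ X2.ker
  have hKn : K.Normal := by
    have i1 : X1.ker.Normal := inferInstance
    have i2 : X2.ker.Normal := inferInstance
    exact Subgroup.normal_inf_normal _ _
  have hKH : ∀ g ∈ H, g ∈ K ↔ g ∈ T := by
    intro g hg
    rw [show g ∈ T ↔ _ from hmem ⟨g, hg⟩, ← facts.2.2, Subgroup.mem_inf, MonoidHom.mem_ker, MonoidHom.mem_ker]
    have e1 := hX1 ⟨g, hg⟩
    have e2 := hX2 ⟨g, hg⟩
    constructor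
    · rintro ⟨h1, h2⟩
      rw [show X1 ((⟨g, hg⟩ : H) : G) = 1 from h1] at e1
      rw [show X2 ((⟨g, hg⟩ : H) : G) = 1 from h2] at e2
      refine ⟨?_, ?_⟩
      · rw [Units.val_one] at e1
        exact_mod_cast e1.symm
      · rw [Units.val_one] at e2
        exact_mod_cast e2.symm
    · rintro ⟨h1, h2⟩
      rw [h1, Int.cast_one] at e1
      rw [h2, Int.cast_one] at e2
      exact ⟨Units.ext e1, Units.ext e2⟩
  have hTK : T ≤ K := fun t ht => (hKH t (hTH ht)).2 ht
  -- Sylow subgroup of K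
  have h81 := not_dvd_of_normalizer T hT (by rw [hN, hcardH])
  have hKdvd : Nat.card K ∣ Nat.card G := Subgroup.card_subgroup_dvd_card K
  have hK27 : 27 ∣ Nat.card K := hT ▸ Subgroup.card_dvd_of_le hTK
  have hcardTK : Nat.card (T.subgroupOf K) = 27 := by
    rw [← hT]
    exact Nat.card_congr (Subgroup.subgroupOfEquivOfLe hTK).toEquiv
  have hfac : (Nat.card K).factorization 3 = 3 := by
    have h0 : Nat.card K ≠ 0 := Nat.card_pos.ne'
    apply le_antisymm
    · by_contra hlt
      have h1 : 3 ^ 4 ∣ Nat.card K := (Nat.prime_three.pow_dvd_iff_le_factorization h0).2 (by omega)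
      exact h81 ((show 81 = 3 ^ 4 by norm_num) ▸ h1.trans hKdvd)
    · exact (Nat.prime_three.pow_dvd_iff_le_factorization h0).1 (by exact hK27)
  let P : Sylow 3 K := Sylow.ofCard (T.subgroupOf K) (by rw [hcardTK, hfac]; norm_num)
  have hPT : (P : Subgroup K) = T.subgroupOf K := rfl
  have hPn : Subgroup.normalizer ((P : Subgroup K) : Set K) ≤ Subgroup.centralizer ((P : Subgroup K) : Set K) := by
    intro x hx
    rw [Subgroup.mem_normalizer_iff] at hx
    have hxH : (x : G) ∈ H := by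
      rw [← hN, Subgroup.mem_normalizer_iff]
      intro y
      constructor
      · intro hy
        exact (hx ⟨y, hTK hy⟩).1 hy
      · intro hy
        have hyK : y ∈ K := by
          have h1 := hTK hy
          have h2 := K.mul_mem (K.mul_mem (K.inv_mem x.2) h1) x.2
          have : (x : G)⁻¹ * ((x : G) * y * (x : G)⁻¹) * (x : G) = y := by group
          rwa [this] at h2
        exact (hx ⟨y, hyK⟩).2 hy
    have hxT : (x : G) ∈ T := (hKH x hxH).1 x.2
    rw [Subgroup.mem_centralizer_iff]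
    intro y hy
    exact Subtype.ext (hab _ hy _ hxT)
  obtain ⟨R0, hR0n, hcomp⟩ : ∃ R0 : Subgroup K, R0.Normal ∧ Subgroup.IsComplement' R0 (P : Subgroup K) :=
    ⟨(MonoidHom.transferSylow P hPn).ker, inferInstance, MonoidHom.ker_transferSylow_isComplement' P hPn⟩
  let R : Subgroup G := R0.map K.subtype
  have hRK : R ≤ K := by
    rintro _ ⟨x, -, rfl⟩
    exact x.2
  have hRT : ∀ x ∈ R, x ∈ T → x = 1 := by
    rintro _ ⟨x, hx, rfl⟩ hxT
    have h1 : x ∈ R0 ⊓ (P : Subgroup K) := ⟨hx, hxT⟩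
    rw [hcomp.disjoint.eq_bot] at h1
    rw [Subgroup.mem_bot.1 h1]
    rfl
  have hTR : T ≤ Subgroup.normalizer (R : Set G) := by
    intro t ht
    rw [Subgroup.mem_normalizer_iff]
    have key : ∀ t ∈ T, ∀ x ∈ R, t * x * t⁻¹ ∈ R := by
      rintro t ht _ ⟨x, hx, rfl⟩
      have h1 := hR0n.conj_mem x hx ⟨t, hTK ht⟩
      exact Subgroup.mem_map_of_mem K.subtype h1
    intro x
    refine ⟨key t ht x, fun hx => ?_⟩
    have := key t⁻¹ (T.inv_mem ht) _ hx
    have e : t⁻¹ * (t * x * t⁻¹) * t⁻¹⁻¹ = x := by group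
    rwa [e] at this
  have hR : R = ⊥ := by
    by_contra hne
    have hfpf : ∀ a ∈ T, a ≠ 1 → R ⊓ Subgroup.centralizer {a} = ⊥ := by
      intro a ha ha1
      rw [eq_bot_iff]
      rintro x ⟨hx1, hx2⟩
      have hxH := hC a ha ha1 hx2
      exact hRT x hx1 ((hKH x hxH).1 (hRK hx1))
    have h3 : IsPGroup 3 T := IsPGroup.of_card (n := 3) (by rw [hT]; norm_num)
    rcases H1.FrobSyl.cyclic_or_quaternion T R hne hTR hfpf 3 h3 with h | ⟨h, -⟩
    · obtain ⟨g, hg⟩ := h.exists_generator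
      have h1 : orderOf g = 27 := by
        rw [← hT, orderOf_eq_card_of_forall_mem_zpowers hg]
      have h2 : g ^ 3 = 1 := Subtype.ext (hT3 g g.2)
      have h4 := orderOf_dvd_of_pow_eq_one h2
      rw [h1] at h4
      norm_num at h4
    · norm_num at h
  have hR0b : R0 = ⊥ := by
    rw [eq_bot_iff]
    intro x hx
    have h1 : (x : G) ∈ R := ⟨x, hx, rfl⟩
    rw [hR] at h1
    exact Subgroup.mem_bot.2 (Subtype.ext (Subgroup.mem_bot.1 h1))
  have hPtop : (P : Subgroup K) = ⊤ := by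
    have h1 := hcomp
    rw [hR0b] at h1
    exact Subgroup.isComplement'_bot_left.1 h1
  have hKT : K = T := by
    apply le_antisymm _ hTK
    intro x hx
    have h1 : (⟨x, hx⟩ : K) ∈ (P : Subgroup K) := by rw [hPtop]; trivial
    exact h1
  have hTn : T.Normal := hKT ▸ hKn
  rw [← hN]
  exact Subgroup.normalizer_eq_top_iff.2 hTn

end H64.M108
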