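import Mathlib

set_option autoImplicit false

/-! A computable model of the group `3^3:S_4` of order 648: the even part of `S_3 wr S_3`, with `S_3` the
affine group of the line over the field with three elements. -/

namespace H64.M648

/-- affine maps `a ↦ x ± a` of the integers modulo three -/
@[ext] structure S where
  x : Fin 3
  e : Bool
deriving DecidableEq

namespace S

def equiv : S ≃ Fin 3 × Bool where
  toFun s := (s.x, s.e)
  invFun p := ⟨p.1, p.2⟩
  left_inv _ := rfl
  right_inv _ := rfl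

instance : Fintype S := Fintype.ofEquiv (Fin 3 × Bool) equiv.symm

/-- `± a` -/
def sg (e : Bool) (a : Fin 3) : Fin 3 := if e then -a else a

def act (s : S) (a : Fin 3) : Fin 3 := s.x + sg s.e a

instance : Mul S := ⟨fun s t => ⟨s.act t.x, xor s.e t.e⟩⟩
instance : One S := ⟨⟨0, false⟩⟩
instance : Inv S := ⟨fun s => ⟨if s.e then s.x else -s.x, s.e⟩⟩

instance : Group S where
  mul_assoc := by decide +kernel
  one_mul := by decide +kernel
  mul_one := by decide +kernel
  inv_mul_cancel := by decide +kernel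

theorem act_mul : ∀ (s t : S) (a : Fin 3), (s * t).act a = s.act (t.act a) := by decide +kernel
theorem act_one : ∀ a : Fin 3, (1 : S).act a = a := by decide +kernel
theorem act_inv : ∀ (s : S) (a : Fin 3), s⁻¹.act (s.act a) = a := by decide +kernel
theorem act_inv' : ∀ (s : S) (a : Fin 3), s.act (s⁻¹.act a) = a := by decide +kernel
theorem ext_act : ∀ s t : S, s.act 0 = t.act 0 → s.act 1 = t.act 1 → s = t := by decide +kernel

end S

/-- elements of the wreath product: three local parts and a block permutation -/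
@[ext] structure W where
  a : S
  b : S
  c : S
  p : S
deriving DecidableEq

namespace W

def equiv : W ≃ S × S × S × S where
  toFun h := (h.a, h.b, h.c, h.p)
  invFun q := ⟨q.1, q.2.1, q.2.2.1, q.2.2.2⟩
  left_inv _ := rfl
  right_inv _ := rfl

instance : Fintype W := Fintype.ofEquiv (S × S × S × S) equiv.symm

/-- the local part at a block -/
def loc (h : W) : Fin 3 → S
  | 0 => h.a
  | 1 => h.b
  | 2 => h.c

instance : Mul W := ⟨fun h k => ⟨h.loc (k.p.act 0) * k.a, h.loc (k.p.act 1) * k.b, h.loc (k.p.act 2) * k.c, h.p * k.p⟩⟩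
instance : One W := ⟨⟨1, 1, 1, 1⟩⟩
instance : Inv W := ⟨fun h => ⟨(h.loc (h.p⁻¹.act 0))⁻¹, (h.loc (h.p⁻¹.act 1))⁻¹, (h.loc (h.p⁻¹.act 2))⁻¹, h.p⁻¹⟩⟩

theorem loc_mul (h k : W) (i : Fin 3) : (h * k).loc i = h.loc (k.p.act i) * k.loc i := by
  fin_cases i <;> rfl

theorem p_mul (h k : W) : (h * k).p = h.p * k.p := rfl
theorem p_one : (1 : W).p = 1 := rfl
theorem loc_one (i : Fin 3) : (1 : W).loc i = 1 := by fin_cases i <;> rfl
theorem p_inv (h : W) : h⁻¹.p = h.p⁻¹ := rfl
theorem loc_inv (h : W) (i : Fin 3) : h⁻¹.loc i = (h.loc (h.p⁻¹.act i))⁻¹ := by fin_cases i <;> rfl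

theorem ext_loc {h k : W} (h1 : ∀ i, h.loc i = k.loc i) (h2 : h.p = k.p) : h = k :=
  W.ext (h1 0) (h1 1) (h1 2) h2

instance : Group W where
  mul_assoc a b c := ext_loc (fun i => by
    rw [loc_mul, loc_mul, loc_mul, loc_mul, p_mul, S.act_mul, mul_assoc]) (mul_assoc _ _ _)
  one_mul a := ext_loc (fun i => by rw [loc_mul, loc_one, one_mul]) (one_mul _)
  mul_one a := ext_loc (fun i => by rw [loc_mul, loc_one, p_one, S.act_one, mul_one]) (mul_one _)
  inv_mul_cancel a := ext_loc (fun i => by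
    rw [loc_mul, loc_inv, S.act_inv, inv_mul_cancel, loc_one]) (inv_mul_cancel _)

end W

/-- parity -/
def sgn : S →* ℤˣ := MonoidHom.mk' (fun s => if s.e then -1 else 1) (by decide +kernel)

theorem prod_perm (f : Fin 3 → ℤˣ) : ∀ s : S, f (s.act 0) * f (s.act 1) * f (s.act 2) = f 0 * f 1 * f 2 := by
  intro s
  have key : ∀ s : S, (s.act 0 = 0 ∧ s.act 1 = 1 ∧ s.act 2 = 2) ∨ (s.act 0 = 0 ∧ s.act 1 = 2 ∧ s.act 2 = 1) ∨
    (s.act 0 = 1 ∧ s.act 1 = 0 ∧ s.act 2 = 2) ∨ (s.act 0 = 1 ∧ s.act 1 = 2 ∧ s.act 2 = 0) ∨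
    (s.act 0 = 2 ∧ s.act 1 = 0 ∧ s.act 2 = 1) ∨ (s.act 0 = 2 ∧ s.act 1 = 1 ∧ s.act 2 = 0) := by decide +kernel
  rcases key s with h | h | h | h | h | h <;> rw [h.1, h.2.1, h.2.2] <;> ac_rfl

/-- parity of an element of the wreath product -/
def par : W →* ℤˣ := MonoidHom.mk' (fun h => sgn (h.loc 0) * sgn (h.loc 1) * sgn (h.loc 2) * sgn h.p) (by
  intro h k
  simp only [W.loc_mul, W.p_mul, map_mul]
  rw [← prod_perm (fun i => sgn (h.loc i)) k.p]
  ac_rfl)

/-- the model of order 648 -/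
abbrev M : Subgroup W := par.ker

instance : Fintype M := Fintype.subtype (Finset.univ.filter fun h : W => par h = 1) (by simp [MonoidHom.mem_ker])

/-- reflection of the integers modulo 3 as a Boolean sign: weight of rotation parts -/
def nz (a : Fin 3) : ℕ := if a = 0 then 0 else 1

/-- the class of an element -/
def cl (h : W) : Fin 14 :=
  if h.p.e then
    -- transposition of blocks, fixed block k
    let k : Fin 3 := if h.p.act 0 = 0 then 0 else if h.p.act 1 = 1 then 1 else 2
    if (h.loc k).e then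
      (if (h.loc (k + 1) * h.loc (k + 2)).x = 0 then 2 else 9)
    else
      (if (h.loc k).x = 0 then 7 else if S.sg (h.loc (k + 1)).e (h.loc k).x = 1 then 12 else 13)
  else
    if h.p.x = 0 then
      (if h.a.e = false ∧ h.b.e = false ∧ h.c.e = false then
        (if nz h.a.x + nz h.b.x + nz h.c.x = 0 then 0 else if nz h.a.x + nz h.b.x + nz h.c.x = 1 then 3
          else if nz h.a.x + nz h.b.x + nz h.c.x = 2 then 4 else 5)
      else (if (h.a.e = false ∧ h.a.x ≠ 0) ∨ (h.b.e = false ∧ h.b.x ≠ 0) ∨ (h.c.e = false ∧ h.c.x ≠ 0) then 8 else 1))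
    else
      (if (h.loc (h.p.act (h.p.act 0)) * h.loc (h.p.act 0) * h.loc 0).x = 0 then 6
        else if S.sg (h.loc (h.p.act 0)).e (h.loc (h.p.act (h.p.act 0)) * h.loc (h.p.act 0) * h.loc 0).x = h.p.x
          then 10 else 11)

/-- class sizes -/
def size : Fin 14 → ℤ := ![1, 27, 54, 6, 12, 8, 72, 54, 54, 108, 72, 72, 54, 54]

end H64.M648
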