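import Cfsg.Agent.Lib.H64.M648

set_option autoImplicit false

/-! The model of order 648: its embedding into `Sym(9)` and computed facts. -/

namespace H64.M648

/-- action on nine points -/
def actW (h : W) (q : Fin 3 × Fin 3) : Fin 3 × Fin 3 := (h.p.act q.1, (h.loc q.1).act q.2)

theorem actW_mul (h k : W) (q : Fin 3 × Fin 3) : actW (h * k) q = actW h (actW k q) := by
  simp only [actW, W.p_mul, W.loc_mul, S.act_mul]

theorem actW_one (q : Fin 3 × Fin 3) : actW 1 q = q := by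
  simp only [actW, W.p_one, W.loc_one, S.act_one]

def toPerm0 : W →* Equiv.Perm (Fin 3 × Fin 3) := MonoidHom.mk' (fun h => ⟨actW h, actW h⁻¹,
  fun q => by rw [← actW_mul, inv_mul_cancel, actW_one], fun q => by rw [← actW_mul, mul_inv_cancel, actW_one]⟩)
  (fun h k => Equiv.ext fun q => actW_mul h k q)

/-- embedding into permutations of nine points -/
def jW : W →* Equiv.Perm (Fin 9) := MonoidHom.mk'
  (fun h => (finProdFinEquiv : Fin 3 × Fin 3 ≃ Fin 9).permCongr (toPerm0 h)) (fun h k => by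
    refine Equiv.ext fun q => ?_
    rw [map_mul]
    simp [Equiv.permCongr_apply])

theorem jW_injective : Function.Injective jW := by
  rw [injective_iff_map_eq_one]
  intro h hh
  have h1 : toPerm0 h = 1 := by
    have h2 : (finProdFinEquiv : Fin 3 × Fin 3 ≃ Fin 9).permCongr (toPerm0 h) = 1 := hh
    refine Equiv.ext fun q => ?_
    have h3 := Equiv.congr_fun h2 (finProdFinEquiv q)
    rw [Equiv.permCongr_apply, Equiv.symm_apply_apply] at h3
    exact finProdFinEquiv.injective h3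
  have h4 : ∀ q, actW h q = q := fun q => Equiv.congr_fun h1 q
  have hp : h.p = 1 := S.ext_act _ _ (congrArg Prod.fst (h4 (0, 0))) (congrArg Prod.fst (h4 (1, 0)))
  refine W.ext_loc (fun i => ?_) hp
  rw [W.loc_one]
  exact S.ext_act _ _ (congrArg Prod.snd (h4 (i, 0))) (congrArg Prod.snd (h4 (i, 1)))

abbrev x1 : S := ⟨1, false⟩
abbrev t1 : S := ⟨1, true⟩
/-- generators -/
def g1 : W := ⟨x1, 1, 1, 1⟩
def g2 : W := ⟨1, 1, 1, x1⟩
def g3 : W := ⟨t1, t1, 1, 1⟩
def g4 : W := ⟨1, 1, t1, t1⟩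
def gv : W := ⟨1, t1, t1, 1⟩
def gb : W := ⟨1, x1, 1, 1⟩
def gc : W := ⟨1, 1, x1, 1⟩

theorem gv_eq : gv = g2 * g3 * g2⁻¹ := by decide +kernel
theorem gb_eq : gb = g2 * g1 * g2⁻¹ := by decide +kernel
theorem gc_eq : gc = g2 * g2 * g1 * g2⁻¹ * g2⁻¹ := by decide +kernel

/-- remove the block permutation -/
def red1 (m : W) : W := if m.p.e then m * g4⁻¹ else m
def red2 (m : W) : W := (red1 m) * (g2 ^ ((red1 m).p.x : ℕ))⁻¹
def red3 (m : W) : W := if (red2 m).a.e then red2 m * g3⁻¹ else red2 m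
def red4 (m : W) : W := if (red3 m).b.e then red3 m * gv⁻¹ else red3 m

theorem nf : ∀ a b c p : S, par ⟨a, b, c, p⟩ = 1 → red4 ⟨a, b, c, p⟩ =
    g1 ^ ((red4 ⟨a, b, c, p⟩).a.x : ℕ) * gb ^ ((red4 ⟨a, b, c, p⟩).b.x : ℕ) * gc ^ ((red4 ⟨a, b, c, p⟩).c.x : ℕ) := by
  decide +kernel

theorem closure_gens : Subgroup.closure ({g1, g2, g3, g4} : Set W) = M := by
  apply le_antisymm
  · rw [Subgroup.closure_le]
    intro x hx
    simp only [Set.mem_insert_iff, Set.mem_singleton_iff] at hx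
    have : par g1 = 1 ∧ par g2 = 1 ∧ par g3 = 1 ∧ par g4 = 1 := by decide +kernel
    rcases hx with rfl | rfl | rfl | rfl
    · exact MonoidHom.mem_ker.2 this.1
    · exact MonoidHom.mem_ker.2 this.2.1
    · exact MonoidHom.mem_ker.2 this.2.2.1
    · exact MonoidHom.mem_ker.2 this.2.2.2
  · intro m hm
    set Γ := Subgroup.closure ({g1, g2, g3, g4} : Set W) with hΓ
    have h1 : g1 ∈ Γ := Subgroup.subset_closure (by simp)
    have h2 : g2 ∈ Γ := Subgroup.subset_closure (by simp)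
    have h3 : g3 ∈ Γ := Subgroup.subset_closure (by simp)
    have h4 : g4 ∈ Γ := Subgroup.subset_closure (by simp)
    have hv : gv ∈ Γ := by
      rw [gv_eq]
      exact Γ.mul_mem (Γ.mul_mem h2 h3) (Γ.inv_mem h2)
    have hb : gb ∈ Γ := by
      rw [gb_eq]
      exact Γ.mul_mem (Γ.mul_mem h2 h1) (Γ.inv_mem h2)
    have hc : gc ∈ Γ := by
      rw [gc_eq]
      exact Γ.mul_mem (Γ.mul_mem (Γ.mul_mem (Γ.mul_mem h2 h2) h1) (Γ.inv_mem h2)) (Γ.inv_mem h2)
    have k4 : red4 m ∈ Γ := by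
      have : red4 m = g1 ^ ((red4 m).a.x : ℕ) * gb ^ ((red4 m).b.x : ℕ) * gc ^ ((red4 m).c.x : ℕ) :=
        nf m.a m.b m.c m.p (MonoidHom.mem_ker.1 hm)
      rw [this]
      exact Γ.mul_mem (Γ.mul_mem (Γ.pow_mem h1 _) (Γ.pow_mem hb _)) (Γ.pow_mem hc _)
    have k3 : red3 m ∈ Γ := by
      unfold red4 at k4
      split_ifs at k4
      · exact (Γ.mul_mem_cancel_right (Γ.inv_mem hv)).1 k4
      · exact k4
    have k2 : red2 m ∈ Γ := by
      unfold red3 at k3
      split_ifs at k3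
      · exact (Γ.mul_mem_cancel_right (Γ.inv_mem h3)).1 k3
      · exact k3
    have k1 : red1 m ∈ Γ := by
      unfold red2 at k2
      exact (Γ.mul_mem_cancel_right (Γ.inv_mem (Γ.pow_mem h2 _))).1 k2
    unfold red1 at k1
    split_ifs at k1
    · exact (Γ.mul_mem_cancel_right (Γ.inv_mem h4)).1 k1
    · exact k1

theorem jW_gens : jW g1 = Equiv.swap (0 : Fin 9) 1 * Equiv.swap 1 2 ∧
    jW g2 = Equiv.swap (0 : Fin 9) 3 * Equiv.swap 3 6 * (Equiv.swap (1 : Fin 9) 4 * Equiv.swap 4 7) *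
      (Equiv.swap (2 : Fin 9) 5 * Equiv.swap 5 8) ∧
    jW g3 = Equiv.swap (0 : Fin 9) 1 * Equiv.swap 3 4 ∧
    jW g4 = Equiv.swap (0 : Fin 9) 3 * Equiv.swap 1 4 * Equiv.swap 2 5 * Equiv.swap 6 7 := by
  refine ⟨?_, ?_, ?_, ?_⟩ <;> decide +kernel

theorem map_M : M.map jW = Subgroup.closure ({Equiv.swap (0 : Fin 9) 1 * Equiv.swap 1 2,
        Equiv.swap (0 : Fin 9) 3 * Equiv.swap 3 6 * (Equiv.swap (1 : Fin 9) 4 * Equiv.swap 4 7) * (Equiv.swap (2 : Fin 9) 5 * Equiv.swap 5 8),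
        Equiv.swap (0 : Fin 9) 1 * Equiv.swap 3 4, Equiv.swap (0 : Fin 9) 3 * Equiv.swap 1 4 * Equiv.swap 2 5 * Equiv.swap 6 7} : Set (Equiv.Perm (Fin 9))) := by
  rw [← closure_gens, MonoidHom.map_closure]
  congr 1
  simp only [Set.image_insert_eq, Set.image_singleton]
  rw [jW_gens.1, jW_gens.2.1, jW_gens.2.2.1, jW_gens.2.2.2]

/-- the model is isomorphic to the closure -/
noncomputable def equivC : M ≃* Subgroup.closure ({Equiv.swap (0 : Fin 9) 1 * Equiv.swap 1 2,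
        Equiv.swap (0 : Fin 9) 3 * Equiv.swap 3 6 * (Equiv.swap (1 : Fin 9) 4 * Equiv.swap 4 7) * (Equiv.swap (2 : Fin 9) 5 * Equiv.swap 5 8),
        Equiv.swap (0 : Fin 9) 1 * Equiv.swap 3 4, Equiv.swap (0 : Fin 9) 3 * Equiv.swap 1 4 * Equiv.swap 2 5 * Equiv.swap 6 7} : Set (Equiv.Perm (Fin 9))) :=
  (M.equivMapOfInjective jW jW_injective).trans (MulEquiv.subgroupCongr map_M)

end H64.M648
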