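import Cfsg.Agent.Lib.H64.Transport

set_option autoImplicit false

/-! Monomial representations: the character of a monomial action with a cocycle. -/

namespace H64.Monomial

open Cfsg Representation H18.CharBasic

universe u v

variable {M : Type u} [Group M] {X : Type v} [Fintype X] [DecidableEq X]

theorem isCharacter_monomial (act : M → X → X) (c : M → X → ℂ) (act_one : ∀ x, act 1 x = x)
    (act_mul : ∀ m n x, act (m * n) x = act m (act n x)) (c_one : ∀ x, c 1 x = 1)
    (c_mul : ∀ m n x, c (m * n) x = c m (act n x) * c n x) :
    IsCharacter M (fun m => ∑ x, if act m x = x then c m x else 0) := by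
  let A : M → Matrix X X ℂ := fun m => Matrix.of fun y x => if act m x = y then c m x else 0
  have A_one : A 1 = 1 := by
    ext y x
    simp only [A, Matrix.of_apply, act_one, c_one, Matrix.one_apply, eq_comm]
  have A_mul : ∀ m n, A (m * n) = A m * A n := by
    intro m n
    ext y x
    rw [Matrix.mul_apply]
    rw [Finset.sum_eq_single (act n x)]
    · simp only [A, Matrix.of_apply, act_mul, c_mul, if_true]
      split_ifs <;> simp
    · intro z _ hz
      simp only [A, Matrix.of_apply]
      rw [if_neg (show ¬ act n x = z from fun h => hz h.symm), mul_zero]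
    · intro h
      exact absurd (Finset.mem_univ _) h
  let ρ : Representation ℂ M (X → ℂ) :=
    { toFun := fun m => Matrix.toLin' (A m)
      map_one' := by rw [A_one, Matrix.toLin'_one]; rfl
      map_mul' := fun m n => by rw [A_mul, Matrix.toLin'_mul]; rfl }
  have h := isCharacter_of_rep ρ
  convert h using 1
  funext m
  change _ = LinearMap.trace ℂ (X → ℂ) (Matrix.toLin' (A m))
  rw [Matrix.trace_toLin'_eq]
  rfl

/-- the case without cocycle -/
theorem isCharacter_perm (act : M → X → X) (act_one : ∀ x, act 1 x = x)
    (act_mul : ∀ m n x, act (m * n) x = act m (act n x)) :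
    IsCharacter M (fun m => ((∑ x, if act m x = x then (1 : ℤ) else 0 : ℤ) : ℂ)) := by
  have h := isCharacter_monomial act (fun _ _ => 1) act_one act_mul (fun _ => rfl) (fun _ _ _ => by simp)
  convert h using 1
  funext m
  push_cast
  rfl

end H64.Monomial
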