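import Cfsg.Agent.Lib.H64.M648B
import Cfsg.Agent.Lib.H64.Monomial

set_option autoImplicit false

/-! Characters of the model of order 648. -/

namespace H64.M648

open Cfsg H18.CharBasic H18.CharOrtho H64.Monomial

/-- the ring `ℤ[√3]` inside the complex numbers -/
noncomputable def φ : ℤ√3 →+* ℂ := Complex.ofRealHom.comp (Zsqrtd.toReal (by norm_num))

theorem φ_int (n : ℤ) : φ (n : ℤ√3) = (n : ℂ) := by
  simp

noncomputable abbrev r3 : ℂ := ((Real.sqrt 3 : ℝ) : ℂ)

theorem φ_apply (a b : ℤ) : φ ⟨a, b⟩ = a + b * r3 := by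
  rw [φ, RingHom.comp_apply, Zsqrtd.toReal]
  simp [Zsqrtd.lift]

theorem r3_sq : r3 * r3 = 3 := by
  rw [r3, ← Complex.ofReal_mul, Real.mul_self_sqrt (by norm_num)]
  norm_num

/-- primitive cube root of unity -/
noncomputable def om : ℂ := -1 / 2 + r3 / 2 * Complex.I

theorem om_sq : om * om = -1 - om := by
  have h := r3_sq
  have hI := Complex.I_mul_I
  unfold om
  linear_combination (1 / 4 : ℂ) * Complex.I * Complex.I * h + (3 / 4 : ℂ) * hI

theorem om_rel : (-Complex.I - 2 * (om * Complex.I)) = r3 := by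
  have hI := Complex.I_mul_I
  unfold om
  linear_combination -r3 * hI

/-- powers of the cube root of unity -/
noncomputable def w3 : Fin 3 → ℂ
  | 0 => 1
  | 1 => om
  | 2 => -1 - om

noncomputable def i4 : Fin 4 → ℂ
  | 0 => 1
  | 1 => Complex.I
  | 2 => -1
  | 3 => -Complex.I

theorem w3_add (a b : Fin 3) : w3 (a + b) = w3 a * w3 b := by
  have h := om_sq
  fin_cases a <;> fin_cases b <;> simp [w3] <;> first | done | ring1 | linear_combination h | linear_combination -h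

theorem i4_add (a b : Fin 4) : i4 (a + b) = i4 a * i4 b := by
  have h := Complex.I_mul_I
  fin_cases a <;> fin_cases b <;> simp [i4]

/-- coordinates with respect to `1, ω, i, ωi` -/
abbrev Q := ℤ × ℤ × ℤ × ℤ

/-- coordinates of `ω^a i^k` -/
def v4 (a : Fin 3) (k : Fin 4) : Q :=
  let p : ℤ × ℤ := match a with | 0 => (1, 0) | 1 => (0, 1) | 2 => (-1, -1)
  match k with
  | 0 => (p.1, p.2, 0, 0)
  | 1 => (0, 0, p.1, p.2)
  | 2 => (-p.1, -p.2, 0, 0)
  | 3 => (0, 0, -p.1, -p.2)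

noncomputable def toC : Q →+ ℂ := AddMonoidHom.mk' (fun q => q.1 + q.2.1 * om + q.2.2.1 * Complex.I + q.2.2.2 * (om * Complex.I))
  (fun a b => by
    simp only [Prod.fst_add, Prod.snd_add]
    push_cast
    ring)

theorem toC_v4 (a : Fin 3) (k : Fin 4) : toC (v4 a k) = w3 a * i4 k := by
  fin_cases a <;> fin_cases k <;> simp [v4, toC, w3, i4] <;> ring

/-- the coordinates of an element of `ℤ[√3]` -/
def emb (z : ℤ√3) : Q := (z.re, 0, -z.im, -2 * z.im)

theorem toC_emb (z : ℤ√3) : toC (emb z) = φ z := by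
  obtain ⟨a, b⟩ := z
  rw [φ_apply]
  have h := om_rel
  simp only [toC, emb, AddMonoidHom.mk'_apply]
  push_cast
  linear_combination (b : ℂ) * h

/-- a monomial character, computed -/
theorem isCharacter_mono {X : Type} [Fintype X] [DecidableEq X] (act : M → X → X) (wf : M → X → Fin 3)
    (kf : M → X → Fin 4) (t : Fin 14 → ℤ√3) (act_one : ∀ x, act 1 x = x)
    (act_mul : ∀ m n x, act (m * n) x = act m (act n x)) (w_mul : ∀ m n x, wf (m * n) x = wf m (act n x) + wf n x)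
    (k_mul : ∀ m n x, kf (m * n) x = kf m (act n x) + kf n x)
    (ht : ∀ m : M, ∑ x : X, (if act m x = x then v4 (wf m x) (kf m x) else 0) = emb (t (cl m))) :
    IsCharacter M (fun m => φ (t (cl m))) := by
  have w_one : ∀ x, wf 1 x = 0 := by
    intro x
    have h := w_mul 1 1 x
    rw [mul_one, act_one] at h
    exact left_eq_add.1 h
  have k_one : ∀ x, kf 1 x = 0 := by
    intro x
    have h := k_mul 1 1 x
    rw [mul_one, act_one] at h
    exact left_eq_add.1 h
  have h := isCharacter_monomial act (fun m x => w3 (wf m x) * i4 (kf m x)) act_one act_mul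
    (fun x => by rw [w_one, k_one]; simp [w3, i4])
    (fun m n x => by rw [w_mul, k_mul, w3_add, i4_add]; ring)
  convert h using 1
  funext m
  rw [← toC_emb, ← ht, map_sum]
  refine Finset.sum_congr rfl fun x _ => ?_
  split_ifs
  · rw [toC_v4]
  · rw [map_zero]

/-- the integral case -/
theorem isCharacter_mono_int {X : Type} [Fintype X] [DecidableEq X] (act : M → X → X) (s : M → X → ℤˣ)
    (t : Fin 14 → ℤ) (act_one : ∀ x, act 1 x = x)
    (act_mul : ∀ m n x, act (m * n) x = act m (act n x)) (s_mul : ∀ m n x, s (m * n) x = s m (act n x) * s n x)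
    (ht : ∀ m : M, ∑ x : X, (if act m x = x then (s m x : ℤ) else 0) = t (cl m)) :
    IsCharacter M (fun m => φ ((t (cl m) : ℤ) : ℤ√3)) := by
  have s_one : ∀ x, s 1 x = 1 := by
    intro x
    have h := s_mul 1 1 x
    rw [mul_one, act_one] at h
    exact left_eq_mul.1 h
  have h := isCharacter_monomial act (fun m x => ((s m x : ℤ) : ℂ)) act_one act_mul
    (fun x => by rw [s_one]; simp)
    (fun m n x => by rw [s_mul]; push_cast; ring)
  convert h using 1
  funext m
  rw [φ_int, ← ht]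
  push_cast
  refine Finset.sum_congr rfl fun x _ => ?_
  split_ifs <;> simp

/-! ### permutation characters -/

/-- action on blocks -/
theorem chi_fix3 : IsCharacter M (fun m => φ (((![3, 3, 1, 3, 3, 3, 0, 1, 3, 1, 0, 0, 1, 1] : Fin 14 → ℤ) (cl m) : ℤ) : ℤ√3)) := by
  refine isCharacter_mono_int (fun m (i : Fin 3) => (m : W).p.act i) (fun _ _ => 1) _ (fun i => S.act_one i)
    (fun m n i => S.act_mul _ _ i) (fun _ _ _ => (mul_one 1).symm) ?_
  have key : ∀ a b c p : S, par ⟨a, b, c, p⟩ = 1 →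
      (∑ x : Fin 3, (if (⟨a, b, c, p⟩ : W).p.act x = x then ((1 : ℤˣ) : ℤ) else 0)) =
        (![3, 3, 1, 3, 3, 3, 0, 1, 3, 1, 0, 0, 1, 1] : Fin 14 → ℤ) (cl ⟨a, b, c, p⟩) := by decide +kernel
  exact fun m => key m.1.a m.1.b m.1.c m.1.p (MonoidHom.mem_ker.1 m.2)

/-- signed action on blocks -/
theorem chi5 : IsCharacter M (fun m => φ (((![3, -1, -1, 3, 3, 3, 0, 1, -1, -1, 0, 0, 1, 1] : Fin 14 → ℤ) (cl m) : ℤ) : ℤ√3)) := by
  refine isCharacter_mono_int (fun m (i : Fin 3) => (m : W).p.act i) (fun m i => sgn ((m : W).loc i)) _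
    (fun i => S.act_one i) (fun m n i => S.act_mul _ _ i) (fun m n i => by
      change sgn (((m : W) * (n : W)).loc i) = _
      rw [W.loc_mul, map_mul]) ?_
  have key : ∀ a b c p : S, par ⟨a, b, c, p⟩ = 1 →
      (∑ x : Fin 3, (if (⟨a, b, c, p⟩ : W).p.act x = x then ((sgn ((⟨a, b, c, p⟩ : W).loc x) : ℤˣ) : ℤ) else 0)) =
        (![3, -1, -1, 3, 3, 3, 0, 1, -1, -1, 0, 0, 1, 1] : Fin 14 → ℤ) (cl ⟨a, b, c, p⟩) := by decide +kernel
  exact fun m => key m.1.a m.1.b m.1.c m.1.p (MonoidHom.mem_ker.1 m.2)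

/-- the sign of the block permutation -/
theorem chi2 : IsCharacter M (fun m => φ (((![1, 1, -1, 1, 1, 1, 1, -1, 1, -1, 1, 1, -1, -1] : Fin 14 → ℤ) (cl m) : ℤ) : ℤ√3)) := by
  refine isCharacter_mono_int (fun m (i : Unit) => i) (fun m i => sgn (m : W).p) _
    (fun i => rfl) (fun m n i => rfl) (fun m n i => by
      change sgn (((m : W) * (n : W)).p) = _
      rw [W.p_mul, map_mul]) ?_
  have key : ∀ a b c p : S, par ⟨a, b, c, p⟩ = 1 →
      (∑ x : Unit, (if x = x then ((sgn ((⟨a, b, c, p⟩ : W).p) : ℤˣ) : ℤ) else 0)) =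
        (![1, 1, -1, 1, 1, 1, 1, -1, 1, -1, 1, 1, -1, -1] : Fin 14 → ℤ) (cl ⟨a, b, c, p⟩) := by decide +kernel
  exact fun m => key m.1.a m.1.b m.1.c m.1.p (MonoidHom.mem_ker.1 m.2)

/-- action on points -/
theorem chi_fix9 : IsCharacter M (fun m => φ (((![9, 5, 1, 6, 3, 0, 0, 3, 2, 1, 0, 0, 0, 0] : Fin 14 → ℤ) (cl m) : ℤ) : ℤ√3)) := by
  refine isCharacter_mono_int (fun m (q : Fin 3 × Fin 3) => actW m q) (fun _ _ => 1) _ (fun q => actW_one q)
    (fun m n q => actW_mul _ _ q) (fun _ _ _ => (mul_one 1).symm) ?_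
  have key : ∀ a b c p : S, par ⟨a, b, c, p⟩ = 1 →
      (∑ x : Fin 3 × Fin 3, (if actW (⟨a, b, c, p⟩ : W) x = x then ((1 : ℤˣ) : ℤ) else 0)) =
        (![9, 5, 1, 6, 3, 0, 0, 3, 2, 1, 0, 0, 0, 0] : Fin 14 → ℤ) (cl ⟨a, b, c, p⟩) := by decide +kernel
  exact fun m => key m.1.a m.1.b m.1.c m.1.p (MonoidHom.mem_ker.1 m.2)

end H64.M648
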