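import Cfsg.Agent.Lib.H64.M648C

set_option autoImplicit false

/-! More characters of the model of order 648: degrees 27, 8, 6. -/

namespace H64.M648

open Cfsg H18.CharBasic H18.CharOrtho H64.Monomial

/-- points of the product of the three blocks -/
abbrev T3 := Fin 3 × Fin 3 × Fin 3

def nth (t : T3) : Fin 3 → Fin 3
  | 0 => t.1
  | 1 => t.2.1
  | 2 => t.2.2

theorem nth_mk (f : Fin 3 → Fin 3) (i : Fin 3) : nth (f 0, f 1, f 2) i = f i := by fin_cases i <;> rfl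

theorem T3_ext {s t : T3} (h : ∀ i, nth s i = nth t i) : s = t := by
  obtain ⟨a, b, c⟩ := s
  obtain ⟨a', b', c'⟩ := t
  have h0 := h 0
  have h1 := h 1
  have h2 := h 2
  simp only [nth] at h0 h1 h2
  rw [h0, h1, h2]

def f27 (h : W) (t : T3) (j : Fin 3) : Fin 3 := (h.loc (h.p⁻¹.act j)).act (nth t (h.p⁻¹.act j))

def act27 (h : W) (t : T3) : T3 := (f27 h t 0, f27 h t 1, f27 h t 2)

theorem nth_act27 (h : W) (t : T3) (j : Fin 3) :
    nth (act27 h t) j = (h.loc (h.p⁻¹.act j)).act (nth t (h.p⁻¹.act j)) := nth_mk _ j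

theorem act27_mul (h k : W) (t : T3) : act27 (h * k) t = act27 h (act27 k t) := by
  refine T3_ext fun j => ?_
  simp only [nth_act27, W.loc_mul, W.p_mul, mul_inv_rev, S.act_mul, S.act_inv']

theorem act27_one (t : T3) : act27 1 t = t := by
  refine T3_ext fun j => ?_
  rw [nth_act27, W.loc_one, W.p_one, inv_one, S.act_one, S.act_one]

theorem chi_fix27 : IsCharacter M (fun m => φ (((![27, 3, 3, 0, 0, 0, 3, 3, 0, 0, 0, 0, 0, 0] : Fin 14 → ℤ) (cl m) : ℤ) : ℤ√3)) := by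
  refine isCharacter_mono_int (fun m (q : T3) => act27 m q) (fun _ _ => 1) _ (fun q => act27_one q)
    (fun m n q => act27_mul _ _ q) (fun _ _ _ => (mul_one 1).symm) ?_
  have key : ∀ a b c p : S, par ⟨a, b, c, p⟩ = 1 →
      (∑ x : T3, (if act27 (⟨a, b, c, p⟩ : W) x = x then ((1 : ℤˣ) : ℤ) else 0)) =
        (![27, 3, 3, 0, 0, 0, 3, 3, 0, 0, 0, 0, 0, 0] : Fin 14 → ℤ) (cl ⟨a, b, c, p⟩) := by decide +kernel
  exact fun m => key m.1.a m.1.b m.1.c m.1.p (MonoidHom.mem_ker.1 m.2)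

/-! ### Boolean triples -/

abbrev B3 := Bool × Bool × Bool

def nb (t : B3) : Fin 3 → Bool
  | 0 => t.1
  | 1 => t.2.1
  | 2 => t.2.2

theorem nb_mk (f : Fin 3 → Bool) (i : Fin 3) : nb (f 0, f 1, f 2) i = f i := by fin_cases i <;> rfl

theorem B3_ext {s t : B3} (h : ∀ i, nb s i = nb t i) : s = t := by
  obtain ⟨a, b, c⟩ := s
  obtain ⟨a', b', c'⟩ := t
  have h0 := h 0
  have h1 := h 1
  have h2 := h 2
  simp only [nb] at h0 h1 h2
  rw [h0, h1, h2]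

def f8 (h : W) (t : B3) (j : Fin 3) : Bool := xor (h.loc (h.p⁻¹.act j)).e (nb t (h.p⁻¹.act j))

def act8 (h : W) (t : B3) : B3 := (f8 h t 0, f8 h t 1, f8 h t 2)

theorem nb_act8 (h : W) (t : B3) (j : Fin 3) :
    nb (act8 h t) j = xor (h.loc (h.p⁻¹.act j)).e (nb t (h.p⁻¹.act j)) := nb_mk _ j

theorem e_mul (s t : S) : (s * t).e = xor s.e t.e := rfl
theorem x_mul (s t : S) : (s * t).x = s.act t.x := rfl

theorem act8_mul (h k : W) (t : B3) : act8 (h * k) t = act8 h (act8 k t) := by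
  refine B3_ext fun j => ?_
  rw [nb_act8, nb_act8, nb_act8, W.loc_mul, W.p_mul, mul_inv_rev, S.act_mul, S.act_inv', e_mul, Bool.xor_assoc]

theorem act8_one (t : B3) : act8 1 t = t := by
  refine B3_ext fun j => ?_
  rw [nb_act8, W.loc_one, W.p_one, inv_one, S.act_one]
  exact Bool.false_xor _

/-- the phase -/
def wx8 (h : W) (t : B3) : Fin 3 :=
  S.sg (xor (h.loc 0).e (nb t 0)) (h.loc 0).x + S.sg (xor (h.loc 1).e (nb t 1)) (h.loc 1).x +
    S.sg (xor (h.loc 2).e (nb t 2)) (h.loc 2).x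

theorem sum_perm (f : Fin 3 → Fin 3) : ∀ s : S, f (s.act 0) + f (s.act 1) + f (s.act 2) = f 0 + f 1 + f 2 := by
  intro s
  have key : ∀ s : S, (s.act 0 = 0 ∧ s.act 1 = 1 ∧ s.act 2 = 2) ∨ (s.act 0 = 0 ∧ s.act 1 = 2 ∧ s.act 2 = 1) ∨
    (s.act 0 = 1 ∧ s.act 1 = 0 ∧ s.act 2 = 2) ∨ (s.act 0 = 1 ∧ s.act 1 = 2 ∧ s.act 2 = 0) ∨
    (s.act 0 = 2 ∧ s.act 1 = 0 ∧ s.act 2 = 1) ∨ (s.act 0 = 2 ∧ s.act 1 = 1 ∧ s.act 2 = 0) := by decide +kernel
  rcases key s with h | h | h | h | h | h <;> rw [h.1, h.2.1, h.2.2] <;> ac_rfl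

theorem sg_mul : ∀ (s t : S) (b : Bool), S.sg (xor (s * t).e b) (s * t).x =
    S.sg (xor s.e (xor t.e b)) s.x + S.sg (xor t.e b) t.x := by decide +kernel

theorem wx8_mul (h k : W) (t : B3) : wx8 (h * k) t = wx8 h (act8 k t) + wx8 k t := by
  have h1 : ∀ i, nb (act8 k t) (k.p.act i) = xor (k.loc i).e (nb t i) := by
    intro i
    rw [nb_act8, S.act_inv]
  have h2 := sum_perm (fun j => S.sg (xor (h.loc j).e (nb (act8 k t) j)) (h.loc j).x) k.p
  simp only [h1] at h2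
  simp only [wx8, W.loc_mul, sg_mul]
  rw [← h2]
  ac_rfl

/-- the orientation -/
def ori (t : B3) : Bool := xor (xor t.1 t.2.1) t.2.2

theorem ori_act8 : ∀ (h : W) (t : B3), ori (act8 h t) =
    xor (xor (xor (h.loc 0).e (h.loc 1).e) (h.loc 2).e) (ori t) := by
  intro h t
  have key : ∀ (p : S) (f : B3) (t : B3), xor (xor (xor (nb f (p.act 0)) (nb t (p.act 0)))
      (xor (nb f (p.act 1)) (nb t (p.act 1)))) (xor (nb f (p.act 2)) (nb t (p.act 2))) =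
      xor (xor (xor (nb f 0) (nb f 1)) (nb f 2)) (ori t) := by decide +kernel
  have h1 := key h.p⁻¹ ((h.loc 0).e, (h.loc 1).e, (h.loc 2).e) t
  simp only [nb_mk (fun i => (h.loc i).e)] at h1
  exact h1

theorem par_iff : ∀ a b c p : S, par ⟨a, b, c, p⟩ = 1 → xor (xor a.e b.e) c.e = p.e := by decide +kernel

theorem par_e {m : W} (hm : m ∈ M) : xor (xor (m.loc 0).e (m.loc 1).e) (m.loc 2).e = m.p.e :=
  par_iff m.a m.b m.c m.p (MonoidHom.mem_ker.1 hm)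

/-- the cubic cocycle -/
def o8 (h : W) (t : B3) : Fin 3 := S.sg (ori (act8 h t)) h.p.x

theorem sg_add : ∀ (b : Bool) (x y : Fin 3), S.sg b (x + y) = S.sg b x + S.sg b y := by decide +kernel
theorem sg_sg : ∀ (b c : Bool) (x : Fin 3), S.sg b (S.sg c x) = S.sg (xor b c) x := by decide +kernel

theorem o8_mul {h k : W} (hh : h ∈ M) (t : B3) : o8 (h * k) t = o8 h (act8 k t) + o8 k t := by
  simp only [o8, act8_mul, W.p_mul, x_mul, S.act]
  rw [sg_add, sg_sg]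
  congr 2
  rw [ori_act8, par_e hh]
  generalize ori (act8 k t) = b
  generalize h.p.e = c
  revert b c
  decide

/-- the three characters of degree eight -/
theorem chi10 : IsCharacter M (fun m => φ ((![8, 0, 0, -4, 2, -1, 2, 0, 0, 0, -1, -1, 0, 0] : Fin 14 → ℤ√3) (cl m))) := by
  refine isCharacter_mono (fun m (q : B3) => act8 m q) (fun m q => wx8 m q) (fun _ _ => 0) _ (fun q => act8_one q)
    (fun m n q => act8_mul _ _ q) (fun m n q => wx8_mul _ _ q) (fun _ _ _ => rfl) ?_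
  have key : ∀ a b c p : S, par ⟨a, b, c, p⟩ = 1 →
      (∑ x : B3, (if act8 (⟨a, b, c, p⟩ : W) x = x then v4 (wx8 ⟨a, b, c, p⟩ x) 0 else 0)) =
        emb ((![8, 0, 0, -4, 2, -1, 2, 0, 0, 0, -1, -1, 0, 0] : Fin 14 → ℤ√3) (cl ⟨a, b, c, p⟩)) := by decide +kernel
  exact fun m => key m.1.a m.1.b m.1.c m.1.p (MonoidHom.mem_ker.1 m.2)

theorem chi11 : IsCharacter M (fun m => φ ((![8, 0, 0, -4, 2, -1, -1, 0, 0, 0, -1, 2, 0, 0] : Fin 14 → ℤ√3) (cl m))) := by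
  refine isCharacter_mono (fun m (q : B3) => act8 m q) (fun m q => wx8 m q + o8 m q) (fun _ _ => 0) _
    (fun q => act8_one q)
    (fun m n q => act8_mul _ _ q) (fun m n q => ?_) (fun _ _ _ => rfl) ?_
  · change wx8 ((m : W) * (n : W)) q + o8 ((m : W) * (n : W)) q = _
    rw [wx8_mul, o8_mul m.2]
    ac_rfl
  have key : ∀ a b c p : S, par ⟨a, b, c, p⟩ = 1 →
      (∑ x : B3, (if act8 (⟨a, b, c, p⟩ : W) x = x then v4 (wx8 ⟨a, b, c, p⟩ x + o8 ⟨a, b, c, p⟩ x) 0 else 0)) =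
        emb ((![8, 0, 0, -4, 2, -1, -1, 0, 0, 0, -1, 2, 0, 0] : Fin 14 → ℤ√3) (cl ⟨a, b, c, p⟩)) := by decide +kernel
  exact fun m => key m.1.a m.1.b m.1.c m.1.p (MonoidHom.mem_ker.1 m.2)

theorem chi12 : IsCharacter M (fun m => φ ((![8, 0, 0, -4, 2, -1, -1, 0, 0, 0, 2, -1, 0, 0] : Fin 14 → ℤ√3) (cl m))) := by
  refine isCharacter_mono (fun m (q : B3) => act8 m q) (fun m q => wx8 m q + (o8 m q + o8 m q)) (fun _ _ => 0) _
    (fun q => act8_one q)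
    (fun m n q => act8_mul _ _ q) (fun m n q => ?_) (fun _ _ _ => rfl) ?_
  · change wx8 ((m : W) * (n : W)) q + (o8 ((m : W) * (n : W)) q + o8 ((m : W) * (n : W)) q) = _
    rw [wx8_mul, o8_mul m.2]
    ac_rfl
  have key : ∀ a b c p : S, par ⟨a, b, c, p⟩ = 1 →
      (∑ x : B3, (if act8 (⟨a, b, c, p⟩ : W) x = x then v4 (wx8 ⟨a, b, c, p⟩ x + (o8 ⟨a, b, c, p⟩ x + o8 ⟨a, b, c, p⟩ x)) 0 else 0)) =
        emb ((![8, 0, 0, -4, 2, -1, -1, 0, 0, 0, 2, -1, 0, 0] : Fin 14 → ℤ√3) (cl ⟨a, b, c, p⟩)) := by decide +kernel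
  exact fun m => key m.1.a m.1.b m.1.c m.1.p (MonoidHom.mem_ker.1 m.2)

/-! ### degree six -/

def act6 (h : W) (q : Fin 3 × Bool) : Fin 3 × Bool := (h.p.act q.1, xor (h.loc q.1).e q.2)

theorem act6_mul (h k : W) (q : Fin 3 × Bool) : act6 (h * k) q = act6 h (act6 k q) := by
  simp only [act6, W.p_mul, W.loc_mul, S.act_mul, e_mul, Bool.xor_assoc]

theorem act6_one (q : Fin 3 × Bool) : act6 1 q = q := by
  simp only [act6, W.p_one, W.loc_one, S.act_one]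
  exact Prod.ext rfl (Bool.false_xor _)

def wx6 (h : W) (q : Fin 3 × Bool) : Fin 3 := S.sg (xor (h.loc q.1).e q.2) (h.loc q.1).x

theorem wx6_mul (h k : W) (q : Fin 3 × Bool) : wx6 (h * k) q = wx6 h (act6 k q) + wx6 k q := by
  simp only [wx6, act6, W.loc_mul, sg_mul]

/-- the quartic cocycle -/
def kx6 (f : B3) (p : S) (q : Fin 3 × Bool) : Fin 4 :=
  if p.e then (if xor (xor (nb f (q.1 + 1)) (nb f q.1)) q.2 then 3 else 1) else (if nb f (q.1 + 1) then 2 else 0)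

def bits (h : W) : B3 := ((h.loc 0).e, (h.loc 1).e, (h.loc 2).e)

theorem nb_bits (h : W) (i : Fin 3) : nb (bits h) i = (h.loc i).e := nb_mk (fun i => (h.loc i).e) i

def mulb (f : B3) (g : B3) (q : S) : B3 :=
  (xor (nb f (q.act 0)) g.1, xor (nb f (q.act 1)) g.2.1, xor (nb f (q.act 2)) g.2.2)

theorem bits_mul (h k : W) : bits (h * k) = mulb (bits h) (bits k) k.p := by
  simp only [bits, mulb, W.loc_mul, e_mul]
  refine Prod.ext ?_ (Prod.ext ?_ ?_)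
  · exact congrArg (fun b => xor b (k.loc 0).e) (nb_bits h (k.p.act 0)).symm
  · exact congrArg (fun b => xor b (k.loc 1).e) (nb_bits h (k.p.act 1)).symm
  · exact congrArg (fun b => xor b (k.loc 2).e) (nb_bits h (k.p.act 2)).symm

theorem kx6_aux : ∀ f0 f1 f2 : Bool, ∀ p : S, xor (xor f0 f1) f2 = p.e → ∀ g0 g1 g2 : Bool, ∀ r : S,
    xor (xor g0 g1) g2 = r.e → ∀ (i : Fin 3) (s : Bool),
    kx6 (mulb (f0, f1, f2) (g0, g1, g2) r) (p * r) (i, s) =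
      kx6 (f0, f1, f2) p (r.act i, xor (nb (g0, g1, g2) i) s) + kx6 (g0, g1, g2) r (i, s) := by
  decide +kernel

theorem kx6_mul {h k : W} (hh : h ∈ M) (hk : k ∈ M) (q : Fin 3 × Bool) :
    kx6 (bits (h * k)) (h * k).p q = kx6 (bits h) h.p (act6 k q) + kx6 (bits k) k.p q := by
  rw [bits_mul, W.p_mul]
  have := kx6_aux (h.loc 0).e (h.loc 1).e (h.loc 2).e h.p (par_e hh) (k.loc 0).e (k.loc 1).e (k.loc 2).e k.p
    (par_e hk) q.1 q.2
  have e1 : act6 k q = (k.p.act q.1, xor (nb (bits k) q.1) q.2) := by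
    rw [nb_bits]
    rfl
  rw [e1]
  exact this

theorem chi8 : IsCharacter M (fun m => φ ((![6, -2, 0, 3, 0, -3, 0, 0, 1, 0, 0, 0, ⟨0, -1⟩, ⟨0, 1⟩] : Fin 14 → ℤ√3) (cl m))) := by
  refine isCharacter_mono (fun m (q : Fin 3 × Bool) => act6 m q) (fun m q => wx6 m q)
    (fun m q => kx6 (bits (m : W)) (m : W).p q) _ (fun q => act6_one q)
    (fun m n q => act6_mul _ _ q) (fun m n q => wx6_mul _ _ q) (fun m n q => kx6_mul m.2 n.2 q) ?_
  have key : ∀ a b c p : S, par ⟨a, b, c, p⟩ = 1 →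
      (∑ x : Fin 3 × Bool, (if act6 (⟨a, b, c, p⟩ : W) x = x then
        v4 (wx6 ⟨a, b, c, p⟩ x) (kx6 (bits ⟨a, b, c, p⟩) p x) else 0)) =
        emb ((![6, -2, 0, 3, 0, -3, 0, 0, 1, 0, 0, 0, ⟨0, -1⟩, ⟨0, 1⟩] : Fin 14 → ℤ√3) (cl ⟨a, b, c, p⟩)) := by decide +kernel
  exact fun m => key m.1.a m.1.b m.1.c m.1.p (MonoidHom.mem_ker.1 m.2)

end H64.M648
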