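import Cfsg.Agent.Lib.H64.M648D

set_option autoImplicit false

/-! Counting in the model of order 648. -/

namespace H64.M648

open Cfsg H18.CharBasic H18.CharOrtho

/-- uniqueness of digits -/
theorem digits_unique {B : ℕ} (hB : 0 < B) : ∀ (n : ℕ) (f g : Fin n → ℕ), (∀ k, f k < B) → (∀ k, g k < B) →
    ∑ k, f k * B ^ (k : ℕ) = ∑ k, g k * B ^ (k : ℕ) → f = g := by
  intro n
  induction n with
  | zero => intro f g _ _ _; exact Subsingleton.elim _ _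
  | succ n ih =>
    intro f g hf hg h
    rw [Fin.sum_univ_succ, Fin.sum_univ_succ] at h
    have e : ∀ f : Fin (n + 1) → ℕ, ∑ i : Fin n, f i.succ * B ^ ((i.succ : Fin (n + 1)) : ℕ) =
        B * ∑ i : Fin n, f i.succ * B ^ (i : ℕ) := by
      intro f
      rw [Finset.mul_sum]
      refine Finset.sum_congr rfl fun i _ => ?_
      rw [Fin.val_succ, pow_succ]
      ring
    rw [e, e] at h
    simp only [Fin.val_zero, pow_zero, mul_one] at h
    have h0 : f 0 = g 0 := by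
      have h1 := congrArg (· % B) h
      simp only [Nat.add_mul_mod_self_left] at h1
      rwa [Nat.mod_eq_of_lt (hf 0), Nat.mod_eq_of_lt (hg 0)] at h1
    rw [h0] at h
    have h2 := ih (fun i => f i.succ) (fun i => g i.succ) (fun k => hf _) (fun k => hg _)
      (Nat.eq_of_mul_eq_mul_left hB (Nat.add_left_cancel h))
    funext k
    refine Fin.cases h0 (fun i => ?_) k
    exact congrFun h2 i

/-- counting from one weighted sum -/
theorem hist {T : Type} [Fintype T] (P : T → Prop) [DecidablePred P] (g : T → Fin 14) (c : Fin 14 → ℕ)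
    (hT : Fintype.card T < 10000) (hc : ∀ k, c k < 10000)
    (h : ∑ x : T, (if P x then 10000 ^ (g x : ℕ) else 0) = ∑ k, c k * 10000 ^ (k : ℕ)) (k : Fin 14) :
    (Finset.univ.filter fun x => P x ∧ g x = k).card = c k := by
  have h1 : ∑ x : T, (if P x then 10000 ^ (g x : ℕ) else 0) =
      ∑ k, (Finset.univ.filter fun x => P x ∧ g x = k).card * 10000 ^ (k : ℕ) := by
    have : ∀ k : Fin 14, (Finset.univ.filter fun x => P x ∧ g x = k).card * 10000 ^ (k : ℕ) =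
        ∑ x : T, if P x ∧ g x = k then 10000 ^ (k : ℕ) else 0 := by
      intro k
      rw [← Finset.sum_filter, Finset.sum_const, smul_eq_mul]
    simp only [this]
    rw [Finset.sum_comm]
    refine Finset.sum_congr rfl fun x _ => ?_
    by_cases hx : P x
    · rw [if_pos hx, Finset.sum_eq_single (g x)]
      · rw [if_pos ⟨hx, rfl⟩]
      · intro b _ hb
        rw [if_neg (fun h => hb h.2.symm)]
      · intro h
        exact absurd (Finset.mem_univ _) h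
    · rw [if_neg hx]
      symm
      refine Finset.sum_eq_zero fun b _ => ?_
      rw [if_neg (fun h => hx h.1)]
  have h2 := digits_unique (B := 10000) (by norm_num) 14
    (fun k => (Finset.univ.filter fun x => P x ∧ g x = k).card) c
    (fun k => lt_of_le_of_lt (Finset.card_le_univ _) hT) hc (by rw [← h1, h])
  exact congrFun h2 k

/-- weighted sums over the model from counts -/
theorem sum_of_hist {T : Type} [Fintype T] (P : T → Prop) [DecidablePred P] (g : T → Fin 14) (c : Fin 14 → ℕ)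
    (hT : Fintype.card T < 10000) (hc : ∀ k, c k < 10000)
    (h : ∑ x : T, (if P x then 10000 ^ (g x : ℕ) else 0) = ∑ k, c k * 10000 ^ (k : ℕ))
    {R : Type*} [CommRing R] (F : Fin 14 → R) :
    ∑ x ∈ Finset.univ.filter P, F (g x) = ∑ k, (c k : R) * F k := by
  have h1 : ∀ k : Fin 14, (c k : R) * F k = ∑ x ∈ Finset.univ.filter fun x => P x ∧ g x = k, F (g x) := by
    intro k
    rw [← hist P g c hT hc h k, ← nsmul_eq_mul, ← Finset.sum_const]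
    refine Finset.sum_congr rfl fun x hx => ?_
    rw [(Finset.mem_filter.1 hx).2.2]
  simp only [h1]
  rw [← Finset.sum_fiberwise (s := Finset.univ.filter P) (g := g)]
  refine Finset.sum_congr rfl fun k _ => ?_
  rw [Finset.filter_filter]

/-- representatives of the first classes -/
def rep : Fin 6 → W := ![1, ⟨⟨0, true⟩, ⟨0, true⟩, 1, 1⟩, ⟨1, 1, t1, t1⟩, ⟨x1, 1, 1, 1⟩, ⟨x1, x1, 1, 1⟩, ⟨x1, x1, x1, 1⟩]

/-- sums over quadruples -/
theorem sum_W {R : Type*} [AddCommMonoid R] (f : W → R) :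
    ∑ h : W, f h = ∑ a : S, ∑ b : S, ∑ c : S, ∑ p : S, f ⟨a, b, c, p⟩ := by
  rw [← W.equiv.symm.sum_comp]
  rw [Fintype.sum_prod_type]
  refine Finset.sum_congr rfl fun a _ => ?_
  rw [Fintype.sum_prod_type]
  refine Finset.sum_congr rfl fun b _ => ?_
  rw [Fintype.sum_prod_type]
  rfl

theorem card_W : Fintype.card W = 1296 := by
  rw [Fintype.card_congr W.equiv]
  simp only [Fintype.card_prod]
  rw [Fintype.card_congr S.equiv]
  rfl

def sizeN : Fin 14 → ℕ := ![1, 27, 54, 6, 12, 8, 72, 54, 54, 108, 72, 72, 54, 54]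
def cAA : Fin 14 → ℕ := ![1, 6, 0, 4, 4, 0, 0, 0, 12, 0, 0, 0, 0, 0]
def cAB : Fin 14 → ℕ := ![0, 0, 6, 0, 0, 0, 0, 12, 0, 12, 0, 0, 12, 12]
def cBB : Fin 14 → ℕ := ![1, 3, 0, 2, 2, 4, 12, 0, 6, 0, 12, 12, 0, 0]

theorem size_sum : ∑ a : S, ∑ b : S, ∑ c : S, ∑ p : S, (if par ⟨a, b, c, p⟩ = 1 then 10000 ^ (cl ⟨a, b, c, p⟩ : ℕ) else 0) =
    ∑ k, sizeN k * 10000 ^ (k : ℕ) := by decide +kernel

theorem aa_sum : ∑ a : S, ∑ b : S, ∑ c : S, ∑ p : S, (if par ⟨a, b, c, p⟩ = 1 ∧ cl ⟨a, b, c, p⟩ = 1 then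
    10000 ^ (cl (rep 1 * ⟨a, b, c, p⟩) : ℕ) else 0) = ∑ k, cAA k * 10000 ^ (k : ℕ) := by decide +kernel

theorem ab_sum : ∑ a : S, ∑ b : S, ∑ c : S, ∑ p : S, (if par ⟨a, b, c, p⟩ = 1 ∧ cl ⟨a, b, c, p⟩ = 2 then
    10000 ^ (cl (rep 1 * ⟨a, b, c, p⟩) : ℕ) else 0) = ∑ k, cAB k * 10000 ^ (k : ℕ) := by decide +kernel

theorem bb_sum : ∑ a : S, ∑ b : S, ∑ c : S, ∑ p : S, (if par ⟨a, b, c, p⟩ = 1 ∧ cl ⟨a, b, c, p⟩ = 2 then
    10000 ^ (cl (rep 2 * ⟨a, b, c, p⟩) : ℕ) else 0) = ∑ k, cBB k * 10000 ^ (k : ℕ) := by decide +kernel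

/-- centralizer orders -/
theorem cent_sum : ∀ k : Fin 6, k ≠ 0 → ∑ a : S, ∑ b : S, ∑ c : S, ∑ p : S, (if par ⟨a, b, c, p⟩ = 1 ∧
    (⟨a, b, c, p⟩ : W) * rep k = rep k * ⟨a, b, c, p⟩ then 1 else 0) =
      (![648, 24, 12, 108, 54, 81] : Fin 6 → ℕ) k := by decide +kernel

theorem cl_rep : ∀ k : Fin 6, cl (rep k) = k.castLE (by norm_num) ∧ par (rep k) = 1 := by decide +kernel

theorem cl_inv' : ∀ a b c p : S, par ⟨a, b, c, p⟩ = 1 → cl (⟨a, b, c, p⟩⁻¹) = cl ⟨a, b, c, p⟩ := by decide +kernel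

/-- the special classes -/
def isD (k : Fin 14) : Bool := (![false, false, false, true, true, true, false, false, true, true, true, true, true, true] :
  Fin 14 → Bool) k

theorem pow_fact : ∀ a b c p : S, par ⟨a, b, c, p⟩ = 1 → isD (cl ⟨a, b, c, p⟩) = true →
    (cl ((⟨a, b, c, p⟩ : W) ^ (if cl ⟨a, b, c, p⟩ = 10 ∨ cl ⟨a, b, c, p⟩ = 11 then 3 else 4)) = 3 ∨
    cl ((⟨a, b, c, p⟩ : W) ^ (if cl ⟨a, b, c, p⟩ = 10 ∨ cl ⟨a, b, c, p⟩ = 11 then 3 else 4)) = 4 ∨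
    cl ((⟨a, b, c, p⟩ : W) ^ (if cl ⟨a, b, c, p⟩ = 10 ∨ cl ⟨a, b, c, p⟩ = 11 then 3 else 4)) = 5) := by decide +kernel

theorem sq_fact : ∀ a b c p : S, par ⟨a, b, c, p⟩ = 1 → (cl ((⟨a, b, c, p⟩ : W) * ⟨a, b, c, p⟩) = 0 ↔
    cl ⟨a, b, c, p⟩ = 0 ∨ cl ⟨a, b, c, p⟩ = 1 ∨ cl ⟨a, b, c, p⟩ = 2) := by decide +kernel

theorem cl_zero : ∀ a b c p : S, par ⟨a, b, c, p⟩ = 1 → (cl ⟨a, b, c, p⟩ = 0 ↔ (⟨a, b, c, p⟩ : W) = 1) := by
  decide +kernel

/-- the normal subgroup of order 27 -/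
def inJ (m : W) : Prop := m.p = 1 ∧ m.a.e = false ∧ m.b.e = false ∧ m.c.e = false

instance (m : W) : Decidable (inJ m) := by unfold inJ; infer_instance

theorem inJ_iff : ∀ a b c p : S, par ⟨a, b, c, p⟩ = 1 → (inJ ⟨a, b, c, p⟩ ↔
    cl ⟨a, b, c, p⟩ = 0 ∨ cl ⟨a, b, c, p⟩ = 3 ∨ cl ⟨a, b, c, p⟩ = 4 ∨ cl ⟨a, b, c, p⟩ = 5) := by decide +kernel

/-- ninth power -/
def pw9 (m : W) : W := (m * m * m) * (m * m * m) * (m * m * m)

theorem pow_exp : ∀ a b c p : S, par ⟨a, b, c, p⟩ = 1 → pw9 ((⟨a, b, c, p⟩ * ⟨a, b, c, p⟩) * (⟨a, b, c, p⟩ * ⟨a, b, c, p⟩)) = 1 := by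
  decide +kernel

theorem comm_fact : ∀ a b c p : S, par ⟨a, b, c, p⟩ = 1 → pw9 ⟨a, b, c, p⟩ = 1 → ¬ inJ ⟨a, b, c, p⟩ →
    pw9 (rep 1 * ⟨a, b, c, p⟩ * rep 1 * ⟨a, b, c, p⟩⁻¹) ≠ 1 := by decide +kernel

theorem rep_facts : rep 1 * rep 1 = 1 ∧ rep 2 * rep 2 = 1 ∧ rep 1 * gc = gc * rep 1 ∧ rep 2 * rep 4 = rep 4 * rep 2 ∧
    gc * gc * gc = 1 ∧ rep 4 * rep 4 * rep 4 = 1 ∧ cl gc = 3 ∧ par gc = 1 := by decide +kernel

end H64.M648
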