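import Cfsg.Agent.Lib.H64.SpecialTI
import Cfsg.Agent.Lib.H64.Lat648B

set_option autoImplicit false

/-! Moments of generalized characters with respect to two conjugation invariant sets of elements of
square one. -/

namespace H64.Special2

open Cfsg Representation Matrix
open H18.CharBasic H18.CharOrtho H18.CharInd H18.CharQuot H64.Lattice H64.Lat27 H64.Lat648 H64.Special
open H64.SpecialTI

universe u
variable {G : Type u} [Group G] [Fintype G] [Fintype (IrrCharacter G)]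

/-- a conjugation invariant set of elements of square one -/
structure InvSet (I : Finset G) : Prop where
  conj : ∀ g u : G, u ∈ I → g * u * g⁻¹ ∈ I
  sq : ∀ u ∈ I, u * u = 1

omit [Fintype G] [Fintype (IrrCharacter G)] in
theorem InvSet.conj_iff {I : Finset G} (h : InvSet I) (g u : G) : g * u * g⁻¹ ∈ I ↔ u ∈ I := by
  refine ⟨fun h1 => ?_, h.conj g u⟩
  have := h.conj g⁻¹ _ h1
  have e : g⁻¹ * (g * u * g⁻¹) * g⁻¹⁻¹ = u := by group
  rwa [e] at this

/-- first moment -/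
noncomputable def T1 (I : Finset G) (θ : G → ℂ) : ℂ := ∑ u ∈ I, θ u

/-- second moment -/
noncomputable def T2 (I J : Finset G) (θ : G → ℂ) : ℂ := ∑ u ∈ I, ∑ v ∈ J, θ (u * v)

omit [Fintype (IrrCharacter G)] in
theorem op_irr {I : Finset G} (hI : InvSet I) {n : ℕ} {ρ : Representation ℂ G (Fin n → ℂ)} (hρ : ρ.IsIrreducible)
    (χ : IrrCharacter G) (hχ : ρ.character = χ) :
    ∃ κ : ℝ, (∑ u ∈ I, ρ u) = (κ : ℂ) • LinearMap.id ∧ T1 I (χ : G → ℂ) = (deg χ : ℂ) * κ := by
  classical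
  have hdeg := deg_spec χ
  have hpos := deg_pos χ
  have hre : (starRingEnd ℂ) (T1 I (χ : G → ℂ)) = T1 I (χ : G → ℂ) := by
    rw [T1, map_sum]
    refine Finset.sum_congr rfl fun u hu => ?_
    rw [← char_inv (isCharacter_of_isIrr χ.2), inv_eq_of_mul_eq_one_right (hI.sq u hu)]
  obtain ⟨s, hs⟩ := Complex.conj_eq_iff_real.1 hre
  have hn : (Module.finrank ℂ (Fin n → ℂ) : ℂ) = (deg χ : ℂ) := by
    rw [← hdeg, ← hχ, Representation.char_one]
  have hd0 : (deg χ : ℂ) ≠ 0 := by exact_mod_cast hpos.ne'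
  let θ : G → ℂ := fun u => if u ∈ I then 1 else 0
  have hθ : IsClassFunction G θ := by
    intro g h
    simp only [θ, hI.conj_iff]
  have hop : H4.Integral.op ρ θ = ∑ u ∈ I, ρ u := by
    rw [H4.Integral.op, ← Finset.sum_subset (Finset.subset_univ I)]
    · refine Finset.sum_congr rfl fun u hu => ?_
      simp [θ, hu]
    · intro u _ hu
      simp [θ, hu]
  have hsum : ∑ g : G, θ g * ρ.character g = T1 I (χ : G → ℂ) := by
    rw [T1, hχ, ← Finset.sum_subset (Finset.subset_univ I)]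
    · refine Finset.sum_congr rfl fun u hu => ?_
      simp [θ, hu]
    · intro u _ hu
      simp [θ, hu]
  have h1 := H4.Integral.op_eq_smul ρ hρ hθ
  rw [hop, hsum, hn, hs] at h1
  refine ⟨s / deg χ, ?_, ?_⟩
  · rw [h1]
    push_cast
    rfl
  · rw [hs]
    push_cast
    field_simp

omit [Fintype (IrrCharacter G)] in
theorem irr_pair {I J : Finset G} (hI : InvSet I) (hJ : InvSet J) (χ : IrrCharacter G) :
    ∃ α β : ℝ, T1 I (χ : G → ℂ) = (deg χ : ℂ) * α ∧ T1 J (χ : G → ℂ) = (deg χ : ℂ) * β ∧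
      T2 I I (χ : G → ℂ) = (deg χ : ℂ) * α ^ 2 ∧ T2 I J (χ : G → ℂ) = (deg χ : ℂ) * (α * β) ∧
      T2 J J (χ : G → ℂ) = (deg χ : ℂ) * β ^ 2 := by
  classical
  obtain ⟨n, ρ, hρ, hχ⟩ := χ.2
  obtain ⟨α, hα, hα1⟩ := op_irr hI hρ χ hχ
  obtain ⟨β, hβ, hβ1⟩ := op_irr hJ hρ χ hχ
  have hn : (Module.finrank ℂ (Fin n → ℂ) : ℂ) = (deg χ : ℂ) := by
    rw [← deg_spec χ, ← hχ, Representation.char_one]
  have key : ∀ (I J : Finset G) (a b : ℝ), (∑ u ∈ I, ρ u) = (a : ℂ) • LinearMap.id →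
      (∑ u ∈ J, ρ u) = (b : ℂ) • LinearMap.id → T2 I J (χ : G → ℂ) = (deg χ : ℂ) * (a * b) := by
    intro I J a b ha hb
    have h2 : T2 I J (χ : G → ℂ) = LinearMap.trace ℂ (Fin n → ℂ) ((∑ u ∈ I, ρ u) * (∑ u ∈ J, ρ u)) := by
      rw [Finset.sum_mul_sum, map_sum, T2]
      refine Finset.sum_congr rfl fun u _ => ?_
      rw [map_sum]
      refine Finset.sum_congr rfl fun v _ => ?_
      rw [← map_mul, ← hχ]
      rfl
    rw [h2, ha, hb, smul_mul_smul_comm, map_smul]
    have h3 : (LinearMap.trace ℂ (Fin n → ℂ)) ((LinearMap.id : (Fin n → ℂ) →ₗ[ℂ] (Fin n → ℂ)) * LinearMap.id) =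
        (deg χ : ℂ) := by
      rw [← hn]
      exact LinearMap.trace_one ℂ (Fin n → ℂ)
    rw [h3, smul_eq_mul]
    ring
  refine ⟨α, β, hα1, hβ1, ?_, key I J α β hα hβ, ?_⟩
  · rw [key I I α α hα hα]; ring
  · rw [key J J β β hβ hβ]; ring

/-- the moments -/
noncomputable def mom (I J : Finset G) (hI : InvSet I) (hJ : InvSet J) : Mom2 (IrrCharacter G) where
  M0 := AddMonoidHom.mk' (fun a => ∑ χ, a χ * (deg χ : ℤ)) fun a b => by
    simp [add_mul, Finset.sum_add_distrib]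
  Ma := AddMonoidHom.mk' (fun a => ∑ χ, (a χ : ℝ) * (T1 I (χ : G → ℂ)).re) fun a b => by
    simp [add_mul, Finset.sum_add_distrib]
  Mb := AddMonoidHom.mk' (fun a => ∑ χ, (a χ : ℝ) * (T1 J (χ : G → ℂ)).re) fun a b => by
    simp [add_mul, Finset.sum_add_distrib]
  Maa := AddMonoidHom.mk' (fun a => ∑ χ, (a χ : ℝ) * (T2 I I (χ : G → ℂ)).re) fun a b => by
    simp [add_mul, Finset.sum_add_distrib]
  Mab := AddMonoidHom.mk' (fun a => ∑ χ, (a χ : ℝ) * (T2 I J (χ : G → ℂ)).re) fun a b => by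
    simp [add_mul, Finset.sum_add_distrib]
  Mbb := AddMonoidHom.mk' (fun a => ∑ χ, (a χ : ℝ) * (T2 J J (χ : G → ℂ)).re) fun a b => by
    simp [add_mul, Finset.sum_add_distrib]
  unit := by
    classical
    intro u hu
    obtain ⟨χ, hχ1, hχ2⟩ := hu.exists_single
    have hχ : u = Pi.single χ 1 ∨ u = Pi.single χ (-1) := by
      rcases hχ1 with h | h
      · left; rw [h] at hχ2; exact hχ2
      · right; rw [h] at hχ2; exact hχ2
    obtain ⟨α, β, h1, h2, h3, h4, h5⟩ := irr_pair hI hJ χ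
    have hre : ∀ x : ℝ, ((deg χ : ℂ) * (x : ℂ)).re = deg χ * x := by
      intro x
      rw [← Complex.ofReal_natCast, ← Complex.ofReal_mul, Complex.ofReal_re]
    have e1 : (T1 I (χ : G → ℂ)).re = deg χ * α := by rw [h1, hre]
    have e2 : (T1 J (χ : G → ℂ)).re = deg χ * β := by rw [h2, hre]
    have e3 : (T2 I I (χ : G → ℂ)).re = deg χ * α ^ 2 := by rw [h3, ← Complex.ofReal_pow, hre]
    have e4 : (T2 I J (χ : G → ℂ)).re = deg χ * (α * β) := by rw [h4, ← Complex.ofReal_mul, hre]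
    have e5 : (T2 J J (χ : G → ℂ)).re = deg χ * β ^ 2 := by rw [h5, ← Complex.ofReal_pow, hre]
    have hp := deg_pos χ
    refine ⟨α, β, ?_, ?_, ?_, ?_, ?_, ?_⟩
    · rcases hχ with rfl | rfl
      · simp [Pi.single_apply]
        omega
      · simp [Pi.single_apply]
        omega
    all_goals
      rcases hχ with rfl | rfl
      · simp [Pi.single_apply, e1, e2, e3, e4, e5]
      · simp [Pi.single_apply, e1, e2, e3, e4, e5]

section
variable {I J : Finset G} {hI : InvSet I} {hJ : InvSet J} {θ : G → ℂ} (h : IsGeneralizedCharacter G θ)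
include h

theorem M0_coeff : θ 1 = (((mom I J hI hJ).M0 (coeff θ) : ℤ) : ℂ) := by
  rw [coeff_apply h]
  change _ = ((∑ χ, coeff θ χ * (deg χ : ℤ) : ℤ) : ℂ)
  push_cast
  exact Finset.sum_congr rfl fun χ _ => by rw [deg_spec]

omit hI hJ in
theorem T1_expand (I : Finset G) : (T1 I θ).re = ∑ χ, (coeff θ χ : ℝ) * (T1 I (χ : G → ℂ)).re := by
  have : T1 I θ = ∑ χ : IrrCharacter G, (coeff θ χ : ℂ) * T1 I (χ : G → ℂ) := by
    simp only [T1, Finset.mul_sum]
    rw [Finset.sum_comm]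
    exact Finset.sum_congr rfl fun u _ => coeff_apply h u
  rw [this, Complex.re_sum]
  refine Finset.sum_congr rfl fun χ _ => ?_
  rw [← Complex.ofReal_intCast, Complex.re_ofReal_mul]

omit hI hJ in
theorem T2_expand (I J : Finset G) : (T2 I J θ).re = ∑ χ, (coeff θ χ : ℝ) * (T2 I J (χ : G → ℂ)).re := by
  have : T2 I J θ = ∑ χ : IrrCharacter G, (coeff θ χ : ℂ) * T2 I J (χ : G → ℂ) := by
    simp only [T2, Finset.mul_sum]
    rw [Finset.sum_comm (s := (Finset.univ : Finset (IrrCharacter G)))]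
    refine Finset.sum_congr rfl fun u _ => ?_
    rw [Finset.sum_comm (s := (Finset.univ : Finset (IrrCharacter G)))]
    exact Finset.sum_congr rfl fun v _ => coeff_apply h (u * v)
  rw [this, Complex.re_sum]
  refine Finset.sum_congr rfl fun χ _ => ?_
  rw [← Complex.ofReal_intCast, Complex.re_ofReal_mul]

theorem Ma_coeff : (mom I J hI hJ).Ma (coeff θ) = (T1 I θ).re := (T1_expand h I).symm
theorem Mb_coeff : (mom I J hI hJ).Mb (coeff θ) = (T1 J θ).re := (T1_expand h J).symm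
theorem Maa_coeff : (mom I J hI hJ).Maa (coeff θ) = (T2 I I θ).re := (T2_expand h I I).symm
theorem Mab_coeff : (mom I J hI hJ).Mab (coeff θ) = (T2 I J θ).re := (T2_expand h I J).symm
theorem Mbb_coeff : (mom I J hI hJ).Mbb (coeff θ) = (T2 J J θ).re := (T2_expand h J J).symm

end

/-- units with positive value of `M0` are characters -/
theorem unit_char {I J : Finset G} {hI : InvSet I} {hJ : InvSet J} {u : IrrCharacter G → ℤ} (hu : IsU u)
    {d : ℕ} (hd : 0 < d) (h : (mom I J hI hJ).M0 u = d) :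
    ∃ χ : IrrCharacter G, (χ : G → ℂ) 1 = d ∧ ∀ θ : G → ℂ, IsGeneralizedCharacter G θ →
      classInner θ χ = ((coeff θ ⬝ᵥ u : ℤ) : ℂ) := by
  classical
  obtain ⟨χ, hχ1, hχ2⟩ := hu.exists_single
  have hM : (mom I J hI hJ).M0 u = u χ * (deg χ : ℤ) := by
    rw [hχ2]
    change ∑ ψ, (Pi.single χ (u χ) : IrrCharacter G → ℤ) ψ * (deg ψ : ℤ) = _
    refine (Finset.sum_eq_single χ (fun ψ _ hψ => ?_) (fun h => absurd (Finset.mem_univ χ) h)).trans ?_
    · rw [Pi.single_eq_of_ne hψ, zero_mul]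
    · rw [Pi.single_eq_same]
  have hp := deg_pos χ
  have h1 : u χ = 1 := by
    rcases hχ1 with h1 | h1
    · exact h1
    · exfalso
      rw [hM, h1] at h
      omega
  have h2 : deg χ = d := by
    rw [hM, h1] at h
    omega
  refine ⟨χ, by rw [deg_spec, h2], fun θ hθ => ?_⟩
  rw [coeff_spec hθ, hχ2, h1, dotProduct_single]
  simp

section Induced

variable {H : Subgroup G} [Fintype H] {D : Set G} (hD : TIData H D)

include hD

omit [Fintype (IrrCharacter G)] in
theorem T1_ind {I : Finset G} (hI : InvSet I) {φ : H → ℂ} (hφD : ∀ x : H, (x : G) ∉ D → φ x = 0) :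
    T1 I (indFun H φ) = 0 := by
  rw [T1]
  refine Finset.sum_eq_zero fun u hu => ?_
  rw [indFun_apply, Finset.sum_eq_zero, mul_zero]
  intro x _
  refine ext_sq hφD fun h => hD.sq _ h ?_
  have e1 : x⁻¹ * u * x * (x⁻¹ * u * x) = x⁻¹ * (u * u) * x := by group
  rw [e1, hI.sq u hu]
  group

omit [Fintype (IrrCharacter G)] hD in
theorem sum_conj {I : Finset G} (hI : InvSet I) (f : G → ℂ) (x : G) :
    ∑ u ∈ I, f (x⁻¹ * u * x) = ∑ u ∈ I, f u := by
  refine Finset.sum_nbij' (fun u => x⁻¹ * u * x) (fun u => x * u * x⁻¹) ?_ ?_ ?_ ?_ ?_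
  · intro u hu
    have := hI.conj x⁻¹ u hu
    rwa [inv_inv] at this
  · intro u hu
    exact hI.conj x u hu
  · intro u _
    group
  · intro u _
    group
  · intro u _
    rfl

/-- restriction of a finset to a subgroup -/
noncomputable def res (H : Subgroup G) [Fintype H] (I : Finset G) : Finset H := by
  classical exact Finset.univ.filter fun x : H => (x : G) ∈ I

omit [Fintype G] [Fintype (IrrCharacter G)] hD in
theorem mem_res {I : Finset G} {x : H} : x ∈ res H I ↔ (x : G) ∈ I := by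
  classical
  simp [res]

omit [Fintype (IrrCharacter G)] in
theorem sum_ext_res {I J : Finset G} (hI : InvSet I) (hJ : InvSet J) {φ : H → ℂ}
    (hφD : ∀ x : H, (x : G) ∉ D → φ x = 0) :
    ∑ u ∈ I, ∑ v ∈ J, extendByZero H φ (u * v) = T2 (res H I) (res H J) φ := by
  classical
  let ι : H ↪ G := ⟨Subtype.val, Subtype.val_injective⟩
  have hsub : ∀ K : Finset G, (res H K).map ι ⊆ K := by
    intro K x hx
    obtain ⟨y, hy, rfl⟩ := Finset.mem_map.1 hx
    exact mem_res.1 hy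
  have hmem : ∀ (K : Finset G) (x : G), x ∈ K → x ∈ H → x ∈ (res H K).map ι := by
    intro K x hx hxH
    exact Finset.mem_map.2 ⟨⟨x, hxH⟩, mem_res.2 hx, rfl⟩
  rw [← Finset.sum_subset (hsub I), Finset.sum_map, T2]
  · refine Finset.sum_congr rfl fun u hu => ?_
    rw [← Finset.sum_subset (hsub J), Finset.sum_map]
    · refine Finset.sum_congr rfl fun v _ => ?_
      exact ext_coe H φ (u * v)
    · intro v hv hv'
      by_contra h
      exact hv' (hmem J v hv (ext_ne_zero hD hφD (hI.sq _ (mem_res.1 hu)) (hJ.sq v hv) h).2)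
  · intro u hu hu'
    refine Finset.sum_eq_zero fun v hv => ?_
    by_contra h
    exact hu' (hmem I u hu (ext_ne_zero hD hφD (hI.sq u hu) (hJ.sq v hv) h).1)

omit [Fintype (IrrCharacter G)] in
theorem T2_ind {I J : Finset G} (hI : InvSet I) (hJ : InvSet J) {φ : H → ℂ}
    (hφD : ∀ x : H, (x : G) ∉ D → φ x = 0) :
    T2 I J (indFun H φ) = (H.index : ℂ) * T2 (res H I) (res H J) φ := by
  have h1 : T2 I J (indFun H φ) = (Nat.card H : ℂ)⁻¹ * ∑ x : G, ∑ u ∈ I, ∑ v ∈ J,
      extendByZero H φ ((x⁻¹ * u * x) * (x⁻¹ * v * x)) := by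
    rw [Finset.sum_comm, Finset.mul_sum, T2]
    refine Finset.sum_congr rfl fun u _ => ?_
    rw [Finset.sum_comm, Finset.mul_sum]
    refine Finset.sum_congr rfl fun v _ => ?_
    rw [indFun_apply]
    congr 1
    refine Finset.sum_congr rfl fun x _ => ?_
    congr 1
    group
  have h2 : ∀ x : G, ∑ u ∈ I, ∑ v ∈ J, extendByZero H φ ((x⁻¹ * u * x) * (x⁻¹ * v * x)) =
      T2 (res H I) (res H J) φ := by
    intro x
    rw [← sum_ext_res hD hI hJ hφD]
    rw [← sum_conj hI (fun u => ∑ v ∈ J, extendByZero H φ (u * v)) x]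
    refine Finset.sum_congr rfl fun u _ => ?_
    exact sum_conj hJ (fun v => extendByZero H φ ((x⁻¹ * u * x) * v)) x
  rw [h1]
  simp only [h2, Finset.sum_const, Finset.card_univ, nsmul_eq_mul]
  rw [← Nat.card_eq_fintype_card (α := G), ← Subgroup.card_mul_index H]
  have : (Nat.card H : ℂ) ≠ 0 := by exact_mod_cast (Nat.card_pos (α := H)).ne'
  push_cast
  field_simp

end Induced

end H64.Special2
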