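import Cfsg.Agent.Lib.H64.M648E
import Cfsg.Agent.Lib.H64.Special2

set_option autoImplicit false

/-! Consequences for the model of order 648: classes, inner products, products of involutions. -/

namespace H64.M648

open Cfsg H18.CharBasic H18.CharOrtho H18.CharInd

theorem φ_injective : Function.Injective φ := by
  intro a b h
  have h1 : Zsqrtd.toReal (by norm_num) a = (Zsqrtd.toReal (by norm_num) b : ℝ) := Complex.ofReal_injective h
  refine Zsqrtd.toReal_injective (by norm_num) ?_ h1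
  intro n hn
  have h2 : n ≤ 1 := by nlinarith
  have h3 : -1 ≤ n := by nlinarith
  interval_cases n <;> omega

theorem conj_φ (z : ℤ√3) : (starRingEnd ℂ) (φ z) = φ z := by
  change (starRingEnd ℂ) ((Zsqrtd.toReal (by norm_num) z : ℝ) : ℂ) = _
  rw [Complex.conj_ofReal]
  rfl

abbrev Tab := Fin 14 → ℤ√3

/-- integral tables -/
def ofZ (t : Fin 14 → ℤ) : Tab := fun k => ((t k : ℤ) : ℤ√3)

/-- class function of the model attached to a table -/
noncomputable def F (t : Tab) : M → ℂ := fun m => φ (t (cl m))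

def IsG (t : Tab) : Prop := IsGeneralizedCharacter M (F t)

theorem IsG.sub {f g : Tab} (hf : IsG f) (hg : IsG g) : IsG (f - g) := by
  have := isGen_sub hf hg
  unfold IsG
  convert this using 1
  funext m
  simp [F]

theorem IsG.add {f g : Tab} (hf : IsG f) (hg : IsG g) : IsG (f + g) := by
  have := isGen_add hf hg
  unfold IsG
  convert this using 1
  funext m
  simp [F]

theorem IsG.mul {f g : Tab} (hf : IsG f) (hg : IsG g) : IsG (f * g) := by
  have := isGen_mul hf hg
  unfold IsG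
  convert this using 1
  funext m
  simp [F]

theorem isG_one : IsG 1 := by
  have := isGen_one (G := M)
  unfold IsG
  convert this using 1
  funext m
  simp [F]

def X2 : Tab := ofZ ![1, 1, -1, 1, 1, 1, 1, -1, 1, -1, 1, 1, -1, -1]
def X5 : Tab := ofZ ![3, -1, -1, 3, 3, 3, 0, 1, -1, -1, 0, 0, 1, 1]
def Y3 : Tab := ofZ ![3, 3, 1, 3, 3, 3, 0, 1, 3, 1, 0, 0, 1, 1]
def Y9 : Tab := ofZ ![9, 5, 1, 6, 3, 0, 0, 3, 2, 1, 0, 0, 0, 0]
def Y27 : Tab := ofZ ![27, 3, 3, 0, 0, 0, 3, 3, 0, 0, 0, 0, 0, 0]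
def X8 : Tab := ![6, -2, 0, 3, 0, -3, 0, 0, 1, 0, 0, 0, ⟨0, -1⟩, ⟨0, 1⟩]
def X10 : Tab := ![8, 0, 0, -4, 2, -1, 2, 0, 0, 0, -1, -1, 0, 0]
def X11 : Tab := ![8, 0, 0, -4, 2, -1, -1, 0, 0, 0, -1, 2, 0, 0]
def X12 : Tab := ![8, 0, 0, -4, 2, -1, -1, 0, 0, 0, 2, -1, 0, 0]

theorem g2' : IsG X2 := isGen_of_isCharacter chi2
theorem g5 : IsG X5 := isGen_of_isCharacter chi5
theorem gY3 : IsG Y3 := isGen_of_isCharacter chi_fix3
theorem gY9 : IsG Y9 := isGen_of_isCharacter chi_fix9
theorem gY27 : IsG Y27 := isGen_of_isCharacter chi_fix27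
theorem g8 : IsG X8 := isGen_of_isCharacter chi8
theorem g10 : IsG X10 := isGen_of_isCharacter chi10
theorem g11 : IsG X11 := isGen_of_isCharacter chi11
theorem g12 : IsG X12 := isGen_of_isCharacter chi12

def X3 : Tab := Y3 - 1
def X4 : Tab := X5 * X2
def X6 : Tab := Y9 - Y3
def X9 : Tab := X8 * X2
def X13 : Tab := Y27 - 1 - X6 - X10

theorem gX3 : IsG X3 := gY3.sub isG_one
theorem gX4 : IsG X4 := g5.mul g2'
theorem gX6 : IsG X6 := gY9.sub gY3
theorem gX9 : IsG X9 := g8.mul g2'
theorem gX13 : IsG X13 := ((gY27.sub isG_one).sub gX6).sub g10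

def D8 : Tab := X8 - X9
def D11 : Tab := X11 - X12
def VV : Tab := X3 + X8 - X11
def AA : Tab := X4 + X5 - X8
def W4 : Tab := 1 - X4 - X6 + X11
def W3 : Tab := 1 + X4 + X11 - X13

theorem gD8 : IsG D8 := g8.sub gX9
theorem gD11 : IsG D11 := g11.sub g12
theorem gVV : IsG VV := (gX3.add g8).sub g11
theorem gAA : IsG AA := (gX4.add g5).sub g8
theorem gW4 : IsG W4 := ((isG_one.sub gX4).sub gX6).add g11
theorem gW3 : IsG W3 := ((isG_one.add gX4).add g11).sub gX13

/-! ### the class function -/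

theorem sep : ∀ k l : Fin 14, X2 k = X2 l → X5 k = X5 l → X8 k = X8 l → X10 k = X10 l → X11 k = X11 l →
    Y9 k = Y9 l → Y27 k = Y27 l → k = l := by decide +kernel

theorem cl_conj (g m : M) : cl ((g * m * g⁻¹ : M) : W) = cl m := by
  have key : ∀ t : Tab, IsG t → t (cl ((g * m * g⁻¹ : M) : W)) = t (cl m) := by
    intro t ht
    exact φ_injective (isClassFunction_of_isGen ht m g)
  exact sep _ _ (key _ g2') (key _ g5) (key _ g8) (key _ g10) (key _ g11) (key _ gY9) (key _ gY27)

theorem par_coe (m : M) : par (m : W) = 1 := MonoidHom.mem_ker.1 m.2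

theorem cl_inv (m : M) : cl ((m⁻¹ : M) : W) = cl m := cl_inv' m.1.a m.1.b m.1.c m.1.p (par_coe m)

theorem cl_eq_zero (m : M) : cl m = 0 ↔ m = 1 := by
  rw [cl_zero m.1.a m.1.b m.1.c m.1.p (par_coe m)]
  exact ⟨fun h => Subtype.ext h, fun h => congrArg Subtype.val h⟩

theorem sizeN_lt : ∀ k, sizeN k < 10000 := by decide
theorem card_lt : Fintype.card W < 10000 := by rw [card_W]; norm_num

/-- sums over the model -/
theorem sum_M {R : Type*} [AddCommMonoid R] (f : W → R) : ∑ m : M, f m = ∑ h ∈ Finset.univ.filter (fun h : W => par h = 1), f h := by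
  rw [Finset.sum_subtype (Finset.univ.filter (fun h : W => par h = 1)) (p := fun h => h ∈ M)
    (fun x => by simp [MonoidHom.mem_ker])]

theorem sum_cl {R : Type*} [CommRing R] (f : Fin 14 → R) : ∑ m : M, f (cl m) = ∑ k, (sizeN k : R) * f k := by
  rw [sum_M (fun h => f (cl h))]
  exact sum_of_hist (fun h : W => par h = 1) cl sizeN card_lt sizeN_lt (by rw [sum_W]; exact size_sum) f

theorem card_M : Fintype.card M = 648 := by
  have h := sum_cl (R := ℤ) (fun _ => 1)
  simp only [Finset.sum_const, Finset.card_univ, smul_eq_mul, nsmul_eq_mul, mul_one] at h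
  have h2 : ∑ k, (sizeN k : ℤ) = 648 := by decide +kernel
  rw [h2] at h
  exact_mod_cast h

/-- sums over a class with a multiplier -/
theorem sum_cl_mul {R : Type*} [CommRing R] (x : W) (y : Fin 14) (c : Fin 14 → ℕ) (hc : ∀ k, c k < 10000)
    (h : ∑ a : S, ∑ b : S, ∑ c : S, ∑ p : S, (if par ⟨a, b, c, p⟩ = 1 ∧ cl ⟨a, b, c, p⟩ = y then
      10000 ^ (cl (x * ⟨a, b, c, p⟩) : ℕ) else 0) = ∑ k, c k * 10000 ^ (k : ℕ)) (f : Fin 14 → R) :
    ∑ m ∈ Finset.univ.filter (fun m : M => cl m = y), f (cl (x * (m : W))) = ∑ k, (c k : R) * f k := by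
  rw [← sum_of_hist (fun h : W => par h = 1 ∧ cl h = y) (fun h => cl (x * h)) c card_lt hc (by rw [sum_W]; exact h) f]
  rw [Finset.sum_filter, sum_M (fun h => if cl h = y then f (cl (x * h)) else 0), ← Finset.sum_filter,
    Finset.filter_filter]

/-- class representatives inside the model -/
def repM (k : Fin 6) : M := ⟨rep k, MonoidHom.mem_ker.2 (cl_rep k).2⟩

theorem card_class (k : Fin 14) : Nat.card {m : M // cl m = k} = sizeN k := by
  have h := sum_cl (R := ℤ) (fun l => if l = k then 1 else 0)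
  rw [Finset.sum_boole] at h
  have h2 : ∑ l, (sizeN l : ℤ) * (if l = k then 1 else 0) = sizeN k := by simp
  rw [h2] at h
  rw [Nat.card_eq_fintype_card, Fintype.card_subtype]
  exact_mod_cast h

theorem card_cent {k : Fin 6} (hk : k ≠ 0) : Nat.card (Subgroup.centralizer ({repM k} : Set M)) =
    (![648, 24, 12, 108, 54, 81] : Fin 6 → ℕ) k := by
  have h := cent_sum k hk
  rw [← sum_W (fun h : W => if par h = 1 ∧ h * rep k = rep k * h then 1 else 0), Finset.sum_boole] at h
  rw [← Nat.cast_id ((![648, 24, 12, 108, 54, 81] : Fin 6 → ℕ) k), ← h, Nat.cast_id, Nat.cast_id]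
  rw [← Fintype.card_coe, ← Nat.card_eq_fintype_card]
  refine Nat.card_congr ⟨fun x => ⟨((x : M) : W), ?_⟩, fun x => ⟨⟨x.1, ?_⟩, ?_⟩, fun x => rfl, fun x => rfl⟩
  · rw [Finset.mem_filter]
    refine ⟨Finset.mem_univ _, par_coe _, ?_⟩
    have := Subgroup.mem_centralizer_singleton_iff.1 x.2
    exact congrArg Subtype.val this
  · exact MonoidHom.mem_ker.2 (Finset.mem_filter.1 x.2).2.1
  · rw [Subgroup.mem_centralizer_singleton_iff]
    exact Subtype.ext (Finset.mem_filter.1 x.2).2.2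

/-- classes 1, ..., 5 are conjugacy classes -/
theorem conj_of_cl {k : Fin 6} (hk : k ≠ 0) {m : M} (hm : cl m = k.castLE (by norm_num)) : IsConj (repM k) m := by
  have h1 := card_isConj_mul_card_centralizer (repM k)
  rw [card_cent hk, Nat.card_eq_fintype_card (α := M), card_M] at h1
  have hsub : {x : M | IsConj (repM k) x} ⊆ {x : M | cl x = k.castLE (by norm_num)} := by
    intro x hx
    obtain ⟨c, hc⟩ := isConj_iff.1 hx
    change cl x = _
    rw [← hc, cl_conj]
    exact (cl_rep k).1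
  have hc1 : Nat.card {x : M // IsConj (repM k) x} = sizeN (k.castLE (by norm_num)) := by
    have key : ∀ k : Fin 6, k ≠ 0 → ∀ n, n * (![648, 24, 12, 108, 54, 81] : Fin 6 → ℕ) k = 648 →
        n = sizeN (k.castLE (by norm_num)) := by
      intro k hk n hn
      fin_cases k
      · exact absurd rfl hk
      all_goals
        simp [sizeN] at hn ⊢
        omega
    exact key k hk _ h1
  have heq : {x : M | IsConj (repM k) x} = {x : M | cl x = k.castLE (by norm_num)} := by
    refine Set.eq_of_subset_of_ncard_le hsub ?_ (Set.toFinite _)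
    rw [← Nat.card_coe_set_eq, ← Nat.card_coe_set_eq]
    change Nat.card {x : M // cl x = k.castLE (by norm_num)} ≤ Nat.card {x : M // IsConj (repM k) x}
    rw [hc1, card_class]
  have : m ∈ {x : M | cl x = k.castLE (by norm_num)} := hm
  rw [← heq] at this
  exact this

/-- the double sums -/
theorem F_conj_mul (t : Tab) {r u g : M} (hg : g * r * g⁻¹ = u) (v : M) :
    F t (u * v) = F t (r * (g⁻¹ * v * g)) := by
  have h1 : u * v = g * (r * (g⁻¹ * v * g)) * g⁻¹ := by rw [← hg]; group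
  rw [h1]
  unfold F
  rw [cl_conj]

theorem sum_conj (t : Tab) {r u g : M} (hg : g * r * g⁻¹ = u) (y : Fin 14) :
    ∑ v ∈ Finset.univ.filter (fun m : M => cl m = y), F t (u * v) =
        ∑ v ∈ Finset.univ.filter (fun m : M => cl m = y), F t (r * v) := by
  refine Finset.sum_nbij' (fun v => g⁻¹ * v * g) (fun v => g * v * g⁻¹) ?_ ?_ ?_ ?_ ?_
  · intro v hv
    rw [Finset.mem_filter] at hv ⊢
    refine ⟨Finset.mem_univ _, ?_⟩
    have := cl_conj g⁻¹ v
    rw [inv_inv] at this
    rw [this]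
    exact hv.2
  · intro v hv
    rw [Finset.mem_filter] at hv ⊢
    exact ⟨Finset.mem_univ _, by rw [cl_conj]; exact hv.2⟩
  · intro v _; group
  · intro v _; group
  · intro v _
    exact F_conj_mul t hg v

theorem double_sum {k : Fin 6} (hk : k ≠ 0) (x y : Fin 14) (hx : x = k.castLE (by norm_num)) (c : Fin 14 → ℕ) (t : Tab)
    (h : ∑ v ∈ Finset.univ.filter (fun m : M => cl m = y), t (cl (rep k * (v : W))) = ∑ l, (c l : ℤ√3) * t l) :
    ∑ u ∈ Finset.univ.filter (fun m : M => cl m = x),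
      ∑ v ∈ Finset.univ.filter (fun m : M => cl m = y), F t (u * v) =
      φ ((sizeN x : ℤ√3) * ∑ l, (c l : ℤ√3) * t l) := by
  have h0 : ∑ v ∈ Finset.univ.filter (fun m : M => cl m = y), F t (repM k * v) =
      φ (∑ l, (c l : ℤ√3) * t l) := by
    rw [← h, map_sum]
    refine Finset.sum_congr rfl fun v _ => ?_
    unfold F
    rw [Subgroup.coe_mul]
    rfl
  have h1 : ∀ u ∈ Finset.univ.filter (fun m : M => cl m = x),
      ∑ v ∈ Finset.univ.filter (fun m : M => cl m = y), F t (u * v) = φ (∑ l, (c l : ℤ√3) * t l) := by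
    intro u hu
    rw [hx] at hu
    obtain ⟨g, hg⟩ := isConj_iff.1 (conj_of_cl hk (Finset.mem_filter.1 hu).2)
    rw [sum_conj t hg y, h0]
  rw [Finset.sum_congr rfl h1, Finset.sum_const, map_mul, nsmul_eq_mul]
  congr 1
  rw [map_natCast, ← card_class, Nat.card_eq_fintype_card, Fintype.card_subtype]

end H64.M648
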