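import Cfsg.Agent.Lib.H64.M648F

set_option autoImplicit false

/-! Numerical facts about the tables of the model of order 648. -/

namespace H64.M648

open Cfsg H18.CharBasic H18.CharOrtho H18.CharInd

/-- the table vanishes outside the special classes -/
def Van (t : Tab) : Prop := ∀ k, isD k = false → t k = 0

instance (t : Tab) : Decidable (Van t) := by unfold Van; infer_instance

theorem vD8 : Van D8 := by decide +kernel
theorem vD11 : Van D11 := by decide +kernel
theorem vVV : Van VV := by decide +kernel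
theorem vAA : Van AA := by decide +kernel
theorem vW4 : Van W4 := by decide +kernel
theorem vW3 : Van W3 := by decide +kernel

/-- scaled inner product of tables -/
def gram (t s : Tab) : ℤ√3 := ∑ k, (sizeN k : ℤ√3) * (t k * s k)

theorem n8 : gram D8 D8 = 648 * (2 : ℤ) := by decide +kernel
theorem n11 : gram D11 D11 = 648 * (2 : ℤ) := by decide +kernel
theorem nv : gram VV VV = 648 * (3 : ℤ) := by decide +kernel
theorem na : gram AA AA = 648 * (3 : ℤ) := by decide +kernel
theorem n4 : gram W4 W4 = 648 * (4 : ℤ) := by decide +kernel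
theorem n3 : gram W3 W3 = 648 * (4 : ℤ) := by decide +kernel
theorem e8 : gram 1 D8 = 648 * (0 : ℤ) := by decide +kernel
theorem e11 : gram 1 D11 = 648 * (0 : ℤ) := by decide +kernel
theorem ev : gram 1 VV = 648 * (0 : ℤ) := by decide +kernel
theorem ea : gram 1 AA = 648 * (0 : ℤ) := by decide +kernel
theorem w4e : gram W4 1 = 648 * (1 : ℤ) := by decide +kernel
theorem w3e : gram W3 1 = 648 * (1 : ℤ) := by decide +kernel
theorem d8d11 : gram D8 D11 = 648 * (0 : ℤ) := by decide +kernel
theorem vd8 : gram VV D8 = 648 * (1 : ℤ) := by decide +kernel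
theorem vd11 : gram VV D11 = 648 * (-1 : ℤ) := by decide +kernel
theorem ad8 : gram AA D8 = 648 * (-1 : ℤ) := by decide +kernel
theorem ad11 : gram AA D11 = 648 * (0 : ℤ) := by decide +kernel
theorem av : gram AA VV = 648 * (-1 : ℤ) := by decide +kernel
theorem w4d8 : gram W4 D8 = 648 * (0 : ℤ) := by decide +kernel
theorem w4d11 : gram W4 D11 = 648 * (1 : ℤ) := by decide +kernel
theorem w4v : gram W4 VV = 648 * (-1 : ℤ) := by decide +kernel
theorem w4a : gram W4 AA = 648 * (-1 : ℤ) := by decide +kernel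
theorem w3d8 : gram W3 D8 = 648 * (0 : ℤ) := by decide +kernel
theorem w3d11 : gram W3 D11 = 648 * (1 : ℤ) := by decide +kernel
theorem w3v : gram W3 VV = 648 * (-1 : ℤ) := by decide +kernel
theorem w3a : gram W3 AA = 648 * (1 : ℤ) := by decide +kernel
theorem w34 : gram W3 W4 = 648 * (1 : ℤ) := by decide +kernel
theorem n44 : gram X4 X4 = 648 * (1 : ℤ) := by decide +kernel
theorem n55 : gram X5 X5 = 648 * (1 : ℤ) := by decide +kernel
theorem n88 : gram X8 X8 = 648 * (1 : ℤ) := by decide +kernel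

/-- second moments -/
def mAA (t : Tab) : ℤ√3 := 27 * ∑ l, (cAA l : ℤ√3) * t l
def mAB (t : Tab) : ℤ√3 := 27 * ∑ l, (cAB l : ℤ√3) * t l
def mBB (t : Tab) : ℤ√3 := 54 * ∑ l, (cBB l : ℤ√3) * t l

theorem q8 : mAA D8 = 0 ∧ mAB D8 = 0 ∧ mBB D8 = 0 := by decide +kernel
theorem q11 : mAA D11 = 0 ∧ mAB D11 = 0 ∧ mBB D11 = 0 := by decide +kernel
theorem qv : mAA VV = 1944 ∧ mAB VV = 0 ∧ mBB VV = 0 := by decide +kernel
theorem qa : mAA AA = 0 ∧ mAB AA = 0 ∧ mBB AA = 1944 := by decide +kernel
theorem q4 : mAA W4 = 0 ∧ mAB W4 = 1944 ∧ mBB W4 = 1944 := by decide +kernel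
theorem q3 : mAA W3 = 972 ∧ mAB W3 = 972 ∧ mBB W3 = 2916 := by decide +kernel

end H64.M648
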