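import Cfsg.Agent.Lib.H64.M648G

set_option autoImplicit false

/-! A character of degree 3 of a group with special subgroup `3^3:S_4`. -/

namespace H64.M648

open Cfsg Matrix H18.CharBasic H18.CharOrtho H18.CharInd H18.CharQuot
open H64.Lattice H64.Lat648 H64.Special H64.SpecialTI H64.Special2

universe u

section
variable {H : Type u} [Group H] [Fintype H] (ε : H ≃* M)

/-- lift of a table to the group -/
noncomputable def L (t : Tab) : H → ℂ := fun x => F t (ε x)

omit [Fintype H] in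
theorem isGen_L {t : Tab} (h : IsG t) : IsGeneralizedCharacter H (L ε t) := by
  obtain ⟨a, b, ha, hb, h⟩ := h
  refine ⟨fun x => a (ε x), fun x => b (ε x), isCharacter_comp ε.toMonoidHom ha,
    isCharacter_comp ε.toMonoidHom hb, ?_⟩
  funext x
  exact congrFun h (ε x)

include ε in
omit [Fintype H] in
theorem card_H : Nat.card H = 648 := by
  rw [Nat.card_congr ε.toEquiv, Nat.card_eq_fintype_card, card_M]

theorem inner_L (t s : Tab) {m : ℤ} (h : gram t s = 648 * m) : classInner (L ε t) (L ε s) = (m : ℂ) := by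
  rw [classInner]
  have h1 : ∑ x : H, L ε t x * (starRingEnd ℂ) (L ε s x) = φ (gram t s) := by
    have h2 : φ (gram t s) = ∑ m : M, φ (t (cl m) * s (cl m)) := by
      rw [← map_sum]
      congr 1
      exact (sum_cl (fun k => t k * s k)).symm
    rw [h2]
    refine Fintype.sum_equiv ε.toEquiv _ _ fun x => ?_
    rw [map_mul]
    change φ _ * (starRingEnd ℂ) (φ _) = _
    rw [conj_φ]
    rfl
  rw [h1, h, card_H ε, map_mul, map_intCast, map_ofNat]
  push_cast
  field_simp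

omit [Fintype H] in
/-- sums over classes -/
theorem sum_class {k : Fin 14} {I : Finset H} (hI : ∀ x : H, x ∈ I ↔ cl (ε x) = k) (f : M → ℂ) :
    ∑ x ∈ I, f (ε x) = ∑ m ∈ Finset.univ.filter (fun m : M => cl m = k), f m := by
  refine Finset.sum_equiv ε.toEquiv ?_ ?_
  · intro x
    rw [hI, Finset.mem_filter]
    simp
  · intro x _
    rfl

omit [Fintype H] in
theorem T2_L {x y : Fin 14} {I J : Finset H} (hI : ∀ h : H, h ∈ I ↔ cl (ε h) = x)
    (hJ : ∀ h : H, h ∈ J ↔ cl (ε h) = y) {k : Fin 6} (hk : k ≠ 0) (hx : x = k.castLE (by norm_num)) (c : Fin 14 → ℕ)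
    (t : Tab) (h : ∑ v ∈ Finset.univ.filter (fun m : M => cl m = y), t (cl (rep k * (v : W))) =
      ∑ l, (c l : ℤ√3) * t l) :
    T2 I J (L ε t) = φ ((sizeN x : ℤ√3) * ∑ l, (c l : ℤ√3) * t l) := by
  rw [← double_sum hk x y hx c t h, T2]
  rw [← sum_class ε hI (fun m => ∑ v ∈ Finset.univ.filter (fun m : M => cl m = y), F t (m * v))]
  refine Finset.sum_congr rfl fun u _ => ?_
  rw [← sum_class ε hJ (fun m => F t (ε u * m))]
  refine Finset.sum_congr rfl fun v _ => ?_
  rw [L, map_mul]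

end

theorem hAA (t : Tab) : ∑ v ∈ Finset.univ.filter (fun m : M => cl m = 1), t (cl (rep 1 * (v : W))) =
      ∑ l, (cAA l : ℤ√3) * t l :=
  sum_cl_mul (R := ℤ√3) (rep 1) 1 cAA (by decide) aa_sum t

theorem hAB (t : Tab) : ∑ v ∈ Finset.univ.filter (fun m : M => cl m = 2), t (cl (rep 1 * (v : W))) =
      ∑ l, (cAB l : ℤ√3) * t l :=
  sum_cl_mul (R := ℤ√3) (rep 1) 2 cAB (by decide) ab_sum t

theorem hBB (t : Tab) : ∑ v ∈ Finset.univ.filter (fun m : M => cl m = 2), t (cl (rep 2 * (v : W))) =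
      ∑ l, (cBB l : ℤ√3) * t l :=
  sum_cl_mul (R := ℤ√3) (rep 2) 2 cBB (by decide) bb_sum t

/-- the exceptional character of degree 3 -/
theorem exists_char {G : Type u} [Group G] [Fintype G] (H : Subgroup G) [Fintype H] (ε : H ≃* M)
    (D : Set G) (hD : TIData H D) (hDH : ∀ x : H, isD (cl (ε x)) = true → (x : G) ∈ D)
    (Ia Ib : Finset G) (hIa : InvSet Ia) (hIb : InvSet Ib) (ha : ∀ x : H, (x : G) ∈ Ia ↔ cl (ε x) = 1)
    (hb : ∀ x : H, (x : G) ∈ Ib ↔ cl (ε x) = 2) :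
    ∃ χ : IrrCharacter G, (χ : G → ℂ) 1 = 3 ∧ ((∀ x : H, (χ : G → ℂ) x = L ε X4 x) ∨
      ∀ x : H, (χ : G → ℂ) x = L ε X5 x) := by
  classical
  let _i : Fintype (IrrCharacter G) := Fintype.ofFinite _
  have hLi : ∀ {t : Tab}, IsG t → IsGeneralizedCharacter G (indFun H (L ε t)) := fun ht => isGen_ind H (isGen_L ε ht)
  have supp : ∀ {t : Tab}, Van t → ∀ x : H, (x : G) ∉ D → L ε t x = 0 := by
    intro t ht x hx
    have h1 : isD (cl (ε x)) = false := by
      by_contra h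
      exact hx (hDH x (by simpa using h))
    change φ (t (cl (ε x))) = 0
    rw [ht _ h1, map_zero]
  let I : Tab → IrrCharacter G → ℤ := fun t => coeff (indFun H (L ε t))
  have dot : ∀ {t s : Tab}, IsG t → IsG s → Van t → Van s → ∀ {m : ℤ}, gram t s = 648 * m → I t ⬝ᵥ I s = m := by
    intro t s ht hs vt vs m hm
    refine dot_eq (hLi ht) (hLi hs) ?_
    rw [inner_ind hD (isClassFunction_of_isGen (isGen_L ε hs)) (supp vt) (supp vs)]
    exact inner_L ε t s hm
  let e : IrrCharacter G → ℤ := coeff (fun _ : G => (1 : ℂ))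
  have hone : (fun x : H => (fun _ : G => (1 : ℂ)) x) = L ε 1 := by
    funext x
    simp [L, F]
  have dote : ∀ {t : Tab}, IsG t → ∀ {m : ℤ}, gram t 1 = 648 * m → I t ⬝ᵥ e = m := by
    intro t ht m hm
    refine dot_eq (hLi ht) isGen_one ?_
    rw [frobenius H _ (isClassFunction_const 1), hone]
    exact inner_L ε t 1 hm
  have hgc : ∀ t : Tab, gram 1 t = gram t 1 := by
    intro t
    unfold gram
    simp [mul_comm]
  have edot : ∀ {t : Tab}, IsG t → ∀ {m : ℤ}, gram 1 t = 648 * m → e ⬝ᵥ I t = m := by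
    intro t ht m hm
    rw [dotProduct_comm]
    exact dote ht (by rw [← hgc]; exact hm)
  let Mo := mom Ia Ib hIa hIb
  have hN : (0 : ℝ) < (H.index : ℝ) * 324 := by
    have : (0 : ℝ) < H.index := by
      exact_mod_cast Nat.pos_of_ne_zero Subgroup.index_ne_zero_of_finite
    positivity
  have hvec : ∀ {t : Tab}, IsG t → Van t → ∀ {qa qab qb : ℤ}, mAA t = ((324 * qa : ℤ) : ℤ√3) →
      mAB t = ((324 * qab : ℤ) : ℤ√3) → mBB t = ((324 * qb : ℤ) : ℤ√3) →
      Vec Mo (I t) (qa * ((H.index : ℝ) * 324)) (qab * ((H.index : ℝ) * 324)) (qb * ((H.index : ℝ) * 324)) := by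
    intro t ht vt qa qab qb h1 h2 h3
    have key : ∀ (z : ℂ) (q : ℤ), z = φ ((324 * q : ℤ) : ℤ√3) → ((H.index : ℂ) * z).re = q * ((H.index : ℝ) * 324) := by
      rintro z q rfl
      rw [map_intCast, ← Complex.ofReal_natCast, ← Complex.ofReal_intCast, ← Complex.ofReal_mul, Complex.ofReal_re]
      push_cast
      ring
    refine ⟨?_, ?_, ?_, ?_, ?_, ?_⟩
    · have h1 := M0_coeff (hI := hIa) (hJ := hIb) (hLi ht)
      rw [ind_one hD (supp vt)] at h1
      exact_mod_cast h1.symm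
    · change Mo.Ma (coeff _) = 0
      rw [Ma_coeff (hLi ht), T1_ind hD hIa (supp vt), Complex.zero_re]
    · change Mo.Mb (coeff _) = 0
      rw [Mb_coeff (hLi ht), T1_ind hD hIb (supp vt), Complex.zero_re]
    · change Mo.Maa (coeff _) = _
      rw [Maa_coeff (hLi ht), T2_ind hD hIa hIa (supp vt)]
      refine key _ _ ?_
      rw [T2_L ε (x := 1) (y := 1) (fun x => by rw [mem_res, ha]) (fun x => by rw [mem_res, ha]) (k := 1) (by decide)
        rfl cAA t (hAA t), ← h1]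
      rfl
    · change Mo.Mab (coeff _) = _
      rw [Mab_coeff (hLi ht), T2_ind hD hIa hIb (supp vt)]
      refine key _ _ ?_
      rw [T2_L ε (x := 1) (y := 2) (fun x => by rw [mem_res, ha]) (fun x => by rw [mem_res, hb]) (k := 1) (by decide)
        rfl cAB t (hAB t), ← h2]
      rfl
    · change Mo.Mbb (coeff _) = _
      rw [Mbb_coeff (hLi ht), T2_ind hD hIb hIb (supp vt)]
      refine key _ _ ?_
      rw [T2_L ε (x := 2) (y := 2) (fun x => by rw [mem_res, hb]) (fun x => by rw [mem_res, hb]) (k := 2) (by decide)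
        rfl cBB t (hBB t), ← h3]
      rfl
  have z0 : ((324 * 0 : ℤ) : ℤ√3) = 0 := by norm_num
  have z6 : ((324 * 6 : ℤ) : ℤ√3) = 1944 := by norm_num
  have z3 : ((324 * 3 : ℤ) : ℤ√3) = 972 := by norm_num
  have z9 : ((324 * 9 : ℤ) : ℤ√3) = 2916 := by norm_num
  have hVecs : Vecs Mo ((H.index : ℝ) * 324) e (I D8) (I D11) (I VV) := by
    refine ⟨isU_of_norm isGen_one (inner_irr_self isIrrCharacter_one), ?_, dot gD8 gD8 vD8 vD8 n8,
      dot gD11 gD11 vD11 vD11 n11, dot gVV gVV vVV vVV nv, edot gD8 e8, edot gD11 e11, edot gVV ev,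
      dot gD8 gD11 vD8 vD11 d8d11, dot gVV gD8 vVV vD8 vd8, dot gVV gD11 vVV vD11 vd11, ?_, ?_, ?_⟩
    · have h1 := M0_coeff (hI := hIa) (hJ := hIb) (isGen_one (G := G))
      exact_mod_cast h1.symm
    · have := hvec gD8 vD8 (qa := 0) (qab := 0) (qb := 0) (by rw [z0, q8.1]) (by rw [z0, q8.2.1]) (by rw [z0, q8.2.2])
      simpa using this
    · have := hvec gD11 vD11 (qa := 0) (qab := 0) (qb := 0) (by rw [z0, q11.1]) (by rw [z0, q11.2.1]) (by rw [z0, q11.2.2])
      simpa using this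
    · have := hvec gVV vVV (qa := 6) (qab := 0) (qb := 0) (by rw [z6, qv.1]) (by rw [z0, qv.2.1]) (by rw [z0, qv.2.2])
      simpa using this
  obtain ⟨u, hu, hu3, hau⟩ := Lat648.main hN hVecs (dot gAA gAA vAA vAA na) (edot gAA ea) (dot gAA gD8 vAA vD8 ad8)
    (dot gAA gD11 vAA vD11 ad11) (dot gAA gVV vAA vVV av)
    (by simpa using hvec gAA vAA (qa := 0) (qab := 0) (qb := 6) (by rw [z0, qa.1]) (by rw [z0, qa.2.1]) (by rw [z6, qa.2.2]))
    (dot gW4 gW4 vW4 vW4 n4) (dote gW4 w4e) (dot gW4 gD8 vW4 vD8 w4d8) (dot gW4 gD11 vW4 vD11 w4d11)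
    (dot gW4 gVV vW4 vVV w4v) (dot gW4 gAA vW4 vAA w4a)
    (by simpa using hvec gW4 vW4 (qa := 0) (qab := 6) (qb := 6) (by rw [z0, q4.1]) (by rw [z6, q4.2.1]) (by rw [z6, q4.2.2]))
    (dot gW3 gW3 vW3 vW3 n3) (dote gW3 w3e) (dot gW3 gD8 vW3 vD8 w3d8) (dot gW3 gD11 vW3 vD11 w3d11)
    (dot gW3 gVV vW3 vVV w3v) (dot gW3 gAA vW3 vAA w3a) (dot gW3 gW4 vW3 vW4 w34)
    (by simpa using hvec gW3 vW3 (qa := 3) (qab := 3) (qb := 9) (by rw [z3, q3.1]) (by rw [z3, q3.2.1]) (by rw [z9, q3.2.2]))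
  obtain ⟨χ, hχ3, hχ⟩ := unit_char (hI := hIa) (hJ := hIb) hu (d := 3) (by norm_num) (by exact_mod_cast hu3)
  refine ⟨χ, by exact_mod_cast hχ3, ?_⟩
  have h1 := hχ _ (hLi gAA)
  have h1' : coeff (indFun H (L ε AA)) ⬝ᵥ u = 1 := hau
  rw [h1', frobenius H _ (isClassFunction_of_isIrr χ.2)] at h1
  -- restriction
  have hres : IsCharacter H (fun x : H => (χ : G → ℂ) x) := isCharacter_restrict H (isCharacter_of_isIrr χ.2)
  have hirr : ∀ {t : Tab} {d : ℕ}, IsG t → gram t t = 648 * (1 : ℤ) → t 0 = (d : ℤ√3) → 0 < d → IsIrrCharacter H (L ε t) := by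
    intro t d ht hn hd hd0
    refine isIrr_of_gen_norm_one (isGen_L ε ht) (by rw [inner_L ε t t hn]; simp) ?_
    change 0 < (φ (t (cl ((ε 1 : M) : W)))).re
    rw [map_one, (cl_eq_zero 1).2 rfl, hd, map_natCast, Complex.natCast_re]
    exact_mod_cast hd0
  have h4 : IsIrrCharacter H (L ε X4) := hirr (d := 3) gX4 n44 (by decide +kernel) (by norm_num)
  have h5 : IsIrrCharacter H (L ε X5) := hirr (d := 3) g5 n55 (by decide +kernel) (by norm_num)
  have h8 : IsIrrCharacter H (L ε X8) := hirr (d := 6) g8 n88 (by decide +kernel) (by norm_num)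
  obtain ⟨m4, hm4⟩ := inner_char_natCast (isCharacter_of_isIrr h4) hres
  obtain ⟨m5, hm5⟩ := inner_char_natCast (isCharacter_of_isIrr h5) hres
  obtain ⟨m8, hm8⟩ := inner_char_natCast (isCharacter_of_isIrr h8) hres
  have hAA' : L ε AA = L ε X4 + L ε X5 - L ε X8 := by
    funext x
    simp [L, F, AA]
  rw [hAA', H18.CharOrtho.inner_sub_left, H18.CharOrtho.inner_add_left, hm4, hm5, hm8] at h1
  have h2 : (m4 : ℤ) + m5 - m8 = 1 := by exact_mod_cast h1
  have fin : ∀ {t : Tab}, IsIrrCharacter H (L ε t) → t 0 = 3 → ∀ {m : ℕ}, m ≠ 0 →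
      classInner (L ε t) (fun x : H => (χ : G → ℂ) x) = m → ∀ x : H, (χ : G → ℂ) x = L ε t x := by
    intro t ht h0 m hm hmi x
    have hne : classInner (fun x : H => (χ : G → ℂ) x) (L ε t) ≠ 0 := by
      rw [classInner_comm hres (isCharacter_of_isIrr ht), hmi]
      exact_mod_cast hm
    have hsub := isCharacter_sub_constituent hres ht hne
    have hval : ((fun x : H => (χ : G → ℂ) x) - L ε t) 1 = 0 := by
      have e1 : L ε t 1 = 3 := by
        change φ (t (cl ((ε 1 : M) : W))) = 3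
        rw [map_one, (cl_eq_zero 1).2 rfl, h0, map_ofNat]
      rw [Pi.sub_apply, e1]
      change (χ : G → ℂ) ((1 : H) : G) - 3 = 0
      rw [Subgroup.coe_one, hχ3]
      norm_num
    have hle := char_norm_le hsub x
    rw [hval, Complex.zero_re] at hle
    exact sub_eq_zero.1 (norm_le_zero_iff.1 hle)
  by_cases hm : m4 = 0
  · right
    exact fin h5 (by decide +kernel) (m := m5) (by omega) hm5
  · left
    exact fin h4 (by decide +kernel) hm hm4

end H64.M648
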