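import Cfsg.Agent.Lib.H64.M648H
import Cfsg.Agent.Lib.H64.Kernel27
import Cfsg.Agent.Lib.H64.SylowPrime

set_option autoImplicit false

/-! Groups with a strongly closed subgroup in `3^3:S_4`. -/

namespace H64.M648

open Cfsg H18.CharBasic H18.CharOrtho H18.CharInd H18.CharQuot
open H64.Special H64.SpecialTI H64.Special2

universe u

/-! ### centralizers -/

theorem card_cent_eq {G : Type*} [Group G] [Finite G] {a b : G} (h : IsConj a b) :
    Nat.card (Subgroup.centralizer ({a} : Set G)) = Nat.card (Subgroup.centralizer ({b} : Set G)) := by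
  have h1 := card_isConj_mul_card_centralizer a
  have h2 := card_isConj_mul_card_centralizer b
  have h3 : Nat.card {x : G // IsConj a x} = Nat.card {x : G // IsConj b x} :=
    Nat.card_congr (Equiv.subtypeEquivRight fun x => ⟨fun h' => h.symm.trans h', fun h' => h.trans h'⟩)
  rw [← h2, h3] at h1
  have h4 : 0 < Nat.card {x : G // IsConj b x} := by
    have : Nonempty {x : G // IsConj b x} := ⟨⟨b, IsConj.refl b⟩⟩
    exact Nat.card_pos
  exact Nat.eq_of_mul_eq_mul_left h4 h1

theorem card_cent_le {G : Type*} [Group G] (K : Subgroup G) (x : K) (h : Subgroup.centralizer ({(x : G)} : Set G) ≤ K) :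
    Nat.card (Subgroup.centralizer ({(x : G)} : Set G)) = Nat.card (Subgroup.centralizer ({x} : Set K)) := by
  refine Nat.card_congr ⟨fun y => ⟨⟨y, h y.2⟩, ?_⟩, fun y => ⟨y, ?_⟩, fun y => rfl, fun y => rfl⟩
  · rw [Subgroup.mem_centralizer_singleton_iff]
    exact Subtype.ext (Subgroup.mem_centralizer_singleton_iff.1 y.2)
  · rw [Subgroup.mem_centralizer_singleton_iff]
    exact congrArg Subtype.val (Subgroup.mem_centralizer_singleton_iff.1 y.2)

theorem card_cent_equiv {A B : Type*} [Group A] [Group B] (e : A ≃* B) (x : A) :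
    Nat.card (Subgroup.centralizer ({e x} : Set B)) = Nat.card (Subgroup.centralizer ({x} : Set A)) := by
  refine Nat.card_congr ⟨fun y => ⟨e.symm y, ?_⟩, fun y => ⟨e y, ?_⟩, fun y => ?_, fun y => ?_⟩
  · rw [Subgroup.mem_centralizer_singleton_iff]
    apply e.injective
    rw [map_mul, map_mul, e.apply_symm_apply]
    exact Subgroup.mem_centralizer_singleton_iff.1 y.2
  · rw [Subgroup.mem_centralizer_singleton_iff, ← map_mul, ← map_mul]
    exact congrArg e (Subgroup.mem_centralizer_singleton_iff.1 y.2)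
  · exact Subtype.ext (e.apply_symm_apply _)
  · exact Subtype.ext (e.symm_apply_apply _)

/-! ### the normal subgroup of order 27 -/

theorem inJ_iff' (m : M) : inJ (m : W) ↔ cl m = 0 ∨ cl m = 3 ∨ cl m = 4 ∨ cl m = 5 :=
  inJ_iff m.1.a m.1.b m.1.c m.1.p (par_coe m)

theorem S_e_mul (a b : S) (ha : a.e = false) (hb : b.e = false) : (a * b).e = false := by
  revert a b; decide

theorem S_comm (a b : S) (ha : a.e = false) (hb : b.e = false) : a * b = b * a := by
  revert a b; decide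

theorem S_cube (a : S) (ha : a.e = false) : a * a * a = 1 := by
  revert a; decide

theorem inJ_mul_eq {a b : W} (hb : inJ b) : a * b = ⟨a.a * b.a, a.b * b.b, a.c * b.c, a.p * b.p⟩ := by
  have e : ∀ i, b.p.act i = i := fun i => by rw [hb.1, S.act_one]
  change (⟨a.loc (b.p.act 0) * b.a, a.loc (b.p.act 1) * b.b, a.loc (b.p.act 2) * b.c, a.p * b.p⟩ : W) = _
  rw [e, e, e]
  rfl

theorem inJ_mul {a b : W} (ha : inJ a) (hb : inJ b) : inJ (a * b) := by
  rw [inJ_mul_eq hb]
  exact ⟨by rw [ha.1, hb.1, one_mul], S_e_mul _ _ ha.2.1 hb.2.1, S_e_mul _ _ ha.2.2.1 hb.2.2.1,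
    S_e_mul _ _ ha.2.2.2 hb.2.2.2⟩

theorem inJ_comm {a b : W} (ha : inJ a) (hb : inJ b) : a * b = b * a := by
  rw [inJ_mul_eq hb, inJ_mul_eq ha, S_comm _ _ ha.2.1 hb.2.1, S_comm _ _ ha.2.2.1 hb.2.2.1,
    S_comm _ _ ha.2.2.2 hb.2.2.2, ha.1, hb.1]

theorem inJ_cube {a : W} (ha : inJ a) : a ^ 3 = 1 := by
  rw [pow_succ, pow_two, inJ_mul_eq (inJ_mul ha ha |> fun _ => ha), inJ_mul_eq ha]
  refine W.ext (S_cube _ ha.2.1) (S_cube _ ha.2.2.1) (S_cube _ ha.2.2.2) ?_
  change a.p * a.p * a.p = 1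
  rw [ha.1]
  rfl

/-- the normal subgroup -/
def jS : Subgroup M where
  carrier := {m | inJ (m : W)}
  mul_mem' ha hb := inJ_mul ha hb
  one_mem' := by
    change inJ ((1 : M) : W)
    decide
  inv_mem' := by
    intro m hm
    change inJ ((m⁻¹ : M) : W)
    rw [inJ_iff', cl_inv, ← inJ_iff']
    exact hm

theorem mem_jS (m : M) : m ∈ jS ↔ inJ (m : W) := Iff.rfl

theorem card_jS : Nat.card jS = 27 := by
  have h := sum_cl (R := ℤ) (fun l => if l = 0 ∨ l = 3 ∨ l = 4 ∨ l = 5 then 1 else 0)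
  rw [Finset.sum_boole] at h
  have h2 : ∑ l : Fin 14, (sizeN l : ℤ) * (if l = 0 ∨ l = 3 ∨ l = 4 ∨ l = 5 then 1 else 0) = 27 := by decide +kernel
  rw [h2] at h
  have h3 : Nat.card jS = (Finset.univ.filter fun m : M => cl m = 0 ∨ cl m = 3 ∨ cl m = 4 ∨ cl m = 5).card := by
    rw [← Fintype.card_subtype, ← Nat.card_eq_fintype_card]
    exact Nat.card_congr (Equiv.subtypeEquivRight fun m => by rw [mem_jS, inJ_iff'])
  rw [h3]
  exact_mod_cast h

end H64.M648
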