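import Cfsg.Agent.Lib.H64.M648I

set_option autoImplicit false

/-! Groups with a strongly closed subgroup in `3^3:S_4`, continued. -/

namespace H64.M648

open Cfsg H18.CharBasic H18.CharOrtho H18.CharInd H18.CharQuot
open H64.Special H64.SpecialTI H64.Special2

universe u

/-- the hypotheses -/
structure Hyp {G : Type u} [Group G] (H : Subgroup G) (ε : H ≃* M) (J : Subgroup G) : Prop where
  le : J ≤ H
  mem : ∀ x : H, (x : G) ∈ J ↔ inJ ((ε x : M) : W)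
  hC : ∀ j ∈ J, j ≠ 1 → Subgroup.centralizer ({j} : Set G) ≤ H
  sc : ∀ x ∈ J, ∀ g : G, g * x * g⁻¹ ∈ H → g * x * g⁻¹ ∈ J

theorem tbl_inj : ∀ k l : Fin 6, (k = 3 ∨ k = 4 ∨ k = 5) → (l = 3 ∨ l = 4 ∨ l = 5) →
    (![648, 24, 12, 108, 54, 81] : Fin 6 → ℕ) k = (![648, 24, 12, 108, 54, 81] : Fin 6 → ℕ) l → k = l := by decide

section
variable {G : Type u} [Group G] [Finite G] {H : Subgroup G} {ε : H ≃* M} {J : Subgroup G} (h : Hyp H ε J)
include h

omit [Finite G] in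
theorem Hyp.cent {x : H} (hx : (x : G) ∈ J) (hx1 : x ≠ 1) : ∃ k : Fin 6, (k = 3 ∨ k = 4 ∨ k = 5) ∧
    cl (ε x) = k.castLE (by norm_num) ∧ Nat.card (Subgroup.centralizer ({(x : G)} : Set G)) =
      (![648, 24, 12, 108, 54, 81] : Fin 6 → ℕ) k := by
  have h1 := (inJ_iff' _).1 ((h.mem x).1 hx)
  have h0 : cl (ε x) ≠ 0 := by
    intro h0
    rw [cl_eq_zero, map_eq_one_iff ε ε.injective] at h0
    exact hx1 h0
  have key : ∀ k : Fin 6, k ≠ 0 → cl (ε x) = k.castLE (by norm_num) →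
      Nat.card (Subgroup.centralizer ({(x : G)} : Set G)) = (![648, 24, 12, 108, 54, 81] : Fin 6 → ℕ) k := by
    intro k hk hc
    rw [card_cent_le H x (h.hC _ hx (fun h' => hx1 (Subtype.ext h'))), ← card_cent_equiv ε, ← card_cent hk]
    exact card_cent_eq (conj_of_cl hk hc).symm
  rcases h1 with h1 | h1 | h1 | h1
  · exact absurd h1 h0
  · exact ⟨3, by simp, h1, key 3 (by decide) h1⟩
  · exact ⟨4, by simp, h1, key 4 (by decide) h1⟩
  · exact ⟨5, by simp, h1, key 5 (by decide) h1⟩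

/-- fusion in the normal subgroup is controlled -/
theorem Hyp.fus {g t : G} (ht : t ∈ J) (ht1 : t ≠ 1) (hg : g * t * g⁻¹ ∈ J) : g ∈ H := by
  have e1 : (⟨t, h.le ht⟩ : H) ≠ 1 := fun h' => ht1 (congrArg Subtype.val h')
  have e2 : (⟨g * t * g⁻¹, h.le hg⟩ : H) ≠ 1 := fun h' => by
    have : g * t * g⁻¹ = 1 := congrArg Subtype.val h'
    rw [conj_eq_one_iff] at this
    exact ht1 this
  obtain ⟨k, hk, hk1, hk2⟩ := h.cent (x := ⟨t, h.le ht⟩) ht e1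
  obtain ⟨l, hl, hl1, hl2⟩ := h.cent (x := ⟨g * t * g⁻¹, h.le hg⟩) hg e2
  have hc : IsConj t (g * t * g⁻¹) := isConj_iff.2 ⟨g, rfl⟩
  have hcard := card_cent_eq hc
  change Nat.card (Subgroup.centralizer ({t} : Set G)) = _ at hk2
  change Nat.card (Subgroup.centralizer ({g * t * g⁻¹} : Set G)) = _ at hl2
  rw [hk2, hl2] at hcard
  have hkl : k = l := tbl_inj k l hk hl hcard
  subst hkl
  have hk0 : k ≠ 0 := by rcases hk with rfl | rfl | rfl <;> decide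
  have hconj := (conj_of_cl hk0 hk1).symm.trans (conj_of_cl hk0 hl1)
  obtain ⟨m, hm⟩ := isConj_iff.1 hconj
  have hm2 : (ε.symm m : H) * ⟨t, h.le ht⟩ * (ε.symm m)⁻¹ = ⟨g * t * g⁻¹, h.le hg⟩ := by
    apply ε.injective
    rw [map_mul, map_mul, map_inv, ε.apply_symm_apply]
    exact hm
  have hm3 : ((ε.symm m : H) : G) * t * ((ε.symm m : H) : G)⁻¹ = g * t * g⁻¹ := congrArg Subtype.val hm2
  have hm4 : ((ε.symm m : H) : G)⁻¹ * g ∈ Subgroup.centralizer ({t} : Set G) := by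
    rw [Subgroup.mem_centralizer_singleton_iff]
    generalize ((ε.symm m : H) : G) = y at hm3
    calc y⁻¹ * g * t = y⁻¹ * (g * t * g⁻¹) * g := by group
      _ = y⁻¹ * (y * t * y⁻¹) * g := by rw [hm3]
      _ = t * (y⁻¹ * g) := by group
  have hm5 := h.hC t ht ht1 hm4
  exact (H.mul_mem_cancel_left (H.inv_mem (ε.symm m).2)).1 hm5

omit [Finite G] h in
/-- conjugation inside `H` preserves the class -/
theorem cl_conj_H {x y : H} {g : G} (hg : g ∈ H) (hxy : g * x * g⁻¹ = y) : cl (ε y) = cl (ε x) := by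
  have h1 : y = (⟨g, hg⟩ : H) * x * (⟨g, hg⟩ : H)⁻¹ := Subtype.ext hxy.symm
  rw [h1, map_mul, map_mul, map_inv]
  exact cl_conj _ _

omit [Finite G] h in
/-- elements of the same small class are conjugate -/
theorem conj_H {k : Fin 6} (hk : k ≠ 0) {x y : H} (hx : cl (ε x) = k.castLE (by norm_num))
    (hy : cl (ε y) = k.castLE (by norm_num)) : ∃ g ∈ H, g * (x : G) * g⁻¹ = y := by
  have hconj := (conj_of_cl hk hx).symm.trans (conj_of_cl hk hy)
  obtain ⟨m, hm⟩ := isConj_iff.1 hconj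
  refine ⟨(ε.symm m : H), (ε.symm m).2, ?_⟩
  have hm2 : (ε.symm m : H) * x * (ε.symm m)⁻¹ = y := by
    apply ε.injective
    rw [map_mul, map_mul, map_inv, ε.apply_symm_apply]
    exact hm
  exact congrArg Subtype.val hm2

/-- the trivial intersection set -/
theorem Hyp.ti : TIData H {g : G | ∃ hg : g ∈ H, isD (cl (ε ⟨g, hg⟩)) = true} := by
  refine ⟨?_, ?_, ?_⟩
  · rintro g d ⟨hd, hd1⟩ ⟨hd', -⟩
    obtain ⟨n, hn⟩ : ∃ n : ℕ, cl (((ε ⟨d, hd⟩ : M) : W) ^ n) = 3 ∨ cl (((ε ⟨d, hd⟩ : M) : W) ^ n) = 4 ∨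
        cl (((ε ⟨d, hd⟩ : M) : W) ^ n) = 5 := by
      generalize ε ⟨d, hd⟩ = m at hd1 ⊢
      exact ⟨_, pow_fact m.1.a m.1.b m.1.c m.1.p (par_coe m) hd1⟩
    have e1 : ((ε ⟨d, hd⟩ : M) : W) ^ n = ((ε (⟨d ^ n, H.pow_mem hd n⟩) : M) : W) := by
      rw [← Subgroup.coe_pow, ← map_pow]
      rfl
    rw [e1] at hn
    have hJ : d ^ n ∈ J := by
      rw [show d ^ n ∈ J ↔ _ from h.mem ⟨d ^ n, H.pow_mem hd n⟩, inJ_iff']
      exact Or.inr hn
    have h1 : d ^ n ≠ 1 := by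
      intro h1
      have e2 : (⟨d ^ n, H.pow_mem hd n⟩ : H) = 1 := Subtype.ext h1
      rw [e2, map_one, (cl_eq_zero 1).2 rfl] at hn
      revert hn
      decide
    refine h.fus hJ h1 (h.sc _ hJ g ?_)
    rw [← conj_pow]
    exact H.pow_mem hd' n
  · rintro d ⟨hd, hd1⟩
    refine ⟨H.inv_mem hd, ?_⟩
    have e1 : (⟨d⁻¹, H.inv_mem hd⟩ : H) = (⟨d, hd⟩ : H)⁻¹ := rfl
    rw [e1, map_inv, cl_inv]
    exact hd1
  · rintro d ⟨hd, hd1⟩ h1
    have e1 : (⟨d, hd⟩ : H) * ⟨d, hd⟩ = 1 := Subtype.ext h1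
    have e2 : cl (((ε ⟨d, hd⟩ : M) : W) * ((ε ⟨d, hd⟩ : M) : W)) = 0 := by
      rw [← Subgroup.coe_mul, ← map_mul, e1, map_one]
      exact (cl_eq_zero 1).2 rfl
    generalize ε ⟨d, hd⟩ = m at hd1 e2
    have e3 := (sq_fact m.1.a m.1.b m.1.c m.1.p (par_coe m)).1 e2
    change cl (m : W) = 0 ∨ cl (m : W) = 1 ∨ cl (m : W) = 2 at e3
    rcases e3 with e3 | e3 | e3 <;> · rw [e3] at hd1; revert hd1; decide

end

end H64.M648
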