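import Cfsg.Agent.Lib.H64.M648J

set_option autoImplicit false

/-! Groups with a strongly closed subgroup in `3^3:S_4`: the involutions and the conclusion. -/

namespace H64.M648

open Cfsg H18.CharBasic H18.CharOrtho H18.CharInd H18.CharQuot
open H64.Special H64.SpecialTI H64.Special2

universe u

/-- the element of class 3 centralizing the first involution -/
def c3 : M := ⟨gc, MonoidHom.mem_ker.2 rep_facts.2.2.2.2.2.2.2⟩

theorem card_normalizer_dvd {G : Type u} [Group G] [Finite G] {C : Subgroup G} {e : C} {Q : Subgroup G}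
    (hQ : ∀ z : C, z ∈ Subgroup.normalizer ((Subgroup.zpowers e : Subgroup C) : Set C) → (z : G) ∈ Q) :
    Nat.card (Subgroup.normalizer ((Subgroup.zpowers e : Subgroup C) : Set C)) ∣ Nat.card Q := by
  have h1 : (Subgroup.normalizer ((Subgroup.zpowers e : Subgroup C) : Set C)).map C.subtype ≤ Q := by
    rintro _ ⟨z, hz, rfl⟩
    exact hQ z hz
  have h2 := Subgroup.card_dvd_of_le h1
  rwa [Nat.card_congr (Subgroup.equivMapOfInjective _ C.subtype C.subtype_injective).toEquiv.symm] at h2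

section
variable {G : Type u} [Group G] [Finite G] {H : Subgroup G} {ε : H ≃* M} {J : Subgroup G} (h : Hyp H ε J)
include h

theorem Hyp.nofus (g : G) : g * (ε.symm (repM 1) : H) * g⁻¹ ≠ (ε.symm (repM 2) : H) := by
  intro hg
  have : Fact (Nat.Prime 3) := ⟨Nat.prime_three⟩
  obtain ⟨r1, r2, r3, r4, r5, r6, r7, r8⟩ := rep_facts
  obtain ⟨ua, hua⟩ : ∃ ua : H, ua = ε.symm (repM 1) := ⟨_, rfl⟩
  obtain ⟨ub, hub⟩ : ∃ ub : H, ub = ε.symm (repM 2) := ⟨_, rfl⟩
  obtain ⟨c, hc⟩ : ∃ c : H, c = ε.symm c3 := ⟨_, rfl⟩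
  obtain ⟨j, hj⟩ : ∃ j : H, j = ε.symm (repM 4) := ⟨_, rfl⟩
  rw [← hua, ← hub] at hg
  have eua : ε ua = repM 1 := by rw [hua, ε.apply_symm_apply]
  have eub : ε ub = repM 2 := by rw [hub, ε.apply_symm_apply]
  have ec : ε c = c3 := by rw [hc, ε.apply_symm_apply]
  have ej : ε j = repM 4 := by rw [hj, ε.apply_symm_apply]
  have clc : cl (ε c) = 3 := by rw [ec]; exact r7
  have clj : cl (ε j) = 4 := by rw [ej]; exact (cl_rep 4).1
  have hcJ : (c : G) ∈ J := by rw [h.mem, inJ_iff']; exact Or.inr (Or.inl clc)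
  have hjJ : (j : G) ∈ J := by rw [h.mem, inJ_iff']; exact Or.inr (Or.inr (Or.inl clj))
  have hc1 : (c : G) ≠ 1 := by
    intro h1
    have : c = 1 := Subtype.ext h1
    rw [this, map_one, (cl_eq_zero 1).2 rfl] at clc
    revert clc
    decide
  have hj1 : (j : G) ≠ 1 := by
    intro h1
    have : j = 1 := Subtype.ext h1
    rw [this, map_one, (cl_eq_zero 1).2 rfl] at clj
    revert clj
    decide
  have hcc : ua * c = c * ua := by
    apply ε.injective
    rw [map_mul, map_mul, eua, ec]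
    exact Subtype.ext r3
  have hjc : ub * j = j * ub := by
    apply ε.injective
    rw [map_mul, map_mul, eub, ej]
    exact Subtype.ext r4
  have hc3 : c * c * c = 1 := by
    apply ε.injective
    rw [map_mul, map_mul, ec, map_one]
    exact Subtype.ext r5
  have hj3 : j * j * j = 1 := by
    apply ε.injective
    rw [map_mul, map_mul, ej, map_one]
    exact Subtype.ext r6
  let C : Subgroup G := Subgroup.centralizer ({(ub : G)} : Set G)
  let e : C := ⟨j, by
    rw [Subgroup.mem_centralizer_singleton_iff]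
    exact (congrArg Subtype.val hjc).symm⟩
  let x : C := ⟨g * c * g⁻¹, by
    rw [Subgroup.mem_centralizer_singleton_iff, ← hg]
    have h1 : (ua : G) * c = c * ua := congrArg Subtype.val hcc
    calc g * c * g⁻¹ * (g * ua * g⁻¹) = g * (c * ua) * g⁻¹ := by group
      _ = g * (ua * c) * g⁻¹ := by rw [h1]
      _ = g * ua * g⁻¹ * (g * c * g⁻¹) := by group⟩
  have hoe : orderOf e = 3 := by
    refine orderOf_eq_prime (Subtype.ext ?_) (fun h1 => hj1 (congrArg Subtype.val h1))
    change (j : G) ^ 3 = 1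
    rw [pow_succ, pow_two]
    exact congrArg Subtype.val hj3
  have hox : orderOf x = 3 := by
    refine orderOf_eq_prime (Subtype.ext ?_) (fun h1 => ?_)
    · change (g * c * g⁻¹) ^ 3 = 1
      have h1 : (c : G) ^ 3 = 1 := by
        rw [pow_succ, pow_two]
        exact congrArg Subtype.val hc3
      rw [conj_pow, h1]
      group
    · have h2 : g * c * g⁻¹ = 1 := congrArg Subtype.val h1
      rw [conj_eq_one_iff] at h2
      exact hc1 h2
  have h9 : ¬ 3 ^ 2 ∣ Nat.card C := by
    intro h9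
    have hP : Nat.card (Subgroup.zpowers e) = 3 ^ 1 := by rw [Nat.card_zpowers, hoe, pow_one]
    have h1 := Sylow.card_normalizer_modEq_card (p := 3) (n := 1) (H := Subgroup.zpowers e) hP
    have h2 := card_normalizer_dvd (C := C) (e := e) (Q := (Subgroup.centralizer ({ub} : Set H)).map H.subtype) (by
      intro z hz
      have hz1 : z * e * z⁻¹ ∈ Subgroup.zpowers e :=
        (Subgroup.mem_normalizer_iff.1 hz e).1 (Subgroup.mem_zpowers e)
      obtain ⟨m, hm⟩ := Subgroup.mem_zpowers_iff.1 hz1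
      have hm' : (j : G) ^ m = (z : G) * j * (z : G)⁻¹ := congrArg Subtype.val hm
      have hzH : (z : G) ∈ H := h.fus hjJ hj1 (by rw [← hm']; exact J.zpow_mem hjJ m)
      refine ⟨⟨z, hzH⟩, ?_, rfl⟩
      have hzC := Subgroup.mem_centralizer_singleton_iff.1 z.2
      exact Subgroup.mem_centralizer_singleton_iff.2 (Subtype.ext hzC))
    have h3 : Nat.card ((Subgroup.centralizer ({ub} : Set H)).map H.subtype) = 12 := by
      rw [Nat.card_congr (Subgroup.equivMapOfInjective _ H.subtype H.subtype_injective).toEquiv.symm,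
        ← card_cent_equiv ε, eub, card_cent (k := 2) (by decide)]
      rfl
    rw [h3] at h2
    have h4 : 9 ∣ Nat.card (Subgroup.normalizer ((Subgroup.zpowers e : Subgroup C) : Set C)) := by
      have h5 : Nat.card (Subgroup.normalizer ((Subgroup.zpowers e : Subgroup C) : Set C)) % 9 = Nat.card C % 9 := h1
      omega
    have h5 := h4.trans h2
    norm_num at h5
  obtain ⟨y, n, hn0, hn3, hy⟩ := SylowPrime.exists_conj h9 hox hoe
  have hy' : (y : G) * (g * c * g⁻¹) * (y : G)⁻¹ = (j : G) ^ n := congrArg Subtype.val hy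
  have hy2 : ((y : G) * g) * c * ((y : G) * g)⁻¹ = ((j ^ n : H) : G) := by
    rw [Subgroup.coe_pow, ← hy']
    group
  have hyH : (y : G) * g ∈ H := h.fus hcJ hc1 (by rw [hy2, Subgroup.coe_pow]; exact J.pow_mem hjJ n)
  have h6 := cl_conj_H (ε := ε) hyH hy2
  rw [clc] at h6
  have hn : n = 1 ∨ n = 2 := by omega
  rcases hn with rfl | rfl
  · rw [pow_one, clj] at h6
    revert h6
    decide
  · have h7 : j ^ 2 = j⁻¹ := by
      rw [pow_two]
      exact eq_inv_of_mul_eq_one_left hj3
    rw [h7, map_inv, cl_inv, clj] at h6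
    revert h6
    decide

/-- the conclusion -/
theorem Hyp.top (hJ : J = (jS.comap ε.toMonoidHom).map H.subtype) : H = ⊤ := by
  classical
  let _i1 := Fintype.ofFinite G
  let _i2 := Fintype.ofFinite H
  have hua : cl (ε (ε.symm (repM 1))) = 1 := by rw [ε.apply_symm_apply]; exact (cl_rep 1).1
  have hub : cl (ε (ε.symm (repM 2))) = 2 := by rw [ε.apply_symm_apply]; exact (cl_rep 2).1
  have sqa : ε.symm (repM 1) * ε.symm (repM 1) = 1 := by
    rw [← map_mul, show repM 1 * repM 1 = 1 from Subtype.ext rep_facts.1, map_one]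
  have sqb : ε.symm (repM 2) * ε.symm (repM 2) = 1 := by
    rw [← map_mul, show repM 2 * repM 2 = 1 from Subtype.ext rep_facts.2.1, map_one]
  let I : H → Finset G := fun u => Finset.univ.filter fun x => ∃ g : G, g * (u : G) * g⁻¹ = x
  have hI : ∀ u : H, u * u = 1 → InvSet (I u) := by
    intro u hu
    refine ⟨?_, ?_⟩
    · intro g x hx
      obtain ⟨k, hk⟩ := (Finset.mem_filter.1 hx).2
      refine Finset.mem_filter.2 ⟨Finset.mem_univ _, g * k, ?_⟩
      rw [← hk]
      group
    · intro x hx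
      obtain ⟨k, hk⟩ := (Finset.mem_filter.1 hx).2
      have hu' : (u : G) * u = 1 := congrArg Subtype.val hu
      rw [← hk]
      calc k * u * k⁻¹ * (k * u * k⁻¹) = k * (u * u) * k⁻¹ := by group
        _ = 1 := by rw [hu']; group
  have hcl : ∀ (u x : H), u * u = 1 → cl (ε u) ≠ 0 → (x : G) ∈ I u → cl (ε x) = 1 ∨ cl (ε x) = 2 := by
    intro u x hu hu0 hx
    have h1 : x * x = 1 := Subtype.ext ((hI u hu).sq _ hx)
    have h2 : cl (((ε x : M) : W) * ((ε x : M) : W)) = 0 := by
      rw [← Subgroup.coe_mul, ← map_mul, h1, map_one]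
      exact (cl_eq_zero 1).2 rfl
    have h3 : cl (ε x) ≠ 0 := by
      intro h3
      rw [cl_eq_zero, map_eq_one_iff ε ε.injective] at h3
      obtain ⟨k, hk⟩ := (Finset.mem_filter.1 hx).2
      rw [h3, Subgroup.coe_one, conj_eq_one_iff] at hk
      have h4 : u = 1 := Subtype.ext hk
      exact hu0 (by rw [h4, map_one]; exact (cl_eq_zero 1).2 rfl)
    generalize ε x = m at h2 h3
    have h4 := (sq_fact m.1.a m.1.b m.1.c m.1.p (par_coe m)).1 h2
    change cl (m : W) = 0 ∨ cl (m : W) = 1 ∨ cl (m : W) = 2 at h4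
    tauto
  have ha : ∀ x : H, (x : G) ∈ I (ε.symm (repM 1)) ↔ cl (ε x) = 1 := by
    intro x
    constructor
    · intro hx
      rcases hcl _ x sqa (by rw [hua]; decide) hx with h1 | h1
      · exact h1
      · exfalso
        obtain ⟨k, hk⟩ := (Finset.mem_filter.1 hx).2
        obtain ⟨l, -, hl⟩ := conj_H (k := 2) (by decide) h1 hub
        refine h.nofus (l * k) ?_
        rw [← hl, ← hk]
        group
    · intro hx
      obtain ⟨l, -, hl⟩ := conj_H (k := 1) (by decide) hua hx
      exact Finset.mem_filter.2 ⟨Finset.mem_univ _, l, hl⟩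
  have hb : ∀ x : H, (x : G) ∈ I (ε.symm (repM 2)) ↔ cl (ε x) = 2 := by
    intro x
    constructor
    · intro hx
      rcases hcl _ x sqb (by rw [hub]; decide) hx with h1 | h1
      · exfalso
        obtain ⟨k, hk⟩ := (Finset.mem_filter.1 hx).2
        obtain ⟨l, -, hl⟩ := conj_H (k := 1) (by decide) h1 hua
        refine h.nofus ((l * k)⁻¹) ?_
        rw [← hl, ← hk]
        group
      · exact h1
    · intro hx
      obtain ⟨l, -, hl⟩ := conj_H (k := 2) (by decide) hub hx
      exact Finset.mem_filter.2 ⟨Finset.mem_univ _, l, hl⟩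
  obtain ⟨χ, hχ1, hχ⟩ := exists_char H ε _ h.ti (fun x hx => ⟨x.2, hx⟩) _ _ (hI _ sqa) (hI _ sqb) ha hb
  have hχc := isCharacter_of_isIrr χ.2
  -- the kernel
  have hker : ∀ g ∈ H, g ∈ kerSub (χ : G → ℂ) hχc ↔ g ∈ J := by
    intro g hg
    rw [mem_kerSub, hχ1, show g ∈ J ↔ _ from h.mem ⟨g, hg⟩, inJ_iff']
    have key4 : ∀ k : Fin 14, X4 k = 3 ↔ (k = 0 ∨ k = 3 ∨ k = 4 ∨ k = 5) := by decide +kernel
    have key5 : ∀ k : Fin 14, X5 k = 3 ↔ (k = 0 ∨ k = 3 ∨ k = 4 ∨ k = 5) := by decide +kernel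
    have h3 : (3 : ℂ) = φ 3 := (map_ofNat φ 3).symm
    rcases hχ with hχ | hχ
    · rw [← key4, show (χ : G → ℂ) g = _ from hχ ⟨g, hg⟩, h3]
      exact φ_injective.eq_iff
    · rw [← key5, show (χ : G → ℂ) g = _ from hχ ⟨g, hg⟩, h3]
      exact φ_injective.eq_iff
  have hKn : (kerSub (χ : G → ℂ) hχc).Normal := inferInstance
  have hcomm : ∀ a ∈ J, ∀ b ∈ J, a * b = b * a := by
    intro a ha b hb
    have h1 := inJ_comm ((h.mem ⟨a, h.le ha⟩).1 ha) ((h.mem ⟨b, h.le hb⟩).1 hb)
    have h2 : ε ⟨a, h.le ha⟩ * ε ⟨b, h.le hb⟩ = ε ⟨b, h.le hb⟩ * ε ⟨a, h.le ha⟩ := Subtype.ext h1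
    rw [← map_mul, ← map_mul] at h2
    exact congrArg Subtype.val (ε.injective h2)
  have hcube : ∀ t ∈ J, t ^ 3 = 1 := by
    intro t ht
    have h1 := inJ_cube ((h.mem ⟨t, h.le ht⟩).1 ht)
    have h2 : (ε ⟨t, h.le ht⟩) ^ 3 = 1 := Subtype.ext h1
    rw [← map_pow, map_eq_one_iff ε ε.injective] at h2
    exact congrArg Subtype.val h2
  have hcard : Nat.card J = 27 := by
    rw [hJ, Nat.card_congr (Subgroup.equivMapOfInjective _ H.subtype H.subtype_injective).toEquiv.symm, ← card_jS]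
    exact Nat.card_congr (ε.toEquiv.subtypeEquiv fun x => Iff.rfl)
  have hN : Subgroup.normalizer (J : Set G) = H := by
    apply le_antisymm
    · intro g hg
      obtain ⟨j, hj⟩ : ∃ j : J, j ≠ 1 := by
        by_contra hcon
        push Not at hcon
        have : Subsingleton J := ⟨fun a b => by rw [hcon a, hcon b]⟩
        have h1 := Nat.card_of_subsingleton (1 : J)
        omega
      refine h.fus j.2 (fun h1 => hj (Subtype.ext h1)) ?_
      exact (Subgroup.mem_normalizer_iff.1 hg j).1 j.2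
    · intro g hg
      rw [Subgroup.mem_normalizer_iff]
      have key : ∀ g ∈ H, ∀ x ∈ J, g * x * g⁻¹ ∈ J := fun g hg x hx =>
        h.sc x hx g (H.mul_mem (H.mul_mem hg (h.le hx)) (H.inv_mem hg))
      intro x
      refine ⟨key g hg x, fun hx => ?_⟩
      have h1 := key g⁻¹ (H.inv_mem hg) _ hx
      have e : g⁻¹ * (g * x * g⁻¹) * g⁻¹⁻¹ = x := by group
      rwa [e] at h1
  exact Kernel27.finish H J (kerSub (χ : G → ℂ) hχc) hKn h.le hcard hN h.hC hcomm hcube hker

end

end H64.M648
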