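import Cfsg.Agent.Lib.H64.M648K
import Cfsg.Agent.Lib.H64.M648B
import Cfsg.Prelude.Def_TwoFusion

set_option autoImplicit false

/-! The subgroup `O_3` of the model of order 648 and the final form of the theorem. -/

namespace H64.M648

open Cfsg

theorem pw9_eq (m : W) : pw9 m = m ^ 9 := by
  unfold pw9
  simp only [pow_succ, pow_zero, one_mul, mul_assoc]

theorem pow36 (m : M) : m ^ 36 = 1 := by
  have h := pow_exp m.1.a m.1.b m.1.c m.1.p (par_coe m)
  change pw9 (((m : W) * m) * ((m : W) * m)) = 1 at h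
  rw [pw9_eq] at h
  refine Subtype.ext ?_
  rw [Subgroup.coe_pow, Subgroup.coe_one, ← h]
  generalize (m : W) = x
  have e : x * x * (x * x) = x ^ 4 := by simp only [pow_succ, pow_zero, one_mul, mul_assoc]
  rw [e, ← pow_mul]

theorem pow9 {m : M} {k : ℕ} (hk : m ^ 3 ^ k = 1) : m ^ 9 = 1 := by
  have h1 : orderOf m ∣ 3 ^ k := orderOf_dvd_of_pow_eq_one hk
  have h2 : orderOf m ∣ 4 * 9 := orderOf_dvd_of_pow_eq_one (pow36 m)
  have h3 : Nat.Coprime (orderOf m) 4 := Nat.Coprime.coprime_dvd_left h1 (Nat.Coprime.pow_left k (by norm_num))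
  exact orderOf_dvd_iff_pow_eq_one.1 (h3.dvd_of_dvd_mul_left h2)

theorem pCore_eq {H : Type*} [Group H] (ε : H ≃* M) : Cfsg.pCore 3 H = jS.comap ε.toMonoidHom := by
  apply le_antisymm
  · refine sSup_le ?_
    rintro N ⟨hN, hp⟩ x hx
    change inJ ((ε x : M) : W)
    have key : ∀ y ∈ N, (ε y) ^ 9 = 1 := by
      intro y hy
      obtain ⟨k, hk⟩ := hp ⟨y, hy⟩
      refine pow9 (k := k) ?_
      rw [← map_pow]
      have : y ^ 3 ^ k = 1 := congrArg Subtype.val hk
      rw [this, map_one]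
    by_contra hne
    have h1 : pw9 ((ε x : M) : W) = 1 := by
      rw [pw9_eq, ← Subgroup.coe_pow, key x hx]
      rfl
    have h2 := comm_fact (ε x).1.a (ε x).1.b (ε x).1.c (ε x).1.p (par_coe _) h1 hne
    change pw9 (rep 1 * ((ε x : M) : W) * rep 1 * ((ε x : M) : W)⁻¹) ≠ 1 at h2
    apply h2
    have h3 : ε.symm (repM 1) * x * (ε.symm (repM 1))⁻¹ * x⁻¹ ∈ N :=
      N.mul_mem (hN.conj_mem x hx _) (N.inv_mem hx)
    have h4 := key _ h3
    have h5 : (repM 1)⁻¹ = repM 1 := inv_eq_of_mul_eq_one_right (Subtype.ext rep_facts.1)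
    rw [map_mul, map_mul, map_mul, map_inv, map_inv, ε.apply_symm_apply, h5] at h4
    rw [pw9_eq]
    exact congrArg Subtype.val h4
  · refine le_sSup ⟨⟨fun x hx g => ?_⟩, ?_⟩
    · change inJ ((ε (g * x * g⁻¹) : M) : W)
      rw [map_mul, map_mul, map_inv, inJ_iff', cl_conj, ← inJ_iff']
      exact hx
    · intro x
      refine ⟨1, Subtype.ext ?_⟩
      have h1 : inJ ((ε x : M) : W) := x.2
      have h2 := inJ_cube h1
      have h3 : (ε (x : H)) ^ 3 = 1 := Subtype.ext h2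
      rw [← map_pow, map_eq_one_iff ε ε.injective] at h3
      rw [pow_one]
      exact h3

theorem main {G : Type*} [Group G] [Finite G] (H : Subgroup G) (ε : H ≃* M)
    (J : Subgroup G) (hJ : J = (Cfsg.pCore 3 ↥H).map H.subtype)
    (hC : ∀ j ∈ J, j ≠ 1 → Subgroup.centralizer ({j} : Set G) ≤ H) (hsc : Cfsg.IsStronglyClosed J H) : H = ⊤ := by
  rw [pCore_eq ε] at hJ
  refine Hyp.top (ε := ε) (J := J) ⟨hsc.1, ?_, hC, hsc.2⟩ hJ
  intro x
  rw [hJ]
  constructor
  · rintro ⟨y, hy, hyx⟩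
    have : y = x := Subtype.ext hyx
    subst this
    exact hy
  · intro hx
    exact ⟨x, hx, rfl⟩

end H64.M648
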