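import Mathlib
import Cfsg.Agent.Lib.H64.SLTwoEven
set_option autoImplicit false

open scoped MatrixGroups
namespace H64.SLTwoSmall
open Matrix

/-- Cayley–Hamilton for `SL₂`. -/
theorem sq_eq {F : Type*} [Field F] (x : SL(2, F)) :
    ((x : Matrix (Fin 2) (Fin 2) F)) ^ 2 =
      (x : Matrix (Fin 2) (Fin 2) F).trace • (x : Matrix (Fin 2) (Fin 2) F) - 1 := by
  have hd : (x : Matrix (Fin 2) (Fin 2) F).det = 1 := x.2
  rw [Matrix.det_fin_two] at hd
  rw [pow_two]
  ext i j
  rw [Matrix.mul_apply, Fin.sum_univ_two, Matrix.trace_fin_two]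
  fin_cases i <;> fin_cases j <;>
    simp only [Fin.zero_eta, Fin.mk_one, Fin.isValue, Matrix.sub_apply, Matrix.smul_apply,
      smul_eq_mul, Matrix.one_apply_eq, ne_eq, zero_ne_one,
      not_false_eq_true, Matrix.one_apply_ne, one_ne_zero]
  · linear_combination -hd
  · ring
  · ring
  · linear_combination -hd

/-- The powers of an element of `SL₂` in terms of its trace. -/
theorem pow_succ_eq {F : Type*} [Field F] (x : SL(2, F)) (n : ℕ) (a b : F)
    (h : ((x : Matrix (Fin 2) (Fin 2) F)) ^ n = a • (x : Matrix (Fin 2) (Fin 2) F) + b • 1) :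
    ((x : Matrix (Fin 2) (Fin 2) F)) ^ (n + 1) =
      (a * (x : Matrix (Fin 2) (Fin 2) F).trace + b) • (x : Matrix (Fin 2) (Fin 2) F) + (-a) • 1 := by
  rw [pow_succ, h, Matrix.add_mul, Matrix.smul_mul, ← pow_two, sq_eq, Matrix.smul_mul, Matrix.one_mul]
  exact (by module)

theorem sl28_pow (F : Type*) [Field F] [CharP F 2] (x : SL(2, F)) 
    (ht : ((x : Matrix (Fin 2) (Fin 2) F).trace) ^ 8 = (x : Matrix (Fin 2) (Fin 2) F).trace) :
    x ^ 2 = 1 ∨ x ^ 7 = 1 ∨ x ^ 9 = 1 := by
  have h2 : (2 : F) = 0 := CharTwo.two_eq_zero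
  set t := (x : Matrix (Fin 2) (Fin 2) F).trace with htt
  have e1 : ((x : Matrix (Fin 2) (Fin 2) F)) ^ 1 = (1 : F) • (x : Matrix (Fin 2) (Fin 2) F) + (0 : F) • 1 := by
    rw [pow_one, one_smul, zero_smul, add_zero]
  have e2 := pow_succ_eq x 1 _ _ e1
  have e3 := pow_succ_eq x 2 _ _ e2
  have e4 := pow_succ_eq x 3 _ _ e3
  have e5 := pow_succ_eq x 4 _ _ e4
  have e6 := pow_succ_eq x 5 _ _ e5
  have e7 := pow_succ_eq x 6 _ _ e6
  have e8 := pow_succ_eq x 7 _ _ e7
  have e9 := pow_succ_eq x 8 _ _ e8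
  rw [← htt] at e2 e3 e4 e5 e6 e7 e8 e9
  have fin : ∀ n : ℕ, ∀ a b : F, ((x : Matrix (Fin 2) (Fin 2) F)) ^ n = a • (x : Matrix (Fin 2) (Fin 2) F) + b • 1 →
      a = 0 → b = 1 → x ^ n = 1 := by
    intro n a b h ha hb
    apply Subtype.ext
    rw [Matrix.SpecialLinearGroup.coe_pow, h, ha, hb, zero_smul, zero_add, one_smul]
    rfl
  have hf : t * (t + 1) * (t ^ 3 + t + 1) * (t ^ 3 + t ^ 2 + 1) = 0 := by
    linear_combination ht + (t^7 + t^6 + 2 * t^5 + 2 * t^4 + t^3 + t^2 + t) * h2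
  rcases mul_eq_zero.mp hf with h | h
  · rcases mul_eq_zero.mp h with h | h
    · rcases mul_eq_zero.mp h with h | h
      · left
        refine fin 2 _ _ e2 ?_ ?_
        · rw [h]; ring
        · linear_combination - h2
      · right; right
        have h' : t = 1 := by linear_combination h - h2
        refine fin 9 _ _ e9 ?_ ?_
        · rw [h']; ring
        · rw [h']; linear_combination - h2
    · right; right
      refine fin 9 _ _ e9 ?_ ?_
      · linear_combination (1 + t + t^2 + t^5) * h +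
          (-t - 6 * t^2 - t^3 + 7 * t^4 - t^5 - 4 * t^6) * h2
      · linear_combination (1 + t + t^2 + t^4) * h +
          (-1 + t - t^2 - 6 * t^3 - t^4 + 2 * t^5 - t^7) * h2
  · right; left
    refine fin 7 _ _ e7 ?_ ?_
    · linear_combination (1 + t^2 + t^3) * h + (-1 + 2 * t^2 - t^3 - 3 * t^4 - t^5) * h2
    · linear_combination (1 + t + t^2) * h + (-1 - 2 * t - t^2 + t^3 - t^4 - t^5) * h2

/-- Element orders of `PSL₂(7)`. -/
theorem psl27_pow (F : Type*) [Field F] [Fintype F] (hF : Fintype.card F = 7)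
    (y : Matrix.ProjectiveSpecialLinearGroup (Fin 2) F) :
    y ^ 2 = 1 ∨ y ^ 3 = 1 ∨ y ^ 4 = 1 ∨ y ^ 7 = 1 := by
  obtain ⟨x, rfl⟩ := QuotientGroup.mk_surjective y
  obtain ⟨e⟩ : Nonempty (ZMod 7 ≃+* F) := ⟨ZMod.ringEquivOfPrime F (by norm_num) hF⟩
  have h7 : (7 : F) = 0 := by
    have : e 7 = 0 := by rw [show (7 : ZMod 7) = 0 from by decide, map_zero]
    rw [← this, map_ofNat]
  set t := (x : Matrix (Fin 2) (Fin 2) F).trace with htt
  have ht : t = 0 ∨ t ^ 2 = 1 ∨ t ^ 2 = 4 ∨ t ^ 2 = 9 := by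
    obtain ⟨u, hu⟩ := e.surjective t
    have : ∀ u : ZMod 7, u = 0 ∨ u ^ 2 = 1 ∨ u ^ 2 = 4 ∨ u ^ 2 = 9 := by decide
    rw [← hu]
    rcases this u with h | h | h | h
    · left; rw [h, map_zero]
    · right; left; rw [← map_pow, h, map_one]
    · right; right; left; rw [← map_pow, h, map_ofNat]
    · right; right; right; rw [← map_pow, h, map_ofNat]
  have e1 : ((x : Matrix (Fin 2) (Fin 2) F)) ^ 1 = (1 : F) • (x : Matrix (Fin 2) (Fin 2) F) + (0 : F) • 1 := by
    rw [pow_one, one_smul, zero_smul, add_zero]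
  have e2 := pow_succ_eq x 1 _ _ e1
  have e3 := pow_succ_eq x 2 _ _ e2
  have e4 := pow_succ_eq x 3 _ _ e3
  have e5 := pow_succ_eq x 4 _ _ e4
  have e6 := pow_succ_eq x 5 _ _ e5
  have e7 := pow_succ_eq x 6 _ _ e6
  rw [← htt] at e2 e3 e4 e5 e6 e7
  have fin : ∀ n : ℕ, ∀ a b : F, ((x : Matrix (Fin 2) (Fin 2) F)) ^ n = a • (x : Matrix (Fin 2) (Fin 2) F) + b • 1 →
      a = 0 → b ^ 2 = 1 → ((x : Matrix.ProjectiveSpecialLinearGroup (Fin 2) F)) ^ n = 1 := by
    intro n a b h ha hb
    rw [← QuotientGroup.mk_pow, QuotientGroup.eq_one_iff, Matrix.SpecialLinearGroup.mem_center_iff]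
    refine ⟨b, by rw [Fintype.card_fin]; exact hb, ?_⟩
    rw [Matrix.SpecialLinearGroup.coe_pow, h, ha, zero_smul, zero_add, Matrix.scalar_apply,
      Matrix.smul_one_eq_diagonal]
  rcases ht with h | h | h | h
  · left
    refine fin 2 _ _ e2 ?_ ?_
    · rw [h]; ring
    · ring
  · right; left
    refine fin 3 _ _ e3 ?_ ?_
    · linear_combination h
    · linear_combination h
  · right; right; right
    refine fin 7 _ _ e7 ?_ ?_
    · linear_combination (t ^ 4 - t ^ 2 + 2) * h + h7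
    · have : (t ^ 2) ^ 1 = 4 := by rw [pow_one]; exact h
      linear_combination (t ^ 8 - 4 * t ^ 6 + 6 * t ^ 4 + 9) * h + 5 * h7
  · right; right; left
    refine fin 4 _ _ e4 ?_ ?_
    · linear_combination t * h + t * h7
    · linear_combination (t^2 + 7) * h + 9 * h7

theorem not_mul_dvd_prime_pow {r s q k : ℕ} (hr : r.Prime) (hs : s.Prime) (hrs : r ≠ s)
    (hq : q.Prime) : ¬ r * s ∣ q ^ k := by
  intro h
  have h1 : r ∣ q ^ k := dvd_trans (Dvd.intro _ rfl) h
  have h2 : s ∣ q ^ k := dvd_trans (Dvd.intro_left _ rfl) h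
  have h3 := (Nat.prime_dvd_prime_iff_eq hr hq).mp (hr.dvd_of_dvd_pow h1)
  have h4 := (Nat.prime_dvd_prime_iff_eq hs hq).mp (hs.dvd_of_dvd_pow h2)
  exact hrs (h3.trans h4.symm)

theorem psl27_no_edge (F : Type*) [Field F] [Fintype F] (hF : Fintype.card F = 7)
    {r s : ℕ} (hr : r.Prime) (hs : s.Prime) (hrs : r ≠ s) :
    ¬ ∃ y : Matrix.ProjectiveSpecialLinearGroup (Fin 2) F, orderOf y = r * s := by
  rintro ⟨y, hy⟩
  rcases psl27_pow F hF y with h | h | h | h
  · exact not_mul_dvd_prime_pow hr hs hrs Nat.prime_two (k := 1)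
      (by rw [← hy]; exact orderOf_dvd_of_pow_eq_one h)
  · exact not_mul_dvd_prime_pow hr hs hrs Nat.prime_three (k := 1)
      (by rw [← hy]; exact orderOf_dvd_of_pow_eq_one h)
  · exact not_mul_dvd_prime_pow hr hs hrs Nat.prime_two (k := 2)
      (by rw [← hy]; exact orderOf_dvd_of_pow_eq_one h)
  · exact not_mul_dvd_prime_pow hr hs hrs (by norm_num : Nat.Prime 7) (k := 1)
      (by rw [← hy]; exact orderOf_dvd_of_pow_eq_one h)

theorem sl28_pow' (F : Type*) [Field F] [Fintype F] [CharP F 2] (hF : Fintype.card F = 8)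
    (x : SL(2, F)) : x ^ 2 = 1 ∨ x ^ 7 = 1 ∨ x ^ 9 = 1 := by
  apply sl28_pow
  have := FiniteField.pow_card ((x : Matrix (Fin 2) (Fin 2) F).trace)
  rwa [hF] at this

theorem sl28_no_edge (F : Type*) [Field F] [Fintype F] [CharP F 2] (hF : Fintype.card F = 8)
    {r s : ℕ} (hr : r.Prime) (hs : s.Prime) (hrs : r ≠ s) :
    ¬ ∃ y : SL(2, F), orderOf y = r * s := by
  rintro ⟨y, hy⟩
  rcases sl28_pow' F hF y with h | h | h
  · exact not_mul_dvd_prime_pow hr hs hrs Nat.prime_two (k := 1)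
      (by rw [← hy]; exact orderOf_dvd_of_pow_eq_one h)
  · exact not_mul_dvd_prime_pow hr hs hrs (by norm_num : Nat.Prime 7) (k := 1)
      (by rw [← hy]; exact orderOf_dvd_of_pow_eq_one h)
  · exact not_mul_dvd_prime_pow hr hs hrs Nat.prime_three (k := 2)
      (by rw [← hy]; exact orderOf_dvd_of_pow_eq_one h)

theorem dvd_card_of_pow {G : Type*} [Group G] {p : ℕ} (hp : p.Prime) (x : G) (hx : x ^ p = 1)
    (hx1 : x ≠ 1) : p ∣ Nat.card G := by
  have : Fact p.Prime := ⟨hp⟩
  have h := orderOf_dvd_natCard x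
  rwa [orderOf_eq_prime hx hx1] at h

theorem not_mem_center {F : Type*} [Field F] (x : SL(2, F))
    (h : (x : Matrix (Fin 2) (Fin 2) F) 0 1 ≠ 0) : x ∉ Subgroup.center SL(2, F) := by
  rw [Matrix.SpecialLinearGroup.mem_center_iff]
  rintro ⟨r, -, hr⟩
  apply h
  rw [← hr]
  simp

/-- An element of `SL₂` with given entries. -/
def mk {F : Type*} [Field F] (a b c d : F) (h : a * d - b * c = 1) : SL(2, F) :=
  ⟨!![a, b; c, d], by rw [Matrix.det_fin_two]; exact h⟩

theorem mk_coe {F : Type*} [Field F] (a b c d : F) (h : a * d - b * c = 1) :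
    (mk a b c d h : Matrix (Fin 2) (Fin 2) F) = !![a, b; c, d] := rfl

theorem mk_pow_coe {F : Type*} [Field F] (a b c d : F) (h : a * d - b * c = 1) (n : ℕ) :
    ((mk a b c d h ^ n : SL(2, F)) : Matrix (Fin 2) (Fin 2) F) = !![a, b; c, d] ^ n := rfl

theorem psl27_primes (F : Type*) [Field F] [Fintype F] (hF : Fintype.card F = 7)
    (r : ℕ) (hr : r.Prime) :
    r ∣ Nat.card (Matrix.ProjectiveSpecialLinearGroup (Fin 2) F) ↔ (r = 2 ∨ r = 3 ∨ r = 7) := by
  have : Fact r.Prime := ⟨hr⟩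
  constructor
  · intro h
    obtain ⟨y, hy⟩ := exists_prime_orderOf_dvd_card' r h
    rcases psl27_pow F hF y with h | h | h | h
    · left
      exact (Nat.prime_dvd_prime_iff_eq hr Nat.prime_two).mp
        (by rw [← hy]; exact orderOf_dvd_of_pow_eq_one h)
    · right; left
      exact (Nat.prime_dvd_prime_iff_eq hr Nat.prime_three).mp
        (by rw [← hy]; exact orderOf_dvd_of_pow_eq_one h)
    · left
      have h4 : r ∣ 2 ^ 2 := by rw [← hy]; exact orderOf_dvd_of_pow_eq_one h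
      exact (Nat.prime_dvd_prime_iff_eq hr Nat.prime_two).mp (hr.dvd_of_dvd_pow h4)
    · right; right
      exact (Nat.prime_dvd_prime_iff_eq hr (by norm_num)).mp
        (by rw [← hy]; exact orderOf_dvd_of_pow_eq_one h)
  · obtain ⟨e⟩ : Nonempty (ZMod 7 ≃+* F) := ⟨ZMod.ringEquivOfPrime F (by norm_num) hF⟩
    have h7 : (7 : F) = 0 := by
      have : e 7 = 0 := by rw [show (7 : ZMod 7) = 0 from by decide, map_zero]
      rw [← this, map_ofNat]
    have key : ∀ (n : ℕ) (x : SL(2, F)), n.Prime → (x : Matrix (Fin 2) (Fin 2) F) 0 1 ≠ 0 →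
        x ^ n ∈ Subgroup.center SL(2, F) →
        n ∣ Nat.card (Matrix.ProjectiveSpecialLinearGroup (Fin 2) F) := by
      intro n x hn h0 hx
      apply dvd_card_of_pow hn (QuotientGroup.mk x)
      · rw [← QuotientGroup.mk_pow, QuotientGroup.eq_one_iff]
        exact hx
      · rw [Ne, QuotientGroup.eq_one_iff]
        exact not_mem_center x h0
    rintro (rfl | rfl | rfl)
    · refine key 2 (mk 0 1 (-1) 0 (by ring)) Nat.prime_two (by simp [mk_coe]) ?_
      rw [Matrix.SpecialLinearGroup.mem_center_iff]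
      refine ⟨-1, by simp, ?_⟩
      rw [mk_pow_coe]
      ext i j
      fin_cases i <;> fin_cases j <;> simp [pow_two]
    · refine key 3 (mk 1 1 (-1) 0 (by ring)) Nat.prime_three (by simp [mk_coe]) ?_
      rw [Matrix.SpecialLinearGroup.mem_center_iff]
      refine ⟨-1, by simp, ?_⟩
      rw [mk_pow_coe]
      ext i j
      fin_cases i <;> fin_cases j <;> simp [pow_succ]
    · refine key 7 (mk 1 1 0 1 (by ring)) (by norm_num) (by simp [mk_coe]) ?_
      rw [Matrix.SpecialLinearGroup.mem_center_iff]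
      refine ⟨1, by simp, ?_⟩
      rw [mk_pow_coe]
      ext i j
      fin_cases i <;> fin_cases j <;> simp [pow_succ]
      linear_combination -h7

theorem sl28_primes (F : Type*) [Field F] [Fintype F] [CharP F 2] (hF : Fintype.card F = 8)
    (r : ℕ) (hr : r.Prime) :
    r ∣ Nat.card SL(2, F) ↔ (r = 2 ∨ r = 3 ∨ r = 7) := by
  classical
  have : Fact r.Prime := ⟨hr⟩
  constructor
  · intro h
    obtain ⟨y, hy⟩ := exists_prime_orderOf_dvd_card' r h
    rcases sl28_pow' F hF y with h | h | h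
    · left
      exact (Nat.prime_dvd_prime_iff_eq hr Nat.prime_two).mp
        (by rw [← hy]; exact orderOf_dvd_of_pow_eq_one h)
    · right; right
      exact (Nat.prime_dvd_prime_iff_eq hr (by norm_num)).mp
        (by rw [← hy]; exact orderOf_dvd_of_pow_eq_one h)
    · right; left
      have h4 : r ∣ 3 ^ 2 := by rw [← hy]; exact orderOf_dvd_of_pow_eq_one h
      exact (Nat.prime_dvd_prime_iff_eq hr Nat.prime_three).mp (hr.dvd_of_dvd_pow h4)
  · have h2 : (2 : F) = 0 := CharTwo.two_eq_zero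
    rintro (rfl | rfl | rfl)
    · exact SLTwoEven.two_dvd_card F
    · apply dvd_card_of_pow Nat.prime_three (mk 0 1 (-1) 1 (by ring))
      · apply Subtype.ext
        rw [mk_pow_coe]
        ext i j
        fin_cases i <;> fin_cases j <;> simp [pow_succ] <;> linear_combination -h2
      · intro h
        have := congrArg (fun m : SL(2, F) => (m : Matrix (Fin 2) (Fin 2) F) 0 1) h
        simp [mk_coe] at this
    · -- a unit different from one
      obtain ⟨a, ha⟩ : ∃ a : Fˣ, a ≠ 1 := by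
        by_contra hcon
        push Not at hcon
        have h1 : Fintype.card Fˣ ≤ 1 := Fintype.card_le_one_iff.mpr
          (fun x y => (hcon x).trans (hcon y).symm)
        rw [Fintype.card_units, hF] at h1
        omega
      have ha7 : a ^ 7 = 1 := by
        have := pow_card_eq_one (x := a)
        rwa [Fintype.card_units, hF] at this
      have ha7' : (a : F) ^ 7 = 1 := by
        rw [← Units.val_pow_eq_pow_val, ha7, Units.val_one]
      have hd : !![(a : F), 0; 0, ((a⁻¹ : Fˣ) : F)] = Matrix.diagonal ![(a : F), ((a⁻¹ : Fˣ) : F)] := by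
        ext i j
        fin_cases i <;> fin_cases j <;> simp
      apply dvd_card_of_pow (by norm_num) (mk (a : F) 0 0 ((a⁻¹ : Fˣ) : F) (by simp))
      · apply Subtype.ext
        rw [mk_pow_coe]
        simp only [hd, Matrix.diagonal_pow]
        ext i j
        fin_cases i <;> fin_cases j <;> simp [ha7']
      · intro h
        have := congrArg (fun m : SL(2, F) => (m : Matrix (Fin 2) (Fin 2) F) 0 0) h
        simp [mk_coe] at this
        exact ha this

/-- The group `SL₂(8)` has the prime graph of `PSL₂(7)`; the big groups are its extensions. -/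
theorem unbounded_psl27 (F : Type*) [Field F] [Fintype F] (hF : Fintype.card F = 7) (N : ℕ) :
    ∃ (H : Type) (_ : Group H) (_ : Finite H), N < Nat.card H ∧
      ((∀ r : ℕ, r.Prime → (r ∣ Nat.card (Matrix.ProjectiveSpecialLinearGroup (Fin 2) F) ↔ r ∣ Nat.card H)) ∧
      (∀ r s : ℕ, r.Prime → s.Prime → r ≠ s →
        ((∃ x : (Matrix.ProjectiveSpecialLinearGroup (Fin 2) F), orderOf x = r * s) ↔ (∃ y : H, orderOf y = r * s)))) := by
  let K := GaloisField 2 3
  let _ : Fintype K := Fintype.ofFinite K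
  have hK : Fintype.card K = 8 := by
    rw [← Nat.card_eq_fintype_card]
    exact GaloisField.card 2 3 (by norm_num)
  refine PrimeGraph.unbounded_rep (Matrix.ProjectiveSpecialLinearGroup (Fin 2) F) SL(2, K) K
    (Fin 2 → K)
    (SLTwoEven.matRep ((Units.coeHom (Matrix (Fin 2) (Fin 2) K)).comp Matrix.SpecialLinearGroup.toGL))
    2 Nat.prime_two ?_ ?_ ?_ ?_ N
  · intro r hr _
    rw [psl27_primes F hF r hr, sl28_primes K hK r hr]
  · rw [psl27_primes F hF 2 Nat.prime_two]
    exact Or.inl rfl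
  · intro r s hr hs _ _ hrs
    exact ⟨fun h => absurd h (psl27_no_edge F hF hr hs hrs),
      fun h => absurd h (sl28_no_edge K hK hr hs hrs)⟩
  · intro s hs hs2
    refine ⟨fun h => absurd h (psl27_no_edge F hF Nat.prime_two hs (Ne.symm hs2)), ?_⟩
    rintro (h | ⟨x, hx, v, hv, hxv⟩)
    · exact absurd h (sl28_no_edge K hK Nat.prime_two hs (Ne.symm hs2))
    · exfalso
      have h1 : x ^ 2 = 1 := SLTwoEven.sq_eq_one_of_fixed x v hv hxv
      have h2 := orderOf_dvd_of_pow_eq_one h1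
      rw [hx, Nat.prime_dvd_prime_iff_eq hs Nat.prime_two] at h2
      exact hs2 h2

end H64.SLTwoSmall
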