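import Mathlib
import Cfsg.Agent.Lib.H6.SympCard
import Cfsg.Agent.Lib.H6.SympPerfect
import Cfsg.Agent.Lib.H64.SylowPrime

set_option autoImplicit false

/-! Orders of elements of `PSp(6,3)`. -/

namespace H64.Sp63

open Matrix

abbrev I := Fin 3 ⊕ Fin 3
abbrev K := ZMod 3
abbrev Sp := symplecticGroup (Fin 3) K

instance : Fact (Nat.Prime 3) := ⟨Nat.prime_three⟩

def idx : I → ℕ := Sum.elim (fun i => i.1) (fun i => i.1 + 3)

def mat (l : List (List ℕ)) : Matrix I I K :=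
  Matrix.of fun i j => (((l.getD (idx i) []).getD (idx j) 0 : ℕ) : K)

def Y6 : Matrix I I K := mat [[2, 0, 0, 0, 0, 0], [0, 0, 0, 0, 1, 0], [1, 0, 2, 0, 0, 2], [2, 0, 1, 2, 0, 0], [0, 2, 0, 0, 1, 0], [0, 0, 1, 0, 0, 0]]
def Y10 : Matrix I I K := mat [[0, 0, 0, 2, 0, 2], [0, 2, 0, 0, 0, 0], [1, 0, 2, 0, 0, 0], [0, 0, 1, 0, 0, 0], [2, 2, 1, 0, 2, 0], [1, 1, 2, 1, 0, 0]]
def Y14 : Matrix I I K := mat [[1, 0, 0, 0, 2, 0], [0, 0, 2, 0, 0, 0], [1, 2, 0, 1, 1, 0], [1, 0, 0, 1, 0, 0], [0, 0, 2, 0, 0, 2], [0, 0, 0, 0, 2, 0]]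
def Y15 : Matrix I I K := mat [[0, 1, 0, 0, 1, 0], [1, 0, 0, 0, 0, 0], [0, 2, 1, 0, 2, 1], [0, 0, 2, 0, 1, 0], [2, 0, 0, 1, 0, 0], [0, 0, 2, 0, 0, 0]]

theorem Y6_mem : Y6 ∈ Sp := by
  rw [SymplecticGroup.mem_iff]; decide +kernel
theorem Y10_mem : Y10 ∈ Sp := by
  rw [SymplecticGroup.mem_iff]; decide +kernel
theorem Y14_mem : Y14 ∈ Sp := by
  rw [SymplecticGroup.mem_iff]; decide +kernel
theorem Y15_mem : Y15 ∈ Sp := by
  rw [SymplecticGroup.mem_iff]; decide +kernel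

theorem Y6_pow : Y6 ^ 6 = 1 ∨ Y6 ^ 6 = -1 := by decide +kernel
theorem Y10_pow : Y10 ^ 10 = 1 ∨ Y10 ^ 10 = -1 := by decide +kernel
theorem Y14_pow : Y14 ^ 14 = 1 ∨ Y14 ^ 14 = -1 := by decide +kernel
theorem Y15_pow : Y15 ^ 15 = 1 ∨ Y15 ^ 15 = -1 := by decide +kernel

/-! ### The quotient -/

abbrev L := Sp ⧸ Subgroup.center Sp

theorem card_Sp : Nat.card Sp = 9170703360 := by
  rw [H6.SympCard.card_symplecticGroup, Nat.card_zmod, Fintype.card_fin]
  decide

theorem mem_center {g : Sp} : g ∈ Subgroup.center Sp ↔ g.1 = 1 ∨ g.1 = -1 := by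
  rw [H6.SympPerfect.mem_center_iff]
  constructor
  · rintro ⟨c, hc, h⟩
    have h1 : g.1 = c • (1 : Matrix I I K) := by
      ext i j
      have := congrFun (h (Pi.single j 1)) i
      rw [Matrix.mulVec_single_one] at this
      rw [Matrix.smul_apply, Matrix.one_apply]
      simp only [Matrix.col_apply, Pi.smul_apply, Pi.single_apply] at this
      exact this
    have h2 : c = 1 ∨ c = -1 := (by decide : ∀ c : K, c ^ 2 = 1 → c = 1 ∨ c = -1) c hc
    rcases h2 with rfl | rfl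
    · left; rw [h1, one_smul]
    · right; rw [h1, neg_smul, one_smul]
  · rintro (h | h)
    · exact ⟨1, by norm_num, fun u => by rw [h, Matrix.one_mulVec, one_smul]⟩
    · exact ⟨-1, by norm_num, fun u => by rw [h, Matrix.neg_mulVec, Matrix.one_mulVec, neg_smul, one_smul]⟩

theorem card_center : Nat.card (Subgroup.center Sp) = 2 := by
  rw [H6.SympPerfect.card_center, ZMod.card]
  rfl

theorem card_L : Nat.card L = 4585351680 := by
  have h : Nat.card Sp = Nat.card L * Nat.card (Subgroup.center Sp) :=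
    Subgroup.card_eq_card_quotient_mul_card_subgroup (Subgroup.center Sp)
  have h2 : 9170703360 = Nat.card L * 2 := by rw [← card_center, ← h, card_Sp]
  omega

theorem coe_pow (g : Sp) (n : ℕ) : (g ^ n).1 = g.1 ^ n := by
  induction n with
  | zero => rfl
  | succ n ih => rw [pow_succ, pow_succ, ← ih]; rfl

theorem mk_pow_eq_one_iff (g : Sp) (n : ℕ) : (QuotientGroup.mk g : L) ^ n = 1 ↔
    g.1 ^ n = 1 ∨ g.1 ^ n = -1 := by
  rw [← QuotientGroup.mk_pow, QuotientGroup.eq_one_iff, mem_center, coe_pow]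

theorem exists_order {Y : Matrix I I K} (hY : Y ∈ Sp) (n : ℕ) (hn : 0 < n) (h1 : Y ^ n = 1 ∨ Y ^ n = -1)
    (h2 : ∀ q : ℕ, q.Prime → q ∣ n → ¬ (Y ^ (n / q) = 1 ∨ Y ^ (n / q) = -1)) : ∃ x : L, orderOf x = n := by
  refine ⟨QuotientGroup.mk (⟨Y, hY⟩ : Sp), orderOf_eq_of_pow_and_pow_div_prime hn ?_ ?_⟩
  · rw [mk_pow_eq_one_iff]; exact h1
  · intro q hq hqn
    rw [Ne, mk_pow_eq_one_iff]
    exact h2 q hq hqn

theorem exists6 : ∃ x : L, orderOf x = 6 := by
  refine exists_order Y6_mem 6 (by norm_num) Y6_pow ?_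
  intro q hq hqn
  have : q ≤ 6 := Nat.le_of_dvd (by norm_num) hqn
  interval_cases q <;> revert hqn hq <;> decide +kernel

theorem exists10 : ∃ x : L, orderOf x = 10 := by
  refine exists_order Y10_mem 10 (by norm_num) Y10_pow ?_
  intro q hq hqn
  have : q ≤ 10 := Nat.le_of_dvd (by norm_num) hqn
  interval_cases q <;> revert hqn hq <;> decide +kernel

theorem exists14 : ∃ x : L, orderOf x = 14 := by
  refine exists_order Y14_mem 14 (by norm_num) Y14_pow ?_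
  intro q hq hqn
  have : q ≤ 14 := Nat.le_of_dvd (by norm_num) hqn
  interval_cases q <;> revert hqn hq <;> decide +kernel

theorem exists15 : ∃ x : L, orderOf x = 15 := by
  refine exists_order Y15_mem 15 (by norm_num) Y15_pow ?_
  intro q hq hqn
  have : q ≤ 15 := Nat.le_of_dvd (by norm_num) hqn
  interval_cases q <;> revert hqn hq <;> decide +kernel

end H64.Sp63
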