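import Cfsg.Agent.Lib.H64.Sp63

set_option autoImplicit false

/-! Centralizers of elements of orders 7 and 13 in `Sp(6,3)`. -/

namespace H64.Sp63

open Matrix

theorem cyc {n : Type} [Fintype n] [DecidableEq n] {m : ℕ} (X : Matrix n n K) (j0 : n)
    (B : Matrix n (Fin m) K) (Bi : Matrix (Fin m) n K) (hB : B * Bi = 1)
    (hcol : ∀ i : Fin m, ∀ j, (X ^ i.1) j j0 = B j i) (z : Matrix n n K) (hz : z * X = X * z) :
    ∃ c : Fin m → K, z = ∑ i, c i • X ^ i.1 := by
  let c : Fin m → K := Bi *ᵥ (fun j => z j j0)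
  refine ⟨c, ?_⟩
  set z' := ∑ i, c i • X ^ i.1 with hz'
  have h1 : ∀ j, z' j j0 = z j j0 := by
    intro j
    rw [hz', Matrix.sum_apply]
    have : ∀ i : Fin m, (c i • X ^ i.1) j j0 = B j i * c i := by
      intro i
      rw [Matrix.smul_apply, hcol, smul_eq_mul, mul_comm]
    simp_rw [this]
    change (B *ᵥ c) j = _
    rw [show c = Bi *ᵥ (fun j => z j j0) from rfl, Matrix.mulVec_mulVec, hB, Matrix.one_mulVec]
  have hcz' : z' * X = X * z' := by
    rw [hz', Finset.sum_mul, Finset.mul_sum]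
    refine Finset.sum_congr rfl fun i _ => ?_
    rw [Matrix.smul_mul, Matrix.mul_smul, ← pow_succ, ← pow_succ']
  set d := z - z' with hd
  have h2 : d * X = X * d := by rw [hd, sub_mul, mul_sub, hz, hcz']
  have h3 : ∀ k : ℕ, d * X ^ k = X ^ k * d := by
    intro k
    exact ((show Commute d X from h2).pow_right k).eq
  have h4 : ∀ j, d j j0 = 0 := by
    intro j; rw [hd, Matrix.sub_apply, h1, sub_self]
  have h5 : d * B = 0 := by
    ext j i
    rw [Matrix.mul_apply]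
    have : ∀ k, d j k * B k i = d j k * (X ^ i.1) k j0 := by
      intro k; rw [hcol]
    simp_rw [this]
    rw [← Matrix.mul_apply, h3, Matrix.mul_apply]
    simp [h4]
  have h6 : d = 0 := by
    calc d = d * (B * Bi) := by rw [hB, mul_one]
      _ = (d * B) * Bi := by rw [Matrix.mul_assoc]
      _ = 0 := by rw [h5, Matrix.zero_mul]
  exact sub_eq_zero.1 h6

theorem sum_pow {n : Type} [Fintype n] [DecidableEq n] {m : ℕ} (X : Matrix n n K) (c : Fin m → K) :
    (∑ i, c i • X ^ i.1) ^ 27 = ∑ i, c i • X ^ (27 * i.1) := by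
  open Polynomial in
  let p : K[X] := ∑ i, Polynomial.C (c i) * Polynomial.X ^ i.1
  have h1 : ∀ Y : Matrix n n K, Polynomial.aeval Y p = ∑ i, c i • Y ^ i.1 := by
    intro Y
    rw [map_sum]
    refine Finset.sum_congr rfl fun i _ => ?_
    rw [map_mul, map_pow, Polynomial.aeval_X, Polynomial.aeval_C, Algebra.smul_def]
  have h2 : ∀ Y : Matrix n n K, (Polynomial.aeval Y p) ^ 3 = Polynomial.aeval (Y ^ 3) p := by
    intro Y
    rw [← map_pow, ← ZMod.expand_card, Polynomial.expand_aeval]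
  rw [← h1, show 27 = 3 * 3 * 3 from rfl, pow_mul, pow_mul, h2, h2, h2, h1]
  refine Finset.sum_congr rfl fun i _ => ?_
  rw [← pow_mul, ← pow_mul, ← pow_mul]
  congr 2
  ring

/-! ### Order 7 -/

def X7 : Matrix I I K := mat [[1, 2, 2, 2, 1, 1], [0, 0, 2, 2, 1, 2], [2, 2, 1, 2, 0, 1], [2, 2, 2, 2, 0, 2], [2, 1, 2, 1, 1, 2], [2, 0, 1, 1, 2, 0]]

def B7 : Matrix I (Fin 6) K := Matrix.of fun i j => ((([[1, 1, 1, 2, 2, 0], [0, 0, 2, 1, 1, 2], [0, 2, 1, 0, 1, 0], [0, 2, 2, 2, 1, 1], [0, 2, 2, 0, 1, 0], [0, 2, 1, 0, 0, 2]].getD (idx i) []).getD j.1 0 : ℕ) : K)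

def B7i : Matrix (Fin 6) I K := Matrix.of fun i j => ((([[1, 2, 2, 1, 2, 2], [0, 1, 0, 1, 1, 0], [0, 0, 2, 0, 1, 0], [0, 2, 2, 1, 1, 2], [0, 1, 2, 1, 0, 0], [0, 2, 2, 2, 0, 2]].getD i.1 []).getD (idx j) 0 : ℕ) : K)

theorem X7_mem : X7 ∈ Sp := by
  rw [SymplecticGroup.mem_iff]; decide +kernel

theorem X7_pow : X7 ^ 7 = 1 := by decide +kernel
theorem X7_ne : X7 ≠ 1 := by decide +kernel
theorem B7_mul : B7 * B7i = 1 := by decide +kernel
theorem B7_col : ∀ i : Fin 6, ∀ j, (X7 ^ i.1) j (Sum.inl 0) = B7 j i := by decide +kernel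

theorem coe_inv (g : Sp) : (g⁻¹).1 = -(J (Fin 3) K) * g.1ᵀ * J (Fin 3) K := rfl

theorem cent7 {z : Sp} (hz : z.1 * X7 = X7 * z.1) : z ^ 28 = 1 := by
  obtain ⟨c, hc⟩ := cyc X7 (Sum.inl 0) B7 B7i B7_mul B7_col z.1 hz
  set x : Sp := ⟨X7, X7_mem⟩
  have hx : x ^ 7 = 1 := by
    apply Subtype.ext; rw [coe_pow]; exact X7_pow
  have h1 : (z ^ 27).1 = ∑ i, c i • (x ^ (27 * i.1)).1 := by
    rw [coe_pow, hc, sum_pow]
    refine Finset.sum_congr rfl fun i _ => ?_
    rw [coe_pow]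
  have h2 : (z⁻¹).1 = ∑ i, c i • (x ^ i.1)⁻¹.1 := by
    rw [coe_inv, hc, Matrix.transpose_sum, Finset.mul_sum, Finset.sum_mul]
    refine Finset.sum_congr rfl fun i _ => ?_
    rw [coe_inv, coe_pow, Matrix.transpose_smul, Matrix.mul_smul, Matrix.smul_mul]
  have h3 : ∀ i : Fin 6, x ^ (27 * i.1) = (x ^ i.1)⁻¹ := by
    intro i
    rw [eq_inv_iff_mul_eq_one, ← pow_add, show 27 * i.1 + i.1 = 7 * (4 * i.1) by ring, pow_mul, hx, one_pow]
  have h4 : z ^ 27 = z⁻¹ := by
    apply Subtype.ext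
    rw [h1, h2]
    simp_rw [h3]
  rw [pow_succ, h4, inv_mul_cancel]

/-! ### Order 13 -/

def m3 (l : List (List ℕ)) : Matrix (Fin 3) (Fin 3) K :=
  Matrix.of fun i j => (((l.getD i.1 []).getD j.1 0 : ℕ) : K)

def A : Matrix (Fin 3) (Fin 3) K := m3 [[0, 0, 1], [0, 1, 1], [2, 1, 1]]
def D : Matrix (Fin 3) (Fin 3) K := m3 [[0, 2, 1], [1, 1, 0], [2, 0, 0]]
def X13 : Matrix I I K := Matrix.fromBlocks A 0 0 D

theorem X13_mem : X13 ∈ Sp := by
  rw [SymplecticGroup.mem_iff]; decide +kernel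
theorem X13_pow : X13 ^ 13 = 1 := by decide +kernel
theorem X13_ne : X13 ≠ 1 := by decide +kernel

theorem int_zero {P Q X C : Matrix (Fin 3) (Fin 3) K} (a b c : K) (h : P * X = X * Q)
    (hQ : Q ^ 3 + a • Q ^ 2 + b • Q + c • 1 = 0) (hP : C * (P ^ 3 + a • P ^ 2 + b • P + c • 1) = 1) :
    X = 0 := by
  have h2 : ∀ n : ℕ, P ^ n * X = X * Q ^ n := by
    intro n
    induction n with
    | zero => simp
    | succ n ih => rw [pow_succ, Matrix.mul_assoc, h, ← Matrix.mul_assoc, ih, Matrix.mul_assoc, ← pow_succ]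
  have h3 : (P ^ 3 + a • P ^ 2 + b • P + c • 1) * X = X * (Q ^ 3 + a • Q ^ 2 + b • Q + c • 1) := by
    simp only [Matrix.mul_add, Matrix.add_mul, h2, h, Matrix.mul_smul, Matrix.smul_mul, mul_one, one_mul]
  rw [hQ, mul_zero] at h3
  calc X = (C * (P ^ 3 + a • P ^ 2 + b • P + c • 1)) * X := by rw [hP, one_mul]
    _ = C * ((P ^ 3 + a • P ^ 2 + b • P + c • 1) * X) := by rw [Matrix.mul_assoc]
    _ = 0 := by rw [h3, mul_zero]

theorem A_pow (c : Fin 3 → K) : (∑ i, c i • A ^ i.1) ^ 13 = 0 ∨ (∑ i, c i • A ^ i.1) ^ 13 = 1 ∨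
    (∑ i, c i • A ^ i.1) ^ 13 = -1 := by
  revert c
  decide +kernel

def B3 : Matrix (Fin 3) (Fin 3) K := m3 [[1, 0, 2], [0, 0, 2], [0, 2, 2]]
def B3i : Matrix (Fin 3) (Fin 3) K := m3 [[1, 2, 0], [0, 1, 2], [0, 2, 0]]

theorem B3_mul : B3 * B3i = 1 := by decide +kernel
theorem B3_col : ∀ i : Fin 3, ∀ j, (A ^ i.1) j 0 = B3 j i := by decide +kernel

theorem cent13 {z : Sp} (hz : z.1 * X13 = X13 * z.1) : z.1 ^ 13 = 1 ∨ z.1 ^ 13 = -1 := by
  have hmem := SymplecticGroup.mem_iff.1 z.2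
  generalize z.1 = Z at hz hmem ⊢
  obtain ⟨P, Q, R, T, rfl⟩ : ∃ P Q R T, Z = Matrix.fromBlocks P Q R T :=
    ⟨Z.toBlocks₁₁, Z.toBlocks₁₂, Z.toBlocks₂₁, Z.toBlocks₂₂, (Matrix.fromBlocks_toBlocks Z).symm⟩
  unfold X13 at hz
  rw [Matrix.fromBlocks_multiply, Matrix.fromBlocks_multiply] at hz
  simp only [Matrix.mul_zero, Matrix.zero_mul, add_zero, zero_add] at hz
  rw [Matrix.fromBlocks_inj] at hz
  obtain ⟨hP, hQ, hR, hT⟩ := hz
  have hQ0 : Q = 0 := int_zero (P := A) (Q := D) (C := m3 [[0, 2, 0], [1, 1, 2], [0, 2, 2]]) 2 2 2 hQ.symm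
    (by decide +kernel) (by decide +kernel)
  have hR0 : R = 0 := int_zero (P := D) (Q := A) (C := m3 [[1, 2, 0], [1, 0, 1], [0, 1, 2]]) 1 1 2 hR.symm
    (by decide +kernel) (by decide +kernel)
  subst hQ0 hR0
  obtain ⟨c, hc⟩ := cyc A 0 B3 B3i B3_mul B3_col P hP
  have h1 := A_pow c
  rw [← hc] at h1
  have h2 : T * Pᵀ = 1 := by
    unfold Matrix.J at hmem
    rw [Matrix.fromBlocks_transpose, Matrix.fromBlocks_multiply, Matrix.fromBlocks_multiply] at hmem
    simp only [Matrix.mul_zero, Matrix.zero_mul, add_zero, zero_add, Matrix.transpose_zero, Matrix.mul_one,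
      Matrix.mul_neg, Matrix.neg_mul] at hmem
    rw [Matrix.fromBlocks_inj] at hmem
    exact hmem.2.2.1
  have h3 : Pᵀ * T = 1 := mul_eq_one_comm.1 h2
  have h4 : T ^ 13 * (P ^ 13)ᵀ = 1 := by
    rw [Matrix.transpose_pow, ← (show Commute T Pᵀ from h2.trans h3.symm).mul_pow, h2, one_pow]
  have h5 : ∀ n : ℕ, (Matrix.fromBlocks P 0 0 T) ^ n = Matrix.fromBlocks (P ^ n) 0 0 (T ^ n) := by
    intro n
    induction n with
    | zero => rw [pow_zero, pow_zero, pow_zero, Matrix.fromBlocks_one]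
    | succ n ih =>
      rw [pow_succ, ih, Matrix.fromBlocks_multiply, pow_succ, pow_succ]
      simp
  rw [h5]
  rcases h1 with h | h | h
  · rw [h, Matrix.transpose_zero, Matrix.mul_zero] at h4
    exact absurd (congrFun (congrFun h4 0) 0) (by decide)
  · left
    rw [h, Matrix.transpose_one, mul_one] at h4
    rw [h, h4, Matrix.fromBlocks_one]
  · right
    rw [h, Matrix.transpose_neg, Matrix.transpose_one, mul_neg, mul_one, neg_eq_iff_eq_neg] at h4
    rw [h, h4, ← Matrix.fromBlocks_one, Matrix.fromBlocks_neg, neg_zero]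

/-! ### In the quotient -/

theorem lift_commute {x z : Sp} {r : ℕ} (hr : Odd r) (hx : x ^ r = 1)
    (h : (QuotientGroup.mk z : L) * QuotientGroup.mk x = QuotientGroup.mk x * QuotientGroup.mk z) :
    z.1 * x.1 = x.1 * z.1 := by
  have h1 : (QuotientGroup.mk ((x * z)⁻¹ * (z * x)) : L) = 1 := by
    rw [QuotientGroup.mk_mul, QuotientGroup.mk_inv, QuotientGroup.mk_mul, QuotientGroup.mk_mul, h,
      inv_mul_cancel]
  rw [QuotientGroup.eq_one_iff] at h1
  have hc := h1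
  rw [mem_center] at h1
  set c := (x * z)⁻¹ * (z * x) with hcdef
  have h2 : z * x = x * z * c := by rw [hcdef]; group
  have hcomm : Commute (x : Sp) c := by
    rw [Subgroup.mem_center_iff] at hc
    exact hc x
  have hcz : Commute (z : Sp) c := by
    rw [Subgroup.mem_center_iff] at hc
    exact hc z
  have h3 : z * x * z⁻¹ = x * c := by
    rw [h2, mul_assoc x z c, hcz.eq]; group
  have h4 : c ^ r = 1 := by
    have : (z * x * z⁻¹) ^ r = 1 := by rw [conj_pow, hx]; group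
    rw [h3, hcomm.mul_pow, hx, one_mul] at this
    exact this
  have h5 : c = 1 := by
    rcases h1 with h1 | h1
    · exact Subtype.ext h1
    · exfalso
      have h6 : (c ^ r).1 = -1 := by rw [coe_pow, h1, hr.neg_one_pow]
      rw [h4] at h6
      have h7 : (1 : Matrix I I K) = -1 := h6
      revert h7
      decide +kernel
  rw [h5, mul_one] at h2
  exact congrArg Subtype.val h2

theorem order_e {X : Matrix I I K} (hX : X ∈ Sp) (p : ℕ) [Fact p.Prime] (hp : Odd p) (h1 : X ^ p = 1) (h2 : X ≠ 1) :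
    orderOf (QuotientGroup.mk (⟨X, hX⟩ : Sp) : L) = p := by
  apply orderOf_eq_prime
  · rw [mk_pow_eq_one_iff]; left; exact h1
  · intro h
    rw [QuotientGroup.eq_one_iff, mem_center] at h
    rcases h with h | h
    · exact h2 h
    · have h' : X = -1 := h
      rw [h', hp.neg_one_pow] at h1
      revert h1
      decide +kernel

theorem L_cent7 {x z : L} (hx : orderOf x = 7) (hz : z * x = x * z) : z ^ 28 = 1 := by
  have : Fact (Nat.Prime 7) := ⟨by norm_num⟩
  refine SylowPrime.pow_eq_one_of_commute (by rw [card_L]; norm_num) (order_e X7_mem 7 (by decide) X7_pow X7_ne) 28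
    ?_ hx hz
  intro w hw
  induction w using QuotientGroup.induction_on with
  | H w =>
    have h1 := lift_commute (x := ⟨X7, X7_mem⟩) (z := w) (r := 7) (by decide)
      (by apply Subtype.ext; rw [coe_pow]; exact X7_pow) hw
    have h2 := cent7 h1
    rw [← QuotientGroup.mk_pow, h2, QuotientGroup.mk_one]

theorem L_cent13 {x z : L} (hx : orderOf x = 13) (hz : z * x = x * z) : z ^ 13 = 1 := by
  have : Fact (Nat.Prime 13) := ⟨by norm_num⟩
  refine SylowPrime.pow_eq_one_of_commute (by rw [card_L]; norm_num) (order_e X13_mem 13 (by decide) X13_pow X13_ne) 13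
    ?_ hx hz
  intro w hw
  induction w using QuotientGroup.induction_on with
  | H w =>
    have h1 := lift_commute (x := ⟨X13, X13_mem⟩) (z := w) (r := 13) (by decide)
      (by apply Subtype.ext; rw [coe_pow]; exact X13_pow) hw
    have h2 := cent13 h1
    rw [mk_pow_eq_one_iff]
    exact h2

theorem primes {r : ℕ} (hr : r.Prime) (hr2 : r ≠ 2) (h : r ∣ 4585351680) : r = 3 ∨ r = 5 ∨ r = 7 ∨ r = 13 := by
  have h1 : (4585351680 : ℕ) = 2 ^ 9 * (3 ^ 9 * (5 * (7 * 13))) := by norm_num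
  rw [h1] at h
  rcases (Nat.Prime.dvd_mul hr).1 h with h | h
  · exact absurd ((Nat.prime_dvd_prime_iff_eq hr Nat.prime_two).1 (hr.dvd_of_dvd_pow h)) hr2
  rcases (Nat.Prime.dvd_mul hr).1 h with h | h
  · left; exact (Nat.prime_dvd_prime_iff_eq hr (by norm_num)).1 (hr.dvd_of_dvd_pow h)
  rcases (Nat.Prime.dvd_mul hr).1 h with h | h
  · right; left; exact (Nat.prime_dvd_prime_iff_eq hr (by norm_num)).1 h
  rcases (Nat.Prime.dvd_mul hr).1 h with h | h
  · right; right; left; exact (Nat.prime_dvd_prime_iff_eq hr (by norm_num)).1 h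
  · right; right; right; exact (Nat.prime_dvd_prime_iff_eq hr (by norm_num)).1 h

instance : Finite L := Nat.finite_of_card_ne_zero (by rw [card_L]; norm_num)

theorem no_mul {p m s : ℕ} (hpm : (p = 7 ∧ m = 28) ∨ (p = 13 ∧ m = 13)) (hs1 : 1 < s) (hs3 : ¬ p * s ∣ m) (x : L) :
    orderOf x ≠ p * s := by
  intro hx
  have hp0 : 0 < p := by omega
  have h3 : orderOf (x ^ s) = p := by
    rw [orderOf_pow_of_dvd (by omega) (by rw [hx]; exact ⟨p, by ring⟩), hx]
    exact Nat.mul_div_cancel p (by omega)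
  have h4 : x ^ m = 1 := by
    rcases hpm with ⟨rfl, rfl⟩ | ⟨rfl, rfl⟩
    · exact L_cent7 h3 (z := x) ((Commute.refl x).pow_right s).eq
    · exact L_cent13 h3 (z := x) ((Commute.refl x).pow_right s).eq
  have h5 := orderOf_dvd_of_pow_eq_one h4
  rw [hx] at h5
  exact hs3 h5

theorem L_orders {r s : ℕ} (hr : r.Prime) (hs : s.Prime) (hr2 : r ≠ 2) (hs2 : s ≠ 2) (hrs : r ≠ s) :
    (∃ x : L, orderOf x = r * s) ↔ (r = 3 ∧ s = 5) ∨ (r = 5 ∧ s = 3) := by
  constructor
  · rintro ⟨x, hx⟩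
    have hd : r * s ∣ 4585351680 := by rw [← card_L, ← hx]; exact orderOf_dvd_natCard x
    have h1 := primes hr hr2 (dvd_trans (Dvd.intro _ rfl) hd)
    have h2 := primes hs hs2 (dvd_trans (Dvd.intro_left _ rfl) hd)
    have hx' : orderOf x = s * r := by rw [hx, mul_comm]
    rcases h1 with rfl | rfl | rfl | rfl
    · rcases h2 with rfl | rfl | rfl | rfl
      · exact absurd rfl hrs
      · left; exact ⟨rfl, rfl⟩
      · exact absurd hx' (no_mul (Or.inl ⟨rfl, rfl⟩) (by norm_num) (by norm_num) x)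
      · exact absurd hx' (no_mul (Or.inr ⟨rfl, rfl⟩) (by norm_num) (by norm_num) x)
    · rcases h2 with rfl | rfl | rfl | rfl
      · right; exact ⟨rfl, rfl⟩
      · exact absurd rfl hrs
      · exact absurd hx' (no_mul (Or.inl ⟨rfl, rfl⟩) (by norm_num) (by norm_num) x)
      · exact absurd hx' (no_mul (Or.inr ⟨rfl, rfl⟩) (by norm_num) (by norm_num) x)
    · rcases h2 with rfl | rfl | rfl | rfl
      · exact absurd hx (no_mul (Or.inl ⟨rfl, rfl⟩) (by norm_num) (by norm_num) x)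
      · exact absurd hx (no_mul (Or.inl ⟨rfl, rfl⟩) (by norm_num) (by norm_num) x)
      · exact absurd rfl hrs
      · exact absurd hx (no_mul (Or.inl ⟨rfl, rfl⟩) (by norm_num) (by norm_num) x)
    · rcases h2 with rfl | rfl | rfl | rfl
      · exact absurd hx (no_mul (Or.inr ⟨rfl, rfl⟩) (by norm_num) (by norm_num) x)
      · exact absurd hx (no_mul (Or.inr ⟨rfl, rfl⟩) (by norm_num) (by norm_num) x)
      · exact absurd hx (no_mul (Or.inr ⟨rfl, rfl⟩) (by norm_num) (by norm_num) x)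
      · exact absurd rfl hrs
  · rintro (⟨rfl, rfl⟩ | ⟨rfl, rfl⟩)
    · exact exists15
    · exact exists15

theorem L_two {s : ℕ} (hs : s.Prime) (hs2 : s ≠ 2) :
    (∃ x : L, orderOf x = 2 * s) ↔ s = 3 ∨ s = 5 ∨ s = 7 := by
  constructor
  · rintro ⟨x, hx⟩
    have h1 : s ∣ 4585351680 := by
      rw [← card_L]
      exact (Dvd.intro_left 2 hx.symm).trans (orderOf_dvd_natCard x)
    rcases primes hs hs2 h1 with rfl | rfl | rfl | rfl
    · tauto
    · tauto
    · tauto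
    · exfalso
      rw [mul_comm] at hx
      exact no_mul (Or.inr ⟨rfl, rfl⟩) (by norm_num) (by norm_num) x hx
  · rintro (rfl | rfl | rfl)
    · exact exists6
    · exact exists10
    · exact exists14

end H64.Sp63
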