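import Cfsg.Agent.Lib.H64.Sz8B

set_option autoImplicit false

/-! Orders of elements of `Sz(8):3`. -/

namespace H64.Sz8

open H64.F8 Cfsg Matrix H8.SuzMat H8.SuzField H8.SuzGroup H8.SuzStab H8.SuzOvoid

def φ : Γ := ⟨F8.frob, Subgroup.mem_zpowers _⟩

theorem orderOf_φ : orderOf φ = 3 := by
  have : Fact (Nat.Prime 3) := ⟨Nat.prime_three⟩
  apply orderOf_eq_prime
  · apply Subtype.ext; exact frob_cube
  · intro h; exact frob_ne (congrArg Subtype.val h)

theorem orderOf_inr (g : Γ) : orderOf (SemidirectProduct.inr g : S) = orderOf g :=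
  orderOf_injective _ SemidirectProduct.inr_injective g

theorem e5_fixed : θ φ.1 e5 = e5 := by
  apply Subtype.ext
  apply Subtype.ext
  change e5.1.1.map F8.frob = e5.1.1
  rw [e5_val]
  decide +kernel

theorem exists15 : ∃ x : S, orderOf x = 15 := by
  refine ⟨SemidirectProduct.inl e5 * SemidirectProduct.inr φ, ?_⟩
  have hcomm : Commute (SemidirectProduct.inl e5 : S) (SemidirectProduct.inr φ) := by
    have h := SemidirectProduct.inl_aut (φ := θ.comp Γ.subtype) φ e5
    have hfix : (θ.comp Γ.subtype) φ e5 = e5 := e5_fixed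
    rw [hfix] at h
    unfold Commute SemiconjBy
    nth_rewrite 1 [h]
    rw [mul_assoc, ← map_mul, inv_mul_cancel, map_one, mul_one]
  rw [hcomm.orderOf_mul_eq_mul_orderOf_of_coprime, orderOf_inl, orderOf_inr, order5, orderOf_φ]
  rw [orderOf_inl, orderOf_inr, order5, orderOf_φ]
  norm_num

theorem primes {r : ℕ} (hr : r.Prime) (hr2 : r ≠ 2) (h : r ∣ 87360) : r = 3 ∨ r = 5 ∨ r = 7 ∨ r = 13 := by
  have h1 : (87360 : ℕ) = 2 ^ 6 * (3 * (5 * (7 * 13))) := by norm_num
  rw [h1] at h
  rcases (Nat.Prime.dvd_mul hr).1 h with h | h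
  · exact absurd ((Nat.prime_dvd_prime_iff_eq hr Nat.prime_two).1 (hr.dvd_of_dvd_pow h)) hr2
  rcases (Nat.Prime.dvd_mul hr).1 h with h | h
  · left; exact (Nat.prime_dvd_prime_iff_eq hr (by norm_num)).1 h
  rcases (Nat.Prime.dvd_mul hr).1 h with h | h
  · right; left; exact (Nat.prime_dvd_prime_iff_eq hr (by norm_num)).1 h
  rcases (Nat.Prime.dvd_mul hr).1 h with h | h
  · right; right; left; exact (Nat.prime_dvd_prime_iff_eq hr (by norm_num)).1 h
  · right; right; right; exact (Nat.prime_dvd_prime_iff_eq hr (by norm_num)).1 h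

/-- an element of order `p * s` with `p ∈ {5, 13}` and `3 ∤ p * s` does not exist -/
theorem no_mul {p s : ℕ} (hp : p = 5 ∨ p = 13) (hs1 : 1 < s) (hs3 : ¬ 3 ∣ p * s) (x : S) :
    orderOf x ≠ p * s := by
  intro hx
  have hpp : p.Prime := by rcases hp with rfl | rfl <;> norm_num
  have h1 : x.right = 1 := right_eq_one_of_pow (n := p * s) (by rw [← hx, pow_orderOf_eq_one]) hs3
  have h2 := eq_inl_of_right h1
  rw [h2, orderOf_inl] at hx
  set g := x.left
  have h3 : orderOf (g ^ s) = p := by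
    rw [orderOf_pow_of_dvd (by omega) (by rw [hx]; exact ⟨p, by ring⟩), hx]
    exact Nat.mul_div_cancel p (by omega)
  have h4 := cent hp h3 (z := g) ((Commute.refl g).pow_right s).eq
  have h5 := orderOf_dvd_of_pow_eq_one h4
  rw [hx] at h5
  have h6 := Nat.le_of_dvd hpp.pos h5
  have := hpp.pos
  nlinarith

theorem S_orders {r s : ℕ} (hr : r.Prime) (hs : s.Prime) (hr2 : r ≠ 2) (hs2 : s ≠ 2) (hrs : r ≠ s) :
    (∃ x : S, orderOf x = r * s) ↔ (r = 3 ∧ s = 5) ∨ (r = 5 ∧ s = 3) := by
  constructor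
  · rintro ⟨x, hx⟩
    have hd : r * s ∣ 87360 := by rw [← card_S, ← hx]; exact orderOf_dvd_natCard x
    have h1 := primes hr hr2 (dvd_trans (Dvd.intro _ rfl) hd)
    have h2 := primes hs hs2 (dvd_trans (Dvd.intro_left _ rfl) hd)
    rcases h1 with rfl | rfl | rfl | rfl
    · rcases h2 with rfl | rfl | rfl | rfl
      · exact absurd rfl hrs
      · left; exact ⟨rfl, rfl⟩
      · exact absurd hx (no_three_mul (Or.inl rfl) x)
      · exact absurd hx (no_three_mul (Or.inr rfl) x)
    · rcases h2 with rfl | rfl | rfl | rfl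
      · right; exact ⟨rfl, rfl⟩
      · exact absurd rfl hrs
      · exact absurd hx (no_mul (Or.inl rfl) (by norm_num) (by norm_num) x)
      · exact absurd hx (no_mul (Or.inl rfl) (by norm_num) (by norm_num) x)
    · rcases h2 with rfl | rfl | rfl | rfl
      · rw [mul_comm] at hx
        exact absurd hx (no_three_mul (Or.inl rfl) x)
      · rw [mul_comm] at hx
        exact absurd hx (no_mul (Or.inl rfl) (by norm_num) (by norm_num) x)
      · exact absurd rfl hrs
      · rw [mul_comm] at hx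
        exact absurd hx (no_mul (Or.inr rfl) (by norm_num) (by norm_num) x)
    · rcases h2 with rfl | rfl | rfl | rfl
      · rw [mul_comm] at hx
        exact absurd hx (no_three_mul (Or.inr rfl) x)
      · exact absurd hx (no_mul (Or.inr rfl) (by norm_num) (by norm_num) x)
      · exact absurd hx (no_mul (Or.inr rfl) (by norm_num) (by norm_num) x)
      · exact absurd rfl hrs
  · rintro (⟨rfl, rfl⟩ | ⟨rfl, rfl⟩)
    · exact exists15
    · exact exists15

theorem S_two {s : ℕ} (hs : s.Prime) (hs2 : s ≠ 2) :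
    ((∃ x : S, orderOf x = 2 * s) ∨ ∃ x : S, orderOf x = s ∧ ∃ a : Multiplicative M, a ≠ 1 ∧ x • a = a) ↔
      s = 3 ∨ s = 5 ∨ s = 7 := by
  constructor
  · intro h
    have h1 : s ∣ 87360 := by
      rw [← card_S]
      rcases h with ⟨x, hx⟩ | ⟨x, hx, -⟩
      · exact (Dvd.intro_left 2 hx.symm).trans (orderOf_dvd_natCard x)
      · rw [← hx]; exact orderOf_dvd_natCard x
    rcases primes hs hs2 h1 with rfl | rfl | rfl | rfl
    · tauto
    · tauto
    · tauto
    · exfalso
      rcases h with ⟨x, hx⟩ | ⟨x, hx, a, ha, hxa⟩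
      · rw [mul_comm] at hx
        exact no_mul (Or.inr rfl) (by norm_num) (by norm_num) x hx
      · apply ha
        exact free13 hx (X := a) hxa
  · intro h
    right
    rcases h with rfl | rfl | rfl
    · refine ⟨SemidirectProduct.inr φ, by rw [orderOf_inr, orderOf_φ], Multiplicative.ofAdd (1 : M), ?_, ?_⟩
      · intro h
        have : (1 : M) = 0 := h
        revert this
        decide +kernel
      · change (1 : M) * (1 : M).map F8.frob * ((1 : M).map F8.frob)ᵀ = 1
        decide +kernel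
    · refine ⟨SemidirectProduct.inl e5, by rw [orderOf_inl, order5],
        Multiplicative.ofAdd (mat [[0, 0, 0, 1], [0, 0, 1, 0], [0, 1, 0, 0], [1, 0, 0, 0]]), ?_, ?_⟩
      · intro h
        have : mat [[0, 0, 0, 1], [0, 0, 1, 0], [0, 1, 0, 0], [1, 0, 0, 0]] = 0 := h
        revert this
        decide +kernel
      · change e5.1.1 * (mat [[0, 0, 0, 1], [0, 0, 1, 0], [0, 1, 0, 0], [1, 0, 0, 0]]) *
          (e5.1.1.map F8.frob)ᵀ = (mat [[0, 0, 0, 1], [0, 0, 1, 0], [0, 1, 0, 0], [1, 0, 0, 0]])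
        rw [e5_val]
        decide +kernel
    · refine ⟨SemidirectProduct.inl e7, by rw [orderOf_inl, order7],
        Multiplicative.ofAdd (mat [[0, 1, 0, 0], [0, 0, 0, 0], [0, 0, 0, 0], [0, 0, 0, 0]]), ?_, ?_⟩
      · intro h
        have : mat [[0, 1, 0, 0], [0, 0, 0, 0], [0, 0, 0, 0], [0, 0, 0, 0]] = 0 := h
        revert this
        decide +kernel
      · change e7.1.1 * (mat [[0, 1, 0, 0], [0, 0, 0, 0], [0, 0, 0, 0], [0, 0, 0, 0]]) *
          (e7.1.1.map F8.frob)ᵀ = (mat [[0, 1, 0, 0], [0, 0, 0, 0], [0, 0, 0, 0], [0, 0, 0, 0]])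
        rw [e7_val]
        decide +kernel

end H64.Sz8
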