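import Cfsg.Agent.Lib.H64.Sp63B
import Cfsg.Agent.Lib.H64.Sz8C
import Cfsg.Agent.Lib.H6.SmallIsoC
import Cfsg.Agent.Lib.H6.Frame
import Cfsg.Prelude.Def_Classical

set_option autoImplicit false

/-! Arbitrarily large groups with the prime graph of `PSp(6,3)`. -/

namespace H64.Sp63

open Matrix

theorem main (N : ℕ) :
    ∃ (H : Type) (_ : Group H) (_ : Finite H), N < Nat.card H ∧
      ((∀ r : ℕ, r.Prime → (r ∣ Nat.card L ↔ r ∣ Nat.card H)) ∧
      (∀ r s : ℕ, r.Prime → s.Prime → r ≠ s →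
        ((∃ x : L, orderOf x = r * s) ↔ (∃ y : H, orderOf y = r * s)))) := by
  have : Finite (Multiplicative Sz8.M) := inferInstanceAs (Finite Sz8.M)
  have : Nontrivial (Multiplicative Sz8.M) := inferInstanceAs (Nontrivial Sz8.M)
  refine H64.PrimeGraph.unbounded L Sz8.S (Multiplicative Sz8.M) 2 Nat.prime_two ?_ ?_ ?_ ?_ ?_ N
  · intro a
    have : ∀ x : Sz8.M, x + x = 0 := by
      intro x
      ext i j
      exact (by decide +kernel : ∀ y : F8, y + y = 0) (x i j)
    rw [pow_two]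
    exact this a
  · intro r hr hr2
    rw [card_L, Sz8.card_S]
    constructor
    · intro h
      rcases primes hr hr2 h with rfl | rfl | rfl | rfl <;> norm_num
    · intro h
      rcases Sz8.primes hr hr2 h with rfl | rfl | rfl | rfl <;> norm_num
  · rw [card_L]; norm_num
  · intro r s hr hs hr2 hs2 hrs
    rw [L_orders hr hs hr2 hs2 hrs, Sz8.S_orders hr hs hr2 hs2 hrs]
  · intro s hs hs2
    rw [L_two hs hs2, Sz8.S_two hs hs2]

theorem psp {F : Type*} [Field F] [Fintype F] (hF : Fintype.card F = 3) :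
    Nonempty (L ≃* Cfsg.PSp 3 F) := by
  let e := FiniteField.ringEquivOfCardEq (K := F) (K' := ZMod 3) (by rw [hF]; rfl)
  exact ⟨(H6.Frame.quotCenterCongr (H6.SmallIsoC.spCongr e.symm))⟩

end H64.Sp63
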