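import Cfsg.Agent.Lib.H64.Lat27
import Cfsg.Agent.Lib.H4.Exceptional
import Cfsg.Agent.Lib.H4.Integral

set_option autoImplicit false

/-! Coefficients and moments of generalized characters: the degree, the involution count and the
count of products of two involutions, as additive functionals on the coefficient lattice. -/

namespace H64.Special

open Cfsg Representation Matrix
open H18.CharBasic H18.CharOrtho H18.CharInd H18.CharQuot H64.Lattice H64.Lat27

universe u
variable {G : Type u} [Group G] [Fintype G] [Fintype (IrrCharacter G)]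

/-- coefficients of a generalized character -/
noncomputable def coeff (θ : G → ℂ) : IrrCharacter G → ℤ := fun χ => round (classInner θ χ).re

theorem coeff_spec {θ : G → ℂ} (h : IsGeneralizedCharacter G θ) (χ : IrrCharacter G) :
    classInner θ χ = (coeff θ χ : ℂ) := by
  obtain ⟨a, ha, -⟩ := H4.Exceptional.exists_coeff h
  rw [coeff, ha]
  simp

theorem coeff_expand {θ : G → ℂ} (h : IsGeneralizedCharacter G θ) :
    θ = ∑ χ : IrrCharacter G, (coeff θ χ : ℂ) • (χ : G → ℂ) := by
  have h2 := mem_classFun_expand (isClassFunction_of_isGen h)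
  conv_lhs => rw [h2]
  exact Finset.sum_congr rfl fun χ _ => by rw [coeff_spec h]

theorem coeff_apply {θ : G → ℂ} (h : IsGeneralizedCharacter G θ) (g : G) :
    θ g = ∑ χ : IrrCharacter G, (coeff θ χ : ℂ) * (χ : G → ℂ) g := by
  conv_lhs => rw [coeff_expand h]
  simp [Finset.sum_apply]

theorem dot_coeff {θ η : G → ℂ} (h : IsGeneralizedCharacter G θ) (h' : IsGeneralizedCharacter G η) :
    classInner θ η = ((coeff θ ⬝ᵥ coeff η : ℤ) : ℂ) := by
  rw [parseval (isClassFunction_of_isGen h)]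
  rw [dotProduct]
  push_cast
  refine Finset.sum_congr rfl fun χ _ => ?_
  rw [coeff_spec h, coeff_spec h']
  simp

theorem dot_eq {θ η : G → ℂ} (h : IsGeneralizedCharacter G θ) (h' : IsGeneralizedCharacter G η) {m : ℤ}
    (hm : classInner θ η = (m : ℂ)) : coeff θ ⬝ᵥ coeff η = m := by
  rw [dot_coeff h h'] at hm
  exact_mod_cast hm

/-- degrees -/
noncomputable def deg (χ : IrrCharacter G) : ℕ := (exists_degree_pos χ.2).choose

omit [Fintype G] [Fintype (IrrCharacter G)] in
theorem deg_pos (χ : IrrCharacter G) : 0 < deg χ := (exists_degree_pos χ.2).choose_spec.1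

omit [Fintype G] [Fintype (IrrCharacter G)] in
theorem deg_spec (χ : IrrCharacter G) : (χ : G → ℂ) 1 = (deg χ : ℂ) := (exists_degree_pos χ.2).choose_spec.2

open scoped Classical in
/-- the elements of square 1 -/
noncomputable def Iv (G : Type u) [Group G] [Fintype G] : Finset G := Finset.univ.filter fun u => u * u = 1

omit [Fintype (IrrCharacter G)] in
theorem mem_Iv {u : G} : u ∈ Iv G ↔ u * u = 1 := by simp [Iv]

/-- sum over the elements of square 1 -/
noncomputable def S1 (θ : G → ℂ) : ℂ := ∑ u ∈ Iv G, θ u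

/-- sum over the products of two elements of square 1 -/
noncomputable def S2 (θ : G → ℂ) : ℂ := ∑ u ∈ Iv G, ∑ v ∈ Iv G, θ (u * v)

omit [Fintype (IrrCharacter G)] in
theorem S1_irr (χ : IrrCharacter G) : ∃ κ : ℝ, S1 (χ : G → ℂ) = (deg χ : ℂ) * κ ∧
    S2 (χ : G → ℂ) = (deg χ : ℂ) * κ ^ 2 := by
  classical
  have hdeg := deg_spec χ
  have hpos := deg_pos χ
  have hirr := χ.2
  -- reality
  have hre : (starRingEnd ℂ) (S1 (χ : G → ℂ)) = S1 (χ : G → ℂ) := by
    rw [S1, map_sum]
    refine Finset.sum_congr rfl fun u hu => ?_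
    rw [← char_inv (isCharacter_of_isIrr hirr), inv_eq_of_mul_eq_one_right (mem_Iv.1 hu)]
  obtain ⟨s, hs⟩ := Complex.conj_eq_iff_real.1 hre
  obtain ⟨n, ρ, hρ, hχ⟩ := χ.2
  have hn : (Module.finrank ℂ (Fin n → ℂ) : ℂ) = (deg χ : ℂ) := by
    rw [← hdeg, ← hχ, Representation.char_one]
  have hd0 : (deg χ : ℂ) ≠ 0 := by exact_mod_cast hpos.ne'
  let θ : G → ℂ := fun u => if u * u = 1 then 1 else 0
  have hθ : IsClassFunction G θ := by
    intro g h
    have : h * g * h⁻¹ * (h * g * h⁻¹) = 1 ↔ g * g = 1 := by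
      have e1 : h * g * h⁻¹ * (h * g * h⁻¹) = h * (g * g) * h⁻¹ := by group
      rw [e1, conj_eq_one_iff]
    simp only [θ, this]
  have hop : H4.Integral.op ρ θ = ∑ u ∈ Iv G, ρ u := by
    rw [H4.Integral.op, Iv, Finset.sum_filter]
    refine Finset.sum_congr rfl fun u _ => ?_
    simp only [θ]
    split_ifs <;> simp
  have hsum : ∑ g : G, θ g * ρ.character g = S1 (χ : G → ℂ) := by
    rw [S1, Iv, Finset.sum_filter, hχ]
    refine Finset.sum_congr rfl fun u _ => ?_
    simp only [θ]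
    split_ifs <;> simp
  have h1 := H4.Integral.op_eq_smul ρ hρ hθ
  rw [hop, hsum, hn] at h1
  refine ⟨s / deg χ, ?_, ?_⟩
  · rw [hs]
    push_cast
    field_simp
  · have h2 : S2 (χ : G → ℂ) = LinearMap.trace ℂ (Fin n → ℂ) ((∑ u ∈ Iv G, ρ u) * (∑ u ∈ Iv G, ρ u)) := by
      rw [Finset.sum_mul_sum, map_sum, S2]
      refine Finset.sum_congr rfl fun u _ => ?_
      rw [map_sum]
      refine Finset.sum_congr rfl fun v _ => ?_
      rw [← map_mul, ← hχ]
      rfl
    rw [h2, h1, hs, smul_mul_smul_comm, map_smul]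
    have h3 : (LinearMap.trace ℂ (Fin n → ℂ)) ((LinearMap.id : (Fin n → ℂ) →ₗ[ℂ] (Fin n → ℂ)) * LinearMap.id) =
        (deg χ : ℂ) := by
      rw [← hn]
      exact LinearMap.trace_one ℂ (Fin n → ℂ)
    rw [h3, smul_eq_mul]
    push_cast
    field_simp

/-- the moments -/
noncomputable def mom (G : Type u) [Group G] [Fintype G] [Fintype (IrrCharacter G)] : Mom (IrrCharacter G) where
  M0 := AddMonoidHom.mk' (fun a => ∑ χ, a χ * (deg χ : ℤ)) fun a b => by
    simp [add_mul, Finset.sum_add_distrib]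
  M1 := AddMonoidHom.mk' (fun a => ∑ χ, (a χ : ℝ) * (S1 (χ : G → ℂ)).re) fun a b => by
    simp [add_mul, Finset.sum_add_distrib]
  M2 := AddMonoidHom.mk' (fun a => ∑ χ, (a χ : ℝ) * (S2 (χ : G → ℂ)).re) fun a b => by
    simp [add_mul, Finset.sum_add_distrib]
  unit := by
    classical
    intro u hu
    obtain ⟨χ, hχ1, hχ2⟩ := hu.exists_single
    have hχ : u = Pi.single χ 1 ∨ u = Pi.single χ (-1) := by
      rcases hχ1 with h | h
      · left; rw [h] at hχ2; exact hχ2
      · right; rw [h] at hχ2; exact hχ2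
    obtain ⟨κ, h1, h2⟩ := S1_irr χ
    have e1 : (S1 (χ : G → ℂ)).re = deg χ * κ := by
      rw [h1, ← Complex.ofReal_natCast, ← Complex.ofReal_mul, Complex.ofReal_re]
    have e2 : (S2 (χ : G → ℂ)).re = deg χ * κ ^ 2 := by
      rw [h2, ← Complex.ofReal_natCast, ← Complex.ofReal_pow, ← Complex.ofReal_mul, Complex.ofReal_re]
    have hp := deg_pos χ
    refine ⟨κ, ?_, ?_, ?_⟩
    · rcases hχ with rfl | rfl
      · simp [Pi.single_apply]
        omega
      · simp [Pi.single_apply]
        omega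
    · rcases hχ with rfl | rfl
      · simp [Pi.single_apply, e1]
      · simp [Pi.single_apply, e1]
    · rcases hχ with rfl | rfl
      · simp [Pi.single_apply, e2]
      · simp [Pi.single_apply, e2]

theorem M0_coeff {θ : G → ℂ} (h : IsGeneralizedCharacter G θ) :
    θ 1 = (((mom G).M0 (coeff θ) : ℤ) : ℂ) := by
  rw [coeff_apply h]
  change _ = ((∑ χ, coeff θ χ * (deg χ : ℤ) : ℤ) : ℂ)
  push_cast
  exact Finset.sum_congr rfl fun χ _ => by rw [deg_spec]

theorem S1_coeff {θ : G → ℂ} (h : IsGeneralizedCharacter G θ) :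
    (S1 θ).re = (mom G).M1 (coeff θ) := by
  change _ = ∑ χ, (coeff θ χ : ℝ) * (S1 (χ : G → ℂ)).re
  have : S1 θ = ∑ χ : IrrCharacter G, (coeff θ χ : ℂ) * S1 (χ : G → ℂ) := by
    simp only [S1, Finset.mul_sum]
    rw [Finset.sum_comm]
    exact Finset.sum_congr rfl fun u _ => coeff_apply h u
  rw [this, Complex.re_sum]
  refine Finset.sum_congr rfl fun χ _ => ?_
  rw [← Complex.ofReal_intCast, Complex.re_ofReal_mul]

theorem S2_coeff {θ : G → ℂ} (h : IsGeneralizedCharacter G θ) :
    (S2 θ).re = (mom G).M2 (coeff θ) := by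
  change _ = ∑ χ, (coeff θ χ : ℝ) * (S2 (χ : G → ℂ)).re
  have : S2 θ = ∑ χ : IrrCharacter G, (coeff θ χ : ℂ) * S2 (χ : G → ℂ) := by
    simp only [S2, Finset.mul_sum]
    rw [Finset.sum_comm (s := (Finset.univ : Finset (IrrCharacter G)))]
    refine Finset.sum_congr rfl fun u _ => ?_
    rw [Finset.sum_comm (s := (Finset.univ : Finset (IrrCharacter G)))]
    exact Finset.sum_congr rfl fun v _ => coeff_apply h (u * v)
  rw [this, Complex.re_sum]
  refine Finset.sum_congr rfl fun χ _ => ?_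
  rw [← Complex.ofReal_intCast, Complex.re_ofReal_mul]

theorem isU_of_norm {θ : G → ℂ} (h : IsGeneralizedCharacter G θ) (hn : classInner θ θ = 1) : IsU (coeff θ) :=
  dot_eq h h (m := 1) (by rw [hn, Int.cast_one])

/-- units with `M0 = -1` are negatives of linear characters -/
theorem unit_neg_one {u : IrrCharacter G → ℤ} (hu : IsU u) (h : (mom G).M0 u = -1) :
    ∃ χ : IrrCharacter G, (χ : G → ℂ) 1 = 1 ∧ ∀ θ : G → ℂ, IsGeneralizedCharacter G θ →
      classInner θ χ = ((-(coeff θ ⬝ᵥ u) : ℤ) : ℂ) := by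
  classical
  obtain ⟨χ, hχ1, hχ2⟩ := hu.exists_single
  have hM : (mom G).M0 u = u χ * (deg χ : ℤ) := by
    rw [hχ2]
    change ∑ ψ, (Pi.single χ (u χ) : IrrCharacter G → ℤ) ψ * (deg ψ : ℤ) = _
    refine (Finset.sum_eq_single χ (fun ψ _ hψ => ?_) (fun h => absurd (Finset.mem_univ χ) h)).trans ?_
    · rw [Pi.single_eq_of_ne hψ, zero_mul]
    · rw [Pi.single_eq_same]
  have hp := deg_pos χ
  have h1 : u χ = -1 := by
    rcases hχ1 with h1 | h1
    · exfalso
      rw [hM, h1] at h
      omega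
    · exact h1
  have h2 : deg χ = 1 := by
    rw [hM, h1] at h
    omega
  refine ⟨χ, by rw [deg_spec, h2]; simp, fun θ hθ => ?_⟩
  rw [coeff_spec hθ, hχ2, h1, dotProduct_single]
  simp

end H64.Special
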