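import Cfsg.Agent.Lib.H64.Special

set_option autoImplicit false

/-! Induction from a trivial intersection set of real, non-involution elements: the isometry and
the moments. -/

namespace H64.SpecialTI

open Cfsg Representation Matrix
open H18.CharBasic H18.CharOrtho H18.CharInd H18.CharQuot H64.Lattice H64.Lat27 H64.Special

universe u
variable {G : Type u} [Group G] [Fintype G]

/-- a trivial intersection set, closed under inversion and without elements of square 1 -/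
structure TIData (H : Subgroup G) (D : Set G) : Prop where
  ti : ∀ g : G, ∀ d ∈ D, g * d * g⁻¹ ∈ D → g ∈ H
  inv : ∀ d ∈ D, d⁻¹ ∈ D
  sq : ∀ d ∈ D, d * d ≠ 1

variable {H : Subgroup G} [Fintype H] {D : Set G} (hD : TIData H D)

include hD

omit [Fintype G] [Fintype H] in
theorem one_notMem : (1 : G) ∉ D := fun h => hD.sq 1 h (by simp)

theorem inner_ind {φ θ : H → ℂ} (hθ : IsClassFunction H θ) (hφD : ∀ x : H, (x : G) ∉ D → φ x = 0)
    (hθD : ∀ x : H, (x : G) ∉ D → θ x = 0) :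
    classInner (indFun H φ) (indFun H θ) = classInner φ θ := by
  refine H4.TI.inner_indFun_of_TI H D (fun g hg t ht h => absurd (hD.ti g t ht h) hg) hθ hφD hθD ?_
  exact hφD 1 (by simpa using one_notMem hD)

theorem ind_one {φ : H → ℂ} (hφD : ∀ x : H, (x : G) ∉ D → φ x = 0) : indFun H φ 1 = 0 := by
  rw [indFun_one, hφD 1 (by simpa using one_notMem hD), mul_zero]

omit [Fintype G] [Fintype H] hD in
theorem ext_sq {φ : H → ℂ} (hφD : ∀ x : H, (x : G) ∉ D → φ x = 0) {g : G} (hg : g ∉ D) :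
    extendByZero H φ g = 0 := by
  by_cases h : g ∈ H
  · rw [ext_mem _ _ h]
    exact hφD ⟨g, h⟩ hg
  · exact ext_notMem _ _ h

theorem S1_ind {φ : H → ℂ} (hφD : ∀ x : H, (x : G) ∉ D → φ x = 0) : S1 (indFun H φ) = 0 := by
  rw [S1]
  refine Finset.sum_eq_zero fun u hu => ?_
  rw [indFun_apply, Finset.sum_eq_zero, mul_zero]
  intro x _
  refine ext_sq hφD fun h => hD.sq _ h ?_
  have e1 : x⁻¹ * u * x * (x⁻¹ * u * x) = x⁻¹ * (u * u) * x := by group
  rw [e1, mem_Iv.1 hu]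
  group

theorem ext_ne_zero {φ : H → ℂ} (hφD : ∀ x : H, (x : G) ∉ D → φ x = 0) {u v : G} (hu : u * u = 1)
    (hv : v * v = 1) (h : extendByZero H φ (u * v) ≠ 0) : u ∈ H ∧ v ∈ H := by
  have h1 : u * v ∈ D := by
    by_contra h1
    exact h (ext_sq hφD h1)
  have h2 : u * v ∈ H := by
    by_contra h2
    exact h (ext_notMem _ _ h2)
  have hu' : u⁻¹ = u := inv_eq_of_mul_eq_one_right hu
  have hv' : v⁻¹ = v := inv_eq_of_mul_eq_one_right hv
  have h3 : u * (u * v) * u⁻¹ = (u * v)⁻¹ := by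
    rw [_root_.mul_inv_rev, hu', hv', ← mul_assoc, hu, one_mul]
  have h4 : u ∈ H := hD.ti u _ h1 (by rw [h3]; exact hD.inv _ h1)
  exact ⟨h4, (H.mul_mem_cancel_left h4).1 h2⟩

theorem sum_ext_inv {φ : H → ℂ} (hφD : ∀ x : H, (x : G) ∉ D → φ x = 0) :
    ∑ u ∈ Iv G, ∑ v ∈ Iv G, extendByZero H φ (u * v) = S2 φ := by
  classical
  let ι : H ↪ G := ⟨Subtype.val, Subtype.val_injective⟩
  have hsub : (Iv H).map ι ⊆ Iv G := by
    intro x hx
    obtain ⟨y, hy, rfl⟩ := Finset.mem_map.1 hx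
    rw [mem_Iv] at hy ⊢
    exact congrArg Subtype.val hy
  have hmem : ∀ x : G, x ∈ Iv G → x ∈ H → x ∈ (Iv H).map ι := by
    intro x hx hxH
    refine Finset.mem_map.2 ⟨⟨x, hxH⟩, ?_, rfl⟩
    rw [mem_Iv] at hx ⊢
    exact Subtype.ext hx
  rw [← Finset.sum_subset hsub, Finset.sum_map, S2]
  · refine Finset.sum_congr rfl fun u hu => ?_
    rw [← Finset.sum_subset hsub, Finset.sum_map]
    · refine Finset.sum_congr rfl fun v _ => ?_
      exact ext_coe H φ (u * v)
    · intro v hv hv'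
      by_contra h
      refine hv' (hmem v hv (ext_ne_zero hD hφD ?_ (mem_Iv.1 hv) h).2)
      rw [mem_Iv] at hu
      exact congrArg Subtype.val hu
  · intro u hu hu'
    refine Finset.sum_eq_zero fun v hv => ?_
    by_contra h
    exact hu' (hmem u hu (ext_ne_zero hD hφD (mem_Iv.1 hu) (mem_Iv.1 hv) h).1)

omit hD in
theorem sum_Iv_conj (f : G → ℂ) (x : G) : ∑ u ∈ Iv G, f (x⁻¹ * u * x) = ∑ u ∈ Iv G, f u := by
  refine Finset.sum_nbij' (fun u => x⁻¹ * u * x) (fun u => x * u * x⁻¹) ?_ ?_ ?_ ?_ ?_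
  · intro u hu
    rw [mem_Iv] at hu ⊢
    have e1 : x⁻¹ * u * x * (x⁻¹ * u * x) = x⁻¹ * (u * u) * x := by group
    rw [e1, hu]
    group
  · intro u hu
    rw [mem_Iv] at hu ⊢
    have e1 : x * u * x⁻¹ * (x * u * x⁻¹) = x * (u * u) * x⁻¹ := by group
    rw [e1, hu]
    group
  · intro u _
    group
  · intro u _
    group
  · intro u _
    rfl

theorem S2_ind {φ : H → ℂ} (hφD : ∀ x : H, (x : G) ∉ D → φ x = 0) :
    S2 (indFun H φ) = (H.index : ℂ) * S2 φ := by
  have h1 : S2 (indFun H φ) = (Nat.card H : ℂ)⁻¹ * ∑ x : G, ∑ u ∈ Iv G, ∑ v ∈ Iv G,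
      extendByZero H φ ((x⁻¹ * u * x) * (x⁻¹ * v * x)) := by
    rw [Finset.sum_comm, Finset.mul_sum, S2]
    refine Finset.sum_congr rfl fun u _ => ?_
    rw [Finset.sum_comm, Finset.mul_sum]
    refine Finset.sum_congr rfl fun v _ => ?_
    rw [indFun_apply]
    congr 1
    refine Finset.sum_congr rfl fun x _ => ?_
    congr 1
    group
  have h2 : ∀ x : G, ∑ u ∈ Iv G, ∑ v ∈ Iv G, extendByZero H φ ((x⁻¹ * u * x) * (x⁻¹ * v * x)) = S2 φ := by
    intro x
    rw [← sum_ext_inv hD hφD]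
    rw [← sum_Iv_conj (fun u => ∑ v ∈ Iv G, extendByZero H φ (u * v)) x]
    refine Finset.sum_congr rfl fun u _ => ?_
    exact sum_Iv_conj (fun v => extendByZero H φ ((x⁻¹ * u * x) * v)) x
  rw [h1]
  simp only [h2, Finset.sum_const, Finset.card_univ, nsmul_eq_mul]
  rw [← Nat.card_eq_fintype_card (α := G), ← Subgroup.card_mul_index H]
  have : (Nat.card H : ℂ) ≠ 0 := by exact_mod_cast (Nat.card_pos (α := H)).ne'
  push_cast
  field_simp

end H64.SpecialTI
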