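import Mathlib
import Cfsg.Prelude.Def_Sz
import Cfsg.Agent.Lib.H64.SLTwoEven
set_option autoImplicit false

open scoped MatrixGroups
namespace H64.Suzuki
open Matrix Cfsg Cfsg.Lie

variable {F : Type*} [Field F]

/-- The antidiagonal matrix. -/
def J (F : Type*) [Field F] : Matrix (Fin 4) (Fin 4) F :=
  !![0, 0, 0, 1; 0, 0, 1, 0; 0, 1, 0, 0; 1, 0, 0, 0]

theorem J_sq : J F * J F = 1 := by
  ext i j
  fin_cases i <;> fin_cases j <;> simp [J, Matrix.mul_apply, Fin.sum_univ_four]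

/-- The column relation. -/
theorem col_rel (g : GL (Fin 4) F) (hg : g ∈ Sp4 F) :
    (g : Matrix (Fin 4) (Fin 4) F)ᵀ * J F * (g : Matrix (Fin 4) (Fin 4) F) = J F := by
  ext i j
  have h := hg (Pi.single i 1) (Pi.single j 1)
  have e1 : (((g : Matrix (Fin 4) (Fin 4) F)ᵀ * J F * (g : Matrix (Fin 4) (Fin 4) F)) i j) =
      altForm4 ((Units.coeHom (Matrix (Fin 4) (Fin 4) F) g) *ᵥ (Pi.single i 1))
        ((Units.coeHom (Matrix (Fin 4) (Fin 4) F) g) *ᵥ (Pi.single j 1)) := by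
    simp [altForm4, Matrix.mul_apply, Fin.sum_univ_four, J]
    ring
  rw [e1, h]
  fin_cases i <;> fin_cases j <;> simp [altForm4, J, Pi.single_apply]

/-- The inverse of a symplectic matrix. -/
theorem inv_eq (g : GL (Fin 4) F) (hg : g ∈ Sp4 F) :
    ((g⁻¹ : GL (Fin 4) F) : Matrix (Fin 4) (Fin 4) F) =
      J F * (g : Matrix (Fin 4) (Fin 4) F)ᵀ * J F := by
  have h1 : (J F * (g : Matrix (Fin 4) (Fin 4) F)ᵀ * J F) * (g : Matrix (Fin 4) (Fin 4) F) = 1 := by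
    have h := col_rel g hg
    calc (J F * (g : Matrix (Fin 4) (Fin 4) F)ᵀ * J F) * (g : Matrix (Fin 4) (Fin 4) F)
        = J F * ((g : Matrix (Fin 4) (Fin 4) F)ᵀ * J F * (g : Matrix (Fin 4) (Fin 4) F)) := by
          simp only [Matrix.mul_assoc]
      _ = 1 := by rw [h, J_sq]
  have h2 : ((g⁻¹ : GL (Fin 4) F) : Matrix (Fin 4) (Fin 4) F) * (g : Matrix (Fin 4) (Fin 4) F) = 1 := by
    rw [← Units.val_mul, inv_mul_cancel, Units.val_one]
  have h3 : (g : Matrix (Fin 4) (Fin 4) F) * ((g⁻¹ : GL (Fin 4) F) : Matrix (Fin 4) (Fin 4) F) = 1 := by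
    rw [← Units.val_mul, mul_inv_cancel, Units.val_one]
  calc ((g⁻¹ : GL (Fin 4) F) : Matrix (Fin 4) (Fin 4) F)
      = (J F * (g : Matrix (Fin 4) (Fin 4) F)ᵀ * J F) * (g : Matrix (Fin 4) (Fin 4) F) *
          ((g⁻¹ : GL (Fin 4) F) : Matrix (Fin 4) (Fin 4) F) := by rw [h1, one_mul]
    _ = J F * (g : Matrix (Fin 4) (Fin 4) F)ᵀ * J F := by rw [Matrix.mul_assoc, h3, mul_one]

/-- The row relation. -/
theorem row_rel (g : GL (Fin 4) F) (hg : g ∈ Sp4 F) :
    (g : Matrix (Fin 4) (Fin 4) F) * J F * (g : Matrix (Fin 4) (Fin 4) F)ᵀ = J F := by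
  have h3 : (g : Matrix (Fin 4) (Fin 4) F) * ((g⁻¹ : GL (Fin 4) F) : Matrix (Fin 4) (Fin 4) F) = 1 := by
    rw [← Units.val_mul, mul_inv_cancel, Units.val_one]
  rw [inv_eq g hg] at h3
  have : (g : Matrix (Fin 4) (Fin 4) F) * J F * (g : Matrix (Fin 4) (Fin 4) F)ᵀ * J F * J F =
      1 * J F := by
    rw [← h3]
    simp only [Matrix.mul_assoc]
  rwa [Matrix.mul_assoc _ (J F) (J F), J_sq, mul_one, one_mul] at this

theorem col_rel' (g : GL (Fin 4) F) (hg : g ∈ Sp4 F) (i j : Fin 4) :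
    (g : Matrix (Fin 4) (Fin 4) F) 0 i * (g : Matrix (Fin 4) (Fin 4) F) 3 j +
      (g : Matrix (Fin 4) (Fin 4) F) 1 i * (g : Matrix (Fin 4) (Fin 4) F) 2 j +
      (g : Matrix (Fin 4) (Fin 4) F) 2 i * (g : Matrix (Fin 4) (Fin 4) F) 1 j +
      (g : Matrix (Fin 4) (Fin 4) F) 3 i * (g : Matrix (Fin 4) (Fin 4) F) 0 j = J F i j := by
  have h := congrFun (congrFun (col_rel g hg) i) j
  rw [← h]
  simp [Matrix.mul_apply, Fin.sum_univ_four, J]
  ring

theorem row_rel' (g : GL (Fin 4) F) (hg : g ∈ Sp4 F) (k l : Fin 4) :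
    (g : Matrix (Fin 4) (Fin 4) F) k 0 * (g : Matrix (Fin 4) (Fin 4) F) l 3 +
      (g : Matrix (Fin 4) (Fin 4) F) k 1 * (g : Matrix (Fin 4) (Fin 4) F) l 2 +
      (g : Matrix (Fin 4) (Fin 4) F) k 2 * (g : Matrix (Fin 4) (Fin 4) F) l 1 +
      (g : Matrix (Fin 4) (Fin 4) F) k 3 * (g : Matrix (Fin 4) (Fin 4) F) l 0 = J F k l := by
  have h := congrFun (congrFun (row_rel g hg) k) l
  rw [← h]
  simp [Matrix.mul_apply, Fin.sum_univ_four, J]
  ring

theorem J_pairOf (p : Fin 4) : J F (pairOf p).1 (pairOf p).2 = 0 := by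
  fin_cases p <;> simp [J, pairOf]

/-- Multiplicativity of `star4` on the symplectic group in characteristic two. -/
theorem star4_mul [CharP F 2] (g h : GL (Fin 4) F) (hg : g ∈ Sp4 F) (hh : h ∈ Sp4 F) :
    star4 ((g * h : GL (Fin 4) F) : Matrix (Fin 4) (Fin 4) F) =
      star4 (g : Matrix (Fin 4) (Fin 4) F) * star4 (h : Matrix (Fin 4) (Fin 4) F) := by
  have h2 : (2 : F) = 0 := CharTwo.two_eq_zero
  ext p r
  rw [Units.val_mul, Matrix.mul_apply, Fin.sum_univ_four]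
  have hrow := row_rel' g hg (pairOf p).1 (pairOf p).2
  have hcol := col_rel' h hh (pairOf r).1 (pairOf r).2
  rw [J_pairOf] at hrow hcol
  simp only [star4, Matrix.of_apply, Matrix.mul_apply, Fin.sum_univ_four]
  simp only [show pairOf 0 = (0, 1) from rfl, show pairOf 1 = (0, 2) from rfl,
    show pairOf 2 = (1, 3) from rfl, show pairOf 3 = (2, 3) from rfl]
  generalize (pairOf p).1 = k at *
  generalize (pairOf p).2 = l at *
  generalize (pairOf r).1 = i at *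
  generalize (pairOf r).2 = j at *
  generalize (g : Matrix (Fin 4) (Fin 4) F) = A at *
  generalize (h : Matrix (Fin 4) (Fin 4) F) = B at *
  linear_combination (A k 1 * A l 2 - A l 1 * A k 2) * hcol + (B 0 i * B 3 j - B 3 i * B 0 j) * hrow +
    (-(B 0 i * A k 1 * A l 2 * B 3 j) - B 0 i * A k 3 * A l 0 * B 3 j - A k 1 * B 2 i * B 1 j * A l 2 +
      A k 2 * B 2 i * A l 1 * B 1 j + A k 2 * B 3 i * B 0 j * A l 1 + A k 3 * B 3 i * A l 0 * B 0 j) * h2

/-- The quadratic relation for `g + g⁻¹` with `g` symplectic in characteristic two. -/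
theorem quad_rel [CharP F 2] (g : GL (Fin 4) F) (hg : g ∈ Sp4 F) :
    ((g : Matrix (Fin 4) (Fin 4) F) + ((g⁻¹ : GL (Fin 4) F) : Matrix (Fin 4) (Fin 4) F)) ^ 2 =
      (g : Matrix (Fin 4) (Fin 4) F).trace •
        ((g : Matrix (Fin 4) (Fin 4) F) + ((g⁻¹ : GL (Fin 4) F) : Matrix (Fin 4) (Fin 4) F)) +
      (star4 (g : Matrix (Fin 4) (Fin 4) F)).trace • 1 := by
  have h2 : (2 : F) = 0 := CharTwo.two_eq_zero
  have hc := col_rel' g hg 0 3
  have hr := row_rel' g hg 0 3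
  rw [inv_eq g hg]
  generalize (g : Matrix (Fin 4) (Fin 4) F) = A at *
  have hJ : J F 0 3 = 1 := by simp [J]
  rw [hJ] at hc hr
  have e : J F * Aᵀ * J F = !![A 3 3, A 2 3, A 1 3, A 0 3; A 3 2, A 2 2, A 1 2, A 0 2;
      A 3 1, A 2 1, A 1 1, A 0 1; A 3 0, A 2 0, A 1 0, A 0 0] := by
    ext i j
    fin_cases i <;> fin_cases j <;>
      simp [J, Matrix.mul_apply, Fin.sum_univ_four, Matrix.vecMul, dotProduct]
  rw [e, pow_two]
  ext i j
  fin_cases i <;> fin_cases j <;>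
  simp [Matrix.mul_apply, Fin.sum_univ_four, Matrix.trace, star4, pairOf]
  all_goals first
    | (linear_combination (norm := skip) (0 : F) * hc
       ring_nf
       reduce_mod_char!
       done)
    | (linear_combination (norm := skip) hc - hr
       ring_nf
       reduce_mod_char!
       done)

/-- The condition cutting out the Suzuki group. -/
def Cond (e : ℕ) (g : GL (Fin 4) F) : Prop :=
  g ∈ Sp4 F ∧ star4 (g : Matrix (Fin 4) (Fin 4) F) =
    (g : Matrix (Fin 4) (Fin 4) F).map (fun x => x ^ e)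

theorem star4_one : star4 (1 : Matrix (Fin 4) (Fin 4) F) = 1 := by
  ext i j
  fin_cases i <;> fin_cases j <;>
    simp [star4, show pairOf 0 = (0, 1) from rfl, show pairOf 1 = (0, 2) from rfl,
      show pairOf 2 = (1, 3) from rfl, show pairOf 3 = (2, 3) from rfl]

theorem frob_fun [CharP F 2] (k : ℕ) : (fun x : F => x ^ (2 ^ k)) = iterateFrobenius F 2 k := by
  funext x
  rw [iterateFrobenius_def]

theorem map_pow_mul [CharP F 2] (k : ℕ) (A B : Matrix (Fin 4) (Fin 4) F) :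
    (A * B).map (fun x => x ^ (2 ^ k)) =
      A.map (fun x => x ^ (2 ^ k)) * B.map (fun x => x ^ (2 ^ k)) := by
  rw [frob_fun]
  exact Matrix.map_mul

theorem map_pow_one [CharP F 2] (k : ℕ) :
    (1 : Matrix (Fin 4) (Fin 4) F).map (fun x => x ^ (2 ^ k)) = 1 := by
  rw [frob_fun]
  exact Matrix.map_one _ (map_zero _) (map_one _)

theorem cond_of_mem [CharP F 2] (k : ℕ) (g : GL (Fin 4) F) (hg : g ∈ Sz F (2 ^ k)) :
    Cond (2 ^ k) g := by
  unfold Sz at hg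
  induction hg using Subgroup.closure_induction with
  | mem x hx => exact hx
  | one =>
    refine ⟨Subgroup.one_mem _, ?_⟩
    rw [Units.val_one, star4_one, map_pow_one]
  | mul x y _ _ hx hy =>
    refine ⟨Subgroup.mul_mem _ hx.1 hy.1, ?_⟩
    rw [star4_mul x y hx.1 hy.1, hx.2, hy.2, Units.val_mul, map_pow_mul]
  | inv x _ hx =>
    refine ⟨Subgroup.inv_mem _ hx.1, ?_⟩
    have h1 : star4 ((x⁻¹ : GL (Fin 4) F) : Matrix (Fin 4) (Fin 4) F) *
        (x : Matrix (Fin 4) (Fin 4) F).map (fun x => x ^ (2 ^ k)) = 1 := by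
      rw [← hx.2, ← star4_mul _ _ (Subgroup.inv_mem _ hx.1) hx.1, inv_mul_cancel, Units.val_one,
        star4_one]
    have h2 : (x : Matrix (Fin 4) (Fin 4) F).map (fun x => x ^ (2 ^ k)) *
        ((x⁻¹ : GL (Fin 4) F) : Matrix (Fin 4) (Fin 4) F).map (fun x => x ^ (2 ^ k)) = 1 := by
      rw [← map_pow_mul, ← Units.val_mul, mul_inv_cancel, Units.val_one, map_pow_one]
    calc star4 ((x⁻¹ : GL (Fin 4) F) : Matrix (Fin 4) (Fin 4) F)
        = star4 ((x⁻¹ : GL (Fin 4) F) : Matrix (Fin 4) (Fin 4) F) *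
          ((x : Matrix (Fin 4) (Fin 4) F).map (fun x => x ^ (2 ^ k)) *
        ((x⁻¹ : GL (Fin 4) F) : Matrix (Fin 4) (Fin 4) F).map (fun x => x ^ (2 ^ k))) := by
          rw [h2, mul_one]
      _ = _ := by rw [← Matrix.mul_assoc, h1, one_mul]

/-- An element of the Suzuki group with a nonzero fixed vector satisfies `g⁴ = 1`. -/
theorem pow_four_of_fixed [CharP F 2] (k : ℕ) (g : GL (Fin 4) F) (hg : g ∈ Sz F (2 ^ k))
    (v : Fin 4 → F) (hv : v ≠ 0) (hgv : (g : Matrix (Fin 4) (Fin 4) F) *ᵥ v = v) : g ^ 4 = 1 := by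
  obtain ⟨hs, hstar⟩ := cond_of_mem k g hg
  have hq := quad_rel g hs
  have hgv' : ((g⁻¹ : GL (Fin 4) F) : Matrix (Fin 4) (Fin 4) F) *ᵥ v = v := by
    nth_rewrite 1 [← hgv]
    rw [Matrix.mulVec_mulVec, ← Units.val_mul, inv_mul_cancel, Units.val_one, Matrix.one_mulVec]
  have h0 : ((g : Matrix (Fin 4) (Fin 4) F) + ((g⁻¹ : GL (Fin 4) F) : Matrix (Fin 4) (Fin 4) F)) *ᵥ v = 0 := by
    rw [Matrix.add_mulVec, hgv, hgv']
    ext i
    simp [CharTwo.add_self_eq_zero]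
  have htr : (star4 (g : Matrix (Fin 4) (Fin 4) F)).trace =
      (g : Matrix (Fin 4) (Fin 4) F).trace ^ (2 ^ k) := by
    rw [hstar, frob_fun, ← iterateFrobenius_def]
    exact (AddMonoidHom.map_trace (iterateFrobenius F 2 k) (g : Matrix (Fin 4) (Fin 4) F)).symm
  have h1 := congrArg (fun M => M *ᵥ v) hq
  simp only [pow_two, ← Matrix.mulVec_mulVec, h0, Matrix.mulVec_zero, Matrix.add_mulVec,
    Matrix.smul_mulVec, smul_zero, Matrix.one_mulVec, zero_add] at h1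
  have h2 : (star4 (g : Matrix (Fin 4) (Fin 4) F)).trace = 0 := by
    by_contra hne
    exact hv ((smul_eq_zero.mp h1.symm).resolve_left hne)
  have h3 : (g : Matrix (Fin 4) (Fin 4) F).trace = 0 := by
    rw [htr] at h2
    exact pow_eq_zero_iff (by positivity) |>.mp h2
  rw [h2, h3, zero_smul, zero_smul, add_zero] at hq
  have hcomm : Commute (g : Matrix (Fin 4) (Fin 4) F) ((g⁻¹ : GL (Fin 4) F) : Matrix (Fin 4) (Fin 4) F) := by
    unfold Commute SemiconjBy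
    rw [← Units.val_mul, ← Units.val_mul, mul_inv_cancel, inv_mul_cancel]
  have h4 : (g : Matrix (Fin 4) (Fin 4) F) ^ 2 + ((g⁻¹ : GL (Fin 4) F) : Matrix (Fin 4) (Fin 4) F) ^ 2 = 0 := by
    rw [← hq]
    rw [hcomm.add_sq]
    have : (2 : Matrix (Fin 4) (Fin 4) F) = 0 := CharTwo.two_eq_zero
    rw [this, zero_mul, zero_mul, add_zero]
  have h5 : (g : Matrix (Fin 4) (Fin 4) F) ^ 2 = ((g⁻¹ : GL (Fin 4) F) : Matrix (Fin 4) (Fin 4) F) ^ 2 :=
    CharTwo.add_eq_zero.mp h4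
  have h6 : g ^ 2 = g⁻¹ ^ 2 := by
    apply Units.ext
    rw [Units.val_pow_eq_pow_val, Units.val_pow_eq_pow_val]
    exact h5
  calc g ^ 4 = g ^ 2 * g ^ 2 := by rw [← pow_add]
    _ = g ^ 2 * g⁻¹ ^ 2 := by rw [← h6]
    _ = 1 := by rw [inv_pow, mul_inv_cancel]

/-- The antidiagonal matrix as an element of `GL₄`. -/
def Ju (F : Type*) [Field F] : GL (Fin 4) F := ⟨J F, J F, J_sq, J_sq⟩

theorem Ju_mem [CharP F 2] (k : ℕ) : Ju F ∈ Sz F (2 ^ k) := by
  apply Subgroup.subset_closure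
  have h2 : (-1 : F) = 1 := CharTwo.neg_eq 1
  refine ⟨?_, ?_⟩
  · intro u v
    change altForm4 (J F *ᵥ u) (J F *ᵥ v) = altForm4 u v
    simp [J, altForm4, Matrix.mulVec, dotProduct, Fin.sum_univ_four]
    ring
  · change star4 (J F) = (J F).map (fun x => x ^ (2 ^ k))
    ext i j
    fin_cases i <;> fin_cases j <;>
    simp [star4, J, show pairOf 0 = (0, 1) from rfl, show pairOf 1 = (0, 2) from rfl,
      show pairOf 2 = (1, 3) from rfl, show pairOf 3 = (2, 3) from rfl, h2]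

theorem orderOf_Ju : orderOf (Ju F) = 2 := by
  apply orderOf_eq_prime
  · apply Units.ext
    rw [Units.val_pow_eq_pow_val, pow_two]
    exact J_sq
  · intro h
    have h' := congrArg (fun x : GL (Fin 4) F => (x : Matrix (Fin 4) (Fin 4) F) 0 0) h
    simp [J, Ju] at h'

theorem two_dvd_card [Finite F] [CharP F 2] (k : ℕ) : 2 ∣ Nat.card (Sz F (2 ^ k)) := by
  have h' := Subgroup.orderOf_dvd_natCard (Sz F (2 ^ k)) (Ju_mem (F := F) k)
  rwa [orderOf_Ju] at h'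

theorem unbounded [Finite F] [CharP F 2] (k N : ℕ) :
    ∃ (H : Type) (_ : Group H) (_ : Finite H), N < Nat.card H ∧
      ((∀ r : ℕ, r.Prime → (r ∣ Nat.card ↥(Sz F (2 ^ k)) ↔ r ∣ Nat.card H)) ∧
      (∀ r s : ℕ, r.Prime → s.Prime → r ≠ s →
        ((∃ x : ↥(Sz F (2 ^ k)), orderOf x = r * s) ↔ (∃ y : H, orderOf y = r * s)))) := by
  refine PrimeGraph.unbounded_self_rep ↥(Sz F (2 ^ k)) F (Fin 4 → F)
    (SLTwoEven.matRep ((Units.coeHom (Matrix (Fin 4) (Fin 4) F)).comp (Sz F (2 ^ k)).subtype))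
    2 Nat.prime_two (two_dvd_card k) ?_ N
  intro s hs hs2 x hx v hv hxv
  exfalso
  have h1 := pow_four_of_fixed k (x : GL (Fin 4) F) x.2 v hv hxv
  have h2 : x ^ 4 = 1 := by
    apply Subtype.ext
    rw [SubmonoidClass.coe_pow, h1, OneMemClass.coe_one]
  have h3 := orderOf_dvd_of_pow_eq_one h2
  rw [hx, show (4 : ℕ) = 2 ^ 2 by norm_num] at h3
  exact hs2 ((Nat.prime_dvd_prime_iff_eq hs Nat.prime_two).mp (hs.dvd_of_dvd_pow h3))

end H64.Suzuki
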