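import Cfsg.Agent.Lib.H64.F8
import Cfsg.Agent.Lib.H64.PrimeGraph
import Cfsg.Agent.Lib.H8.SuzTorus3

set_option autoImplicit false

/-! The group `Sz(8):3` over the concrete field with 8 elements, acting on `4 × 4` matrices. -/

namespace H64.Sz8

open H64.F8 Cfsg Matrix H8.SuzMat H8.SuzField H8.SuzGroup H8.SuzStab H8.SuzOvoid

/-- entrywise action of a field automorphism on `SL4` -/
def slMap (τ : F8 ≃+* F8) : SL F8 →* SL F8 := Matrix.SpecialLinearGroup.map (τ : F8 →+* F8)

theorem slMap_val (τ : F8 ≃+* F8) (g : SL F8) : (slMap τ g).1 = g.1.map τ := rfl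

theorem slMap_T (τ : F8 ≃+* F8) (a b : F8) : slMap τ (T 1 a b) = T 1 (τ a) (τ b) := by
  apply Subtype.ext
  rw [slMap_val]
  ext i j
  fin_cases i <;> fin_cases j <;> simp [T, Tm, f, th]

theorem slMap_W (τ : F8 ≃+* F8) : slMap τ (W F8) = W F8 := by
  apply Subtype.ext
  rw [slMap_val]
  ext i j
  fin_cases i <;> fin_cases j <;> simp [W, Wm, suzukiForm]

theorem slMap_D (τ : F8 ≃+* F8) (k : F8ˣ) : slMap τ (D 1 k) = D 1 (Units.map (τ : F8 →* F8) k) := by
  apply Subtype.ext
  rw [slMap_val]
  ext i j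
  fin_cases i <;> fin_cases j <;> simp [D, Dm]

theorem slMap_mem (τ : F8 ≃+* F8) {g : SL F8} (hg : g ∈ Cfsg.Sz F8 1) : slMap τ g ∈ Cfsg.Sz F8 1 := by
  rcases bruhat F8.card' le_rfl hg with ⟨a, b, k, rfl⟩ | ⟨x, y, a, b, k, rfl⟩
  · rw [map_mul, slMap_T, slMap_D]
    exact Subgroup.mul_mem _ (T_mem F8.card' _ _) (D_mem F8.card' _)
  · rw [map_mul, map_mul, map_mul, slMap_T, slMap_D, slMap_T, slMap_W]
    exact Subgroup.mul_mem _ (Subgroup.mul_mem _ (T_mem F8.card' _ _) (W_mem F8.card'))
      (Subgroup.mul_mem _ (T_mem F8.card' _ _) (D_mem F8.card' _))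

/-- the Suzuki group `Sz(8)` -/
abbrev G0 : Subgroup (SL F8) := Cfsg.Sz F8 1

theorem card_G0 : Nat.card G0 = 29120 := by
  rw [card_Sz le_rfl F8.card']
  norm_num

/-- the automorphism of `Sz(8)` induced by a field automorphism -/
def autOf (τ : RingAut F8) : MulAut G0 where
  toFun g := ⟨slMap τ g.1, slMap_mem τ g.2⟩
  invFun g := ⟨slMap τ.symm g.1, slMap_mem τ.symm g.2⟩
  left_inv g := by
    apply Subtype.ext
    apply Subtype.ext
    ext i j
    exact τ.symm_apply_apply _
  right_inv g := by
    apply Subtype.ext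
    apply Subtype.ext
    ext i j
    exact τ.apply_symm_apply _
  map_mul' g h := by
    apply Subtype.ext
    exact map_mul (slMap τ) _ _

def θ : RingAut F8 →* MulAut G0 where
  toFun := autOf
  map_one' := by
    apply MulEquiv.ext
    intro g
    rfl
  map_mul' σ τ := by
    apply MulEquiv.ext
    intro g
    rfl

/-- the group generated by the Frobenius automorphism -/
abbrev Γ : Subgroup (RingAut F8) := Subgroup.zpowers (F8.frob : RingAut F8)

theorem frob_cube : (F8.frob : RingAut F8) ^ 3 = 1 := by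
  apply RingEquiv.ext
  intro x
  change ((x ^ 2) ^ 2) ^ 2 = x
  revert x
  decide +kernel

theorem frob_ne : (F8.frob : RingAut F8) ≠ 1 := by
  intro h
  have := congrArg (fun e : RingAut F8 => e (F8.c 2)) h
  revert this
  decide +kernel

theorem card_Γ : Nat.card Γ = 3 := by
  rw [Nat.card_zpowers]
  have : Fact (Nat.Prime 3) := ⟨Nat.prime_three⟩
  exact orderOf_eq_prime frob_cube frob_ne

/-- `Sz(8):3` -/
abbrev S := G0 ⋊[θ.comp Γ.subtype] Γ

theorem card_S : Nat.card S = 87360 := by
  rw [SemidirectProduct.card, card_G0, card_Γ]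

/-- the module -/
abbrev M := Matrix (Fin 4) (Fin 4) F8

def act (s : S) (X : M) : M := s.left.1.1 * X.map s.right.1 * (s.left.1.1.map F8.frob)ᵀ

theorem map_map' (A : M) (σ τ : RingAut F8) : (A.map σ).map τ = A.map (τ * σ) := by
  ext i j; rfl

theorem frob_comm (τ : RingAut F8) : (F8.frob : RingAut F8) * τ = τ * F8.frob := by
  apply RingEquiv.ext
  intro x
  change (τ x) ^ 2 = τ (x ^ 2)
  rw [map_pow]

theorem map_mul' (A B : M) (τ : RingAut F8) : (A * B).map τ = A.map τ * B.map τ :=
  Matrix.map_mul (f := (τ : F8 →+* F8))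

theorem act_one (X : M) : act 1 X = X := by
  have h1 : ((1 : S).left.1.1 : M) = 1 := rfl
  have h2 : ((1 : S).right.1 : RingAut F8) = 1 := rfl
  unfold act
  rw [h1, h2]
  have h3 : (1 : M).map F8.frob = 1 := Matrix.map_one _ (map_zero _) (map_one _)
  have h4 : X.map (1 : RingAut F8) = X := rfl
  rw [h3, h4, one_mul, Matrix.transpose_one, mul_one]

theorem act_mul (s t : S) (X : M) : act (s * t) X = act s (act t X) := by
  have h1 : ((s * t).left.1.1 : M) = s.left.1.1 * t.left.1.1.map s.right.1 := rfl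
  have h2 : ((s * t).right.1 : RingAut F8) = s.right.1 * t.right.1 := rfl
  unfold act
  rw [h1, h2, map_mul' _ _ (F8.frob : RingAut F8), Matrix.transpose_mul]
  rw [map_mul', map_mul', map_map', map_map', frob_comm, ← Matrix.transpose_map]
  simp only [Matrix.mul_assoc]
  rfl

theorem act_add (s : S) (X Y : M) : act s (X + Y) = act s X + act s Y := by
  unfold act
  rw [show (X + Y).map s.right.1 = X.map s.right.1 + Y.map s.right.1 from
    Matrix.map_add _ (map_add s.right.1) _ _]
  rw [Matrix.mul_add, Matrix.add_mul]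

theorem act_zero (s : S) : act s 0 = 0 := by
  unfold act
  rw [show (0 : M).map s.right.1 = 0 from Matrix.map_zero _ (map_zero _), Matrix.mul_zero, Matrix.zero_mul]

instance : MulDistribMulAction S (Multiplicative M) where
  smul s a := Multiplicative.ofAdd (act s a.toAdd)
  one_smul a := by
    change Multiplicative.ofAdd (act 1 a.toAdd) = a
    rw [act_one]; rfl
  mul_smul s t a := by
    change Multiplicative.ofAdd (act (s * t) a.toAdd) = Multiplicative.ofAdd (act s (act t a.toAdd))
    rw [act_mul]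
  smul_mul s a b := by
    change Multiplicative.ofAdd (act s (a.toAdd + b.toAdd)) =
      Multiplicative.ofAdd (act s a.toAdd) * Multiplicative.ofAdd (act s b.toAdd)
    rw [act_add]; rfl
  smul_one s := by
    change Multiplicative.ofAdd (act s 0) = 1
    rw [act_zero]; rfl

theorem smul_def' (s : S) (a : Multiplicative M) : s • a = Multiplicative.ofAdd (act s a.toAdd) := rfl

end H64.Sz8
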