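import Cfsg.Agent.Lib.H64.Sz8
import Cfsg.Agent.Lib.H64.SylowPrime

set_option autoImplicit false

/-! Elements of prime order in `Sz(8):3` and its action on the module. -/

namespace H64.Sz8

open H64.F8 Cfsg Matrix H8.SuzMat H8.SuzField H8.SuzGroup H8.SuzStab H8.SuzOvoid

def e13 : G0 := ⟨T 1 (0 : F8) (F8.c 3) * W F8, Subgroup.mul_mem _ (T_mem F8.card' _ _) (W_mem F8.card')⟩
def e5 : G0 := ⟨T 1 (0 : F8) 1 * W F8, Subgroup.mul_mem _ (T_mem F8.card' _ _) (W_mem F8.card')⟩
def k7 : F8ˣ := ⟨F8.c 2, F8.c 5, by decide +kernel, by decide +kernel⟩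
def e7 : G0 := ⟨D 1 k7, D_mem F8.card' _⟩

def mat (l : List (List ℕ)) : M := Matrix.of fun i j => F8.c ((l.getD i.1 []).getD j.1 0)

def A13 : M := mat [[7, 3, 0, 1], [3, 0, 1, 0], [0, 1, 0, 0], [1, 0, 0, 0]]
def A5 : M := mat [[1, 1, 0, 1], [1, 0, 1, 0], [0, 1, 0, 0], [1, 0, 0, 0]]
def A7 : M := mat [[3, 0, 0, 0], [0, 4, 0, 0], [0, 0, 7, 0], [0, 0, 0, 6]]

theorem e13_val : e13.1.1 = A13 := by
  change Tm 1 (0 : F8) (F8.c 3) * Wm F8 = A13
  decide +kernel

theorem e5_val : e5.1.1 = A5 := by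
  change Tm 1 (0 : F8) 1 * Wm F8 = A5
  decide +kernel

theorem e7_val : e7.1.1 = A7 := by
  change Dm 1 (F8.c 2) = A7
  decide +kernel

theorem coe_pow (g : G0) (n : ℕ) : ((g ^ n).1.1 : M) = g.1.1 ^ n := by
  induction n with
  | zero => rfl
  | succ n ih =>
    rw [pow_succ, pow_succ, ← ih]
    rfl

theorem pow_eq_one_iff {g : G0} (n : ℕ) : g ^ n = 1 ↔ (g.1.1 : M) ^ n = 1 := by
  rw [← coe_pow]
  constructor
  · intro h; rw [h]; rfl
  · intro h
    apply Subtype.ext
    apply Subtype.ext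
    exact h

theorem ne_one_of {g : G0} (h : g.1.1 ≠ (1 : M)) : g ≠ 1 := by
  rintro rfl
  exact h rfl

theorem order13 : orderOf e13 = 13 := by
  have : Fact (Nat.Prime 13) := ⟨by norm_num⟩
  apply orderOf_eq_prime
  · rw [pow_eq_one_iff, e13_val]; decide +kernel
  · apply ne_one_of; rw [e13_val]; decide +kernel

theorem order5 : orderOf e5 = 5 := by
  have : Fact (Nat.Prime 5) := ⟨by norm_num⟩
  apply orderOf_eq_prime
  · rw [pow_eq_one_iff, e5_val]; decide +kernel
  · apply ne_one_of; rw [e5_val]; decide +kernel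

theorem order7 : orderOf e7 = 7 := by
  have : Fact (Nat.Prime 7) := ⟨by norm_num⟩
  apply orderOf_eq_prime
  · rw [pow_eq_one_iff, e7_val]; decide +kernel
  · apply ne_one_of; rw [e7_val]; decide +kernel

theorem trace13 : ∀ n : Fin 13, n ≠ 0 → (A13 ^ n.1).trace ^ 2 ≠ (A13 ^ n.1).trace := by decide +kernel
theorem trace7 : ∀ n : Fin 7, n ≠ 0 → (A7 ^ n.1).trace ^ 2 ≠ (A7 ^ n.1).trace := by decide +kernel

/-! ### The element of order 13 acts freely -/

def P13 (X : M) : M := X ^ 4 + (F8.c 3) • X ^ 3 + (F8.c 7) • X ^ 2 + (F8.c 3) • X + 1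

theorem P13_zero : P13 ((A13.map F8.frob)ᵀ) = 0 := by
  unfold P13; decide +kernel

def C13 : M := mat [[0, 1, 7, 5], [1, 4, 4, 7], [7, 4, 6, 5], [5, 7, 5, 4]]

theorem C13_mul : C13 * P13 (A13 ^ 12) = 1 := by
  unfold P13; decide +kernel

theorem A13_pow : A13 ^ 12 * A13 = 1 := by decide +kernel

theorem free13_mat (X : M) (h : A13 * X * (A13.map F8.frob)ᵀ = X) : X = 0 := by
  set B := A13 ^ 12
  set Y := (A13.map F8.frob)ᵀ
  have h1 : X * Y = B * X := by
    calc X * Y = (B * A13) * X * Y := by rw [A13_pow, one_mul]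
      _ = B * (A13 * X * Y) := by simp only [Matrix.mul_assoc]
      _ = B * X := by rw [h]
  have h2 : ∀ n : ℕ, X * Y ^ n = B ^ n * X := by
    intro n
    induction n with
    | zero => simp
    | succ n ih => rw [pow_succ, ← Matrix.mul_assoc, ih, Matrix.mul_assoc, h1, pow_succ, Matrix.mul_assoc]
  have h3 : X * P13 Y = P13 B * X := by
    unfold P13
    simp only [Matrix.mul_add, Matrix.add_mul, h2, h1, Matrix.mul_smul, Matrix.smul_mul, mul_one, one_mul]
  rw [P13_zero, mul_zero] at h3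
  calc X = (C13 * P13 B) * X := by rw [C13_mul, one_mul]
    _ = C13 * (P13 B * X) := by rw [Matrix.mul_assoc]
    _ = 0 := by rw [← h3, mul_zero]

/-- a conjugate or power of an element with a fixed vector -/
theorem act_pow_fixed {s : S} {X : M} (h : act s X = X) (n : ℕ) : act (s ^ n) X = X := by
  induction n with
  | zero => rw [pow_zero, act_one]
  | succ n ih => rw [pow_succ, act_mul, h, ih]

theorem not_sq_dvd (p : ℕ) (hp : p = 5 ∨ p = 7 ∨ p = 13) : ¬ p ^ 2 ∣ Nat.card G0 := by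
  rw [card_G0]
  rcases hp with rfl | rfl | rfl <;> norm_num

theorem not_sq_dvd' (p : ℕ) (hp : p = 3 ∨ p = 5 ∨ p = 7 ∨ p = 13) : ¬ p ^ 2 ∣ Nat.card S := by
  rw [card_S]
  rcases hp with rfl | rfl | rfl | rfl <;> norm_num

instance : Finite Γ := Nat.finite_of_card_ne_zero (by rw [card_Γ]; norm_num)

instance : Finite S := Nat.finite_of_card_ne_zero (by rw [card_S]; norm_num)

theorem orderOf_inl (g : G0) : orderOf (SemidirectProduct.inl g : S) = orderOf g :=
  orderOf_injective _ SemidirectProduct.inl_injective g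

theorem free13 {s : S} (hs : orderOf s = 13) {X : M} (hX : act s X = X) : X = 0 := by
  have : Fact (Nat.Prime 13) := ⟨by norm_num⟩
  obtain ⟨y, n, hn0, hn, hy⟩ := SylowPrime.exists_conj (not_sq_dvd' 13 (by norm_num))
    (x := (SemidirectProduct.inl e13 : S)) (e := s) (by rw [orderOf_inl, order13]) hs
  have h1 : act (SemidirectProduct.inl e13 : S) (act y⁻¹ X) = act y⁻¹ X := by
    have h2 : (SemidirectProduct.inl e13 : S) * y⁻¹ = y⁻¹ * s ^ n := by rw [← hy]; group
    rw [← act_mul, h2, act_mul, act_pow_fixed hX]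
  have h2 : act (SemidirectProduct.inl e13 : S) (act y⁻¹ X) =
      e13.1.1 * (act y⁻¹ X) * (e13.1.1.map F8.frob)ᵀ := rfl
  rw [h2, e13_val] at h1
  have h3 := free13_mat _ h1
  have h4 : act y (act y⁻¹ X) = X := by rw [← act_mul, mul_inv_cancel, act_one]
  rw [← h4, h3, act_zero]

/-! ### Elements of odd order -/

theorem right_pow (s : S) (n : ℕ) : (s ^ n).right = s.right ^ n :=
  map_pow (SemidirectProduct.rightHom : S →* Γ) s n

theorem right_cube (s : S) : (s ^ 3).right = 1 := by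
  rw [right_pow]
  have : Nat.card Γ = 3 := card_Γ
  rw [← this]
  exact pow_card_eq_one'

theorem eq_inl_of_right {s : S} (h : s.right = 1) : s = SemidirectProduct.inl s.left := by
  ext
  · rfl
  · rw [h]; rfl

theorem right_eq_one_of_pow {s : S} {n : ℕ} (h : s ^ n = 1) (hn : ¬ 3 ∣ n) : s.right = 1 := by
  have h1 : s.right ^ n = 1 := by rw [← right_pow, h]; rfl
  have h2 : s.right ^ 3 = 1 := by rw [← right_pow, right_cube]
  have h3 : orderOf s.right ∣ n := orderOf_dvd_of_pow_eq_one h1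
  have h4 : orderOf s.right ∣ 3 := orderOf_dvd_of_pow_eq_one h2
  have h5 : orderOf s.right ∣ Nat.gcd n 3 := Nat.dvd_gcd h3 h4
  have h6 : Nat.gcd n 3 = 1 := by
    rw [Nat.gcd_comm]
    exact (Nat.Prime.coprime_iff_not_dvd Nat.prime_three).2 hn
  rw [h6, Nat.dvd_one] at h5
  exact orderOf_eq_one_iff.1 h5

theorem cent {p : ℕ} (hp : p = 5 ∨ p = 13) {x z : G0} (hx : orderOf x = p) (hz : z * x = x * z) :
    z ^ p = 1 := by
  have hpp : p.Prime := by rcases hp with rfl | rfl <;> norm_num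
  have : Fact p.Prime := ⟨hpp⟩
  obtain ⟨U, -, hU, hC, -⟩ := H8.SuzTorus.exceptional (F := F8) (m := 1) le_rfl F8.card' p (by
    rcases hp with rfl | rfl
    · right; norm_num
    · left; norm_num)
  have hnt : Nontrivial U := by
    rw [← Finite.one_lt_card_iff_nontrivial, hU]; exact hpp.one_lt
  obtain ⟨u, hu⟩ := exists_ne (1 : U)
  have hu1 : (u : G0) ≠ 1 := fun h => hu (Subtype.ext h)
  have hup : orderOf (u : G0) = p := by
    apply orderOf_eq_prime _ hu1
    have : u ^ p = 1 := by rw [← hU]; exact pow_card_eq_one'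
    have := congrArg Subtype.val this
    simpa using this
  refine SylowPrime.pow_eq_one_of_commute (not_sq_dvd p (by tauto)) hup p ?_ hx hz
  intro w hw
  have h1 : w ∈ Subgroup.centralizer ({(u : G0)} : Set G0) := by
    rw [Subgroup.mem_centralizer_singleton_iff]
    exact hw
  rw [hC u u.2 hu1] at h1
  have h2 : (⟨w, h1⟩ : U) ^ p = 1 := by rw [← hU]; exact pow_card_eq_one'
  have := congrArg Subtype.val h2
  simpa using this

theorem no_fixed_trace {g : G0} {r : ℕ} (hr : r = 7 ∨ r = 13) (hg : orderOf g = r) :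
    g.1.1.trace ^ 2 ≠ g.1.1.trace := by
  have hpp : r.Prime := by rcases hr with rfl | rfl <;> norm_num
  have : Fact r.Prime := ⟨hpp⟩
  have key : ∀ e : G0, orderOf e = r →
      (∀ n : ℕ, 0 < n → n < r → (e.1.1 ^ n).trace ^ 2 ≠ (e.1.1 ^ n : M).trace) →
      g.1.1.trace ^ 2 ≠ g.1.1.trace := by
    intro e he h
    obtain ⟨y, n, hn0, hn, hy⟩ := SylowPrime.exists_conj (not_sq_dvd r (by tauto)) hg he
    have h1 : (y.1.1 * g.1.1 * (y⁻¹).1.1 : M) = e.1.1 ^ n := by
      rw [← coe_pow, ← hy]; rfl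
    have h2 : (g.1.1 : M).trace = (e.1.1 ^ n).trace := by
      rw [← h1, Matrix.trace_mul_cycle]
      have : ((y⁻¹).1.1 * y.1.1 : M) = 1 := by
        have : y⁻¹ * y = 1 := inv_mul_cancel y
        exact congrArg (fun z : G0 => (z.1.1 : M)) this
      rw [this, one_mul]
    rw [h2]
    exact h n hn0 hn
  rcases hr with rfl | rfl
  · apply key e7 order7
    intro n hn0 hn
    rw [e7_val]
    exact trace7 ⟨n, hn⟩ (by intro h; have := congrArg Fin.val h; simp at this; omega)
  · apply key e13 order13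
    intro n hn0 hn
    rw [e13_val]
    exact trace13 ⟨n, hn⟩ (by intro h; have := congrArg Fin.val h; simp at this; omega)

theorem no_three_mul {r : ℕ} (hr : r = 7 ∨ r = 13) (s : S) : orderOf s ≠ 3 * r := by
  intro hs
  have hpp : r.Prime := by rcases hr with rfl | rfl <;> norm_num
  have hr0 : r ≠ 0 := hpp.ne_zero
  have h1 : orderOf (s ^ 3) = r := by
    rw [orderOf_pow_of_dvd (by norm_num) (by rw [hs]; exact ⟨r, rfl⟩), hs]
    exact Nat.mul_div_cancel_left r (by norm_num)
  have h2 : orderOf (s ^ r) = 3 := by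
    rw [orderOf_pow_of_dvd hr0 (by rw [hs]; exact ⟨3, by ring⟩), hs]
    exact Nat.mul_div_cancel 3 hpp.pos
  set g := (s ^ 3).left with hg
  have h3 : s ^ 3 = SemidirectProduct.inl g := eq_inl_of_right (right_cube s)
  set t := s ^ r with ht
  have h4 : t * SemidirectProduct.inl g = SemidirectProduct.inl g * t := by
    rw [← h3]; exact ((Commute.refl s).pow_pow r 3).eq
  have h5 : t.right ≠ 1 := by
    intro h
    have h6 := eq_inl_of_right h
    rw [h6, orderOf_inl] at h2
    have h7 := orderOf_dvd_natCard t.left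
    rw [h2, card_G0] at h7
    revert h7; norm_num
  have h6 : orderOf g = r := by rw [← orderOf_inl, ← h3, h1]
  -- compare traces
  have h7 : (t.left.1.1 * g.1.1.map t.right.1 : M) = g.1.1 * t.left.1.1 := by
    have := congrArg (fun z : S => (z.left.1.1 : M)) h4
    exact this
  have h8 : ((t.left⁻¹).1.1 * t.left.1.1 : M) = 1 := by
    have : t.left⁻¹ * t.left = 1 := inv_mul_cancel t.left
    exact congrArg (fun z : G0 => (z.1.1 : M)) this
  have h9 : (t.left.1.1 * (t.left⁻¹).1.1 : M) = 1 := by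
    have : t.left * t.left⁻¹ = 1 := mul_inv_cancel t.left
    exact congrArg (fun z : G0 => (z.1.1 : M)) this
  have h10 : (g.1.1.map t.right.1 : M).trace = g.1.1.trace := by
    have : (g.1.1.map t.right.1 : M) = (t.left⁻¹).1.1 * (g.1.1 * t.left.1.1) := by
      rw [← h7, ← Matrix.mul_assoc, h8, one_mul]
    rw [this, Matrix.trace_mul_comm, Matrix.mul_assoc, h9, mul_one]
  have h11 : t.right.1 (g.1.1.trace) = g.1.1.trace := by
    rw [← h10]
    conv_lhs => rw [h10]
    simp [Matrix.trace, Matrix.diag]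
  apply no_fixed_trace hr h6
  generalize (g.1.1 : M).trace = c at h11
  have : Fact (Nat.Prime 3) := ⟨Nat.prime_three⟩
  have h12 : (⟨F8.frob, Subgroup.mem_zpowers _⟩ : Γ) ∈ Subgroup.zpowers t.right :=
    mem_zpowers_of_prime_card card_Γ h5
  have h13 : Subgroup.zpowers t.right ≤ (MulAction.stabilizer (RingAut F8) c).comap Γ.subtype := by
    rw [Subgroup.zpowers_le, Subgroup.mem_comap, MulAction.mem_stabilizer_iff]
    exact h11
  have h14 := h13 h12
  rw [Subgroup.mem_comap, MulAction.mem_stabilizer_iff] at h14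
  exact h14

end H64.Sz8
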