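import Cfsg.Agent.Lib.H64.SpecialTI
import Cfsg.Agent.Lib.H18.CharPerm

set_option autoImplicit false

/-! Transport of integer valued class functions from a computable model. -/

namespace H64.Transport

open Cfsg Representation Matrix
open H18.CharBasic H18.CharOrtho H18.CharInd H18.CharQuot H64.Lattice H64.Lat27 H64.Special

universe u v

section

variable {M : Type v} [Group M] [Fintype M] [DecidableEq M]
variable {H : Type u} [Group H] [Fintype H]

/-- integer-valued function on the model as a complex function on the group -/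
noncomputable def lift (ε : H →* M) (f : M → ℤ) : H → ℂ := fun h => (f (ε h) : ℂ)

omit [Fintype M] [DecidableEq M] [Fintype H] in
theorem isGen_lift (ε : H →* M) {f : M → ℤ} (hf : IsGeneralizedCharacter M fun m => (f m : ℂ)) :
    IsGeneralizedCharacter H (lift ε f) := by
  obtain ⟨a, b, ha, hb, h⟩ := hf
  refine ⟨fun x => a (ε x), fun x => b (ε x), isCharacter_comp ε ha, isCharacter_comp ε hb, ?_⟩
  funext x
  exact congrFun h (ε x)

omit [DecidableEq M] in
theorem inner_lift (ε : H ≃* M) (f g : M → ℤ) {n : ℕ} (hn : Fintype.card M = n) {m : ℤ}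
    (h : ∑ x : M, f x * g x = m * n) : classInner (lift ε.toMonoidHom f) (lift ε.toMonoidHom g) = (m : ℂ) := by
  rw [classInner]
  have h1 : ∑ x : H, lift ε.toMonoidHom f x * (starRingEnd ℂ) (lift ε.toMonoidHom g x) =
      ((∑ x : M, f x * g x : ℤ) : ℂ) := by
    push_cast
    refine Fintype.sum_equiv ε.toEquiv _ _ fun x => ?_
    simp [lift]
  have h2 : Nat.card H = n := by
    rw [Nat.card_congr ε.toEquiv, Nat.card_eq_fintype_card, hn]
  have h3 : (n : ℂ) ≠ 0 := by
    rw [← h2]
    exact card_ne_zero'
  rw [h1, h, h2]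
  push_cast
  field_simp

/-- sum over products of elements of square one -/
def q (f : M → ℤ) : ℤ := ∑ u : M, if u * u = 1 then (∑ v : M, if v * v = 1 then f (u * v) else 0) else 0

theorem S2_lift (ε : H ≃* M) (f : M → ℤ) : S2 (lift ε.toMonoidHom f) = ((q f : ℤ) : ℂ) := by
  classical
  have key : ∀ (g : M → ℂ), ∑ u ∈ Iv H, g (ε u) = ∑ u : M, if u * u = 1 then g u else 0 := by
    intro g
    rw [Iv, Finset.sum_filter]
    refine Fintype.sum_equiv ε.toEquiv _ _ fun x => ?_
    have : (x * x = 1) ↔ ε x * ε x = 1 := by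
      rw [← map_mul, map_eq_one_iff ε ε.injective]
    change _ = if ε x * ε x = 1 then g (ε x) else 0
    by_cases hx : x * x = 1
    · rw [if_pos hx, if_pos (this.1 hx)]
    · rw [if_neg hx, if_neg (fun h => hx (this.2 h))]
  rw [S2, q]
  push_cast
  rw [← key (fun u => ∑ v : M, if v * v = 1 then (f (u * v) : ℂ) else 0)]
  refine Finset.sum_congr rfl fun u _ => ?_
  rw [← key (fun v => (f (ε u * v) : ℂ))]
  refine Finset.sum_congr rfl fun v _ => ?_
  simp [lift]

end

/-- the natural permutation character of `Sym n` -/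
theorem isCharacter_fix (n : ℕ) [NeZero n] : IsCharacter (Equiv.Perm (Fin n))
    (fun σ => ((Finset.univ.filter fun x => σ x = x).card : ℂ)) := by
  have h := H18.CharPerm.permChar_of_pretransitive (G := Equiv.Perm (Fin n)) (X := Fin n) 0
  have h2 := isCharacter_ind (MulAction.stabilizer (Equiv.Perm (Fin n)) (0 : Fin n))
    (isCharacter_one (G := MulAction.stabilizer (Equiv.Perm (Fin n)) (0 : Fin n)))
  rw [← h] at h2
  convert h2 using 1
  funext σ
  rw [H18.CharPerm.permChar, Nat.card_eq_fintype_card]
  congr 1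
  rw [Fintype.card_subtype]
  rfl

end H64.Transport
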